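/-
Project U4: the model `U K` of a Sylow `p`-subgroup of `SU₄(q)`, its subgroups and standard automorphisms.
-/
import Cfsg.Agent.U5.Defs2

set_option autoImplicit false
set_option linter.unusedSectionVars false

namespace CL.U4

open Cfsg CL.Fus CL.U5 Matrix
open scoped commutatorElement

universe u

@[ext] structure U (K : Type u) [Field K] [StarRing K] where
  a : K
  d : K
  b : K
  c : K
  hd : star d = d
  hc : star c = c

section Model
variable {K : Type u} [Field K] [StarRing K]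

@[simp] theorem U.star_d (g : U K) : star g.d = g.d := g.hd
@[simp] theorem U.star_c (g : U K) : star g.c = g.c := g.hc

instance : Mul (U K) := ⟨fun g h => ⟨g.a + h.a, g.d + h.d, g.b + h.b + g.a * h.d,
  g.c + h.c + g.a * star h.b + star g.a * h.b + g.a * star g.a * h.d, by simp, by simp; ring⟩⟩
instance : One (U K) := ⟨⟨0, 0, 0, 0, by simp, by simp⟩⟩
instance : _root_.Inv (U K) := ⟨fun g => ⟨-g.a, -g.d, g.a * g.d - g.b,
  g.a * star g.b + star g.a * g.b - g.c - g.a * star g.a * g.d, by simp, by simp; ring⟩⟩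

@[simp] theorem mul_a (g h : U K) : (g * h).a = g.a + h.a := rfl
@[simp] theorem mul_d (g h : U K) : (g * h).d = g.d + h.d := rfl
@[simp] theorem mul_b (g h : U K) : (g * h).b = g.b + h.b + g.a * h.d := rfl
@[simp] theorem mul_c (g h : U K) : (g * h).c =
    g.c + h.c + g.a * star h.b + star g.a * h.b + g.a * star g.a * h.d := rfl
@[simp] theorem one_a : (1 : U K).a = 0 := rfl
@[simp] theorem one_d : (1 : U K).d = 0 := rfl
@[simp] theorem one_b : (1 : U K).b = 0 := rfl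
@[simp] theorem one_c : (1 : U K).c = 0 := rfl
@[simp] theorem inv_a (g : U K) : g⁻¹.a = -g.a := rfl
@[simp] theorem inv_d (g : U K) : g⁻¹.d = -g.d := rfl
@[simp] theorem inv_b (g : U K) : g⁻¹.b = g.a * g.d - g.b := rfl
@[simp] theorem inv_c (g : U K) : g⁻¹.c = g.a * star g.b + star g.a * g.b - g.c - g.a * star g.a * g.d := rfl

instance : Group (U K) := Group.ofLeftAxioms (fun g h k => by ext <;> simp <;> ring) (fun g => by ext <;> simp)
  (fun g => by ext <;> simp <;> ring)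

@[simp] theorem comm_a (g h : U K) : ⁅g, h⁆.a = 0 := by simp [commutatorElement_def]
@[simp] theorem comm_d (g h : U K) : ⁅g, h⁆.d = 0 := by simp [commutatorElement_def]
@[simp] theorem comm_b (g h : U K) : ⁅g, h⁆.b = g.a * h.d - h.a * g.d := by simp [commutatorElement_def]; ring
@[simp] theorem comm_c (g h : U K) : ⁅g, h⁆.c = g.a * star h.b + star g.a * h.b + g.a * star g.a * h.d -
    (h.a * star g.b + star h.a * g.b + h.a * star h.a * g.d) := by
  simp [commutatorElement_def]; ring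

@[simp] theorem conj_a (s g : U K) : (s * g * s⁻¹).a = g.a := by simp
@[simp] theorem conj_d (s g : U K) : (s * g * s⁻¹).d = g.d := by simp
theorem conj_b (s g : U K) : (s * g * s⁻¹).b = g.b + s.a * g.d - g.a * s.d := by simp; ring
theorem conj_c (s g : U K) : (s * g * s⁻¹).c = g.c + s.a * star g.b + star s.a * g.b + s.a * star s.a * g.d -
    (g.a * star s.b + star g.a * s.b + g.a * star g.a * s.d) := by simp; ring

theorem eq_one_iff {g : U K} : g = 1 ↔ g.a = 0 ∧ g.d = 0 ∧ g.b = 0 ∧ g.c = 0 := U.ext_iff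

/-- `a = 0` -/
def Q1 (K : Type u) [Field K] [StarRing K] : Subgroup (U K) where
  carrier := {g | g.a = 0}
  mul_mem' := fun {g h} (hg : g.a = 0) (hh : h.a = 0) => show g.a + h.a = 0 by rw [hg, hh, add_zero]
  one_mem' := rfl
  inv_mem' := fun {g} (hg : g.a = 0) => show -g.a = 0 by rw [hg, neg_zero]

/-- `d = 0` -/
def Q2 (K : Type u) [Field K] [StarRing K] : Subgroup (U K) where
  carrier := {g | g.d = 0}
  mul_mem' := fun {g h} (hg : g.d = 0) (hh : h.d = 0) => show g.d + h.d = 0 by rw [hg, hh, add_zero]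
  one_mem' := rfl
  inv_mem' := fun {g} (hg : g.d = 0) => show -g.d = 0 by rw [hg, neg_zero]

/-- `a = d = 0` -/
def W (K : Type u) [Field K] [StarRing K] : Subgroup (U K) := Q1 K ⊓ Q2 K

/-- `a = d = b = 0` -/
def Z (K : Type u) [Field K] [StarRing K] : Subgroup (U K) where
  carrier := {g | g.a = 0 ∧ g.d = 0 ∧ g.b = 0}
  mul_mem' := fun hg hh => ⟨by simp [hg.1, hh.1], by simp [hg.2.1, hh.2.1], by simp [hg.1, hg.2.2, hh.2.2]⟩
  one_mem' := ⟨rfl, rfl, rfl⟩
  inv_mem' := fun hg => ⟨by simp [hg.1], by simp [hg.2.1], by simp [hg.1, hg.2.2]⟩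

/-- `a` lies on the line through `a0` over the fixed field -/
def X0 (a0 : K) : Subgroup (U K) where
  carrier := {g | ∃ t, star t = t ∧ g.a = t * a0}
  mul_mem' := by
    rintro g h ⟨t, k, e⟩ ⟨t', k', e'⟩
    exact ⟨t + t', by simp [k, k'], by simp [e, e', add_mul]⟩
  one_mem' := ⟨0, by simp, by simp⟩
  inv_mem' := by rintro g ⟨t, k, e⟩; exact ⟨-t, by simp [k], by simp [e]⟩

theorem mem_Q1 {g : U K} : g ∈ Q1 K ↔ g.a = 0 := Iff.rfl
theorem mem_Q2 {g : U K} : g ∈ Q2 K ↔ g.d = 0 := Iff.rfl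
theorem mem_W {g : U K} : g ∈ W K ↔ g.a = 0 ∧ g.d = 0 := Iff.rfl
theorem mem_Z {g : U K} : g ∈ Z K ↔ g.a = 0 ∧ g.d = 0 ∧ g.b = 0 := Iff.rfl
theorem mem_X0 {a0 : K} {g : U K} : g ∈ X0 a0 ↔ ∃ t, star t = t ∧ g.a = t * a0 := Iff.rfl

instance : (Q1 K).Normal := ⟨fun g hg s => (conj_a s g).trans hg⟩
instance : (Q2 K).Normal := ⟨fun g hg s => (conj_d s g).trans hg⟩
instance : (W K).Normal := ⟨fun g hg s => ⟨(conj_a s g).trans hg.1, (conj_d s g).trans hg.2⟩⟩
instance : (Z K).Normal := ⟨fun g hg s => ⟨(conj_a s g).trans hg.1, (conj_d s g).trans hg.2.1,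
  by rw [conj_b]; simp [hg.1, hg.2.1, hg.2.2]⟩⟩
instance (a0 : K) : (X0 a0).Normal := ⟨fun g hg s => by rwa [mem_X0, conj_a]⟩

theorem Z_le_W : Z K ≤ W K := fun _ h => ⟨h.1, h.2.1⟩
theorem Q1_le_X0 (a0 : K) : Q1 K ≤ X0 a0 := fun _ h => ⟨0, by simp, by rw [zero_mul]; exact h⟩
theorem comm_mem_W (g h : U K) : ⁅g, h⁆ ∈ W K := ⟨comm_a g h, comm_d g h⟩
theorem comm_mem_Z (g : U K) {h : U K} (k : h ∈ W K) : ⁅g, h⁆ ∈ Z K := by
  simp [mem_Z, (mem_W.1 k).1, (mem_W.1 k).2]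
theorem comm_Z (g : U K) {h : U K} (k : h ∈ Z K) : ⁅g, h⁆ = 1 := by simp [eq_one_iff, k.1, k.2.1, k.2.2]
theorem comm_Q1 {g h : U K} (k : g ∈ Q1 K) (k' : h ∈ Q1 K) : ⁅g, h⁆ = 1 := by
  simp [eq_one_iff, mem_Q1.1 k, mem_Q1.1 k']
theorem comm_Q2 {g h : U K} (k : g ∈ Q2 K) (k' : h ∈ Q2 K) : ⁅g, h⁆ ∈ Z K := by
  simp [mem_Z, mem_Q2.1 k, mem_Q2.1 k']

instance : CommGroup (Q1 K) :=
  { (inferInstance : Group (Q1 K)) with
    mul_comm := fun g h => Subtype.ext (commutatorElement_eq_one_iff_mul_comm.1 (comm_Q1 g.2 h.2)) }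

/-- root elements -/
def xa (a : K) : U K := ⟨a, 0, 0, 0, by simp, by simp⟩
def xb (b : K) : U K := ⟨0, 0, b, 0, by simp, by simp⟩
def xd (d : K) (h : star d = d) : U K := ⟨0, d, 0, 0, h, by simp⟩
def xc (c : K) (h : star c = c) : U K := ⟨0, 0, 0, c, by simp, h⟩
/-- the element of `Q1` with given coordinates -/
def vv (d b c : K) (hd : star d = d) (hc : star c = c) : Q1 K := ⟨⟨0, d, b, c, hd, hc⟩, rfl⟩

theorem q1_ext {v w : Q1 K} (h1 : v.1.d = w.1.d) (h2 : v.1.b = w.1.b) (h3 : v.1.c = w.1.c) : v = w :=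
  Subtype.ext (U.ext (v.2.trans w.2.symm) h1 h2 h3)
theorem q1_a (v : Q1 K) : v.1.a = 0 := v.2
theorem q1_mul_d (v w : Q1 K) : (v * w).1.d = v.1.d + w.1.d := rfl
theorem q1_mul_b (v w : Q1 K) : (v * w).1.b = v.1.b + w.1.b := by simp [q1_a]
theorem q1_mul_c (v w : Q1 K) : (v * w).1.c = v.1.c + w.1.c := by simp [q1_a]
theorem q1_inv_d (v : Q1 K) : (v⁻¹).1.d = -v.1.d := rfl
theorem q1_inv_b (v : Q1 K) : (v⁻¹).1.b = -v.1.b := by simp [q1_a]
theorem q1_inv_c (v : Q1 K) : (v⁻¹).1.c = -v.1.c := by simp [q1_a]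

/-- conjugation by `xa a` on `Q1` -/
def ta (a : K) : MulAut (Q1 K) := MulAut.conjNormal (xa a)

theorem ta_d (a : K) (v : Q1 K) : (ta a v).1.d = v.1.d := conj_d _ _
theorem ta_b (a : K) (v : Q1 K) : (ta a v).1.b = v.1.b + a * v.1.d := (conj_b _ _).trans (by simp [xa])
theorem ta_c (a : K) (v : Q1 K) : (ta a v).1.c = v.1.c + a * star v.1.b + star a * v.1.b + a * star a * v.1.d :=
  (conj_c _ _).trans (by simp [xa])
theorem ta_add (a a' : K) : ta (a + a') = ta a * ta a' := by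
  rw [ta, ta, ta, ← map_mul]; congr 1; ext <;> simp [xa]
theorem ta_zero : ta (0 : K) = 1 := by rw [ta, ← map_one (MulAut.conjNormal : U K →* MulAut (Q1 K))]; rfl
theorem ta_neg (a : K) : ta (-a) = (ta a)⁻¹ := eq_inv_of_mul_eq_one_left (by rw [← ta_add, neg_add_cancel, ta_zero])
theorem conjNormal_Q1 (s : U K) : (MulAut.conjNormal s : MulAut (Q1 K)) = ta s.a := MulEquiv.ext fun v => q1_ext
  ((conj_d _ _).trans (ta_d _ _).symm) ((conj_b _ _).trans (by simp [ta_b, q1_a]))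
  ((conj_c _ _).trans (by simp [ta_c, q1_a]))
theorem ta_inj {a a' : K} (h : ta a = ta a') : a = a' := by
  have := congrArg (fun g : MulAut (Q1 K) => (g (vv 1 0 0 (by simp) (by simp))).1.b) h
  simpa [ta_b, vv] using this

/-- the group of the `ta a` -/
def TA (K : Type u) [Field K] [StarRing K] : Subgroup (MulAut (Q1 K)) := autInducedBy ⊤ (Q1 K)
theorem mem_TA {g : MulAut (Q1 K)} : g ∈ TA K ↔ ∃ a, g = ta a := mem_T.trans
  ⟨fun ⟨s, h⟩ => ⟨_, h.trans (conjNormal_Q1 s)⟩, fun ⟨_, h⟩ => ⟨_, h⟩⟩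

def Zv (K : Type u) [Field K] [StarRing K] : Subgroup (Q1 K) := (Z K).subgroupOf (Q1 K)
def Wv (K : Type u) [Field K] [StarRing K] : Subgroup (Q1 K) := (Q2 K).subgroupOf (Q1 K)
theorem mem_Zv {v : Q1 K} : v ∈ Zv K ↔ v.1.d = 0 ∧ v.1.b = 0 := ⟨fun h => h.2, fun h => ⟨v.2, h⟩⟩
theorem mem_Wv {v : Q1 K} : v ∈ Wv K ↔ v.1.d = 0 := Iff.rfl

def r1F (g : Q1 K) : Q1 K := vv g.1.c (-star g.1.b) g.1.d g.1.hc g.1.hd

/-- the reflection on `Q1` -/
def r1 (K : Type u) [Field K] [StarRing K] : MulAut (Q1 K) where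
  toFun := r1F
  invFun := r1F
  left_inv g := q1_ext rfl (by simp [r1F, vv]) rfl
  right_inv g := q1_ext rfl (by simp [r1F, vv]) rfl
  map_mul' g h := q1_ext (by simp [r1F, vv, q1_a]) (by simp [r1F, vv, q1_a]; ring) (by simp [r1F, vv])

theorem r1_d (g : Q1 K) : (r1 K g).1.d = g.1.c := rfl
theorem r1_b (g : Q1 K) : (r1 K g).1.b = -star g.1.b := rfl
theorem r1_c (g : Q1 K) : (r1 K g).1.c = g.1.d := rfl

def r2F (g : Q2 K) : Q2 K := ⟨⟨g.1.b, 0, -g.1.a, g.1.c - g.1.a * star g.1.b - star g.1.a * g.1.b,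
  by simp, by simp; ring⟩, rfl⟩
def r2G (g : Q2 K) : Q2 K := ⟨⟨-g.1.b, 0, g.1.a, g.1.c - g.1.a * star g.1.b - star g.1.a * g.1.b,
  by simp, by simp; ring⟩, rfl⟩

/-- the reflection on `Q2` -/
def r2 (K : Type u) [Field K] [StarRing K] : MulAut (Q2 K) where
  toFun := r2F
  invFun := r2G
  left_inv g := Subtype.ext (U.ext (neg_neg _) (mem_Q2.1 g.2).symm rfl (by simp only [r2F, r2G, star_neg]; ring))
  right_inv g := Subtype.ext (U.ext rfl (mem_Q2.1 g.2).symm (neg_neg _) (by simp only [r2F, r2G, star_neg]; ring))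
  map_mul' g h := by
    have k : h.1.d = 0 := h.2
    exact Subtype.ext (U.ext (by simp only [r2F, Subgroup.coe_mul, mul_a, mul_b, k]; ring)
      (by simp only [r2F, Subgroup.coe_mul, mul_d]; ring) (by simp only [r2F, Subgroup.coe_mul, mul_a, mul_b]; ring)
      (by simp only [r2F, Subgroup.coe_mul, mul_a, mul_b, mul_c, k, star_add, star_neg, star_mul', star_zero]; ring))

theorem r2_a (g : Q2 K) : (r2 K g).1.a = g.1.b := rfl
theorem r2_b (g : Q2 K) : (r2 K g).1.b = -g.1.a := rfl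
theorem r2_c (g : Q2 K) : (r2 K g).1.c = g.1.c - g.1.a * star g.1.b - star g.1.a * g.1.b := rfl

/-- central automorphisms -/
def cf (f : K →+ K) (hf : ∀ d, star d = d → star (f d) = f d) : MulAut (U K) where
  toFun g := ⟨g.a, g.d, g.b, g.c + f g.d, g.hd, by simp [hf _ g.hd]⟩
  invFun g := ⟨g.a, g.d, g.b, g.c - f g.d, g.hd, by simp [hf _ g.hd]⟩
  left_inv g := by ext <;> simp
  right_inv g := by ext <;> simp
  map_mul' g h := by ext <;> simp; ring

section
variable (f : K →+ K) (hf : ∀ d, star d = d → star (f d) = f d) (g : U K)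
@[simp] theorem cf_a : (cf f hf g).a = g.a := rfl
@[simp] theorem cf_d : (cf f hf g).d = g.d := rfl
@[simp] theorem cf_b : (cf f hf g).b = g.b := rfl
@[simp] theorem cf_c : (cf f hf g).c = g.c + f g.d := rfl
end

/-! ### `Q2 / Z` -/

def pW (g : U K) : V2 K := (g.a, g.b)

/-- the commutator form -/
def fm (u v : V2 K) : K := u.1 * star v.2 + star u.1 * v.2 - (v.1 * star u.2 + star v.1 * u.2)
/-- the squaring form in characteristic two -/
def qf (v : V2 K) : K := v.1 * star v.2 + star v.1 * v.2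

theorem pW_mul (g : U K) {h : U K} (k : h ∈ Q2 K) : pW (g * h) = pW g + pW h := by simp [pW, mem_Q2.1 k]
theorem pW_eq_zero {g : U K} (k : g ∈ Q2 K) : pW g = 0 ↔ g ∈ Z K := by simp [pW, mem_Z, mem_Q2.1 k]
theorem comm_c_Q2 {g h : U K} (k : g ∈ Q2 K) (k' : h ∈ Q2 K) : ⁅g, h⁆.c = fm (pW g) (pW h) := by
  simp [fm, pW, mem_Q2.1 k, mem_Q2.1 k']
theorem pW_conj (s : U K) {g : U K} (k : g ∈ Q2 K) : pW (s * g * s⁻¹) = Tw (-s.d) (pW g) := by
  simp only [pW, conj_a, conj_b, Tw_apply, mem_Q2.1 k]; ext <;> simp; ring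
theorem exists_pW (v : V2 K) : ∃ g : Q2 K, pW g.1 = v := ⟨⟨⟨v.1, 0, v.2, 0, by simp, by simp⟩, rfl⟩, rfl⟩

/-- the image of the Sylow subgroup; `Tw a (x, y) = (x, y + a * x)` -/
def TF (K : Type u) [Field K] [StarRing K] : Subgroup (Au (V2 K)) where
  carrier := {g | ∃ a, star a = a ∧ Tw a = g}
  mul_mem' := by rintro _ _ ⟨a, k, rfl⟩ ⟨a', k', rfl⟩; exact ⟨_, by simp [k, k'], Tw_add a a'⟩
  one_mem' := ⟨_, by simp, Tw_zero⟩
  inv_mem' := by
    rintro _ ⟨a, k, rfl⟩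
    exact ⟨-a, by simp [k], eq_inv_of_mul_eq_one_left (by rw [← Tw_add, neg_add_cancel, Tw_zero])⟩

theorem mem_TF {g : Au (V2 K)} : g ∈ TF K ↔ ∃ a, star a = a ∧ Tw a = g := Iff.rfl
theorem fm_Tw {a : K} (h : star a = a) (u v : V2 K) : fm (Tw a u) (Tw a v) = fm u v := by
  simp [fm, Tw_apply, h]; ring
/-- `rW K (x, y) = (-y, x)` is the inverse of the map induced by `r2` -/
theorem pW_r2 (g : Q2 K) : rW K (pW (r2 K g : U K)) = pW g.1 := by simp [rW_apply, pW, r2_a, r2_b]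

/-- `g` respects the commutator form -/
def Conf (g : Au (V2 K)) : Prop := ∃ ζ : K → K, (∀ u v, fm (g u) (g v) = ζ (fm u v)) ∧
  ∀ u v, fm (g u) (g v) = 0 → fm u v = 0
/-- `g` respects the involutions in characteristic two -/
def Sq (g : Au (V2 K)) : Prop := (2 : K) = 0 → ∀ v, qf v = 0 → qf (g v) = 0

variable [UF K]

instance : Finite (U K) := Finite.of_injective (fun g : U K => (g.a, g.d, g.b, g.c)) fun g h e => by
  simp only [Prod.mk.injEq] at e; exact U.ext e.1 e.2.1 e.2.2.1 e.2.2.2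

theorem pg (p : ℕ) [Fact p.Prime] [CharP K p] : IsPGroup p (U K) := by
  have z : (p : K) = 0 := CharP.cast_eq_zero K p
  have step : ∀ (X : Subgroup (U K)) (φ : U K → K), (∀ g ∈ X, ∀ h ∈ X, φ (g * h) = φ g + φ h) →
      ∀ g ∈ X, φ (g ^ p) = 0 := fun X φ hφ g hg => by
    have : ∀ n : ℕ, φ (g ^ (n + 1)) = (n + 1 : ℕ) * φ g := fun n => by
      induction n with
      | zero => simp
      | succ n ih => rw [pow_succ, hφ _ (X.pow_mem hg _) _ hg, ih]; push_cast; ring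
    obtain ⟨n, rfl⟩ := Nat.exists_eq_add_one_of_ne_zero (Fact.out : p.Prime).ne_zero
    rw [this, z, zero_mul]
  intro g
  have h1 : g ^ p ∈ W K := ⟨step ⊤ U.a (fun _ _ _ _ => rfl) g trivial, step ⊤ U.d (fun _ _ _ _ => rfl) g trivial⟩
  have h2 := (W K).pow_mem h1 p
  refine ⟨2, ?_⟩
  rw [pow_succ, pow_one, pow_mul]
  exact eq_one_iff.2 ⟨h2.1, h2.2, step (W K) U.b (fun a ha b _ => by simp [(mem_W.1 ha).1]) _ h1,
    step (W K) U.c (fun a ha b _ => by simp [(mem_W.1 ha).1]) _ h1⟩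

/-! ### diagonal and field automorphisms -/

/-- the parameters `(l, m, γ)` with `m` in the fixed field -/
def P4s (K : Type u) [Field K] [StarRing K] [UF K] : Subgroup (Par K) where
  carrier := {h | star (h.m : K) = h.m}
  mul_mem' := fun {h k} (e : star (h.m : K) = h.m) (e' : star (k.m : K) = k.m) =>
    show star ((h * k).m : K) = (h * k).m by rw [par_mul_m, star_mul', e, ← map_star', e']
  one_mem' := star_one K
  inv_mem' := fun {h} (e : star (h.m : K) = h.m) => show star (h.γ.symm (h.m⁻¹ : Kˣ)) = h.γ.symm (h.m⁻¹ : Kˣ) by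
    rw [← map_star', Units.val_inv_eq_inv_val, star_inv₀, e]

abbrev P4 (K : Type u) [Field K] [StarRing K] [UF K] := ↥(P4s K)

@[simp] theorem star_m (h : P4 K) : star (h.1.m : K) = h.1.m := h.2

def actF (h : P4 K) (g : U K) : U K := ⟨h.1.l * h.1.γ g.a, h.1.m * h.1.γ g.d, h.1.l * h.1.m * h.1.γ g.b,
  h.1.l * star (h.1.l : K) * h.1.m * h.1.γ g.c, by simp [← map_star'], by simp [← map_star', mul_comm]⟩

theorem actF_mul (h k : P4 K) (g : U K) : actF (h * k) g = actF h (actF k g) := by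
  ext <;> simp only [actF, Subgroup.coe_mul, par_mul_l, par_mul_m, par_mul_γ, map_mul, map_star', star_mul'] <;> ring
theorem actF_one (g : U K) : actF 1 g = g := by ext <;> simp [actF]
theorem actF_map (h : P4 K) (g k : U K) : actF h (g * k) = actF h g * actF h k := by
  ext <;> simp only [actF, mul_a, mul_b, mul_c, mul_d, map_add, map_mul, map_star', star_mul', star_m] <;> ring

/-- the diagonal and field automorphisms -/
def act : P4 K →* MulAut (U K) := MonoidHom.mk' (fun h =>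
  { toFun := actF h
    invFun := actF h⁻¹
    left_inv := fun g => by rw [← actF_mul, inv_mul_cancel, actF_one]
    right_inv := fun g => by rw [← actF_mul, mul_inv_cancel, actF_one]
    map_mul' := actF_map h }) fun h k => MulEquiv.ext (actF_mul h k)

@[simp] theorem act_a (h : P4 K) (g : U K) : (act h g).a = h.1.l * h.1.γ g.a := rfl
@[simp] theorem act_d (h : P4 K) (g : U K) : (act h g).d = h.1.m * h.1.γ g.d := rfl
@[simp] theorem act_b (h : P4 K) (g : U K) : (act h g).b = h.1.l * h.1.m * h.1.γ g.b := rfl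
@[simp] theorem act_c (h : P4 K) (g : U K) : (act h g).c = h.1.l * star (h.1.l : K) * h.1.m * h.1.γ g.c := rfl

theorem act_Q1 (h : P4 K) (g : U K) : act h g ∈ Q1 K ↔ g ∈ Q1 K := by simp [mem_Q1]
theorem act_Q2 (h : P4 K) (g : U K) : act h g ∈ Q2 K ↔ g ∈ Q2 K := by simp [mem_Q2]
/-- `actW h (x, y) = (m * γ x, l * m * γ y)`, so the roles of `l` and `m` are exchanged -/
def aW (h : P4 K) : Au (V2 K) := actW ⟨h.1.m, h.1.l, h.1.γ⟩
theorem aW_apply (h : P4 K) (v : V2 K) : aW h v = (h.1.l * h.1.γ v.1, h.1.l * h.1.m * h.1.γ v.2) := by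
  simp [aW, actW_apply, mul_comm]
theorem pW_act (h : P4 K) (g : U K) : pW (act h g) = aW h (pW g) := by simp [aW_apply, pW]

theorem p4_ext {h k : P4 K} (e1 : (h.1.l : K) = k.1.l) (e2 : (h.1.m : K) = k.1.m) (e3 : ∀ x, h.1.γ x = k.1.γ x) : h = k :=
  Subtype.ext (par_ext e1 e2 e3)

/-- the torus of `SL₂(q²)` -/
def h1 (u : Kˣ) : P4 K := ⟨⟨u ^ 2, (u * star u)⁻¹, 1⟩, show star (((u * star u)⁻¹ : Kˣ) : K) = ((u * star u)⁻¹ : Kˣ) by
  simp [mul_comm]⟩
/-- the torus of `SL₂(q)` -/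
def h2 (t : Kˣ) (ht : star (t : K) = t) : P4 K := ⟨⟨t⁻¹, t ^ 2, 1⟩, show star ((t ^ 2 : Kˣ) : K) = (t ^ 2 : Kˣ) by simp [ht]⟩

@[simp] theorem h1_l (u : Kˣ) : ((h1 u).1.l : K) = (u : K) ^ 2 := by simp [h1]
@[simp] theorem h1_m (u : Kˣ) : ((h1 u).1.m : K) = ((u : K) * star (u : K))⁻¹ := by simp [h1]
@[simp] theorem h1_γ (u : Kˣ) (x : K) : (h1 u).1.γ x = x := rfl
@[simp] theorem h2_l (t : Kˣ) (ht : star (t : K) = t) : ((h2 t ht).1.l : K) = (t : K)⁻¹ := by simp [h2]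
@[simp] theorem h2_m (t : Kˣ) (ht : star (t : K) = t) : ((h2 t ht).1.m : K) = (t : K) ^ 2 := by simp [h2]
@[simp] theorem h2_γ (t : Kˣ) (ht : star (t : K) = t) (x : K) : (h2 t ht).1.γ x = x := rfl

/-- `A0` is the product of the inner automorphisms with the group `H` of diagonal and field automorphisms -/
def Std (A0 : Subgroup (MulAut (U K))) (H : Subgroup (P4 K)) : Prop :=
  ∀ α, α ∈ A0 ↔ ∃ s, ∃ h ∈ H, α = MulAut.conj s * act h

omit [UF K]

/-! ### matrices -/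

def Jm (K : Type u) [Field K] : Matrix (Fin 4) (Fin 4) K := !![0, 0, 0, 1; 0, 0, 1, 0; 0, -1, 0, 0; -1, 0, 0, 0]

/-- the special unitary group of the skew-Hermitian form `Jm` -/
def SUm (K : Type u) [Field K] [StarRing K] : Subgroup (SpecialLinearGroup (Fin 4) K) where
  carrier := {M | M.1 * Jm K * M.1ᴴ = Jm K}
  mul_mem' := fun {M N} (hM : M.1 * Jm K * M.1ᴴ = Jm K) (hN : N.1 * Jm K * N.1ᴴ = Jm K) =>
    show M.1 * N.1 * Jm K * (M.1 * N.1)ᴴ = Jm K by
      rw [conjTranspose_mul, show M.1 * N.1 * Jm K * (N.1ᴴ * M.1ᴴ) = M.1 * (N.1 * Jm K * N.1ᴴ) * M.1ᴴ by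
        simp only [Matrix.mul_assoc], hN, hM]
  one_mem' := by simp
  inv_mem' := fun {M} (hM : M.1 * Jm K * M.1ᴴ = Jm K) => show M⁻¹.1 * Jm K * M⁻¹.1ᴴ = Jm K by
    have e : M⁻¹.1 * M.1 = 1 := congrArg Subtype.val (inv_mul_cancel M)
    rw [← hM, show M⁻¹.1 * (M.1 * Jm K * M.1ᴴ) * M⁻¹.1ᴴ = M⁻¹.1 * M.1 * Jm K * (M⁻¹.1 * M.1)ᴴ by
      simp only [conjTranspose_mul, Matrix.mul_assoc], e, hM]
    simp

theorem mem_SUm {M : SpecialLinearGroup (Fin 4) K} : M ∈ SUm K ↔ M.1 * Jm K * M.1ᴴ = Jm K := Iff.rfl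

def matM (g : U K) : Matrix (Fin 4) (Fin 4) K :=
  !![1, g.a, g.b, g.c - star g.a * g.b; 0, 1, g.d, star g.b - star g.a * g.d; 0, 0, 1, -star g.a; 0, 0, 0, 1]

theorem matM_mul (g h : U K) : matM (g * h) = matM g * matM h := by
  ext i j
  rw [Matrix.mul_apply, Fin.sum_univ_four]
  fin_cases i <;> fin_cases j <;> simp only [matM, Fin.zero_eta, Fin.mk_one, Fin.reduceFinMk, Fin.isValue, of_apply,
    cons_val, mul_a, mul_b, mul_c, mul_d, star_add, star_mul', U.star_d] <;> ring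

theorem det_matM (g : U K) : (matM g).det = 1 := by
  rw [det_of_upperTriangular]
  · simp [matM, Fin.prod_univ_four]
  · intro i j h
    fin_cases i <;> fin_cases j <;> simp [matM] at h ⊢

theorem matM_mem (g : U K) : matM g * Jm K * (matM g)ᴴ = Jm K := by
  ext i j
  simp only [Matrix.mul_apply, Fin.sum_univ_four, conjTranspose_apply]
  fin_cases i <;> fin_cases j <;> simp only [matM, Jm, Fin.zero_eta, Fin.mk_one, Fin.reduceFinMk, Fin.isValue, of_apply,
    cons_val, star_sub, star_neg, star_mul', star_star, star_zero, star_one, U.star_d, U.star_c] <;> ring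

/-- the matrix model -/
def mat : U K →* SUm K := MonoidHom.mk' (fun g => ⟨⟨matM g, det_matM g⟩, matM_mem g⟩) fun g h =>
  Subtype.ext (Subtype.ext (matM_mul g h))

theorem mat_coe (g : U K) : (mat g).1.1 = matM g := rfl

theorem mat_inj : Function.Injective (mat : U K →* SUm K) := fun g h e => by
  have k : matM g = matM h := congrArg (fun M : SUm K => M.1.1) e
  have k1 : g.a = h.a := congrFun (congrFun k 0) 1
  have k2 : g.b = h.b := congrFun (congrFun k 0) 2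
  have k3 : g.c - star g.a * g.b = h.c - star h.a * h.b := congrFun (congrFun k 0) 3
  exact U.ext k1 (congrFun (congrFun k 1) 2) k2 (by rw [k1, k2] at k3; exact sub_left_inj.1 k3)

end Model

end CL.U4
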