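/-
Project U4: the statements of the parts.
-/
import Cfsg.Agent.U4.Defs
import Cfsg.Prelude.Def_Sporadic_a

set_option autoImplicit false
set_option linter.unusedSectionVars false

namespace CL.U4

open Cfsg CL.Fus CL.U5
open scoped commutatorElement

universe u

section Parts
variable (K : Type u) [Field K] [StarRing K] [UF K]

/-! ### essential subgroups -/

def ESB : Prop := ∀ (E : Subgroup (U K)) (M B : (U K → U K) → Prop), Crit E M B → E ≤ Q2 K → E = Q2 K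
def ESC1 : Prop := ∀ (E : Subgroup (U K)) (M B : (U K → U K) → Prop), Crit E M B → ¬ E ≤ Q1 K → ¬ E ≤ Q2 K →
  W K ≤ E ∨ ∃ z ∈ E, z.a ≠ 0 ∧ z.d ≠ 0 ∧ ∀ e ∈ E, ⁅e, z⁆ = 1
def ESC2 : Prop := ∀ (E : Subgroup (U K)) (M B : (U K → U K) → Prop), Crit E M B →
  ∀ z ∈ E, z.a ≠ 0 → z.d ≠ 0 → ¬ ∀ e ∈ E, ⁅e, z⁆ = 1
def ESD1 : Prop := ∀ (E : Subgroup (U K)) (M B : (U K → U K) → Prop), Crit E M B → W K ≤ E → ¬ E ≤ Q1 K → ¬ E ≤ Q2 K →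
  ¬ Inv E M (Z K)
def ESD2 : Prop := ∀ (E : Subgroup (U K)) (M B : (U K → U K) → Prop), Crit E M B → W K ≤ E → ¬ E ≤ Q1 K → ¬ E ≤ Q2 K →
  ¬ Inv E M (Z K) → (2 : K) = 0 ∧ ∃ a0, a0 ≠ 0 ∧ E = X0 a0
def ESD3 : Prop := ∀ (a0 : K) (M B : (U K → U K) → Prop), a0 ≠ 0 → Crit (X0 a0) M B → (2 : K) = 0 → UF.q K ≠ 2 →
  Inv (X0 a0) M (Z K)

/-! ### automorphisms of the whole group -/

def CH : Prop := ∀ α : MulAut (U K), (∀ x, α x ∈ Q1 K ↔ x ∈ Q1 K) ∧ ∀ x, α x ∈ Q2 K ↔ x ∈ Q2 K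

variable {K} in
structure SL (A σ : K → K) : Prop where
  add : ∀ a a', A (a + a') = A a + A a'
  inj : Function.Injective A
  fix : ∀ t, star t = t → star (σ t) = σ t
  lin : ∀ t a, star t = t → A (t * a) = σ t * A a
  nrm : ∃ ν, ∀ a, A a * star (A a) = ν * σ (a * star a)

def AU1A : Prop := ∀ α : MulAut (U K), ∃ (A σ : K → K) (m : K), m ≠ 0 ∧ star m = m ∧ SL A σ ∧
  ∀ x, (α x).a = A x.a ∧ (α x).d = m * σ x.d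
def AU1B : Prop := ∀ A σ : K → K, SL A σ → ∃ (l : K) (γ : K ≃+* K), l ≠ 0 ∧ (∀ a, A a = l * γ a) ∧
  ∀ t, star t = t → σ t = γ t
def AU1 : Prop := ∀ α : MulAut (U K), ∃ h : P4 K, ∀ x, (α x).a = (act h x).a ∧ (α x).d = (act h x).d
def AU2 : Prop := ∀ (p : ℕ) [Fact p.Prime] [CharP K p] (A0 : Subgroup (MulAut (U K))), (∀ s, MulAut.conj s ∈ A0) →
  ¬ p ∣ (MulAut.conj : U K →* MulAut (U K)).range.relIndex A0 →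
  ∃ (β : MulAut (U K)) (H : Subgroup (P4 K)), ¬ p ∣ Nat.card H ∧ Std (A0.map (MulAut.conj β).toMonoidHom) H

/-! ### the automizer of `Q1` -/

section
variable {K}
def NT (g : MulAut (Q1 K)) : Prop := ∀ a, ∃ a', g * ta a * g⁻¹ = ta a'
def PZ (g : MulAut (Q1 K)) : Prop := ∀ z ∈ Zv K, g z ∈ Zv K
def PV (g : MulAut (Q1 K)) : Prop := ∀ w ∈ Wv K, g w ∈ Wv K
def TIh (L : Subgroup (MulAut (Q1 K))) : Prop := ∀ g ∈ L, ∀ a a', a ≠ 0 → g * ta a * g⁻¹ = ta a' → NT g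
structure H1 (p : ℕ) (L : Subgroup (MulAut (Q1 K))) : Prop where
  syl : SylIn p (TA K) L
  ti : TIh L
  ne : ∃ g ∈ L, ¬ NT g
/-- the conjugates of `Zv` meet trivially and the Sylow subgroup is transitive on the other conjugates -/
def K1 (L : Subgroup (MulAut (Q1 K))) : Prop := (∀ g ∈ L, ¬ PZ g → ∀ z ∈ Zv K, g z ∈ Zv K → z = 1) ∧
  ∀ g ∈ L, ∀ g' ∈ L, ¬ PZ g → ¬ PZ g' → ∃ a, PZ ((ta a * g)⁻¹ * g')
/-- the images of `Zv` and `Wv` under `g` -/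
structure NF (g : MulAut (Q1 K)) (b f e : K →+ K) : Prop where
  ff : ∀ d, star d = d → star (f d) = f d
  ef : ∀ x, star (e x) = e x
  zz : ∀ v : Q1 K, g⁻¹ v ∈ Zv K ↔ v.1.b = b v.1.d ∧ v.1.c = f v.1.d
  ww : ∀ v : Q1 K, g⁻¹ v ∈ Wv K ↔ v.1.c = f v.1.d + e (v.1.b - b v.1.d)
def PP (b e : K →+ K) (a d : K) : K := a * star a * d + a * star (b d) + star a * b d - e (a * d)
def PK (b e : K →+ K) : Prop := (∀ a d, a ≠ 0 → star d = d → PP b e a d = 0 → d = 0) ∧ ∃ π κ : K → K,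
  (∀ x y, star x = x → star y = y → π (x + y) = π x + π y) ∧ (∀ a, star (κ a) = κ a) ∧
  ∀ a d, star d = d → PP b e a d = π (κ a * d)
end

def NTZ : Prop := ∀ g : MulAut (Q1 K), NT g → NT g⁻¹ ∧ PZ g ∧ PV g
def L1A : Prop := ∀ (p : ℕ) [Fact p.Prime] [CharP K p] (L : Subgroup (MulAut (Q1 K))), H1 p L →
  ∀ g ∈ L, ∀ z ∈ Zv K, g z ∈ Wv K → g z ∈ Zv K
def L1B : Prop := ∀ (p : ℕ) [Fact p.Prime] [CharP K p] (L : Subgroup (MulAut (Q1 K))), H1 p L →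
  ∀ g ∈ L, ∀ w ∈ Wv K, ∃ w' ∈ Wv K, ∃ z ∈ Zv K, w = g w' * z
def L1C : Prop := ∀ (p : ℕ) [Fact p.Prime] [CharP K p] (L : Subgroup (MulAut (Q1 K))), H1 p L →
  (∀ g ∈ L, PZ g → NT g) ∧ ∀ g ∈ L, ∀ a, a ≠ 0 → PZ (g⁻¹ * ta a * g) → PZ g
def CNT : Prop := ∀ (α ι : Type u) [DecidableEq α] [Fintype ι] [DecidableEq ι] (Zs Ws : ι → Finset α) (U0 X : Finset α)
  (q k : ℕ), (∀ i, U0 ⊆ Zs i ∧ Zs i ⊆ Ws i ∧ Ws i ⊆ X ∧ (Zs i).card = q ∧ (Ws i).card = q ^ 3) →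
  (∀ i j, i ≠ j → Zs i ∩ Ws j ⊆ U0) → Fintype.card ι = 1 + k * q ^ 2 → 1 ≤ k →
  (∀ i, ∀ w ∈ Ws i, w ∉ Zs i → (Finset.univ.filter fun j => w ∈ Ws j).card = 1 + k * q * U0.card) →
  U0.card ∣ q → U0.card < q → 0 < U0.card → U0.card * X.card ≤ q ^ 4 → U0.card = 1 ∧ k = 1
def L1D : Prop := ∀ (p : ℕ) [Fact p.Prime] [CharP K p] (L L' : Subgroup (MulAut (Q1 K))) (U0 X : Subgroup (Q1 K)),
  H1 p L → TA K ≤ L' → L' ≤ L → (∃ g ∈ L', ¬ PZ g) → (∀ g ∈ L', ∀ v ∈ U0, g v = v) → U0 ≤ Zv K →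
  (∀ g ∈ L', ¬ PZ g → ∀ z ∈ Zv K, g z ∈ Zv K → g z ∈ U0) → (∀ g ∈ L', ∀ w ∈ Wv K, g w ∈ X) →
  Nat.card U0 * Nat.card X ≤ UF.q K ^ 4 →
  U0 = ⊥ ∧ ∀ g ∈ L', ∀ g' ∈ L', ¬ PZ g → ¬ PZ g' → ∃ a, PZ ((ta a * g)⁻¹ * g')
def L1E : Prop := ∀ (p : ℕ) [Fact p.Prime] [CharP K p] (L : Subgroup (MulAut (Q1 K))), H1 p L → K1 L
def L1F : Prop := ∀ (p : ℕ) [Fact p.Prime] [CharP K p] (L : Subgroup (MulAut (Q1 K))), H1 p L → K1 L →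
  ∃ g ∈ L, ∃ b f e, b 1 = 0 ∧ NF g b f e
def L1G : Prop := ∀ (p : ℕ) [Fact p.Prime] [CharP K p] (L : Subgroup (MulAut (Q1 K))), H1 p L → K1 L →
  ∀ g ∈ L, ∀ b f e, NF g b f e → PK b e
def ALG : Prop := ∀ b e : K →+ K, b 1 = 0 → (∀ x, star (e x) = e x) → PK b e →
  (∀ d, star d = d → b d = 0) ∧ ∀ x, e x = 0
def L1H : Prop := ∀ (p : ℕ) [Fact p.Prime] [CharP K p] (L : Subgroup (MulAut (Q1 K))), H1 p L → K1 L →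
  (∃ g ∈ L, NF g 0 0 0) → r1 K ∈ L ∧ (∀ u, ∃ α ∈ L, Res (act (h1 u)) α) ∧
    ∀ g ∈ L, NT g ∨ ∃ a, NT ((ta a * r1 K)⁻¹ * g)
def GEN1A : Prop := ∀ (p : ℕ) [Fact p.Prime] [CharP K p] (A0 : Subgroup (MulAut (U K))) (A : Subgroup (MulAut (Q1 K)))
  (H : Subgroup (P4 K)), Rk1 p (Q1 K) A0 A → TIh A → Std A0 H → ∃ β : MulAut (U K), (∀ h ∈ H, act h * β = β * act h) ∧
    ∃ c : MulAut (Q1 K), Res β c ∧ c⁻¹ * r1 K * c ∈ A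
def GEN1B : Prop := ∀ (p : ℕ) [Fact p.Prime] [CharP K p] (A0 : Subgroup (MulAut (U K))) (A : Subgroup (MulAut (Q1 K)))
  (H : Subgroup (P4 K)), Rk1 p (Q1 K) A0 A → TIh A → Std A0 H → r1 K ∈ A → (∀ u, h1 u ∈ H) ∧
    ∀ A' : Subgroup (MulAut (Q1 K)), r1 K ∈ A' → (∀ α ∈ A0, ∀ a, Res α a → a ∈ A') → A ≤ A'
def TI : Prop := ∀ (p : ℕ) [Fact p.Prime] [CharP K p] (F : FusionSystem (⊤ : Subgroup (U K))), F.IsSaturated p →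
  (∀ E, F.IsEssential p E → E = Q1 K ∨ E = Q2 K) → TIh (F.autGroup (Q1 K))

/-! ### the automizer of `Q2` -/

section
variable {K}
structure H2 (p : ℕ) (L : Subgroup (Au (V2 K))) : Prop where
  syl : SylIn p (TF K) L
  conf : ∀ g ∈ L, Conf g
  sq : ∀ g ∈ L, Sq g
/-- another conjugate of `{(0, y)}` meets it trivially -/
def DJ (L : Subgroup (Au (V2 K))) : Prop := ∀ g ∈ L, ¬ PW g → ∀ y, (g (0, y)).1 = 0 → y = 0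
/-- the image of `{(0, y)}` is a graph -/
def GR (g : Au (V2 K)) (c d : K) : Prop := (∀ y, (g (0, y)).2 = c * (g (0, y)).1 + d * star (g (0, y)).1) ∧
  ∀ x, ∃ y, (g (0, y)).1 = x
end

def RHO2 : Prop := ∃ ρ : MulAut (Q2 K) →* Au (V2 K), (∀ α (x : Q2 K), pW (α x : U K) = ρ α (pW x.1)) ∧
  (∀ α, Conf (ρ α) ∧ Sq (ρ α)) ∧ ∀ (p : ℕ) [Fact p.Prime] [CharP K p], IsPGroup p ρ.ker
def L2A : Prop := ∀ (p : ℕ) [Fact p.Prime] [CharP K p] (L : Subgroup (Au (V2 K))), H2 p L →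
  (∀ g ∈ L, PW g → ∀ t ∈ TF K, g * t * g⁻¹ ∈ TF K) ∧
  (∀ g ∈ L, ∀ t ∈ TF K, (∀ u v, fm ((g * t * g⁻¹) u) ((g * t * g⁻¹) v) = fm u v) ∧
    ∀ l : K, star l = l → ∀ v, (g * t * g⁻¹) (l • v) = l • (g * t * g⁻¹) v) ∧
  ∀ g ∈ L, ∀ v, (∃ y, g (0, y) = v) ↔ ∀ y, fm v (g (0, y)) = 0
def L2B : Prop := ∀ (L : Subgroup (Au (V2 K))) [CharP K 2], H2 2 L → DJ L
def L2C : Prop := ∀ (p : ℕ) [Fact p.Prime] [CharP K p] (L : Subgroup (Au (V2 K))), H2 p L → p ≠ 2 → 3 < UF.q K → DJ L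
def L2D : Prop := ∀ (p : ℕ) [Fact p.Prime] [CharP K p] (L : Subgroup (Au (V2 K))), H2 p L → DJ L →
  ∀ g ∈ L, ¬ PW g → ∃ c d, star c = c ∧ GR g c d ∧ (p = 2 → d = 0)
def L2E : Prop := ∀ (p : ℕ) [Fact p.Prime] [CharP K p] (L : Subgroup (Au (V2 K))), H2 p L → DJ L → 3 < UF.q K →
  (∀ u, aW (h1 u) ∈ L) → ∀ g ∈ L, ∀ c d, star c = c → GR g c d → d = 0
def L2F : Prop := ∀ (p : ℕ) [Fact p.Prime] [CharP K p] (L : Subgroup (Au (V2 K))), H2 p L →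
  (∀ g ∈ L, ¬ PW g → ∃ c, star c = c ∧ GR g c 0) → (∃ g ∈ L, ¬ PW g) →
  rW K ∈ L ∧ (∀ t ht, aW (h2 t ht) ∈ L) ∧ ∀ g ∈ L, PW g ∨ ∃ t ∈ TF K, PW (rW K * t * g)
def LIFT2 : Prop := ∀ A : Subgroup (MulAut (Q2 K)), (∀ s ∈ Q2 K, MulAut.conjNormal s ∈ A) →
  (∀ α ∈ A, (∀ x : Q2 K, pW (α x : U K) = pW x.1) → ∃ s ∈ Q2 K, α = MulAut.conjNormal s) →
  (∀ u, ∃ α ∈ A, Res (act (h1 u)) α) → ∀ g ∈ A, (∀ x : Q2 K, pW (g x : U K) = rW K (pW x.1)) → r2 K ∈ A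
def KQ : Prop := (UF.q K).Prime → ∀ α : MulAut (Q2 K), (∀ x : Q2 K, pW (α x : U K) = pW x.1) →
  ∃ s ∈ Q2 K, α = MulAut.conjNormal s
def GEN2 : Prop := ∀ (p : ℕ) [Fact p.Prime] [CharP K p] (A0 : Subgroup (MulAut (U K))) (A : Subgroup (MulAut (Q2 K)))
  (H : Subgroup (P4 K)), Rk1 p (Q2 K) A0 A → Std A0 H → (UF.q K = 2 ∨ (3 < UF.q K ∧ ∀ u, h1 u ∈ H)) →
    (∀ t ht, h2 t ht ∈ H) ∧ r2 K ∈ A ∧
    ∀ A' : Subgroup (MulAut (Q2 K)), r2 K ∈ A' → (∀ α ∈ A0, ∀ a, Res α a → a ∈ A') → A ≤ A'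

/-! ### the unitary groups -/

def MB : Prop := ∀ g : SUm K, (∀ x, ∃ x', g * mat x * g⁻¹ = mat x') →
  ∃ (s : U K) (u t : Kˣ) (ht : star (t : K) = t), (∀ x, g * mat x * g⁻¹ = mat (s * act (h1 u * h2 t ht) x * s⁻¹)) ∧
    ((mat s)⁻¹ * g).1.1 = Matrix.diagonal ![(u : K), (t : K) / (u : K), star (u : K) / (t : K), (star (u : K))⁻¹]
def MC : Prop := Nonempty (SUm K ≃* Cfsg.SU 4 K (UF.q K)) ∧
  ∀ (p : ℕ) [Fact p.Prime] [CharP K p], ¬ p ∣ (mat : U K →* SUm K).range.index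
def MD : Prop := (∃ φ : P4 K →* MulAut (SUm K), ∀ h x, φ h (mat x) = mat (act h x)) ∧
  (∃ g : SUm K, ∀ x : Q1 K, mat (r1 K x : U K) = g * mat (x : U K) * g⁻¹) ∧
  ∃ g : SUm K, ∀ x : Q2 K, mat (r2 K x : U K) = g * mat (x : U K) * g⁻¹
/-- the normaliser of `Q2` acts linearly on `Q2 / Z` -/
def MN : Prop := ∀ g : SUm K, (∀ x ∈ Q2 K, ∃ x' ∈ Q2 K, mat x' = g * mat x * g⁻¹) →
  ∀ (x x' y y' : U K) (k : K), x ∈ Q2 K → y ∈ Q2 K → mat x' = g * mat x * g⁻¹ → mat y' = g * mat y * g⁻¹ →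
    pW y = k • pW x → pW y' = k • pW x'
def REAL : Prop := ∀ (p : ℕ) [Fact p.Prime] [CharP K p] (H : Subgroup (P4 K)), ¬ p ∣ Nat.card H → (∀ u, h1 u ∈ H) →
  (∀ t ht, h2 t ht ∈ H) → ∃ (G : Type u) (_ : Group G) (_ : Finite G) (ι : U K →* G), Function.Injective ι ∧
    ¬ p ∣ ι.range.index ∧
    (∀ α : MulAut (U K), (∃ g, ∀ x, ι (α x) = g * ι x * g⁻¹) ↔ ∃ s, ∃ h ∈ H, α = MulAut.conj s * act h) ∧
    (∃ g, ∀ x : Q1 K, ι (r1 K x : U K) = g * ι (x : U K) * g⁻¹) ∧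
    (∃ g, ∀ x : Q2 K, ι (r2 K x : U K) = g * ι (x : U K) * g⁻¹) ∧
    ∀ g, (∀ x ∈ Q2 K, ∃ x' ∈ Q2 K, ι x' = g * ι x * g⁻¹) → ∃ γ : K ≃+* K, ∀ (x x' y y' : U K) (k : K), x ∈ Q2 K →
      y ∈ Q2 K → ι x' = g * ι x * g⁻¹ → ι y' = g * ι y * g⁻¹ → pW y = k • pW x → pW y' = γ k • pW x'
def SYL : Prop := ∀ (p : ℕ) [Fact p.Prime] [CharP K p] (T : Sylow p (Cfsg.PSU 4 K (UF.q K))),
  Nonempty (↥(T : Subgroup (Cfsg.PSU 4 K (UF.q K))) ≃* U K)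

end Parts

/-! ### the fields with nine and four elements -/

abbrev F9 : Type := QuadraticAlgebra (ZMod 3) 2 0
instance : Fact (∀ r : ZMod 3, r ^ 2 ≠ 2 + 0 * r) := ⟨by decide⟩
instance : Fintype F9 := Fintype.ofEquiv _ (QuadraticAlgebra.equivProd _ _).symm
theorem card_F9 : Fintype.card F9 = 9 := by rw [Fintype.ofEquiv_card]; rfl
instance : UF F9 := ⟨3, ⟨by rw [Nat.card_eq_fintype_card, card_F9]; rfl, show ∀ x : F9, star x = x ^ 3 by decide +kernel⟩⟩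
instance : CharP F9 3 := charP_of_injective_algebraMap (algebraMap (ZMod 3) F9).injective 3
theorem q_F9 : UF.q F9 = 3 := rfl

abbrev F4 : Type := QuadraticAlgebra (ZMod 2) 1 1
instance : Fact (∀ r : ZMod 2, r ^ 2 ≠ 1 + 1 * r) := ⟨by decide⟩
instance : Fintype F4 := Fintype.ofEquiv _ (QuadraticAlgebra.equivProd _ _).symm
theorem card_F4 : Fintype.card F4 = 4 := by rw [Fintype.ofEquiv_card]; rfl
instance : UF F4 := ⟨2, ⟨by rw [Nat.card_eq_fintype_card, card_F4]; rfl, show ∀ x : F4, star x = x ^ 2 by decide +kernel⟩⟩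
instance : CharP F4 2 := charP_of_injective_algebraMap (algebraMap (ZMod 2) F4).injective 2
theorem q_F4 : UF.q F4 = 2 := rfl

def KEQ (K : Type u) [Field K] [StarRing K] [UF K] : Prop :=
  (UF.q K = 3 → Nonempty (U K ≃* U F9)) ∧ (UF.q K = 2 → Nonempty (U K ≃* U F4))

/-! ### `q = 3` -/

/-- a square root of `-1` -/
def i9 : F9 := ⟨0, 1⟩
/-- the norm -/
def nm (w : F9) : F9 := w * star w
/-- the self-adjoint traceless maps; the square is `-(e ^ 2 + b * c - nm w)` for `e`, `b`, `c` in the prime field -/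
def Jf (e w b c : F9) (v : V2 F9) : V2 F9 :=
  (e * i9 * v.1 + w * star v.1 + b * i9 * v.2, c * i9 * v.1 - e * i9 * v.2 + w * star v.2)
def Jc (w : F9) : V2 F9 → V2 F9 := Jf 0 w 1 (1 + nm w)
/-- the action on the cells -/
def cact (h : P4 F9) (w : F9) : F9 := -(h.1.γ i9 * i9) * h.1.m * (h.1.l : F9) ^ 2 * nm h.1.l * h.1.γ w
def JC (L : Subgroup (Au (V2 F9))) (w : F9) : Prop := ∃ g ∈ L, ∀ v, g v = Jc w v
def Cell (A : Subgroup (MulAut (Q2 F9))) (w : F9) : Prop := ∃ α ∈ A, ∀ x : Q2 F9, pW (α x : U F9) = Jc w (pW x.1)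

structure CL3 (H : Subgroup (P4 F9)) (C : F9 → Prop) : Prop where
  c0 : ∀ h, (∀ u, cact h u = u) → h ∈ H
  c2 : ∀ w w', C w → C w' → nm (w - w') = 1 → C (-(w + w'))
  c3 : ∀ w w', C w → C w' → nm (w - w') = -1 → nm w = nm w' ∧
    ∃ h ∈ H, ∀ u, cact h u = u + (u * star (w - w') + star u * (w - w')) * (w - w')
  c4 : ∀ w, ∀ h ∈ H, C w → C (cact h w)
  c5 : ∀ s, nm s = 1 → C 0 → C s → ∃ h ∈ H, ∀ u, cact h u = s * s * star u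

structure H3 (L : Subgroup (Au (V2 F9))) (H : Subgroup (P4 F9)) : Prop where
  syl : SylIn 3 (TF F9) L
  conf : ∀ g ∈ L, Conf g
  h1 : ∀ u, h1 u ∈ H
  mem : ∀ h ∈ H, aW h ∈ L
  nrm : ∀ g ∈ L, PW g → ∃ t ∈ TF F9, ∃ h ∈ H, g = t * aW h

/-- formulas for the action on the cells -/
def CA3 : Prop := (∀ h k w, cact (h * k) w = cact h (cact k w)) ∧ (∀ w, cact 1 w = w) ∧
  (∀ h, ∃ κ : F9, nm κ = 1 ∧ ((∀ w, cact h w = κ * w) ∨ ∀ w, cact h w = κ * star w)) ∧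
  (∀ κ : F9, nm κ = 1 → (∃ h, ∀ w, cact h w = κ * w) ∧ ∃ h, ∀ w, cact h w = κ * star w) ∧
  (∀ h, (∀ w, cact h w = w) → ∃ u, h = h1 u) ∧ Nat.card (P4 F9) = 32 ∧
  ∀ h w, (∀ v, aW h (Jc w v) = Jc (cact h w) (aW h v)) ∨ ∀ v, aW h (Jc w v) = -Jc (cact h w) (aW h v)
def C3A : Prop := ∀ L H, H3 L H → CL3 H (JC L)
def C3B : Prop := ∀ L H, H3 L H → ((∃ g ∈ L, ¬ PW g) → ∃ w, JC L w) ∧
  ∀ L' : Subgroup (Au (V2 F9)), TF F9 ≤ L' → (∀ h ∈ H, aW h ∈ L') → (∀ w, JC L w → JC L' w) → L ≤ L'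

def Hfix (s : F9) (h : P4 F9) : Prop := cact h s = s
def Hpm (s : F9) (h : P4 F9) : Prop := cact h s = s ∨ cact h s = -s
def Cs (s w : F9) : Prop := nm (s - w) ≠ -1 ∧ nm (-s - w) ≠ -1
def C3C : Prop := ∀ H C, CL3 H C → (∃ w, C w) → ∃ d, (∀ h ∈ H, cact h d = d) ∧
  ((∀ w, C (w + d) ↔ w = 0) ∨ (∃ s, s ≠ 0 ∧ ∀ w, C (w + d) ↔ Cs s w) ∨ ∀ w, C (w + d) ↔ nm w ≠ -1)
def C3D : Prop := ∀ H C, CL3 H C →
  (∀ s, s ≠ 0 → (∀ w, C w ↔ Cs s w) → ((∀ h, h ∈ H ↔ Hfix s h) ∨ ∀ h, h ∈ H ↔ Hpm s h) ∧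
    ∀ C', CL3 H C' → (∀ w, C w → C' w) → ∀ w, C' w → C w) ∧
  ((∀ w, C w ↔ nm w ≠ -1) → H = ⊤ ∧ ∀ C', CL3 H C' → (∀ w, C w → C' w) → ∀ w, C' w → C w)
def TH : Prop := ∀ d : F9, ∃ θ : MulAut (U F9), (∀ x ∈ Q1 F9, θ x = x) ∧ (∀ h, cact h d = d → act h * θ = θ * act h) ∧
  ∀ b : MulAut (Q2 F9), Res θ b → ∀ (A : Subgroup (MulAut (Q2 F9))) (w : F9),
    Cell (A.map (MulAut.conj b).toMonoidHom) w ↔ Cell A (w + d)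
def GEN3 : Prop := ∀ (A0 : Subgroup (MulAut (U F9))) (A : Subgroup (MulAut (Q2 F9))) (H : Subgroup (P4 F9)),
  Rk1 3 (Q2 F9) A0 A → Std A0 H → (∀ u, h1 u ∈ H) → CL3 H (Cell A) ∧ (∃ w, Cell A w) ∧
    ∀ A' : Subgroup (MulAut (Q2 F9)), (∀ α ∈ A0, ∀ a, Res α a → a ∈ A') → (∀ w, Cell A w → Cell A' w) → A ≤ A'

/-- `g` induces the map of the cell `w` -/
def JG {G : Type} [Group G] (ι : U F9 →* G) (g : G) (w : F9) : Prop :=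
  ∀ x ∈ Q2 F9, ∃ x' ∈ Q2 F9, ι x' = g * ι x * g⁻¹ ∧ pW x' = Jc w (pW x)

def RL (H : P4 F9 → Prop) (C : F9 → Prop) : Prop := ∃ (G : Type) (_ : Group G) (_ : Finite G) (ι : U F9 →* G),
  Function.Injective ι ∧ ¬ 3 ∣ ι.range.index ∧
  (∀ α : MulAut (U F9), (∃ g, ∀ x, ι (α x) = g * ι x * g⁻¹) ↔ ∃ s h, H h ∧ α = MulAut.conj s * act h) ∧
  (∃ g, ∀ x : Q1 F9, ι (r1 F9 x : U F9) = g * ι (x : U F9) * g⁻¹) ∧ ∀ w, C w → ∃ g, JG ι g w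
def RL3 : Prop := (∀ s, s ≠ 0 → RL (Hfix s) (Cs s) ∧ RL (Hpm s) (Cs s)) ∧ RL (fun _ => True) fun w => nm w ≠ -1

/-- the inner products in the fixed lattice -/
def ip (w w' : F9) : ℤ := if w = w' then 32 else if nm (w - w') = 1 then -16 else 8

/-- the Sylow subgroup inside the Conway group -/
structure CoD (ι : U F9 →* Co0) (e : F9 → leechLattice) : Prop where
  inj : Function.Injective ι
  ip : ∀ w w', dotInt (e w : GolayPt → ℤ) (e w') = ip w w'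
  fix : ∀ x w, ι x • e w = e w
  all : ∀ y : leechLattice, sqNorm (y : GolayPt → ℤ) = 32 → (∀ x, ι x • y = y) → ∃ w, y = e w ∨ y = -e w
  par : ∀ h : P4 F9, ∃ g, (∀ x, ι (act h x) = g * ι x * g⁻¹) ∧ ∀ w, g • e w = e (cact h w)
  r1 : ∃ g, (∀ x : Q1 F9, ι (r1 F9 x : U F9) = g * ι (x : U F9) * g⁻¹) ∧ ∀ w, g • e w = e w
  cell : ∀ w, ∃ g, JG ι g w ∧ ∀ w', nm (w' - w) ≠ -1 → g • e w' = e w'
def CO1 : Prop := ∃ ι e, CoD ι e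
def NB3 : Prop := ∀ T : Subgroup (Cfsg.PSU 4 F9 3), Nat.card T = 729 → Nat.card (Subgroup.normalizer (T : Set (Cfsg.PSU 4 F9 3))) ≤ 4 * 729
/-- a presentation -/
def HOM3 : Prop := ∀ (G : Type) [Group G] (X Y Y' Zc A A' : G),
  (∀ g ∈ [X, Y, Y', Zc, A, A'], g ^ 3 = 1) → (∀ g ∈ [X, Y, Y', Zc], ∀ h ∈ [X, Y, Y', Zc], g * h = h * g) → A * A' = A' * A →
  A * X * A⁻¹ = X * Y * Zc → A * Y * A⁻¹ = Y * Zc⁻¹ → A * Y' * A⁻¹ = Y' → A * Zc * A⁻¹ = Zc →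
  A' * X * A'⁻¹ = X * Y' * Zc → A' * Y * A'⁻¹ = Y → A' * Y' * A'⁻¹ = Y' * Zc⁻¹ → A' * Zc * A'⁻¹ = Zc →
  ∃ ι : U F9 →* G, ∀ x, ι x = X ^ x.d.re.val * Y ^ x.b.re.val * Y' ^ x.b.im.val * Zc ^ x.c.re.val *
    A ^ x.a.re.val * A' ^ x.a.im.val

/-! ### `q = 2` -/

def w4 : F4 := ⟨0, 1⟩
/-- `y` is the image of `x` under the extra involution on `X0 a` -/
def NV (a e : F4) (x y : U F4) : Prop := y.a = x.a ∧ y.d = x.b * star a + star x.b * a + x.d ∧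
  y.b = a * (x.c + e * x.d + w4 * (x.b * star a + star x.b * a)) ∧
  y.c = x.b * star a + (x.b * star a + star x.b * a) * w4 + e * y.d
def HasN (A : Subgroup (MulAut (Q1 F4))) (a e : F4) : Prop := ∃ α ∈ A, ∀ v : Q1 F4, NV a e v.1 (α v).1
def HasX (a : F4) (A : Subgroup (MulAut (X0 a))) (e : F4) : Prop := ∃ α ∈ A, ∀ v : X0 a, NV a e v.1 (α v).1
def XP : Prop := ∀ (A : Subgroup (MulAut (Q1 F4))) (a e a' e' : F4), SylIn 2 (TA F4) A → a ≠ 0 → a' ≠ 0 →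
  star e = e → star e' = e' → HasN A a e → HasN A a' e' → (a = a' ↔ e = e')
def XE : Prop := ∀ (a : F4) (A : Subgroup (MulAut (X0 a))), a ≠ 0 → SylIn 2 (autInducedBy ⊤ (X0 a)) A →
  (∃ g ∈ A, g ∉ Subgroup.normalizer (autInducedBy ⊤ (X0 a) : Set (MulAut (X0 a)))) → ∃ e, star e = e ∧ HasX a A e ∧
    ∀ A' : Subgroup (MulAut (X0 a)), autInducedBy ⊤ (X0 a) ≤ A' → HasX a A' e → A ≤ A'
/-- the fusion theoretic form -/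
def XF : Prop := ∀ (F : FusionSystem (⊤ : Subgroup (U F4))), F.IsSaturated 2 → SylIn 2 (TA F4) (F.autGroup (Q1 F4)) ∧
  (∀ a e, a ≠ 0 → star e = e → HasX a (F.autGroup (X0 a)) e → HasN (F.autGroup (Q1 F4)) a e) ∧
  ∀ a, a ≠ 0 → F.IsEssential 2 (X0 a) → ∃ e, star e = e ∧ HasX a (F.autGroup (X0 a)) e ∧
    ∀ A' : Subgroup (MulAut (X0 a)), autInducedBy ⊤ (X0 a) ≤ A' → HasX a A' e → F.autGroup (X0 a) ≤ A'
def XV : Prop := ∀ (F : FusionSystem (⊤ : Subgroup (U F4))), F.IsSaturated 2 →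
  (∀ α ∈ aut0 F, ∃ s, α = MulAut.conj s) → ¬ F.IsEssential 2 (Q1 F4)
def XH : Prop := ∀ (F : FusionSystem (⊤ : Subgroup (U F4))), F.IsSaturated 2 → ∀ a, a ≠ 0 → F.IsEssential 2 (X0 a) →
  ∀ α ∈ aut0 F, ∃ s, α = MulAut.conj s
def XN : Prop := ∀ (F : FusionSystem (⊤ : Subgroup (U F4))), F.IsSaturated 2 → ∀ a, a ≠ 0 →
  (∀ α ∈ aut0 F, ∃ s, α = MulAut.conj s) → (∀ E, F.IsEssential 2 E → E = Q2 F4 ∨ E = X0 a) → F.core ≠ ⊥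
def XR : Prop := ∀ a a' : F4, a ≠ 0 → a' ≠ 0 → a ≠ a' → ∃ (G : Type) (_ : Group G) (_ : Finite G) (ι : U F4 →* G),
  Function.Injective ι ∧ ¬ 2 ∣ ι.range.index ∧
  (∀ α : MulAut (U F4), (∃ g, ∀ x, ι (α x) = g * ι x * g⁻¹) → ∃ s, α = MulAut.conj s) ∧
  (∃ g, ∀ x ∈ X0 a, ∃ y, NV a 0 x y ∧ ι y = g * ι x * g⁻¹) ∧
  (∃ g, ∀ x ∈ X0 a', ∃ y, NV a' 1 x y ∧ ι y = g * ι x * g⁻¹) ∧
  ∃ g, ∀ x : Q2 F4, ι (r2 F4 x : U F4) = g * ι (x : U F4) * g⁻¹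
def ES2 : Prop := ∀ (F : FusionSystem (⊤ : Subgroup (U F4))), F.IsSaturated 2 → ∀ E, F.IsEssential 2 E →
  E = Q1 F4 ∨ E = Q2 F4 ∨ ∃ a, a ≠ 0 ∧ E = X0 a
def XT : Prop := ∀ (F : FusionSystem (⊤ : Subgroup (U F4))), F.IsSaturated 2 → F.core = ⊥ → ∀ a, a ≠ 0 →
  F.IsEssential 2 (X0 a) → F.IsRealizable 2

end CL.U4
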