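/-
Project U4 (S5210): the action on the cells for `q = 3`.
-/
import Cfsg.Agent.U4.Defs2

set_option autoImplicit false
set_option synthInstance.maxSize 4000
set_option synthInstance.maxHeartbeats 200000

namespace CL.U4

open Cfsg CL.Fus CL.U5

universe u

namespace CA3x

def sg (b : Bool) (x : F9) : F9 := bif b then star x else x

def gm (b : Bool) : F9 ≃+* F9 := bif b then starRingAut else 1

theorem gm_app (b : Bool) (x : F9) : gm b x = sg b x := by cases b <;> rfl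

theorem gsq (γ : F9 ≃+* F9) : γ i9 * γ i9 = -1 := by
  rw [← map_mul, show i9 * i9 = -1 by decide +kernel, map_neg, map_one]

theorem gam (γ : F9 ≃+* F9) : ∃ b, ∀ x, γ x = sg b x := by
  have e : ∀ x : F9, x = (x.re.val : F9) + (x.im.val : F9) * i9 := by decide +kernel
  have g : ∀ x : F9, γ x = (x.re.val : F9) + (x.im.val : F9) * γ i9 := fun x => by
    conv_lhs => rw [e x]
    rw [map_add, map_mul, map_natCast, map_natCast]
  rcases (by decide +kernel : ∀ y : F9, y * y = -1 → y = i9 ∨ y = -i9) _ (gsq γ) with h | h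
  · exact ⟨false, fun x => by rw [g, h]; exact (e x).symm⟩
  · exact ⟨true, fun x => by rw [g, h]; revert x; decide +kernel⟩

def mkP (l m : F9) (b : Bool) (hl : l ≠ 0) (hm : m ≠ 0) (e : star m = m) : P4 F9 :=
  ⟨⟨Units.mk0 l hl, Units.mk0 m hm, gm b⟩, e⟩

theorem nf (h : P4 F9) : ∃ (b : Bool) (κ : F9), nm κ = 1 ∧ ∀ w, cact h w = κ * sg b w := by
  obtain ⟨b, hb⟩ := gam h.1.γ
  refine ⟨b, -(h.1.γ i9 * i9) * h.1.m * (h.1.l : F9) ^ 2 * nm h.1.l, ?_, fun w => by rw [cact, hb w]⟩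
  exact (by decide +kernel : ∀ j : F9, j * j = -1 → ∀ l : F9, l ≠ 0 → ∀ m : F9, m ≠ 0 → star m = m →
    nm (-(j * i9) * m * l ^ 2 * nm l) = 1) _ (gsq _) _ h.1.l.ne_zero _ h.1.m.ne_zero h.2

theorem ex (b : Bool) {κ : F9} (hκ : nm κ = 1) : ∃ h, ∀ w, cact h w = κ * sg b w := by
  obtain ⟨l, hl, m, hm, e, k⟩ := (by decide +kernel : ∀ (b : Bool) (κ : F9), nm κ = 1 → ∃ l : F9, l ≠ 0 ∧ ∃ m : F9, m ≠ 0 ∧
    star m = m ∧ -(sg b i9 * i9) * m * l ^ 2 * nm l = κ) b κ hκ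
  exact ⟨mkP l m b hl hm e, fun w => by rw [← k, ← gm_app, ← gm_app]; rfl⟩

theorem sgn (h : P4 F9) (w : F9) : ∃ ε : F9, (ε = 1 ∨ ε = -1) ∧ ∀ v,
    aW h (Jc w v) = (ε * (Jc (cact h w) (aW h v)).1, ε * (Jc (cact h w) (aW h v)).2) := by
  obtain ⟨ε, hε, e1, e2, e3⟩ := (by decide +kernel : ∀ j : F9, j * j = -1 → ∀ l : F9, l ≠ 0 → ∀ m : F9, m ≠ 0 →
    star m = m → ∀ w : F9, ∃ ε : F9, (ε = 1 ∨ ε = -1) ∧ l * w = ε * (-(j * i9) * m * l ^ 2 * nm l * w) * star l ∧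
      j = ε * i9 * m ∧ m * ((1 + w * star w) * j) = ε * ((1 + nm (-(j * i9) * m * l ^ 2 * nm l * w)) * i9))
    _ (gsq h.1.γ) _ h.1.l.ne_zero _ h.1.m.ne_zero h.2 (h.1.γ w)
  refine ⟨ε, hε, fun v => ?_⟩
  change _ = ε * cact h w * _ at e1
  change _ = ε * ((1 + nm (cact h w)) * _) at e3
  generalize cact h w = c at e1 e3
  rw [aW_apply, aW_apply]
  refine Prod.ext ?_ ?_ <;>
    simp only [Jc, Jf, zero_mul, one_mul, zero_add, sub_zero, map_add, map_mul, map_one, map_star', star_mul', star_m]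
  · linear_combination star (h.1.γ v.1) * e1 + h.1.l * h.1.γ v.2 * e2
  · rw [nm, map_mul, map_star']
    linear_combination h.1.m * star (h.1.γ v.2) * e1 + h.1.l * h.1.γ v.1 * e3

theorem card : Nat.card (P4 F9) = 32 := by
  rw [← Nat.card_congr (Equiv.ofBijective
    (fun t : {t : F9 × F9 × Bool // t.1 ≠ 0 ∧ t.2.1 ≠ 0 ∧ star t.2.1 = t.2.1} =>
      mkP t.1.1 t.1.2.1 t.1.2.2 t.2.1 t.2.2.1 t.2.2.2) ⟨fun t t' e => ?_, fun h => ?_⟩), Nat.card_eq_fintype_card]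
  · decide +kernel
  · refine Subtype.ext (Prod.ext (congrArg (fun h : P4 F9 => (h.1.l : F9)) e)
      (Prod.ext (congrArg (fun h : P4 F9 => (h.1.m : F9)) e) ?_))
    have k : gm t.1.2.2 i9 = gm t'.1.2.2 i9 := congrArg (fun h : P4 F9 => h.1.γ i9) e
    rw [gm_app, gm_app] at k
    exact (by decide +kernel : ∀ b b' : Bool, sg b i9 = sg b' i9 → b = b') _ _ k
  · obtain ⟨b, hb⟩ := gam h.1.γ
    exact ⟨⟨(h.1.l, h.1.m, b), h.1.l.ne_zero, h.1.m.ne_zero, h.2⟩, p4_ext rfl rfl fun x => (gm_app b x).trans (hb x).symm⟩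

def pk {α : Type} (t : α × α × α) (x : ZMod 3) : α := if x = 0 then t.1 else if x = 1 then t.2.1 else t.2.2

abbrev B3 : Type := Bool × Bool × Bool

def tab (T : B3 × B3 × B3) (w : F9) : Bool := pk (pk T w.re) w.im

theorem ex_tab (C : F9 → Prop) : ∃ T, ∀ w, C w ↔ tab T w = true := by
  classical
  refine ⟨((decide (C ⟨0, 0⟩), decide (C ⟨0, 1⟩), decide (C ⟨0, 2⟩)), (decide (C ⟨1, 0⟩), decide (C ⟨1, 1⟩), decide (C ⟨1, 2⟩)),
    (decide (C ⟨2, 0⟩), decide (C ⟨2, 1⟩), decide (C ⟨2, 2⟩))), fun ⟨a, b⟩ => ?_⟩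
  have k : ∀ x : ZMod 3, x = 0 ∨ x = 1 ∨ x = 2 := by decide
  rcases k a with rfl | rfl | rfl <;> rcases k b with rfl | rfl | rfl <;> exact decide_eq_true_iff.symm

def rf (a u : F9) : F9 := u + (u * star a + star u * a) * a

def Cl (c : F9 → Bool) : Prop := (∀ w, c w = true → ∀ w', c w' = true → nm (w - w') = 1 → c (-(w + w')) = true) ∧
  ∀ w, c w = true → ∀ w', c w' = true → nm (w - w') = -1 → nm w = nm w' ∧ ∀ u, c u = true → c (rf (w - w') u) = true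

instance (c : F9 → Bool) : Decidable (Cl c) := by unfold Cl; infer_instance
instance (s w : F9) : Decidable (Cs s w) := by unfold Cs; infer_instance

theorem cl {H : Subgroup (P4 F9)} {C : F9 → Prop} (h : CL3 H C) : ∃ T, (∀ w, C w ↔ tab T w = true) ∧ Cl (tab T) := by
  obtain ⟨T, hT⟩ := ex_tab C
  refine ⟨T, hT, ?_⟩
  simp only [Cl, ← hT]
  refine ⟨fun w hw w' hw' => h.c2 w w' hw hw', fun w hw w' hw' e => ?_⟩
  obtain ⟨e1, g, hg, e2⟩ := h.c3 w w' hw hw' e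
  exact ⟨e1, fun u hu => by rw [rf, ← e2]; exact h.c4 u g hg hu⟩

theorem key : ∀ T : B3 × B3 × B3, Cl (tab T) → ((∃ w, tab T w = true) → ∃ d,
    (∀ κ : F9, nm κ = 1 → ∀ b : Bool, (∀ u, tab T u = true → tab T (κ * sg b u) = true) → κ * sg b d = d) ∧
    ((∀ w, tab T (w + d) = true ↔ w = 0) ∨ (∃ s, s ≠ 0 ∧ ∀ w, tab T (w + d) = true ↔ Cs s w) ∨
      ∀ w, tab T (w + d) = true ↔ nm w ≠ -1)) ∧
    ∀ s, s ≠ 0 → (∀ w, Cs s w → tab T w = true) → (∀ w, tab T w = true → Cs s w) ∨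
      (nm s = 1 ∧ tab T 1 = true ∧ tab T i9 = true) := by
  decide +kernel

theorem memH (ca : CA3) {H : Subgroup (P4 F9)} {C : F9 → Prop} (h : CL3 H C) {r g : P4 F9} (hr : r ∈ H)
    (e : ∀ u, cact g u = cact r u) : g ∈ H :=
  (mul_mem_cancel_left (inv_mem hr)).1 (h.c0 _ fun u => by rw [ca.1, e, ← ca.1, inv_mul_cancel, ca.2.1])

def wd (l : List Bool) (u : F9) : F9 := l.foldr (fun b x => bif b then 1 * 1 * star x else rf (1 - i9) x) u

end CA3x

open CA3x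

theorem ca3 : CA3 := by
  refine ⟨fun h k w => ?_, fun w => ?_, fun h => ?_, fun κ hκ => ⟨ex false hκ, ex true hκ⟩, fun h e => ?_, card, fun h w => ?_⟩
  · simp only [cact, nm, Subgroup.coe_mul, par_mul_l, par_mul_m, par_mul_γ, map_mul, map_neg, map_pow, map_star', star_mul']
    linear_combination (-(h.1.γ (k.1.γ i9) * i9) * h.1.m * h.1.γ k.1.m * (h.1.l * h.1.γ k.1.l) ^ 3 * star (h.1.l : F9) *
      star (h.1.γ k.1.l) * h.1.γ (k.1.γ w)) * gsq h.1.γ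
  · change -(i9 * i9) * 1 * 1 ^ 2 * nm 1 * w = w
    revert w
    decide +kernel
  · obtain ⟨b, κ, hκ, e⟩ := nf h
    cases b
    · exact ⟨κ, hκ, .inl e⟩
    · exact ⟨κ, hκ, .inr e⟩
  · obtain ⟨b, hb⟩ := gam h.1.γ
    simp only [cact, hb] at e
    obtain ⟨rfl, u, hu, e1, e2⟩ := (by decide +kernel : ∀ (b : Bool) (l m : F9), m ≠ 0 → star m = m →
      (∀ w, -(sg b i9 * i9) * m * l ^ 2 * nm l * sg b w = w) → b = false ∧ ∃ u : F9, u ≠ 0 ∧ l = u ^ 2 ∧
        m * (u * star u) = 1) b _ _ h.1.m.ne_zero h.2 e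
    exact ⟨Units.mk0 u hu, p4_ext (e1.trans (h1_l (Units.mk0 u hu)).symm)
      ((eq_inv_of_mul_eq_one_left e2).trans (h1_m (Units.mk0 u hu)).symm) hb⟩
  · obtain ⟨ε, rfl | rfl, e⟩ := sgn h w
    · exact .inl fun v => by rw [e, one_mul, one_mul]
    · exact .inr fun v => by rw [e, neg_one_mul, neg_one_mul]; rfl

theorem c3c (_ : CA3) : C3C := by
  intro H C h ne
  obtain ⟨T, hT, c⟩ := cl h
  simp only [hT] at ne ⊢
  obtain ⟨d, k1, k2⟩ := (key T c).1 ne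
  refine ⟨d, fun g hg => ?_, k2⟩
  obtain ⟨b, κ, hκ, e⟩ := nf g
  rw [e]
  exact k1 κ hκ b fun u hu => (hT _).1 (e u ▸ h.c4 u g hg ((hT u).2 hu))

theorem c3d (ca : CA3) : C3D := by
  intro H C h
  refine ⟨fun s hs hC => ?_, fun hC => ⟨eq_top_iff.2 fun g _ => ?_, fun C' h' le w hw => (hC w).2 fun e => ?_⟩⟩
  · have pm : ∀ g ∈ H, Hpm s g := fun g hg => by
      obtain ⟨b, κ, hκ, e⟩ := nf g
      rw [Hpm, e]
      exact (by decide +kernel : ∀ s : F9, s ≠ 0 → ∀ κ : F9, nm κ = 1 → ∀ b : Bool,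
        (∀ u, Cs s u → Cs s (κ * sg b u)) → κ * sg b s = s ∨ κ * sg b s = -s) s hs κ hκ b
        fun u hu => (hC _).1 (e u ▸ h.c4 u g hg ((hC u).2 hu))
    have fx : ∀ g, Hfix s g → g ∈ H := fun g hg => by
      obtain ⟨b, κ, hκ, e⟩ := nf g
      rw [Hfix, e] at hg
      rcases (by decide +kernel : ∀ s : F9, s ≠ 0 → ∀ κ : F9, nm κ = 1 → ∀ b : Bool, κ * sg b s = s →
        (∀ u, κ * sg b u = u) ∨ (nm s = 1 ∧ Cs s 0 ∧ Cs s s ∧ ∀ u, κ * sg b u = s * s * star u) ∨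
          (Cs s (i9 * s) ∧ Cs s (-(i9 * s)) ∧ nm (i9 * s - -(i9 * s)) = -1 ∧
            ∀ u, κ * sg b u = rf (i9 * s - -(i9 * s)) u)) s hs κ hκ b hg with k | ⟨k1, k2, k3, k⟩ | ⟨k1, k2, k3, k⟩
      · exact h.c0 g fun u => (e u).trans (k u)
      · obtain ⟨r, hr, er⟩ := h.c5 s k1 ((hC _).2 k2) ((hC _).2 k3)
        exact memH ca h hr fun u => (e u).trans ((k u).trans (er u).symm)
      · obtain ⟨-, r, hr, er⟩ := h.c3 _ _ ((hC _).2 k1) ((hC _).2 k2) k3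
        exact memH ca h hr fun u => (e u).trans ((k u).trans (er u).symm)
    refine ⟨?_, fun C' h' le w hw => ?_⟩
    · by_cases n : ∃ r ∈ H, cact r s = -s
      · obtain ⟨r, hr, er⟩ := n
        refine .inr fun g => ⟨pm g, fun k => k.elim (fx g) fun k => (mul_mem_cancel_left (inv_mem hr)).1 (fx _ ?_)⟩
        rw [Hfix, ca.1, k, ← er, ← ca.1, inv_mul_cancel, ca.2.1]
      · exact .inl fun g => ⟨fun hg => (pm g hg).resolve_right fun e => n ⟨g, hg, e⟩, fx g⟩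
    · obtain ⟨T, hT, c⟩ := cl h'
      rcases (key T c).2 s hs fun w k => (hT w).1 (le w ((hC w).2 k)) with k | ⟨k1, k2, k3⟩
      · exact (hC w).2 (k w ((hT w).1 hw))
      · obtain ⟨-, r, hr, er⟩ := h'.c3 _ _ ((hT _).2 k2) ((hT _).2 k3) (by decide +kernel)
        have := pm r hr
        rw [Hpm, er] at this
        exact ((by decide +kernel : ∀ s : F9, nm s = 1 → ¬ (rf (1 - i9) s = s ∨ rf (1 - i9) s = -s)) s k1 this).elim
  · obtain ⟨r, hr, er⟩ := h.c5 1 (by decide +kernel) ((hC _).2 (by decide +kernel)) ((hC _).2 (by decide +kernel))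
    obtain ⟨-, r', hr', er'⟩ := h.c3 1 i9 ((hC _).2 (by decide +kernel)) ((hC _).2 (by decide +kernel)) (by decide +kernel)
    have ws : ∀ l, ∃ k ∈ H, ∀ u, cact k u = wd l u := fun l => by
      induction l with
      | nil => exact ⟨1, one_mem _, ca.2.1⟩
      | cons b l ih =>
        obtain ⟨k, hk, e⟩ := ih
        cases b
        · exact ⟨r' * k, mul_mem hr' hk, fun u => by rw [ca.1, er', e]; rfl⟩
        · exact ⟨r * k, mul_mem hr hk, fun u => by rw [ca.1, er, e]; rfl⟩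
    obtain ⟨b, κ, hκ, e⟩ := nf g
    obtain ⟨l, -, k⟩ := (by decide +kernel : ∀ κ : F9, nm κ = 1 → ∀ b : Bool, ∃ l ∈ [[], [true], [false], [true, false],
      [false, true], [true, false, true], [false, true, false], [true, false, true, false]], ∀ u, κ * sg b u = wd l u) κ hκ b
    obtain ⟨k', hk', e'⟩ := ws l
    exact memH ca h hk' fun u => (e u).trans ((k u).trans (e' u).symm)
  · have := (h'.c3 w 0 hw (le 0 ((hC 0).2 (by decide +kernel))) (by rwa [sub_zero])).1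
    rw [e] at this
    exact absurd this (by decide +kernel)

end CL.U4
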