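/-
Project U4 (S5210): the relations between the explicit elements of the Conway group.
-/
import Cfsg.Agent.U4.CO1a
import Cfsg.Agent.U4.CA3

set_option autoImplicit false
set_option maxRecDepth 100000

namespace CL.U4.CO1x

open Cfsg CL.Fus CL.U5 CL.Spor CL.Spor.Leech CL.U4.CA3x

/-- the generators -/
def gn : ℕ → U F9
  | 0 => xd 1 (star_one _)
  | 1 => xb 1
  | 2 => xb i9
  | 3 => xc 1 (star_one _)
  | 4 => xa 1
  | _ => xa i9

/-- the word of an element -/
def wo (x : U F9) : List ℕ := List.replicate x.d.re.val 0 ++ List.replicate x.b.re.val 1 ++ List.replicate x.b.im.val 2 ++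
  List.replicate x.c.re.val 3 ++ List.replicate x.a.re.val 4 ++ List.replicate x.a.im.val 5

def ix (w : F9) : ℕ := w.re.val + 3 * w.im.val
def f9 (n : ℕ) : F9 := ⟨((n % 3 : ℕ) : ZMod 3), ((n / 3 : ℕ) : ZMod 3)⟩
def mk3 (a b c : ℕ) : U F9 := ⟨f9 a, 0, f9 b, ⟨(c : ZMod 3), 0⟩, star_zero _,
  (by decide +kernel : ∀ c : ZMod 3, star (⟨c, 0⟩ : F9) = ⟨c, 0⟩) _⟩
def im (w : F9) (j : ℕ) : U F9 := mk3 ((ci (ix w)).getD (3 * j) 0) ((ci (ix w)).getD (3 * j + 1) 0) ((ci (ix w)).getD (3 * j + 2) 0)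
def rr (x : U F9) : U F9 := ⟨0, x.c, -star x.b, x.d, x.hc, x.hd⟩
def cjW (g : ℕ) (l l' : List ℕ) : Bool := eqW (l' ++ [g]) (g :: l)
def mv (g : ℕ) (w w' : F9) : Bool := run [g] (en (ix w)) (Nat.beq (en (ix w')))

theorem cjW_spec {g : ℕ} {l l' : List ℕ} (h : cjW g l l' = true) : ww l' = gg g * ww l * (gg g)⁻¹ := by
  have := eqW_spec h
  rw [ww_append, ww_one, ww_cons] at this
  exact eq_mul_inv_of_mul_eq this

def s9 : F9 := ⟨1, 1⟩
def hL : P4 F9 := mkP s9 1 false (by decide +kernel) one_ne_zero (star_one _)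
def hM : P4 F9 := mkP 1 (-1) false one_ne_zero (by decide +kernel) (by decide +kernel)
def hG : P4 F9 := mkP 1 1 true one_ne_zero one_ne_zero (star_one _)

theorem c_cube : allBelow (fun i => eqW (List.replicate 3 i) []) 6 = true := by decide +kernel
theorem c_comm : allBelow (fun i => allBelow (fun j => eqW [j, i] [i, j]) i) 4 = true := by decide +kernel
theorem c_rel : cjW 4 [0] [0, 1, 3] = true ∧ cjW 4 [1] [1, 3, 3] = true ∧ cjW 4 [2] [2] = true ∧ cjW 4 [3] [3] = true ∧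
    cjW 5 [0] [0, 2, 3] = true ∧ cjW 5 [1] [1] = true ∧ cjW 5 [2] [2, 3, 3] = true ∧ cjW 5 [3] [3] = true ∧
    eqW [4, 5] [5, 4] = true ∧ eqW [0, 4] [7] = true ∧ eqW [3] [] = false := by decide +kernel
theorem c_r1 : allBelow (fun j => cjW 6 (wo (gn j)) (wo (rr (gn j)))) 4 = true := by decide +kernel
theorem c_L : allBelow (fun j => cjW 8 (wo (gn j)) (wo (act hL (gn j)))) 6 = true := by decide +kernel
theorem c_M : allBelow (fun j => cjW 9 (wo (gn j)) (wo (act hM (gn j)))) 6 = true := by decide +kernel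
theorem c_G : allBelow (fun j => cjW 10 (wo (gn j)) (wo (act hG (gn j)))) 6 = true := by decide +kernel
theorem c_cell : ∀ w : F9, allBelow (fun j => cjW (11 + ix w) (wo (gn (j + 1))) (wo (im w j))) 5 = true := by decide +kernel
theorem c_J : ∀ w : F9, ∀ j < 5, pW (im w j) = Jc w (pW (gn (j + 1))) := by decide +kernel
theorem c_in : ∀ w : F9, inL (un (en (ix w))) = true := by decide +kernel
theorem c_fix : ∀ w : F9, allBelow (fun j => mv j w w) 7 = true := by decide +kernel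
theorem c_par : ∀ w : F9, mv 8 w (cact hL w) = true ∧ mv 9 w (cact hM w) = true ∧ mv 10 w (cact hG w) = true := by
  decide +kernel
theorem c_cf : ∀ w w' : F9, nm (w' - w) ≠ -1 → mv (11 + ix w) w' w' = true := by decide +kernel
theorem c_ip : ∀ w w' : F9, sumZ (fun i => un (en (ix w)) i * un (en (ix w')) i) 24 = ip w w' := by decide +kernel

/-- the projection onto the fixed space -/
def cM (t k : ℕ) : ℤ := 8 * ((4 * un (en 0) t + 2 * un (en 1) t + 2 * un (en 3) t + un (en 4) t) * un (en 0) k +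
  (2 * un (en 0) t + 4 * un (en 1) t + un (en 3) t + 2 * un (en 4) t) * un (en 1) k +
  (2 * un (en 0) t + un (en 1) t + 4 * un (en 3) t + 2 * un (en 4) t) * un (en 3) k +
  (un (en 0) t + 2 * un (en 1) t + 2 * un (en 3) t + 4 * un (en 4) t) * un (en 4) k)

theorem c_lam : allBelow (fun t => allBelow (fun k => decide (sumZ (fun r => Int.mul (lM t r) (ent (mc 7) r k)) 24 =
    8 * lM t k + cond (Nat.beq t k) 576 0 - cM t k)) 24) 24 = true := by decide +kernel

def sv (a b c d : ℤ) (t : ℕ) : ℤ := (4 * a + 2 * b + 2 * c + d) * un (en 0) t + (2 * a + 4 * b + c + 2 * d) * un (en 1) t +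
  (2 * a + b + 4 * c + 2 * d) * un (en 3) t + (a + 2 * b + 2 * c + 4 * d) * un (en 4) t
def qv (a b c d : ℤ) : ℤ := (4 * a + 2 * b + 2 * c + d) * a + (2 * a + 4 * b + c + 2 * d) * b +
  (2 * a + b + 4 * c + 2 * d) * c + (a + 2 * b + 2 * c + 4 * d) * d
def zz (a : Fin 9) : ℤ := Int.subNatNat a.val 4

theorem c_all : ∀ a b c d : Fin 9, qv (zz a) (zz b) (zz c) (zz d) = 36 →
    allBelow (fun t => decide (sv (zz a) (zz b) (zz c) (zz d) t % 9 = 0)) 24 = true → ∃ w : F9,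
      allBelow (fun t => decide (sv (zz a) (zz b) (zz c) (zz d) t = 9 * un (en (ix w)) t)) 24 = true ∨
      allBelow (fun t => decide (sv (zz a) (zz b) (zz c) (zz d) t = -9 * un (en (ix w)) t)) 24 = true := by decide +kernel

theorem c_nf : ∀ d : F9, star d = d → ∀ c : F9, star c = c → ∀ a b : F9,
    (gn 0 ^ d.re.val * gn 1 ^ b.re.val * gn 2 ^ b.im.val * gn 3 ^ c.re.val * gn 4 ^ a.re.val * gn 5 ^ a.im.val).a = a ∧
    (gn 0 ^ d.re.val * gn 1 ^ b.re.val * gn 2 ^ b.im.val * gn 3 ^ c.re.val * gn 4 ^ a.re.val * gn 5 ^ a.im.val).d = d ∧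
    (gn 0 ^ d.re.val * gn 1 ^ b.re.val * gn 2 ^ b.im.val * gn 3 ^ c.re.val * gn 4 ^ a.re.val * gn 5 ^ a.im.val).b = b ∧
    (gn 0 ^ d.re.val * gn 1 ^ b.re.val * gn 2 ^ b.im.val * gn 3 ^ c.re.val * gn 4 ^ a.re.val * gn 5 ^ a.im.val).c = c := by
  decide +kernel

end CL.U4.CO1x
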