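/-
Project U4 (S5210): the Sylow subgroup inside the Conway group.
-/
import Cfsg.Agent.U4.CO1b

set_option autoImplicit false
set_option maxRecDepth 100000

namespace CL.U4

open Cfsg CL.Fus CL.U5 CL.Spor CL.Spor.Leech CL.U4.CA3x Matrix
open scoped commutatorElement

namespace CO1x

theorem nfm (x : U F9) : gn 0 ^ x.d.re.val * gn 1 ^ x.b.re.val * gn 2 ^ x.b.im.val * gn 3 ^ x.c.re.val *
    gn 4 ^ x.a.re.val * gn 5 ^ x.a.im.val = x :=
  have h := c_nf x.d x.hd x.c x.hc x.a x.b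
  U.ext h.1 h.2.1 h.2.2.1 h.2.2.2

theorem gen_all (T : Submonoid (U F9)) (h : ∀ j < 6, gn j ∈ T) (x : U F9) : x ∈ T := by
  rw [← nfm x]
  exact mul_mem (mul_mem (mul_mem (mul_mem (mul_mem (pow_mem (h 0 (by omega)) _) (pow_mem (h 1 (by omega)) _))
    (pow_mem (h 2 (by omega)) _)) (pow_mem (h 3 (by omega)) _)) (pow_mem (h 4 (by omega)) _)) (pow_mem (h 5 (by omega)) _)

theorem gen_Q1 (T : Submonoid (U F9)) (h : ∀ j < 4, gn j ∈ T) {x : U F9} (hx : x ∈ Q1 F9) : x ∈ T := by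
  rw [← nfm x, mem_Q1.1 hx]
  exact mul_mem (mul_mem (mul_mem (mul_mem (mul_mem (pow_mem (h 0 (by omega)) _) (pow_mem (h 1 (by omega)) _))
    (pow_mem (h 2 (by omega)) _)) (pow_mem (h 3 (by omega)) _)) ((pow_zero (gn 4)).symm ▸ one_mem T))
    ((pow_zero (gn 5)).symm ▸ one_mem T)

theorem gen_Q2 (T : Submonoid (U F9)) (h : ∀ j < 5, gn (j + 1) ∈ T) {x : U F9} (hx : x ∈ Q2 F9) : x ∈ T := by
  rw [← nfm x, mem_Q2.1 hx]
  exact mul_mem (mul_mem (mul_mem (mul_mem (mul_mem ((pow_zero (gn 0)).symm ▸ one_mem T) (pow_mem (h 0 (by omega)) _))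
    (pow_mem (h 1 (by omega)) _)) (pow_mem (h 2 (by omega)) _)) (pow_mem (h 3 (by omega)) _)) (pow_mem (h 4 (by omega)) _)

theorem gen_P (T : Submonoid (P4 F9)) (h1 : hL ∈ T) (h2 : hM ∈ T) (h3 : hG ∈ T) (h : P4 F9) : h ∈ T := by
  have a : ∀ (k : ℕ) (hl : s9 ^ k ≠ 0), mkP (s9 ^ k) 1 false hl one_ne_zero (star_one _) ∈ T := by
    intro k
    induction k with
    | zero =>
      intro hl
      rw [show mkP (s9 ^ 0) 1 false hl one_ne_zero (star_one _) = 1 from p4_ext (pow_zero s9) rfl fun _ => rfl]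
      exact one_mem T
    | succ k ih =>
      intro hl
      have hk : s9 ^ k ≠ 0 := fun e => hl (by rw [pow_succ, e, zero_mul])
      rw [show mkP (s9 ^ (k + 1)) 1 false hl one_ne_zero (star_one _) =
        hL * mkP (s9 ^ k) 1 false hk one_ne_zero (star_one _) from
          p4_ext (pow_succ' s9 k) (mul_one (1 : F9)).symm fun _ => rfl]
      exact mul_mem h1 (ih hk)
  have a' : ∀ (l : F9) (hl : l ≠ 0), mkP l 1 false hl one_ne_zero (star_one _) ∈ T := fun l hl => by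
    obtain ⟨k, rfl⟩ := (by decide +kernel : ∀ l : F9, l ≠ 0 → ∃ k : Fin 8, l = s9 ^ k.val) l hl
    exact a _ hl
  have b : ∀ (m : F9) (hm : m ≠ 0) (e : star m = m), mkP 1 m false one_ne_zero hm e ∈ T := fun m hm e => by
    rcases (by decide +kernel : ∀ m : F9, m ≠ 0 → star m = m → m = 1 ∨ m = -1) m hm e with rfl | rfl
    · rw [show mkP 1 1 false one_ne_zero hm e = 1 from p4_ext rfl rfl fun _ => rfl]
      exact one_mem T
    · exact h2
  have c : ∀ t : Bool, mkP 1 1 t one_ne_zero one_ne_zero (star_one _) ∈ T := fun t => by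
    cases t
    · exact b 1 one_ne_zero (star_one _)
    · exact h3
  obtain ⟨t, ht⟩ := gam h.1.γ
  rw [show h = mkP h.1.l 1 false h.1.l.ne_zero one_ne_zero (star_one _) * (mkP 1 h.1.m false one_ne_zero h.1.m.ne_zero h.2 *
    mkP 1 1 t one_ne_zero one_ne_zero (star_one _)) from
      p4_ext (show (h.1.l : F9) = h.1.l * (1 * 1) by simp) (show (h.1.m : F9) = 1 * (h.1.m * 1) by simp)
        fun x => (ht x).trans (gm_app t x).symm]
  exact mul_mem (a' _ _) (mul_mem (b _ _ _) (c t))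

theorem rr_eq (x : Q1 F9) : (r1 F9 x : U F9) = rr x.1 := U.ext (r1 F9 x).2 (r1_d x) (r1_b x) (r1_c x)
theorem rr_one : rr 1 = 1 := U.ext rfl rfl (by simp [rr]) rfl
theorem rr_mul {a b : U F9} (ha : a ∈ Q1 F9) (_ : b ∈ Q1 F9) : rr (a * b) = rr a * rr b := by
  ext1 <;> simp [rr, mem_Q1.1 ha, add_comm]

theorem cube {i : ℕ} (h : i < 6) : gg i ^ 3 = 1 :=
  (ww_rep 3 i).symm.trans (eqW_spec ((allBelow_iff _ _).1 c_cube i h))

theorem cm2 {i j : ℕ} (h : eqW [i, j] [j, i] = true) : gg i * gg j = gg j * gg i := by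
  simpa only [ww_cons, ww_nil, mul_one] using eqW_spec h

theorem cm {i j : ℕ} (h : j < i) (k : i < 4) : gg j * gg i = gg i * gg j :=
  cm2 ((allBelow_iff _ _).1 ((allBelow_iff _ _).1 c_comm i k) j h)

theorem ex_iota (hom : HOM3) : ∃ ι : U F9 →* Co0, ∀ x, ι x = ww (wo x) := by
  have zi : (gg 3)⁻¹ = gg 3 * gg 3 := inv_eq_of_mul_eq_one_right (by rw [← cube (i := 3) (by omega), pow_three])
  obtain ⟨r1, r2, r3, r4, r5, r6, r7, r8, r9, -⟩ := c_rel
  obtain ⟨ι, h⟩ := hom Co0 (gg 0) (gg 1) (gg 2) (gg 3) (gg 4) (gg 5)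
    (by simp only [List.forall_mem_cons]; exact ⟨cube (by omega), cube (by omega), cube (by omega), cube (by omega),
      cube (by omega), cube (by omega), by simp⟩)
    (by
      simp only [List.forall_mem_cons, List.not_mem_nil, false_imp_iff, imp_true_iff, and_true, true_and]
      exact ⟨⟨cm (by omega) (by omega), cm (by omega) (by omega), cm (by omega) (by omega)⟩,
        ⟨(cm (by omega) (by omega)).symm, cm (by omega) (by omega), cm (by omega) (by omega)⟩,
        ⟨(cm (by omega) (by omega)).symm, (cm (by omega) (by omega)).symm, cm (by omega) (by omega)⟩,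
        (cm (by omega) (by omega)).symm, (cm (by omega) (by omega)).symm, (cm (by omega) (by omega)).symm⟩)
    (cm2 r9)
    (by simpa only [ww_cons, ww_nil, mul_one, mul_assoc] using (cjW_spec r1).symm)
    (by simpa only [ww_cons, ww_nil, mul_one, mul_assoc, zi] using (cjW_spec r2).symm)
    (by simpa only [ww_cons, ww_nil, mul_one, mul_assoc] using (cjW_spec r3).symm)
    (by simpa only [ww_one] using (cjW_spec r4).symm)
    (by simpa only [ww_cons, ww_nil, mul_one, mul_assoc] using (cjW_spec r5).symm)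
    (by simpa only [ww_cons, ww_nil, mul_one, mul_assoc] using (cjW_spec r6).symm)
    (by simpa only [ww_cons, ww_nil, mul_one, mul_assoc, zi] using (cjW_spec r7).symm)
    (by simpa only [ww_one] using (cjW_spec r8).symm)
  exact ⟨ι, fun x => by simp only [h, wo, ww_append, ww_rep]⟩

def ee (w : F9) : leechLattice := ⟨vecOf (un (en (ix w))), vecOf_mem (c_in w)⟩

theorem mv_spec {g : ℕ} {w w' : F9} (h : mv g w w' = true) : gg g • ee w = ee w' := smul_of_run rfl rfl h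

theorem wo_gn : ∀ j < 6, wo (gn j) = [j] := by decide +kernel

theorem g3_ne : gg 3 ≠ 1 := fun e => by
  have h := mv_spec (g := 3) (w := 0) (w' := 0) ((allBelow_iff _ _).1 (c_fix 0) 3 (by omega))
  have h1 := ofMat_smul (ent (mc 3)) 8 (by norm_num) (mc_ok 3) v0
  change (8 : ℤ) • ((gg 3 • v0 : leechLattice) : GolayPt → ℤ) = (matOf _).mulVec (vecOf (un p0)) at h1
  rw [e, one_smul, matOf_mulVec] at h1
  have h2 : 8 * un p0 (gIdx none) = mulN (ent (mc 3)) (un p0) (gIdx none) := congrFun h1 none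
  revert h2
  decide +kernel

section
variable {ι : U F9 →* Co0} (H : ∀ x, ι x = ww (wo x))
include H

theorem io_gn {j : ℕ} (h : j < 6) : ι (gn j) = gg j := by rw [H, wo_gn j h, ww_one]

theorem io_cj {g : ℕ} {x x' : U F9} (h : cjW g (wo x) (wo x') = true) : ι x' = gg g * ι x * (gg g)⁻¹ := by
  rw [H, H]; exact cjW_spec h

theorem io_inj : Function.Injective ι := by
  have s1 : ∀ x, ι x = 1 → x.a = 0 → x.d = 0 → x.b = 0 → x.c = 0 := fun x h ha hd hb => by
    rcases (by decide +kernel : ∀ m : F9, star m = m → m = 0 ∨ m = 1 ∨ m + m = 1) x.c x.hc with e | e | e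
    · exact e
    · have : x = gn 3 := U.ext ha hd hb e
      rw [this, io_gn H (by omega)] at h
      exact absurd h g3_ne
    · have : x * x = gn 3 := U.ext (by simp [ha]; rfl) (by simp [hd]; rfl) (by simp [ha, hb]; rfl)
        (show (x * x).c = 1 by simpa [ha] using e)
      exact absurd (by rw [← io_gn H (j := 3) (by omega), ← this, map_mul, h, one_mul]) g3_ne
  have cl : ∀ x y, ι x = 1 → ι ⁅x, y⁆ = 1 := fun x y h => by simp [map_commutatorElement, h]
  have cr : ∀ x y : U F9, ι y = 1 → ι ⁅x, y⁆ = 1 := fun x y h => by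
    rw [map_commutatorElement, h, commutatorElement_one_right]
  have s2 : ∀ x, ι x = 1 → x.a = 0 → x.d = 0 → x.b = 0 := fun x h ha hd => by
    have := s1 _ (cr (xa x.b) x h) (comm_a _ _) (comm_d _ _) (by simp [ha, hd])
    rw [comm_c] at this
    exact (by decide +kernel : ∀ b : F9, b * star b + star b * b = 0 → b = 0) _ (by simpa [xa, ha, hd] using this)
  rw [injective_iff_map_eq_one]
  intro x h
  have ha : x.a = 0 := by simpa [xd] using s2 _ (cl x (xd 1 (star_one _)) h) (comm_a _ _) (comm_d _ _)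
  have hd : x.d = 0 := by simpa [xa] using s2 _ (cr (xa 1) x h) (comm_a _ _) (comm_d _ _)
  exact eq_one_iff.2 ⟨ha, hd, s2 x h ha hd, s1 x h ha hd (s2 x h ha hd)⟩

theorem io_fix (x : U F9) (w : F9) : ι x • ee w = ee w :=
  gen_all ⟨⟨{x | ι x • ee w = ee w}, fun {a b} (h : ι a • ee w = ee w) (k : ι b • ee w = ee w) =>
    show ι (a * b) • ee w = ee w by rw [map_mul, mul_smul, k, h]⟩, show ι 1 • ee w = ee w by rw [map_one, one_smul]⟩
    (fun j hj => show ι (gn j) • ee w = ee w by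
      rw [io_gn H hj]; exact mv_spec ((allBelow_iff _ _).1 (c_fix w) j (by omega))) x

theorem io_act {g : ℕ} {h : P4 F9} (k : allBelow (fun j => cjW g (wo (gn j)) (wo (act h (gn j)))) 6 = true) (x : U F9) :
    ι (act h x) = gg g * ι x * (gg g)⁻¹ :=
  gen_all ⟨⟨{x | ι (act h x) = gg g * ι x * (gg g)⁻¹}, fun {a b} (e : ι (act h a) = _) (e' : ι (act h b) = _) =>
    show ι (act h (a * b)) = _ by rw [map_mul, map_mul, e, e', map_mul]; group⟩,
    show ι (act h 1) = _ by simp⟩ (fun j hj => io_cj H ((allBelow_iff _ _).1 k j hj)) x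

theorem io_par (h : P4 F9) : ∃ g, (∀ x, ι (act h x) = g * ι x * g⁻¹) ∧ ∀ w, g • ee w = ee (cact h w) :=
  gen_P ⟨⟨{h | ∃ g, (∀ x, ι (act h x) = g * ι x * g⁻¹) ∧ ∀ w, g • ee w = ee (cact h w)}, by
    rintro a b ⟨g, e1, e2⟩ ⟨g', e3, e4⟩
    exact ⟨g * g', fun x => by rw [map_mul, MulAut.mul_apply, e1, e3]; group,
      fun w => by rw [mul_smul, e4, e2, ca3.1]⟩⟩, ⟨1, fun x => by simp, fun w => by rw [one_smul, ca3.2.1]⟩⟩
    ⟨_, io_act H c_L, fun w => mv_spec (c_par w).1⟩ ⟨_, io_act H c_M, fun w => mv_spec (c_par w).2.1⟩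
    ⟨_, io_act H c_G, fun w => mv_spec (c_par w).2.2⟩ h

theorem io_rr (x : Q1 F9) : ι (rr x.1) = gg 6 * ι (x : U F9) * (gg 6)⁻¹ :=
  (gen_Q1 ⟨⟨{x | x ∈ Q1 F9 ∧ ι (rr x) = gg 6 * ι x * (gg 6)⁻¹}, by
    rintro a b ⟨ha, e⟩ ⟨hb, e'⟩
    refine ⟨mul_mem ha hb, ?_⟩
    rw [rr_mul ha hb, map_mul, e, e', map_mul]; group⟩, ⟨one_mem _, by rw [rr_one]; simp⟩⟩
    (fun j hj => ⟨(by decide +kernel : ∀ j < 4, (gn j).a = 0) j hj, io_cj H ((allBelow_iff _ _).1 c_r1 j hj)⟩) x.2).2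

theorem io_r1 (x : Q1 F9) : ι (r1 F9 x : U F9) = gg 6 * ι (x : U F9) * (gg 6)⁻¹ := by
  rw [rr_eq]; exact io_rr H x

theorem io_cell (w : F9) : JG ι (gg (11 + ix w)) w := fun x hx =>
  (gen_Q2 ⟨⟨{x | x ∈ Q2 F9 ∧ ∃ x' ∈ Q2 F9, ι x' = gg (11 + ix w) * ι x * (gg (11 + ix w))⁻¹ ∧ pW x' = Jc w (pW x)}, by
    rintro a b ⟨ha, a', ha', e1, e2⟩ ⟨hb, b', hb', e3, e4⟩
    refine ⟨mul_mem ha hb, a' * b', mul_mem ha' hb', by rw [map_mul, e1, e3, map_mul]; group, ?_⟩
    rw [pW_mul _ hb', pW_mul _ hb, e2, e4]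
    refine Prod.ext ?_ ?_ <;> simp only [Jc, Jf, Prod.fst_add, Prod.snd_add, star_add] <;> ring⟩,
    ⟨one_mem _, 1, one_mem _, by simp, by simp [pW, Jc, Jf]⟩⟩
    (fun j hj => ⟨(by decide +kernel : ∀ j < 5, (gn (j + 1)).d = 0) j hj, im w j, rfl,
      io_cj H ((allBelow_iff _ _).1 (c_cell w) j hj), c_J w j hj⟩) hx).2

end

theorem ee_ip (w w' : F9) : dotInt (ee w : GolayPt → ℤ) (ee w') = ip w w' :=
  (sum_gIdx_sumZ fun i => un (en (ix w)) i * un (en (ix w')) i).trans (c_ip w w')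

theorem small {y : leechLattice} (hy : sqNorm (y : GolayPt → ℤ) = 32) (w : F9) :
    ∃ a : Fin 9, dotInt (ee w : GolayPt → ℤ) y = 8 * zz a := by
  obtain ⟨k, hk⟩ := eight_dvd_dot (ee w).2 y.2
  have h0 : sqNorm (ee w : GolayPt → ℤ) = 32 := by rw [sqNorm_eq_dot, ee_ip, ip, if_pos rfl]
  have h1 := sqNorm_nonneg ((ee w : GolayPt → ℤ) + (y : GolayPt → ℤ))
  have h2 := sqNorm_nonneg ((ee w : GolayPt → ℤ) - (y : GolayPt → ℤ))
  rw [sqNorm_add] at h1
  rw [sqNorm_sub] at h2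
  refine ⟨⟨(k + 4).toNat, by omega⟩, ?_⟩
  rw [hk, zz, Int.subNatNat_eq_coe]
  simp only
  omega

theorem fixed {y : leechLattice} (hy : sqNorm (y : GolayPt → ℤ) = 32) (h : gg 7 • y = y) : ∃ w, y = ee w ∨ y = -ee w := by
  have hM := ofMat_smul (ent (mc 7)) 8 (by norm_num) (mc_ok 7) y
  change (8 : ℤ) • ((gg 7 • y : leechLattice) : GolayPt → ℤ) = _ at hM
  rw [h] at hM
  have h1 : matOf lM * matOf (ent (mc 7)) = (8 : ℤ) • matOf lM + (576 : ℤ) • (1 : Matrix GolayPt GolayPt ℤ) - matOf cM := by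
    ext p q
    have := (allBelow_iff _ _).1 ((allBelow_iff _ _).1 c_lam _ (gIdx_lt p)) _ (gIdx_lt q)
    rw [decide_eq_true_eq, ← sum_gIdx_sumZ, beq_gIdx] at this
    rw [Matrix.mul_apply, Matrix.sub_apply, Matrix.add_apply, Matrix.smul_apply, Matrix.smul_apply, Matrix.one_apply]
    refine Eq.trans this ?_
    by_cases e : p = q <;> simp [e, matOf]
  have h2 := congrArg (fun M => M *ᵥ (y : GolayPt → ℤ)) h1
  simp only [← mulVec_mulVec, ← hM, mulVec_smul, add_mulVec, sub_mulVec, smul_mulVec, one_mulVec] at h2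
  obtain ⟨a, ha⟩ := small hy 0
  obtain ⟨b, hb⟩ := small hy 1
  obtain ⟨c, hc⟩ := small hy i9
  obtain ⟨d, hd⟩ := small hy s9
  change dotInt (vecOf (un (en 0))) y = _ at ha
  change dotInt (vecOf (un (en 1))) y = _ at hb
  change dotInt (vecOf (un (en 3))) y = _ at hc
  change dotInt (vecOf (un (en 4))) y = _ at hd
  have h3 : ∀ p, sv (zz a) (zz b) (zz c) (zz d) (gIdx p) = 9 * (y : GolayPt → ℤ) p := fun p => by
    have e := congrFun h2 p
    have e' : (matOf cM *ᵥ (y : GolayPt → ℤ)) p = 8 * ((4 * un (en 0) (gIdx p) + 2 * un (en 1) (gIdx p) +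
        2 * un (en 3) (gIdx p) + un (en 4) (gIdx p)) * dotInt (vecOf (un (en 0))) y +
        (2 * un (en 0) (gIdx p) + 4 * un (en 1) (gIdx p) + un (en 3) (gIdx p) + 2 * un (en 4) (gIdx p)) *
          dotInt (vecOf (un (en 1))) y +
        (2 * un (en 0) (gIdx p) + un (en 1) (gIdx p) + 4 * un (en 3) (gIdx p) + 2 * un (en 4) (gIdx p)) *
          dotInt (vecOf (un (en 3))) y +
        (un (en 0) (gIdx p) + 2 * un (en 1) (gIdx p) + 2 * un (en 3) (gIdx p) + 4 * un (en 4) (gIdx p)) *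
          dotInt (vecOf (un (en 4))) y) := by
      simp only [dotInt, Finset.mul_sum, ← Finset.sum_add_distrib]
      change ∑ q, cM (gIdx p) (gIdx q) * (y : GolayPt → ℤ) q = _
      refine Finset.sum_congr rfl fun q _ => ?_
      simp only [cM, vecOf]; ring
    rw [Pi.sub_apply, Pi.add_apply, e', ha, hb, hc, hd] at e
    simp only [Pi.smul_apply, smul_eq_mul] at e
    rw [sv]
    linarith
  have h4 : qv (zz a) (zz b) (zz c) (zz d) = 36 := by
    have e : 9 * sqNorm (y : GolayPt → ℤ) = (4 * zz a + 2 * zz b + 2 * zz c + zz d) * dotInt (vecOf (un (en 0))) y +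
        (2 * zz a + 4 * zz b + zz c + 2 * zz d) * dotInt (vecOf (un (en 1))) y +
        (2 * zz a + zz b + 4 * zz c + 2 * zz d) * dotInt (vecOf (un (en 3))) y +
        (zz a + 2 * zz b + 2 * zz c + 4 * zz d) * dotInt (vecOf (un (en 4))) y := by
      simp only [sqNorm, dotInt, Finset.mul_sum, ← Finset.sum_add_distrib]
      exact Finset.sum_congr rfl fun q _ => by
        have := h3 q
        rw [sv] at this
        simp only [vecOf]
        linear_combination (-(y : GolayPt → ℤ) q) * this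
    rw [hy, ha, hb, hc, hd] at e
    rw [qv]
    linarith
  obtain ⟨w, k | k⟩ := c_all a b c d h4 ((allBelow_iff _ _).2 fun t ht => by
    have := h3 (gPt t)
    rw [gIdx_gPt ht] at this
    rw [this, decide_eq_true_eq]; omega)
  · refine ⟨w, .inl (Subtype.ext (funext fun p => ?_))⟩
    have := (allBelow_iff _ _).1 k _ (gIdx_lt p)
    rw [decide_eq_true_eq, h3] at this
    change _ = un (en (ix w)) (gIdx p)
    omega
  · refine ⟨w, .inr (Subtype.ext (funext fun p => ?_))⟩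
    have := (allBelow_iff _ _).1 k _ (gIdx_lt p)
    rw [decide_eq_true_eq, h3] at this
    change _ = -un (en (ix w)) (gIdx p)
    omega

end CO1x

open CO1x

theorem co1 (hom : HOM3) : CO1 := by
  obtain ⟨ι, H⟩ := ex_iota hom
  refine ⟨ι, ee, io_inj H, ee_ip, io_fix H, fun y hy h => fixed hy ?_, io_par H,
    ⟨_, io_r1 H, fun w => mv_spec ((allBelow_iff _ _).1 (c_fix w) 6 (by omega))⟩,
    fun w => ⟨_, io_cell H w, fun w' e => mv_spec (c_cf w w' e)⟩⟩
  have := eqW_spec c_rel.2.2.2.2.2.2.2.2.2.1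
  rw [ww_one, ww_cons, ww_one] at this
  rw [← this, mul_smul, ← io_gn H (j := 4) (by omega), h, ← io_gn H (j := 0) (by omega), h]

end CL.U4
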