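/-
Project U4: automorphisms of `U K` that keep `Q1` and `Q2`.
-/
import Cfsg.Agent.U4.Defs2
import Cfsg.Agent.Grp.SZConj
import Cfsg.Agent.Grp.Hall

set_option autoImplicit false
set_option linter.unusedSectionVars false

namespace CL.U4

open Cfsg CL.Fus
open CL.U5 (UF Par exists_trace exists_ne map_star' par_ext)
open scoped commutatorElement Pointwise

universe u

variable {K : Type u} [Field K] [StarRing K] [UF K]

namespace AUx

theorem alg (A : K → K) (add : ∀ x y, A (x + y) = A x + A y) (one : A 1 = 1)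
    (lin : ∀ t a, star t = t → A (t * a) = A t * A a) (nm : ∀ a, A a * star (A a) = A (a * star a)) :
    ∃ γ : K ≃+* K, ∀ a, A a = γ a := by
  have z : A 0 = 0 := by have := add 0 0; rw [add_zero] at this; linear_combination -this
  have st : ∀ a, A (star a) = star (A a) := fun a => by
    have h := nm (a + 1)
    rw [show (a + 1) * star (a + 1) = a * star a + (a + (star a + 1)) by simp; ring, add, add, add, add, one, ← nm,
      star_add, star_one] at h
    linear_combination -h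
  have sq : ∀ a, A (a * a) = A a * A a := fun a => by
    have h := lin (a + star a) a (by simp [add_comm])
    rw [show (a + star a) * a = a * a + a * star a by ring, add, add, ← nm, st] at h
    linear_combination h
  obtain ⟨w, hw⟩ := exists_ne K
  have h : w - star w ≠ 0 := sub_ne_zero.2 hw.symm
  have h' : star w - w ≠ 0 := sub_ne_zero.2 hw
  have dec : ∀ x : K, ∃ s t : K, star s = s ∧ star t = t ∧ x = s + t * w := fun x =>
    ⟨(w * star x - star w * x) / (w - star w), (x - star x) / (w - star w),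
      by simp only [star_div₀, star_sub, star_star, star_mul']; field_simp; ring,
      by simp only [star_div₀, star_sub, star_star]; field_simp; ring, by field_simp; ring⟩
  have m1 : ∀ x, A (x * w) = A x * A w := fun x => by
    obtain ⟨s, t, hs, ht, rfl⟩ := dec x
    rw [show (s + t * w) * w = s * w + t * (w * w) by ring, add, add, lin _ _ hs, lin _ _ ht, lin _ _ ht, sq]; ring
  have m2 : ∀ x y, A (x * y) = A x * A y := fun x y => by
    obtain ⟨s, t, hs, ht, rfl⟩ := dec y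
    rw [show x * (s + t * w) = s * x + t * (x * w) by ring, add, add, lin _ _ hs, lin _ _ ht, lin _ _ ht, m1]; ring
  let φ : K →+* K := { toFun := A, map_one' := one, map_mul' := m2, map_zero' := z, map_add' := add }
  exact ⟨RingEquiv.ofBijective φ (Finite.injective_iff_bijective.1 φ.injective), fun _ => rfl⟩

theorem cm (g h : U K) : ⁅g, h⁆ ∈ commutator (U K) :=
  Subgroup.commutator_mem_commutator (Subgroup.mem_top g) (Subgroup.mem_top h)

theorem Z_le : Z K ≤ commutator (U K) := fun g hg => by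
  obtain ⟨t, ht⟩ := exists_trace g.hc
  have : g = ⁅xa t, xb (1 : K)⁆ := by
    ext <;> simp [xa, xb, hg.1, hg.2.1, hg.2.2, ← ht]
  exact this ▸ cm _ _

theorem W_le : W K ≤ commutator (U K) := fun g hg => by
  have k : g * ⁅xa g.b, xd (1 : K) (star_one K)⁆⁻¹ ∈ Z K := by
    simp [mem_Z, xa, xd, (mem_W.1 hg).1, (mem_W.1 hg).2, -commutatorElement_inv]
  simpa only [inv_mul_cancel_right] using mul_mem (Z_le k) (cm (xa g.b) (xd (1 : K) (star_one K)))

theorem aut_W (α : MulAut (U K)) {x : U K} (hx : x ∈ W K) : α x ∈ W K := by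
  have h1 : commutator (U K) ≤ W K := Subgroup.commutator_le.2 fun g _ h _ => comm_mem_W g h
  exact h1 (Subgroup.characteristic_iff_le_comap.1 inferInstance α (W_le hx))

theorem mem_Z_of {x : U K} (h : ∀ g : U K, ⁅g, x⁆ = 1) : x ∈ Z K := by
  have e1 : x.a = 0 := by simpa [xd] using congrArg U.b (h (xd 1 (star_one K)))
  have e2 : x.d = 0 := by simpa [xa] using congrArg U.b (h (xa 1))
  refine ⟨e1, e2, by_contra fun hb => ?_⟩
  obtain ⟨y, hy⟩ := exists_trace (star_one K)
  have hb' : star x.b ≠ 0 := star_ne_zero.2 hb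
  have := congrArg U.c (h (xa (y / star x.b)))
  simp only [comm_c, xa, e1, e2, star_div₀, star_star, one_c] at this
  rw [div_mul_cancel₀ _ hb', div_mul_cancel₀ _ hb, hy] at this
  simp at this

theorem aut_Z (α : MulAut (U K)) {x : U K} (hx : x ∈ Z K) : α x ∈ Z K := mem_Z_of fun g => by
  rw [← α.apply_symm_apply g, ← map_commutatorElement, comm_Z _ hx, map_one]

theorem mem_Q1_iff {x : U K} : x ∈ Q1 K ↔ ∀ w ∈ W K, ⁅x, w⁆ = 1 := by
  refine ⟨fun h w hw => comm_Q1 h hw.1, fun h => by_contra fun ha => ?_⟩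
  have ha : x.a ≠ 0 := ha
  obtain ⟨y, hy⟩ := exists_trace (star_one K)
  have ha' : star x.a ≠ 0 := star_ne_zero.2 ha
  have := congrArg U.c (h (xb (y / star x.a)) ⟨rfl, rfl⟩)
  simp only [comm_c, xb, star_div₀, star_star, one_c] at this
  rw [mul_div_cancel₀ _ ha', mul_div_cancel₀ _ ha, add_comm (star y), hy] at this
  simp at this

theorem not_mem_Q2_iff {x : U K} : x ∉ Q2 K ↔ ∀ w ∈ W K, ∃ g : U K, ⁅g, x⁆⁻¹ * w ∈ Z K := by
  have key : ∀ w ∈ W K, ∀ g : U K, ⁅g, x⁆⁻¹ * w ∈ Z K ↔ w.b = g.a * x.d - x.a * g.d := fun w hw g => by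
    simp only [mem_Z, mul_a, mul_d, mul_b, inv_a, inv_d, inv_b, comm_a, comm_d, comm_b, (mem_W.1 hw).1, (mem_W.1 hw).2]
    exact ⟨fun h => by linear_combination h.2.2, fun h => ⟨by ring, by ring, by linear_combination h⟩⟩
  refine ⟨fun h w hw => ⟨xa (w.b / x.d), (key w hw _).2 ?_⟩, fun h hd => ?_⟩
  · have hd : x.d ≠ 0 := h
    simp [xa, hd]
  · have hd : x.d = 0 := hd
    obtain ⟨t, ht⟩ := exists_ne K
    obtain ⟨g, hg⟩ := h (xb 1) ⟨rfl, rfl⟩
    obtain ⟨g', hg'⟩ := h (xb (x.a * t)) ⟨rfl, rfl⟩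
    rw [key _ ⟨rfl, rfl⟩, hd] at hg hg'
    have e1 : (1 : K) = g.a * 0 - x.a * g.d := hg
    have e2 : x.a * t = g'.a * 0 - x.a * g'.d := hg'
    have ha : x.a ≠ 0 := fun h => by simp [h] at e1
    have : t = -g'.d := mul_left_cancel₀ ha (by linear_combination e2)
    exact ht (by simp [this])

theorem aut_Q1 (α : MulAut (U K)) {x : U K} (hx : x ∈ Q1 K) : α x ∈ Q1 K := mem_Q1_iff.2 fun w hw => by
  rw [← α.apply_symm_apply w, ← map_commutatorElement, mem_Q1_iff.1 hx _ (aut_W α.symm hw), map_one]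

theorem aut_Q2 (α : MulAut (U K)) {x : U K} (hx : x ∉ Q2 K) : α x ∉ Q2 K := not_mem_Q2_iff.2 fun w hw => by
  obtain ⟨g, hg⟩ := not_mem_Q2_iff.1 hx _ (aut_W α.symm hw)
  have := aut_Z α hg
  rw [map_mul, map_inv, map_commutatorElement, MulEquiv.apply_symm_apply] at this
  exact ⟨_, this⟩

/-- the automorphisms that are trivial modulo `W` -/
def C0 (K : Type u) [Field K] [StarRing K] : Subgroup (MulAut (U K)) where
  carrier := {α | ∀ x, (α x).a = x.a ∧ (α x).d = x.d}
  one_mem' := fun _ => ⟨rfl, rfl⟩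
  mul_mem' := fun {α β} h1 h2 x => ⟨(h1 _).1.trans (h2 x).1, (h1 _).2.trans (h2 x).2⟩
  inv_mem' := fun {α} h x => by
    have := h (α⁻¹ x)
    rw [MulAut.apply_inv_self] at this
    exact ⟨this.1.symm, this.2.symm⟩

theorem mem_C0 {α : MulAut (U K)} : α ∈ C0 K ↔ ∀ x, x⁻¹ * α x ∈ W K :=
  forall_congr' fun x => by
    simp only [mem_W, mul_a, mul_d, inv_a, inv_d, neg_add_eq_zero]
    exact ⟨fun h => ⟨h.1.symm, h.2.symm⟩, fun h => ⟨h.1.symm, h.2.symm⟩⟩

instance : (C0 K).Normal := ⟨fun α h β => mem_C0.2 fun x => by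
  have := aut_W β (mem_C0.1 h (β⁻¹ x))
  rwa [map_mul, map_inv, MulAut.apply_inv_self] at this⟩

theorem C0_pg (p : ℕ) [hp : Fact p.Prime] [CharP K p] : IsPGroup p (C0 K) := fun α => by
  refine ⟨(orderOf (α : MulAut (U K))).factorization p, Subtype.ext ?_⟩
  have h0 := (orderOf_pos (α : MulAut (U K))).ne'
  refine mulAut_eq_one_of_comm_comm_frattini (pg p) (C := ⊤) ?_ (fun _ _ => trivial) (fun _ => trivial)
    fun x _ => CL.Grp.commutator_le_frattini (pg p) (W_le (mem_C0.1 (Subtype.property _) x))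
  rw [Subgroup.coe_pow, orderOf_pow_of_dvd (pow_ne_zero _ hp.out.ne_zero) (Nat.ordProj_dvd _ _)]
  exact (Nat.coprime_ordCompl hp.out h0).symm

theorem conj_mem (s : U K) : MulAut.conj s ∈ C0 K := fun x => ⟨conj_a s x, conj_d s x⟩

theorem act_eq_one {h : P4 K} (k : act h ∈ C0 K) : h = 1 := by
  have e1 : ∀ s : K, h.1.l * h.1.γ s = s := fun s => (k (xa s)).1
  have e2 : h.1.m * h.1.γ 1 = 1 := (k (xd 1 (star_one K))).2
  have e3 : (h.1.l : K) = 1 := by simpa using e1 1
  exact p4_ext e3 (by simpa using e2) fun x => by simpa [e3] using e1 x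

end AUx

open AUx

theorem au1' (α : MulAut (U K)) (h1 : ∀ x, α x ∈ Q1 K ↔ x ∈ Q1 K) (h2 : ∀ x, α x ∈ Q2 K ↔ x ∈ Q2 K) :
    ∃ h : P4 K, ∀ x, (α x).a = (act h x).a ∧ (α x).d = (act h x).d := by
  have s1 : star (1 : K) = 1 := star_one K
  have a0 : ∀ x : U K, x.a = 0 → (α x).a = 0 := fun x h => (h1 x).2 h
  have d0 : ∀ x : U K, x.d = 0 → (α x).d = 0 := fun x h => (h2 x).2 h
  obtain ⟨A, hA0⟩ : ∃ A : K → K, ∀ a, (α (xa a)).a = A a := ⟨_, fun _ => rfl⟩
  have hA : ∀ x, (α x).a = A x.a := fun x => by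
    have := a0 ((xa x.a)⁻¹ * x) (by simp [xa])
    rw [map_mul, map_inv, mul_a, inv_a, hA0] at this
    linear_combination this
  have hD : ∀ x, (α x).d = (α (xd x.d x.hd)).d := fun x => by
    have := d0 ((xd x.d x.hd)⁻¹ * x) (by simp [xd])
    rw [map_mul, map_inv, mul_d, inv_d] at this
    linear_combination this
  have add : ∀ x y, A (x + y) = A x + A y := fun x y => by
    have := hA (xa x * xa y)
    rw [map_mul, mul_a, hA0, hA0] at this
    exact this.symm
  have inj : ∀ a, A a = 0 → a = 0 := fun a h => (h1 (xa a)).1 ((hA0 a).trans h)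
  have nf : ∀ a d : K, star d = d → star (a * star a * d) = a * star a * d := fun a d hd => by simp [hd, mul_comm]
  have e : ∀ a d hd, ⁅α (xa a), α (xd d hd)⁆ = α (xb (a * d)) * α (xc (a * star a * d) (nf a d hd)) := fun a d hd => by
    rw [← map_commutatorElement, ← map_mul]; congr 1
    ext <;> simp [xa, xd, xb, xc]
  have kb : ∀ a d hd, (α (xb (a * d))).b = A a * (α (xd d hd)).d := fun a d hd => by
    have := congrArg U.b (e a d hd)
    rw [comm_b, mul_b, a0 (xd d hd) rfl, a0 (xb _) rfl, (aut_Z α (x := xc _ _) ⟨rfl, rfl, rfl⟩).2.2, hA0] at this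
    linear_combination -this
  obtain ⟨m, hm⟩ : ∃ m, (α (xd 1 s1)).d = m := ⟨_, rfl⟩
  have m0 : m ≠ 0 := fun h => one_ne_zero ((h2 (xd 1 s1)).1 (hm.trans h))
  have ms : star m = m := hm ▸ U.star_d _
  have l0 : A 1 ≠ 0 := fun h => one_ne_zero (inj 1 h)
  have l0' : star (A 1) ≠ 0 := star_ne_zero.2 l0
  have kB : ∀ b, (α (xb b)).b = A b * m := fun b => by rw [← hm, ← kb, mul_one]
  obtain ⟨τ, hτ⟩ : ∃ τ : K → K, ∀ a, A a = A 1 * τ a := ⟨fun a => A a / A 1, fun a => by field_simp⟩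
  have kD : ∀ d hd, (α (xd d hd)).d = m * τ d := fun d hd => by
    have := kb 1 d hd
    rw [kB, one_mul, hτ d] at this
    exact mul_left_cancel₀ l0 (by linear_combination -this)
  have τs : ∀ t, star t = t → star (τ t) = τ t := fun t ht => by
    have := (α (xd t ht)).hd
    rw [kD, star_mul', ms] at this
    exact mul_left_cancel₀ m0 this
  have lin : ∀ t a, star t = t → A (t * a) = τ t * A a := fun t a ht => by
    have := kb a t ht
    rw [kB, kD, mul_comm a] at this
    exact mul_left_cancel₀ m0 (by linear_combination this)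
  have τ1 : τ 1 = 1 := mul_left_cancel₀ l0 (by rw [← hτ, mul_one])
  have τl : ∀ t a, star t = t → τ (t * a) = τ t * τ a := fun t a ht =>
    mul_left_cancel₀ l0 (by rw [← hτ, lin _ _ ht, hτ a]; ring)
  have τa : ∀ x y, τ (x + y) = τ x + τ y := fun x y => mul_left_cancel₀ l0 (by rw [← hτ, add, hτ x, hτ y]; ring)
  have τi : ∀ a, τ a = 0 → a = 0 := fun a h => inj a (by rw [hτ, h, mul_zero])
  have nm : ∀ a, τ a * star (τ a) = τ (a * star a) := by
    by_cases hF : ∀ t : K, star t = t → t = 0 ∨ t = 1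
    · intro a
      by_cases ha : a = 0
      · have : τ 0 = 0 := by have := τa 0 0; rw [add_zero] at this; linear_combination -this
        simp [ha, this]
      have n1 : ∀ x : K, x ≠ 0 → x * star x = 1 := fun x hx =>
        (hF _ (by simp [mul_comm])).resolve_left (mul_ne_zero hx (star_ne_zero.2 hx))
      rw [n1 a ha, τ1, n1 _ fun h => ha (τi a h)]
    push Not at hF
    obtain ⟨t, ht, t0, t1⟩ := hF
    obtain ⟨y, hy⟩ := exists_trace s1
    obtain ⟨κ, hκ⟩ : ∃ κ, κ = m * (A y * star (A 1) + star (A y) * A 1) := ⟨_, rfl⟩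
    have kC : ∀ c hc, (α (xc c hc)).c = κ * τ c := fun c hc => by
      have : xc c hc = ⁅xa (c * y), xb (1 : K)⁆ := by
        ext <;> simp [xa, xb, xc, hc]
        linear_combination (-c) * hy
      rw [this, map_commutatorElement, comm_c, a0 (xb 1) rfl, d0 (xb 1) rfl, hA0, kB, lin _ _ hc, hκ]
      simp only [star_mul', τs c hc, ms, star_zero]; ring
    have E : ∀ a d hd, (α (xb (a * d))).c = A a * star (α (xd d hd)).b + star (A a) * (α (xd d hd)).b +
        τ d * (A a * star (A a) * m - κ * τ (a * star a)) := fun a d hd => by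
      have := congrArg U.c (e a d hd)
      rw [comm_c, mul_c, a0 (xd d hd) rfl, a0 (xb _) rfl, hA0, kC, kD, τl _ d (by simp [mul_comm]), star_zero] at this
      linear_combination -this
    have ψ : ∀ a, A a * star (A a) * m = κ * τ (a * star a) := fun a => by
      have nt : ∀ a, τ (t * a * star (t * a)) = τ t * (τ t * τ (a * star a)) := fun a => by
        rw [← τl _ _ ht, ← τl _ _ ht, star_mul', ht]; congr 1; ring
      have R : ∀ a, (τ t * τ t - τ t) * (A a * star (A a) * m - κ * τ (a * star a)) =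
          A a * star (α (xd t ht)).b + star (A a) * (α (xd t ht)).b -
          τ t * (A a * star (α (xd 1 s1)).b + star (A a) * (α (xd 1 s1)).b) := fun a => by
        have k1 := E (t * a) 1 s1
        have k2 := E a t ht
        rw [mul_one, mul_comm t a, k2, mul_comm a t, nt, lin _ _ ht, τ1, star_mul', τs t ht] at k1
        linear_combination -k1
      have k1 := R a
      have k2 := R (t * a)
      rw [nt, lin _ _ ht, star_mul', τs t ht] at k2
      have u0 : τ t ≠ 0 := fun h => t0 (τi t h)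
      have u1 : τ t - 1 ≠ 0 := fun h => t1 (sub_eq_zero.1 (τi _ (by
        have := τa (t - 1) 1
        rw [sub_add_cancel, τ1] at this
        linear_combination h - this)))
      have : τ t * τ t * (τ t - 1) * (τ t - 1) * (A a * star (A a) * m - κ * τ (a * star a)) = 0 := by
        linear_combination k2 - τ t * k1
      exact sub_eq_zero.1 ((mul_eq_zero.1 this).resolve_left
        (mul_ne_zero (mul_ne_zero (mul_ne_zero u0 u0) u1) u1))
    intro a
    have k1 := ψ 1
    have k2 := ψ a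
    rw [s1, mul_one, τ1, mul_one] at k1
    rw [hτ a, star_mul', ← k1] at k2
    exact mul_left_cancel₀ (mul_ne_zero (mul_ne_zero l0 l0') m0) (by linear_combination k2)
  obtain ⟨γ, hγ⟩ := alg τ τa τ1 τl nm
  exact ⟨⟨⟨Units.mk0 _ l0, Units.mk0 _ m0, γ⟩, ms⟩, fun x =>
    ⟨(hA x).trans ((hτ _).trans (by rw [hγ]; rfl)), (hD x).trans ((kD _ _).trans (by rw [hγ]; rfl))⟩⟩

theorem au2' (p : ℕ) [hp : Fact p.Prime] [CharP K p] (A0 : Subgroup (MulAut (U K))) (inn : ∀ s, MulAut.conj s ∈ A0)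
    (hnd : ¬ p ∣ (MulAut.conj : U K →* MulAut (U K)).range.relIndex A0)
    (hq : ∀ α ∈ A0, (∀ x, α x ∈ Q1 K ↔ x ∈ Q1 K) ∧ ∀ x, α x ∈ Q2 K ↔ x ∈ Q2 K) :
    ∃ (β : MulAut (U K)) (H : Subgroup (P4 K)), ¬ p ∣ Nat.card H ∧ Std (A0.map (MulAut.conj β).toMonoidHom) H := by
  have hN : (MulAut.conj : U K →* MulAut (U K)).range.Normal := ⟨by
    rintro _ ⟨s, rfl⟩ β
    exact ⟨β s, MulEquiv.ext fun x => by simp⟩⟩
  have cop : ∀ {X : Subgroup (MulAut (U K))} {n : ℕ}, IsPGroup p X → ¬ p ∣ n → (Nat.card X).Coprime n :=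
    fun h hn => by
      obtain ⟨k, e⟩ := IsPGroup.iff_card.1 h
      exact e ▸ ((hp.out.coprime_iff_not_dvd).2 hn).pow_left k
  have pinn : IsPGroup p (MulAut.conj : U K →* MulAut (U K)).range :=
    (C0_pg p).to_le (by rintro _ ⟨s, rfl⟩; exact conj_mem s)
  obtain ⟨H, hA, h1, h2⟩ := CL.Grp.hall_exists_compl_in (L := A0) (by rintro _ ⟨s, rfl⟩; exact inn s) (cop pinn hnd)
  have hs : C0 K ⊔ H = C0 K ⊔ (act.range ⊓ (C0 K ⊔ H)) := by
    refine le_antisymm (sup_le le_sup_left fun α hα => ?_) (sup_le le_sup_left inf_le_right)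
    obtain ⟨k, hk⟩ := au1' α (hq α (hA hα)).1 (hq α (hA hα)).2
    have hc : α * (act k)⁻¹ ∈ C0 K := fun x => by
      have := hk ((act k)⁻¹ x)
      rwa [MulAut.apply_inv_self] at this
    rw [show α = α * (act k)⁻¹ * act k by simp]
    refine Subgroup.mul_mem_sup hc ⟨⟨k, rfl⟩, ?_⟩
    rw [show act k = (α * (act k)⁻¹)⁻¹ * α by simp]
    exact Subgroup.mul_mem_sup (inv_mem hc) hα
  have hbot : (act.range ⊓ (C0 K ⊔ H)) ⊓ C0 K = ⊥ := eq_bot_iff.2 (by
    rintro _ ⟨⟨⟨k, rfl⟩, -⟩, hk⟩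
    rw [act_eq_one hk, map_one]
    exact one_mem _)
  have hK : ¬ p ∣ Nat.card (act.range ⊓ (C0 K ⊔ H) : Subgroup (MulAut (U K))) := fun hd => by
    have e1 := CL.Grp.card_sup_mul_card_inf_of_normal (act.range ⊓ (C0 K ⊔ H)) (C0 K)
    have e2 := CL.Grp.card_sup_mul_card_inf_of_normal H (C0 K)
    rw [hbot, Subgroup.card_bot, mul_one, sup_comm, ← hs] at e1
    rw [sup_comm, e1] at e2
    exact hnd (h1 ▸ hd.trans (Nat.dvd_of_mul_dvd_mul_right Nat.card_pos ⟨_, e2.symm⟩))
  obtain ⟨β, -, e⟩ := CL.Grp.schurZassenhaus_conj_of_sup_eq (N := C0 K) (H := H) (K := act.range ⊓ (C0 K ⊔ H))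
    Subgroup.le_normalizer_of_normal (cop (C0_pg p) (h1 ▸ hnd)) (cop (C0_pg p) hK) hs
    (.inl (have := (C0_pg (K := K) p).isNilpotent; inferInstance))
  have inj : Function.Injective (act : P4 K →* MulAut (U K)) :=
    (injective_iff_map_eq_one _).2 fun k hk => act_eq_one (hk ▸ one_mem _)
  refine ⟨β, (act.range ⊓ (C0 K ⊔ H)).comap act, fun hd => hK (hd.trans (Subgroup.card_comap_dvd_of_injective _ _ inj)),
    fun α => ⟨?_, ?_⟩⟩
  · rintro ⟨a, ha, rfl⟩
    obtain ⟨_, ⟨s, rfl⟩, k, hk, rfl⟩ := (CL.Grp.mem_sup_iff_of_le_normalizer Subgroup.le_normalizer_of_normal).1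
      (((sup_comm _ _).trans h2).ge ha)
    have h3 : β * k * β⁻¹ ∈ act.range ⊓ (C0 K ⊔ H) := e.le (Subgroup.smul_mem_pointwise_smul _ _ _ hk)
    obtain ⟨r, hr⟩ := h3.1
    refine ⟨β s, r, show act r ∈ _ from hr ▸ h3, ?_⟩
    rw [hr]
    exact MulEquiv.ext fun x => by simp
  · rintro ⟨s, r, hr, rfl⟩
    obtain ⟨k, hk, e2⟩ := (Subgroup.mem_smul_pointwise_iff_exists _ _ _).1 (e.ge hr)
    refine ⟨MulAut.conj (β⁻¹ s) * k, mul_mem (inn _) (hA hk), ?_⟩
    rw [← e2]
    exact MulEquiv.ext fun x => by simp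

theorem ch : CH K := fun α =>
  ⟨fun x => ⟨fun h => by simpa using aut_Q1 α.symm h, aut_Q1 α⟩,
    fun x => ⟨fun h => by_contra fun k => aut_Q2 α k h, fun h => by_contra fun k => by
      have := aut_Q2 α.symm k
      rw [MulEquiv.symm_apply_apply] at this
      exact this h⟩⟩

theorem au1 : AU1 K := fun α => au1' α (ch α).1 (ch α).2

theorem au2 : AU2 K := fun p _ _ A0 inn hnd => au2' p A0 inn hnd fun α _ => ch α

end CL.U4
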