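/-
Project U4: the closure rules for the cells, `q = 3` (job U4-C3A).
-/
import Cfsg.Agent.U4.Defs2

set_option autoImplicit false

namespace CL.U4

open Cfsg CL.Fus CL.U5

namespace C3Ax

/-- `f` is the map of an element of `L` -/
def In (L : Subgroup (Au (V2 F9))) (f : V2 F9 → V2 F9) : Prop := ∃ g ∈ L, ∀ v, g v = f v

def tw (t : F9) (v : V2 F9) : V2 F9 := (v.1, v.2 + t * v.1)

theorem e2 : ∀ w w' : F9, nm (w - w') = 1 → ∀ v,
    tw 1 (-Jc w (tw 1 (Jc w' (tw (-1) (Jc w (tw (-1) v)))))) = Jc (-(w + w')) v := by decide +kernel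

theorem e3 : ∀ w w' : F9, nm (w - w') = -1 → ∀ v, -Jc w (Jc w' (Jc w v)) =
    ((w - w') * star v.1, (nm w - nm w') * i9 * v.1 + (w - w') * 1 * star v.2) := by decide +kernel

theorem e5 : ∀ s : F9, nm s = 1 → ∀ v, Jc s (Jc (-s) (Jc 0 v)) = (s * star v.1, 0 * v.1 + s * -1 * star v.2) := by
  decide +kernel

theorem f3 : ∀ d : F9, nm d = -1 → d ≠ 0 ∧ ∀ u, -(star i9 * i9) * 1 * d ^ 2 * nm d * star u =
    u + (u * star d + star u * d) * d := by decide +kernel

theorem f5 : ∀ s : F9, nm s = 1 → s ≠ 0 ∧ nm (0 - s) = 1 ∧ ∀ u, -(star i9 * i9) * -1 * s ^ 2 * nm s * star u =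
    s * s * star u := by decide +kernel

theorem f0 : ∀ c : F9, c * i9 = c * star i9 → c = 0 := by decide +kernel

theorem f1 : ∀ a b : F9, (a - b) * i9 = 0 → a = b := by decide +kernel

def ui : F9ˣ := ⟨i9, -i9, by decide +kernel, by decide +kernel⟩

theorem fi : ∀ v : V2 F9, (i9 ^ 2 * v.1, i9 ^ 2 * (i9 * star i9)⁻¹ * v.2) = -v := by
  have : (i9 * star i9)⁻¹ = 1 := by rw [show i9 * star i9 = 1 by decide +kernel, inv_one]
  rw [this]
  decide +kernel

variable {L : Subgroup (Au (V2 F9))} {H : Subgroup (P4 F9)} {f f' : V2 F9 → V2 F9}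

theorem In.comp (h : In L f) (h' : In L f') : In L fun v => f (f' v) := by
  obtain ⟨g, hg, e⟩ := h
  obtain ⟨g', hg', e'⟩ := h'
  exact ⟨g * g', mul_mem hg hg', fun v => by rw [au_mul, e', e]⟩

theorem In.congr (h : In L f) (e : ∀ v, f v = f' v) : In L f' := funext e ▸ h

theorem in_tw (h : H3 L H) {t : F9} (ht : star t = t) : In L (tw t) := ⟨Tw t, h.syl.1 ⟨t, ht, rfl⟩, fun _ => rfl⟩

theorem in_neg (h : H3 L H) : In L fun v => -v :=
  ⟨aW (h1 ui), h.mem _ (h.h1 _), fun v => by rw [aW_apply, h1_l, h1_m, h1_γ, h1_γ]; exact fi v⟩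

theorem anti (h : H3 L H) {l m c : F9} (l0 : l ≠ 0) (k : In L fun v => (l * star v.1, c * v.1 + l * m * star v.2)) :
    c = 0 ∧ ∃ h ∈ H, ∀ u, cact h u = -(star i9 * i9) * m * l ^ 2 * nm l * star u := by
  obtain ⟨g, hg, e⟩ := k
  obtain ⟨_, ⟨t, -, rfl⟩, p, hp, rfl⟩ := h.nrm g hg fun y => by rw [e]; simp
  have e1 : ∀ x y, p.1.l * p.1.γ x = l * star x ∧
      p.1.l * p.1.m * p.1.γ y + t * (p.1.l * p.1.γ x) = c * x + l * m * star y := fun x y => by
    have := e (x, y)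
    rwa [au_mul, aW_apply, Tw_apply, Prod.mk.injEq] at this
  have a1 : (p.1.l : F9) = l := by simpa using (e1 1 0).1
  have a2 : ∀ x, p.1.γ x = star x := fun x => mul_left_cancel₀ l0 (by rw [← (e1 x 0).1, a1])
  have a3 : (p.1.m : F9) = m := mul_left_cancel₀ l0 (by simpa [a1] using (e1 0 1).2)
  have a4 : t * l = c := by simpa [a1] using (e1 1 0).2
  have a5 : t * (l * star i9) = c * i9 := by simpa [a1, a2] using (e1 i9 0).2
  exact ⟨f0 c (by rw [← a5, ← a4, mul_assoc]), p, hp, fun u => by rw [cact, a1, a2, a2, a3]⟩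

theorem c2 (h : H3 L H) {w w' : F9} (a : JC L w) (b : JC L w') (n : nm (w - w') = 1) : JC L (-(w + w')) := by
  have t1 := in_tw h (star_one F9)
  have t2 := in_tw h (t := -1) (by simp)
  exact (t1.comp ((in_neg h).comp (In.comp a (t1.comp (In.comp b (t2.comp (In.comp a t2))))))).congr (e2 w w' n)

end C3Ax

open C3Ax in
theorem c3a (ca : CA3) : C3A := by
  intro L H h
  refine ⟨fun p hp => ?_, fun w w' a b n => c2 h a b n, fun w w' a b n => ?_, fun w p hp a => ?_, fun s n a b => ?_⟩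
  · obtain ⟨u, rfl⟩ := ca.2.2.2.2.1 p hp
    exact h.h1 u
  · obtain ⟨c0, p, hp, e⟩ := anti h (f3 _ n).1 (((in_neg h).comp (In.comp a (In.comp b a))).congr (e3 w w' n))
    exact ⟨f1 _ _ c0, p, hp, fun u => (e u).trans ((f3 _ n).2 u)⟩
  · have k : In L fun v => aW p (Jc w ((aW p)⁻¹ v)) :=
      In.comp ⟨aW p, h.mem p hp, fun _ => rfl⟩ (In.comp a ⟨(aW p)⁻¹, inv_mem (h.mem p hp), fun _ => rfl⟩)
    rcases ca.2.2.2.2.2.2 p w with e | e
    · exact k.congr fun v => by rw [e, au_apply_inv]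
    · exact ((in_neg h).comp k).congr fun v => by rw [e, au_apply_inv, neg_neg]
  · have c := c2 h a b (f5 s n).2.1
    rw [zero_add] at c
    obtain ⟨-, p, hp, e⟩ := anti h (f5 s n).1 ((In.comp b (In.comp c a)).congr (e5 s n))
    exact ⟨p, hp, fun u => (e u).trans ((f5 s n).2.2 u)⟩

end CL.U4
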