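/-
Project U4: the step `C3B` (generation of the automizer of `Q2 / Z` by the cells, `q = 3`).
-/
import Cfsg.Agent.U4.Defs2

set_option autoImplicit false

namespace CL.U4

open Cfsg CL.Fus CL.U5

universe u

namespace C3Bx

theorem fix3 : ∀ l : F9, star l = l → l = 0 ∨ l = 1 ∨ l = -1 := by decide +kernel
theorem three : (3 : F9) = 0 := by decide +kernel
theorem ii : i9 * i9 = -1 := by decide +kernel
theorem si : star i9 = -i9 := by decide +kernel

theorem lin9 (φ : F9 → F9) (add : ∀ x y, φ (x + y) = φ x + φ y) : ∃ a b : F9, ∀ x, φ x = a * x + b * star x := by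
  have z : φ 0 = 0 := by have := add 0 0; rwa [add_zero, left_eq_add] at this
  refine flin φ add fun l x hl => ?_
  rcases fix3 l hl with rfl | rfl | rfl
  · rw [zero_mul, zero_mul, z]
  · rw [one_mul, one_mul]
  · have := add (-1 * x) x
    rw [show -1 * x + x = 0 by ring, z] at this
    linear_combination -this

theorem cc : ∀ c1 c2 : F9, (∀ x x' : F9, -(x' * star (c1 * x + c2 * star x) + star x' * (c1 * x + c2 * star x)) =
    x * star (c1 * x' + c2 * star x') + star x * (c1 * x' + c2 * star x')) →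
    c2 = 0 ∧ ∃ c, star c = c ∧ c1 = c * i9 := by decide +kernel

theorem mx : ∀ p r : F9, (∀ x y : F9, (p * x + r * star x) * star y + star (p * x + r * star x) * y = 0) →
    p = 0 ∧ r = 0 := by decide +kernel

def G (a w b c : F9) (v : V2 F9) : V2 F9 :=
  (a * v.1 + w * star v.1 + b * i9 * v.2, c * i9 * v.1 + star a * v.2 + w * star v.2)

theorem fn : ∀ b : F9, star b = b → ∀ c : F9, star c = c → ∀ a w : F9, G a w b c (G a w b c (1, 0)) = -(1, 0) →
    G a w b c (G a w b c (i9, 0)) = -(i9, 0) → G a w b c (G a w b c (0, 1)) = -(0, 1) →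
    ∃ e, star e = e ∧ a = e * i9 ∧ e ^ 2 + b * c - nm w = 1 := by decide +kernel

/-- self-adjoint with square `-1` -/
def SA (J : Au (V2 F9)) : Prop := (∀ v, J (J v) = -v) ∧ ∀ u v, fm (J u) v = fm u (J v)

theorem form {J : Au (V2 F9)} (h : SA J) : ∃ e w b c : F9, star e = e ∧ star b = b ∧ star c = c ∧
    e ^ 2 + b * c - nm w = 1 ∧ ∀ v, J v = Jf e w b c v := by
  have s1 : ∀ x y : F9, J (x + y, 0) = J (x, 0) + J (y, 0) := fun x y => by rw [← map_add]; simp
  have s2 : ∀ x y : F9, J (0, x + y) = J (0, x) + J (0, y) := fun x y => by rw [← map_add]; simp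
  obtain ⟨a1, a2, ha⟩ := lin9 (fun x => (J (x, 0)).1) fun x y => by simp only [s1, Prod.fst_add]
  obtain ⟨c1, c2, hc⟩ := lin9 (fun x => (J (x, 0)).2) fun x y => by simp only [s1, Prod.snd_add]
  obtain ⟨b1, b2, hb⟩ := lin9 (fun x => (J (0, x)).1) fun x y => by simp only [s2, Prod.fst_add]
  obtain ⟨d1, d2, hd⟩ := lin9 (fun x => (J (0, x)).2) fun x y => by simp only [s2, Prod.snd_add]
  obtain ⟨rfl, c, sc, rfl⟩ := cc c1 c2 fun x x' => by
    have := h.2 (x, 0) (x', 0)
    simp only [fm, hc, star_zero, mul_zero, add_zero, zero_sub, sub_zero] at this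
    simpa only [mul_zero, add_zero] using this
  obtain ⟨rfl, b, sb, rfl⟩ := cc b1 b2 fun x x' => by
    have := h.2 (0, x) (0, x')
    simp only [fm, hb, star_zero, mul_zero, zero_mul, add_zero, zero_sub, sub_zero] at this
    linear_combination -this
  obtain ⟨e1, e2⟩ := mx (a1 - star d1) (a2 - d2) fun x y => by
    have := h.2 (x, 0) (0, y)
    simp only [fm, ha, hd, star_zero, mul_zero, zero_mul, add_zero, sub_zero, star_add, star_mul', star_star] at this
    simp only [star_add, star_mul', star_sub, star_star]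
    linear_combination this
  have e1' : d1 = star a1 := by rw [sub_eq_zero.1 e1, star_star]
  have e2' : d2 = a2 := (sub_eq_zero.1 e2).symm
  subst e1' e2'
  have hG : ∀ v, J v = G a1 d2 b c v := fun v => by
    rw [show v = (v.1, 0) + (0, v.2) by simp, map_add]
    refine Prod.ext ?_ ?_ <;> simp only [G, Prod.fst_add, Prod.snd_add, ha, hb, hc, hd, add_zero, zero_add] <;> ring
  have sq : ∀ v, G a1 d2 b c (G a1 d2 b c v) = -v := fun v => by rw [← hG, ← hG, h.1]
  obtain ⟨e, se, rfl, hq⟩ := fn b sb c sc a1 d2 (sq _) (sq _) (sq _)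
  refine ⟨e, d2, b, c, se, sb, sc, hq, fun v => (hG v).trans (Prod.ext rfl ?_)⟩
  simp only [G, Jf, star_mul', se, si]; ring

theorem SA.conj {J g : Au (V2 F9)} (h : SA J) (hg : Conf g) : SA (g * J * g⁻¹) := by
  obtain ⟨ζ, hζ, -⟩ := hg
  refine ⟨fun v => by simp only [au_mul, au_inv_apply, h.1, map_neg, au_apply_inv], fun u v => ?_⟩
  simp only [au_mul]
  conv_lhs => rw [← au_apply_inv g v, hζ, h.2]
  conv_rhs => rw [← au_apply_inv g u, hζ]

theorem Tw_inv (t : F9) : (Tw t)⁻¹ = Tw (-t) :=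
  (eq_inv_of_mul_eq_one_left (by rw [← Tw_add, neg_add_cancel, Tw_zero])).symm

theorem key {L : Subgroup (Au (V2 F9))} (hT : TF F9 ≤ L) {J : Au (V2 F9)} {e w c : F9} (he : star e = e)
    (hq : e ^ 2 + c - nm w = 1) (hJ : ∀ v, J v = Jf e w 1 c v) : J ∈ L ↔ JC L w := by
  have k : ∀ v, (Tw e * J * (Tw e)⁻¹) v = Jc w v := fun v => by
    rw [Tw_inv]
    simp only [au_mul, hJ, Tw_apply, Jc, Jf, star_add, star_mul', star_neg, he]
    refine Prod.ext ?_ ?_
    · simp only; ring
    · simp only; linear_combination (i9 * v.1) * hq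
  have m : Tw e ∈ L := hT ⟨e, he, rfl⟩
  refine ⟨fun h => ⟨_, mul_mem (mul_mem m h) (inv_mem m), k⟩, fun ⟨g, hg, e'⟩ => ?_⟩
  have : g = Tw e * J * (Tw e)⁻¹ := au_ext fun v => (e' v).trans (k v).symm
  have k2 := mul_mem (mul_mem (inv_mem m) hg) m
  rwa [this, show (Tw e)⁻¹ * (Tw e * J * (Tw e)⁻¹) * Tw e = J by group] at k2

def u0 : F9ˣ := ⟨1 + i9, i9 - 1, by decide +kernel, by decide +kernel⟩

theorem r_app (v : V2 F9) : aW (h1 u0) v = (-i9 * v.1, i9 * v.2) := by
  have e1 : ((u0 : F9)) ^ 2 = -i9 := by decide +kernel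
  have e2 : (u0 : F9) * star (u0 : F9) = -1 := by decide +kernel
  rw [aW_apply, h1_l, h1_m, h1_γ, h1_γ, e1, e2, inv_neg, inv_one]
  exact Prod.ext rfl (by simp only; ring)

theorem r_sa : SA (aW (h1 u0)) := by
  refine ⟨fun v => ?_, fun u v => ?_⟩
  · simp only [r_app]
    exact Prod.ext (by simp only [Prod.fst_neg]; linear_combination v.1 * ii)
      (by simp only [Prod.snd_neg]; linear_combination v.2 * ii)
  · simp only [r_app, fm, star_mul', star_neg, si]; ring

/-- the stabiliser of `{(0, y)}` -/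
def PWs : Subgroup (Au (V2 F9)) where
  carrier := {g | PW g}
  mul_mem' := fun {g h} hg hh c => by
    rw [au_mul, show h (0, c) = (0, (h (0, c)).2) from Prod.ext (hh c) rfl]; exact hg _
  one_mem' := fun _ => rfl
  inv_mem' := fun {g} hg c => inv_mem_of (g := g) (W := {v | v.1 = 0}) (fun v hv => by
    rw [show v = (0, v.2) from Prod.ext hv rfl]; exact hg _) rfl

theorem main {L L' : Subgroup (Au (V2 F9))} {H : Subgroup (P4 F9)} (h : H3 L H) (hT : TF F9 ≤ L')
    (hP : ∀ g ∈ L, PW g → g ∈ L') (hC : ∀ w, JC L w → JC L' w) : L ≤ L' := by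
  have : Fact (Nat.Prime 3) := ⟨Nat.prime_three⟩
  have rL : aW (h1 u0) ∈ L := h.mem _ (h.h1 u0)
  let M : Subgroup (Au (V2 F9)) := Subgroup.closure {J | J ∈ L ∧ SA J}
  have ML : M ≤ L := (Subgroup.closure_le _).2 fun J hJ => hJ.1
  have Mn : ∀ g ∈ L, ∀ m ∈ M, g * m * g⁻¹ ∈ M := fun g hg m hm => by
    induction hm using Subgroup.closure_induction with
    | mem J hJ => exact Subgroup.subset_closure ⟨mul_mem (mul_mem hg hJ.1) (inv_mem hg), hJ.2.conj (h.conf g hg)⟩
    | one => simp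
    | mul a b _ _ ha hb => simpa [mul_assoc] using mul_mem ha hb
    | inv a _ ha => simpa [mul_assoc] using inv_mem ha
  have rM : aW (h1 u0) ∈ M := Subgroup.subset_closure ⟨rL, r_sa⟩
  have TM : TF F9 ≤ M := by
    rintro _ ⟨t, ht, rfl⟩
    have k := mul_mem (Mn _ (h.syl.le ⟨-t, by simp [ht], rfl⟩) _ rM) (inv_mem rM)
    have e : Tw (-t) * aW (h1 u0) * (Tw (-t))⁻¹ = Tw t * aW (h1 u0) := au_ext fun v => by
      rw [Tw_inv]
      simp only [au_mul, r_app, Tw_apply]
      exact Prod.ext rfl (by simp only; linear_combination (t * i9 * v.1) * three)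
    rwa [e, mul_inv_cancel_right] at k
  have ng : ∀ v, (aW (h1 u0) * aW (h1 u0)) v = -v := r_sa.1
  have nL' : aW (h1 u0) * aW (h1 u0) ∈ L' := hP _ (mul_mem rL rL) fun c => by rw [ng]; simp
  have ML' : M ≤ L' := (Subgroup.closure_le _).2 fun J hJ => by
    obtain ⟨e, w, b, c, se, sb, -, hq, hf⟩ := form hJ.2
    rcases fix3 b sb with rfl | rfl | rfl
    · exact hP J hJ.1 fun y => by rw [hf]; simp [Jf]
    · rw [one_mul] at hq
      exact (key hT se hq hf).2 (hC _ ((key h.syl.le se hq hf).1 hJ.1))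
    · have hf' : ∀ v, (aW (h1 u0) * aW (h1 u0) * J) v = Jf (-e) (-w) 1 (-c) v := fun v => by
        rw [au_mul, ng, hf]
        exact Prod.ext (by simp only [Jf, Prod.fst_neg]; ring) (by simp only [Jf, Prod.snd_neg]; ring)
      have se' : star (-e) = -e := by rw [star_neg, se]
      have hq' : (-e) ^ 2 + -c - nm (-w) = 1 := by
        simp only [nm, star_neg] at hq ⊢; linear_combination hq
      have := (key hT se' hq' hf').2 (hC _ ((key h.syl.le se' hq' hf').1 (mul_mem (mul_mem rL rL) hJ.1)))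
      exact (mul_mem_cancel_left nL').1 this
  intro g hg
  obtain ⟨m, hm, e⟩ := (h.syl.mono TM ML).exists_conj_le (Z := (TF F9).map (MulAut.conj g).toMonoidHom)
    (h.syl.isPGroup.map _) (by rintro _ ⟨t, ht, rfl⟩; exact Mn g hg t (TM ht))
  obtain ⟨a, -, ea⟩ := e _ ⟨Tw 1, ⟨1, star_one _, rfl⟩, rfl⟩
  have ea' : Tw a * (m * g) = m * g * Tw 1 := by
    rw [ea]; simp only [MulEquiv.coe_toMonoidHom, MulAut.conj_apply]; group
  have a0 : a ≠ 0 := by
    rintro rfl
    rw [Tw_zero, one_mul, left_eq_mul] at ea'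
    have := congrArg (fun k : Au (V2 F9) => (k (1, 0)).2) ea'
    simp [Tw_apply] at this
  have pw : PW (m * g) := fun c => by
    have := congrArg (fun k : Au (V2 F9) => (k (0, c)).2) ea'
    simp only [au_mul (m * g), au_mul (Tw a), Tw_apply, mul_zero, add_zero, add_eq_left, mul_eq_zero] at this
    exact this.resolve_left a0
  exact (mul_mem_cancel_left (ML' hm)).1 (hP _ (mul_mem (ML hm) hg) pw)

end C3Bx

open C3Bx

set_option linter.unusedVariables false in
theorem c3b (l2a : L2A F9) : C3B := fun L H h =>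
  ⟨fun ⟨g, hg, ng⟩ => by
    by_contra hc
    exact ng (main (L' := PWs) h (by rintro _ ⟨t, -, rfl⟩ c; rfl) (fun _ _ k => k) (fun w hw => (hc ⟨w, hw⟩).elim) hg),
  fun L' hT hH hC => main h hT (fun g hg k => by
    obtain ⟨t, ht, x, hx, rfl⟩ := h.nrm g hg k
    exact mul_mem (hT ht) (hH x hx)) hC⟩

end CL.U4
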