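/-
Project U4: the counting lemma.
-/
import Cfsg.Agent.U4.Defs2

set_option autoImplicit false
set_option linter.unusedSectionVars false

namespace CL.U4

open Cfsg CL.Fus CL.U5 Finset

universe u

namespace CNTx

theorem arith (q k u b x n : ℕ) (hn : n = 1 + k * q ^ 2) (k1 : 1 ≤ k) (uq : u < q) (u0 : 0 < u)
    (h1 : b * (1 + k * q * u) = n * (q ^ 3 - q)) (h2 : u + n * (q - u) + b ≤ x) (h3 : u * x ≤ q ^ 4) :
    u = 1 ∧ k = 1 := by
  have q3 : q ≤ q ^ 3 := Nat.le_self_pow (by omega) q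
  have q0 : (0 : ℤ) < q := by exact_mod_cast (by omega : 0 < q)
  have uq' : (0 : ℤ) < (q : ℤ) - u := by omega
  have h4 : u * (u + n * (q - u) + b) * (1 + k * q * u) ≤ q ^ 4 * (1 + k * q * u) :=
    Nat.mul_le_mul_right _ ((Nat.mul_le_mul_left u h2).trans h3)
  zify [uq.le, q3] at h1 h4 hn
  have e : (q : ℤ) ^ 3 * (q - u) * ((k * u) ^ 2 - 1) =
      u * (u + n * (q - u) + b) * (1 + k * q * u) - q ^ 4 * (1 + k * q * u) := by
    have : (u : ℤ) * (u + n * (q - u) + b) * (1 + k * q * u) =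
        u * (u + n * (q - u)) * (1 + k * q * u) + u * (b * (1 + k * q * u)) := by ring
    rw [this, h1, hn]; ring
  have p : (0 : ℤ) < (q : ℤ) ^ 3 * (q - u) := mul_pos (pow_pos q0 3) uq'
  have h5 : ((k : ℤ) * u) ^ 2 - 1 ≤ 0 := by
    by_contra c
    have := mul_pos p (not_le.1 c)
    omega
  have h6 : (k * u) ^ 2 ≤ 1 := by
    have : ((k : ℤ) * u) ^ 2 ≤ 1 := by omega
    exact_mod_cast this
  have h7 : k * u ≤ 1 := by nlinarith
  have h8 : u ≤ k * u := Nat.le_mul_of_pos_left u k1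
  have h9 : k ≤ k * u := Nat.le_mul_of_pos_right k u0
  omega

end CNTx

theorem cnt : CNT.{u} := by
  intro α ι _ _ _ Zs Ws U0 X q k h hd hN k1 hw _ uq u0 hX
  set A := (univ : Finset ι).biUnion fun i => Zs i \ U0 with hA
  set B := (univ : Finset ι).biUnion fun i => Ws i \ Zs i with hB
  have mA : ∀ {w}, w ∈ A ↔ ∃ i, w ∈ Zs i ∧ w ∉ U0 := by
    intro w; simp only [hA, mem_biUnion, mem_univ, true_and, mem_sdiff]
  have mB : ∀ {w}, w ∈ B ↔ ∃ i, w ∈ Ws i ∧ w ∉ Zs i := by
    intro w; simp only [hB, mem_biUnion, mem_univ, true_and, mem_sdiff]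
  have cA : A.card = Fintype.card ι * (q - U0.card) := by
    rw [hA, card_biUnion]
    · rw [sum_congr rfl fun i _ => card_sdiff_of_subset (h i).1,
        sum_congr rfl fun i _ => by rw [(h i).2.2.2.1], sum_const, card_univ, smul_eq_mul]
    · intro i _ j _ ij
      refine disjoint_left.2 fun w hi hj => ?_
      rw [mem_sdiff] at hi hj
      exact hi.2 (hd i j ij (mem_inter.2 ⟨hi.1, (h j).2.1 hj.1⟩))
  have key : ∀ w ∈ B, ∀ j, w ∉ Zs j := by
    intro w hw' j hj
    obtain ⟨i, wi, zi⟩ := mB.1 hw'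
    by_cases ij : j = i
    · exact zi (ij ▸ hj)
    · exact zi ((h i).1 (hd j i ij (mem_inter.2 ⟨hj, wi⟩)))
  have cB : B.card * (1 + k * q * U0.card) = Fintype.card ι * (q ^ 3 - q) := by
    have e1 : ∑ w ∈ B, (univ.filter fun j => w ∈ Ws j).card = B.card * (1 + k * q * U0.card) := by
      rw [sum_congr rfl fun w hw' => by
        obtain ⟨i, wi, zi⟩ := mB.1 hw'
        exact hw i w wi zi, sum_const, smul_eq_mul]
    have e2 : ∑ w ∈ B, (univ.filter fun j => w ∈ Ws j).card = ∑ j, (B.filter fun w => w ∈ Ws j).card := by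
      simp only [card_filter]
      exact sum_comm
    have e3 : ∀ j, (B.filter fun w => w ∈ Ws j).card = q ^ 3 - q := by
      intro j
      have : (B.filter fun w => w ∈ Ws j) = Ws j \ Zs j := by
        ext w
        rw [mem_filter, mem_sdiff]
        exact ⟨fun c => ⟨c.2, key w c.1 j⟩, fun c => ⟨mB.2 ⟨j, c⟩, c.1⟩⟩
      rw [this, card_sdiff_of_subset (h j).2.1, (h j).2.2.2.1, (h j).2.2.2.2]
    rw [← e1, e2, sum_congr rfl fun j _ => e3 j, sum_const, card_univ, smul_eq_mul]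
  have ne : Nonempty ι := Fintype.card_pos_iff.1 (by omega)
  obtain ⟨i0⟩ := ne
  have d1 : Disjoint U0 A := disjoint_left.2 fun w a b => by
    obtain ⟨_, _, c⟩ := mA.1 b
    exact c a
  have d2 : Disjoint (U0 ∪ A) B := disjoint_left.2 fun w a b => by
    rcases mem_union.1 a with a | a
    · exact key w b i0 ((h i0).1 a)
    · obtain ⟨i, c, _⟩ := mA.1 a
      exact key w b i c
  have sub : U0 ∪ A ∪ B ⊆ X := by
    intro w hw'
    rcases mem_union.1 hw' with a | a
    · rcases mem_union.1 a with a | a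
      · exact (h i0).2.2.1 ((h i0).2.1 ((h i0).1 a))
      · obtain ⟨i, c, _⟩ := mA.1 a
        exact (h i).2.2.1 ((h i).2.1 c)
    · obtain ⟨i, c, _⟩ := mB.1 a
      exact (h i).2.2.1 c
  have le := card_le_card sub
  rw [card_union_of_disjoint d2, card_union_of_disjoint d1, cA] at le
  exact CNTx.arith q k U0.card B.card X.card _ hN k1 uq u0 cB le hX

end CL.U4
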