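/-
Project U4: a critical subgroup inside `Q2` is `Q2`.
-/
import Cfsg.Agent.U4.Defs2

set_option autoImplicit false
set_option linter.unusedSectionVars false

namespace CL.U4

open Cfsg CL.Fus CL.U5
open scoped commutatorElement

universe u

variable {K : Type u} [Field K] [StarRing K] [UF K]

namespace ESBx

theorem star_fm (u v : V2 K) : star (fm u v) = fm u v := by simp [fm]; ring
theorem fm_self (u : V2 K) : fm u u = 0 := by simp [fm]
theorem fm_swap (u v : V2 K) : fm u v = -fm v u := by simp [fm]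
theorem fm_zero (u : V2 K) : fm u 0 = 0 := by simp [fm]
theorem fm_add (u v w : V2 K) : fm u (v + w) = fm u v + fm u w := by simp [fm]; ring
theorem fm_neg (u v : V2 K) : fm u (-v) = -fm u v := by simp [fm]; ring
theorem fm_sub (u v w : V2 K) : fm u (v - w) = fm u v - fm u w := by simp [fm]; ring
theorem sub_fm (u v w : V2 K) : fm (u - v) w = fm u w - fm v w := by simp [fm]; ring
theorem fm_smul {l : K} (hl : star l = l) (u v : V2 K) : fm u (l • v) = l * fm u v := by simp [fm, hl]; ring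
theorem smul_fm {l : K} (hl : star l = l) (u v : V2 K) : fm (l • u) v = l * fm u v := by simp [fm, hl]; ring

theorem ex1 {u : V2 K} (hu : u ≠ 0) : ∃ a, fm u a = 1 := by
  obtain ⟨t, ht⟩ := exists_trace (K := K) (a := 1) (star_one K)
  by_cases h : u.1 = 0
  · have h2 : u.2 ≠ 0 := fun e => hu (Prod.ext h e)
    have h3 : star u.2 ≠ 0 := star_ne_zero.2 h2
    refine ⟨(-t / star u.2, 0), ?_⟩
    simp only [fm, h, star_div₀, star_neg, star_star, star_zero]
    field_simp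
    linear_combination ht
  · have h3 : star u.1 ≠ 0 := star_ne_zero.2 h
    refine ⟨(0, t / star u.1), ?_⟩
    simp only [fm, star_div₀, star_star, star_zero]
    field_simp
    linear_combination ht

theorem two {r w : V2 K} (hr : r ≠ 0) (hw : ∀ l : K, star l = l → w ≠ l • r) : ∃ a, fm r a = 0 ∧ fm w a = 1 := by
  obtain ⟨a0, h0⟩ := ex1 hr
  obtain ⟨a1, h1⟩ := ex1 (sub_ne_zero.2 (hw _ (star_fm w a0)))
  rw [sub_fm, smul_fm (star_fm _ _)] at h1
  refine ⟨a1 - fm r a1 • a0, ?_, ?_⟩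
  · rw [fm_sub, fm_smul (star_fm _ _), h0]; ring
  · rw [fm_sub, fm_smul (star_fm _ _)]; linear_combination h1

theorem card_V : Nat.card (V2 K) = UF.q K ^ 4 := by rw [Nat.card_prod, card_K]; ring

theorem four {r v e a : V2 K} (hr : r ≠ 0) (hv : ∀ l : K, star l = l → v ≠ l • r) (h1 : fm r v = 0) (h2 : fm r e = 0)
    (h3 : fm r a = 0) (h4 : fm v e = 0) (h5 : fm v a = 0) : fm e a = 0 := by
  by_contra k
  let F := {x : K // star x = x}
  let φ : F × F × F × F → V2 K := fun x => x.1.1 • r + x.2.1.1 • v + x.2.2.1.1 • e + x.2.2.2.1 • a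
  have hi : Function.Injective φ := by
    rintro ⟨l, m, n, o⟩ ⟨l', m', n', o'⟩ h
    simp only [φ] at h
    have e1 := congrArg (fm a) h
    have e2 := congrArg (fm e) h
    simp only [fm_add, fm_smul l.2, fm_smul m.2, fm_smul n.2, fm_smul o.2, fm_smul l'.2, fm_smul m'.2, fm_smul n'.2,
      fm_smul o'.2, fm_swap a r, fm_swap a v, fm_swap a e, fm_swap e r, fm_swap e v, h2, h3, h4, h5, fm_self] at e1 e2
    have hn : n = n' := Subtype.ext (mul_right_cancel₀ k (by linear_combination -e1))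
    have ho : o = o' := Subtype.ext (mul_right_cancel₀ k (by linear_combination e2))
    subst hn ho
    have h' := add_right_cancel (add_right_cancel h)
    have hm : m = m' := Subtype.ext (by
      by_contra c
      have c' : m.1 - m'.1 ≠ 0 := sub_ne_zero.2 c
      refine hv ((l'.1 - l.1) / (m.1 - m'.1)) (by rw [star_div₀, star_sub, star_sub, l.2, l'.2, m.2, m'.2]) ?_
      have : (m.1 - m'.1) • v = (l'.1 - l.1) • r := by rw [sub_smul, sub_smul]; linear_combination h'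
      rw [div_eq_inv_mul, mul_smul, ← this, inv_smul_smul₀ c'])
    subst hm
    have hl : l = l' := Subtype.ext (smul_left_injective K hr (add_right_cancel h'))
    rw [hl]
  have hs : Function.Surjective φ := (hi.bijective_of_nat_card_le (by
    rw [card_V, Nat.card_prod, Nat.card_prod, Nat.card_prod, card_fix]; exact le_of_eq (by ring))).2
  obtain ⟨a0, h0⟩ := ex1 hr
  obtain ⟨⟨l, m, n, o⟩, rfl⟩ := hs a0
  simp [φ, fm_add, fm_smul l.2, fm_smul m.2, fm_smul n.2, fm_smul o.2, h1, h2, h3, fm_self] at h0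

theorem perp {r : V2 K} (hr : r ≠ 0) : ∃ w, fm r w = 0 ∧ ∀ l : K, star l = l → w ≠ l • r := by
  by_contra c
  push Not at c
  obtain ⟨a0, h0⟩ := ex1 hr
  let F := {x : K // star x = x}
  have hs : Function.Surjective fun x : F × F => x.1.1 • r + x.2.1 • a0 := fun u => by
    obtain ⟨l, hl, e⟩ := c (u - fm r u • a0) (by rw [fm_sub, fm_smul (star_fm _ _), h0]; ring)
    exact ⟨(⟨l, hl⟩, ⟨_, star_fm r u⟩), by simp only [← e]; abel⟩
  have h := Nat.card_le_card_of_surjective _ hs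
  rw [card_V, Nat.card_prod, card_fix] at h
  have h2 := two_le_q (K := K)
  generalize UF.q K = q at h h2
  have : q * q * 4 ≤ q * q * (q * q) := Nat.mul_le_mul_left _ (Nat.mul_le_mul h2 h2)
  have : 0 < q * q := by positivity
  have : q ^ 4 = q * q * (q * q) := by ring
  omega

theorem pW_inv {g : U K} (k : g ∈ Q2 K) : pW g⁻¹ = -pW g := by simp [pW, mem_Q2.1 k]

theorem z_ext {g h : U K} (k : g ∈ Z K) (k' : h ∈ Z K) (e : g.c = h.c) : g = h :=
  U.ext (k.1.trans k'.1.symm) (k.2.1.trans k'.2.1.symm) (k.2.2.trans k'.2.2.symm) e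

theorem cq {g h : U K} (k : g ∈ Q2 K) (k' : h ∈ Q2 K) : ⁅g, h⁆ = 1 ↔ fm (pW g) (pW h) = 0 :=
  ⟨fun e => by rw [← comm_c_Q2 k k', e]; rfl, fun e => z_ext (comm_Q2 k k') (one_mem _) ((comm_c_Q2 k k').trans e)⟩

def H (r : V2 K) : Subgroup (U K) where
  carrier := {e | e ∈ Q2 K ∧ ∃ l : K, star l = l ∧ pW e = l • r}
  mul_mem' := by
    rintro g h ⟨g0, l, g1, g2⟩ ⟨h0, m, h1, h2⟩
    exact ⟨mul_mem g0 h0, l + m, by rw [star_add, g1, h1], by rw [pW_mul _ h0, g2, h2, add_smul]⟩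
  one_mem' := ⟨one_mem _, 0, star_zero K, by rw [zero_smul]; rfl⟩
  inv_mem' := by
    rintro g ⟨g0, l, g1, g2⟩
    exact ⟨inv_mem g0, -l, by rw [star_neg, g1], by rw [pW_inv g0, g2, neg_smul]⟩

def A (r : V2 K) : Subgroup (U K) where
  carrier := {x | x ∈ Q2 K ∧ fm r (pW x) = 0}
  mul_mem' := by
    rintro g h ⟨g0, g1⟩ ⟨h0, h1⟩
    exact ⟨mul_mem g0 h0, by rw [pW_mul _ h0, fm_add, g1, h1, add_zero]⟩
  one_mem' := ⟨one_mem _, fm_zero r⟩
  inv_mem' := by
    rintro g ⟨g0, g1⟩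
    exact ⟨inv_mem g0, by rw [pW_inv g0, fm_neg, g1, neg_zero]⟩

theorem Z_le_H (r : V2 K) : Z K ≤ H r := fun z hz =>
  ⟨hz.2.1, 0, star_zero K, by rw [zero_smul]; exact (pW_eq_zero hz.2.1).2 hz⟩

end ESBx

open ESBx

theorem esb (tv : TV.{u}) : ESB K := by
  intro E M B hc hE
  have sw : ∀ (x : U K) {e : U K}, e ∈ Z K → ⁅e, x⁆ = 1 := fun x e he => by
    rw [← commutatorElement_inv, comm_Z x he, inv_one]
  have hZ : Z K ≤ E := fun x hx => hc.cen x fun e _ => commutatorElement_eq_one_iff_commute.1 (sw e hx)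
  have key : Inv E M (Z K) → E = Q2 K := fun hi => le_antisymm hE fun x hx =>
    hc.mem1 hi (fun e he => comm_Q2 (hE he) hx) fun e he => sw x he
  have cen : ∀ x ∈ Q2 K, (∀ e ∈ E, fm (pW e) (pW x) = 0) → x ∈ E := fun x hx h => hc.cen x fun e he =>
    (commutatorElement_eq_one_iff_commute.1 ((cq (hE he) hx).2 (h e he))).symm
  by_cases ab : ∀ e ∈ E, ∀ e' ∈ E, fm (pW e) (pW e') = 0
  swap
  · push Not at ab
    obtain ⟨e, he, e', he', k⟩ := ab
    have : Z K = ⁅E, E⁆ := le_antisymm (fun z hz => ?_)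
      (Subgroup.commutator_le.2 fun g hg h hh => comm_Q2 (hE hg) (hE hh))
    · exact key (this ▸ hc.inv_comm hc.inv_top hc.inv_top)
    have hl : star (z.c / fm (pW e) (pW e')) = z.c / fm (pW e) (pW e') := by rw [star_div₀, star_fm, z.hc]
    obtain ⟨x, hx⟩ := exists_pW ((z.c / fm (pW e) (pW e')) • pW e)
    have hxE : x.1 ∈ E := hc.mem1 (hc.inv_cz hc.inv_top hc.inv_top) (fun g hg => ?_) fun r hr => ?_
    · rw [← z_ext (comm_Q2 x.2 (hE he')) hz (by rw [comm_c_Q2 x.2 (hE he'), hx, smul_fm hl, div_mul_cancel₀ _ k])]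
      exact Subgroup.commutator_mem_commutator hxE he'
    · have k := comm_Q2 (hE hg) x.2
      exact mem_cz.2 ⟨hZ k, fun y _ => commutatorElement_eq_one_iff_mul_comm.1 (comm_Z y k)⟩
    · rw [cq (hE hr.1) x.2, hx, fm_smul hl, (cq (hE hr.1) (hE he)).1
        (commutatorElement_eq_one_iff_mul_comm.2 ((mem_cz.1 hr).2 e he).symm), mul_zero]
  by_cases hI : E ≤ Z K
  · exact key (le_antisymm hI hZ ▸ hc.inv_top)
  exfalso
  obtain ⟨r0, hr0, hr0'⟩ := SetLike.not_le_iff_exists.1 hI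
  let I := {r : U K // r ∈ E ∧ r ∉ Z K}
  have nz : ∀ i : I, pW i.1 ≠ 0 := fun i e => i.2.2 ((pW_eq_zero (hE i.2.1)).1 e)
  have nH : ∀ {w : U K} {r : V2 K}, w ∈ E → w ∉ H r → ∀ l : K, star l = l → pW w ≠ l • r := fun hw h l hl e =>
    h ⟨hE hw, l, hl, e⟩
  obtain ⟨f, hf, nf⟩ := hc.out
  have T := tv (U K) E M B hc ⊥ E I (fun i => A (pW i.1)) (fun _ => Z K) (fun i => H (pW i.1)) hc.inv_bot
    (fun n hn x => by rw [Subgroup.mem_bot.1 hn, commutatorElement_one_left]) hc.inv_top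
    (fun v hv e he => Subgroup.mem_bot.2 ((cq (hE he) (hE hv)).2 (ab e he v hv)))
    (fun i => ⟨bot_le, hZ, Z_le_H _⟩) (fun i a ha e he => comm_Q2 (hE he) ha.1)
    (fun i a ha v _ ⟨h0, l, hl, e⟩ => Subgroup.mem_bot.2 ((cq h0 ha.1).2 (by rw [e, smul_fm hl, ha.2, mul_zero])))
    (fun i w hw hw' z hz => by
      obtain ⟨a, h1, h2⟩ := two (nz i) (nH hw hw')
      obtain ⟨x, hx⟩ := exists_pW (z.c • a)
      refine ⟨x, ⟨x.2, by rw [hx, fm_smul z.hc, h1, mul_zero]⟩, Subgroup.mem_bot.2 (inv_mul_eq_one.2 ?_)⟩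
      exact z_ext (comm_Q2 (hE hw) x.2) hz (by rw [comm_c_Q2 (hE hw) x.2, hx, fm_smul z.hc, h2, mul_one]))
    (fun i a ha na v hv h => by
      by_contra c
      exact na (cen a ha.1 fun e he => four (nz i) (nH hv c) (ab _ i.2.1 _ hv) (ab _ i.2.1 _ he) ha.2 (ab _ hv _ he)
        ((cq (hE hv) ha.1).1 (Subgroup.mem_bot.1 h))))
    (fun i => by
      by_cases c : E ≤ H (pW i.1)
      · obtain ⟨w, h1, h2⟩ := perp (nz i)
        obtain ⟨x, rfl⟩ := exists_pW w
        exact ⟨x, ⟨x.2, h1⟩, fun h => let ⟨_, l, hl, e⟩ := c h; h2 l hl e⟩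
      · obtain ⟨w, hw, hw'⟩ := SetLike.not_le_iff_exists.1 c
        obtain ⟨a, h1, h2⟩ := two (nz i) (nH hw hw')
        obtain ⟨x, rfl⟩ := exists_pW a
        exact ⟨x, ⟨x.2, h1⟩, fun h => one_ne_zero (h2.symm.trans (ab _ hw _ h))⟩)
    (fun _ _ => rfl) f hf nf
  have hz : xc (1 : K) (star_one K) ∈ Z K := ⟨rfl, rfl, rfl⟩
  have z1 : xc (1 : K) (star_one K) ∉ (⊥ : Subgroup (U K)) := fun e =>
    one_ne_zero (congrArg U.c (Subgroup.mem_bot.1 e))
  by_cases c : f (xc 1 (star_one K)) ∈ Z K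
  · exact z1 ((T ⟨r0, hr0, hr0'⟩ ⟨r0, hr0, hr0'⟩).1 _ hz (Z_le_H _ c))
  · have hm := hc.mem hf _ (hZ hz)
    exact z1 ((T ⟨r0, hr0, hr0'⟩ ⟨_, hm, c⟩).1 _ hz ⟨hE hm, 1, star_one K, (one_smul _ _).symm⟩)

end CL.U4
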