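/-
Project U4: the parts `ESC1` and `ESC2` (helper20).
-/
import Cfsg.Agent.U4.Defs2

set_option autoImplicit false
set_option linter.unusedSectionVars false

namespace CL.U4

open Cfsg CL.Fus CL.U5
open scoped commutatorElement

universe u

variable {K : Type u} [Field K] [StarRing K] [UF K]

namespace ESCx

/-- the trace form attached to `a0` -/
def tr (a0 : K) (g : U K) : K := a0 * star g.b + star a0 * g.b

/-- the corrected trace form -/
def uu (a0 : K) (g : U K) : K := tr a0 g - a0 * star a0 * g.d ^ 2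

/-- the hyperplane of `W` -/
def W0 (a0 : K) : Subgroup (U K) where
  carrier := {g | g.a = 0 ∧ g.d = 0 ∧ tr a0 g = 0}
  mul_mem' := by
    rintro g h ⟨g1, g2, g3⟩ ⟨h1, h2, h3⟩
    refine ⟨by simp [g1, h1], by simp [g2, h2], ?_⟩
    simp only [tr, mul_b, g1, zero_mul, add_zero, star_add] at g3 h3 ⊢
    linear_combination g3 + h3
  one_mem' := ⟨rfl, rfl, by simp [tr]⟩
  inv_mem' := by
    rintro g ⟨g1, g2, g3⟩
    refine ⟨by simp [g1], by simp [g2], ?_⟩
    simp only [tr, inv_b, g1, zero_mul, zero_sub, star_neg] at g3 ⊢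
    linear_combination -g3

theorem mem_W0 {a0 : K} {g : U K} : g ∈ W0 a0 ↔ g.a = 0 ∧ g.d = 0 ∧ tr a0 g = 0 := Iff.rfl

theorem Z_le_W0 (a0 : K) : Z K ≤ W0 a0 := fun _ h => ⟨h.1, h.2.1, by simp [tr, h.2.2]⟩

theorem comm_c' {a0 : K} {g h : U K} (hg : g.a = a0 * g.d) (hh : h.a = a0 * h.d) :
    ⁅g, h⁆.c = g.d * uu a0 h - h.d * uu a0 g := by
  simp only [comm_c, hg, hh, uu, tr, star_mul', U.star_d]
  ring

theorem comm_b' {a0 : K} {g h : U K} (hg : g.a = a0 * g.d) (hh : h.a = a0 * h.d) : ⁅g, h⁆.b = 0 := by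
  simp only [comm_b, hg, hh]
  ring

theorem onto {a t : K} (ha : a ≠ 0) (ht : star t = t) : ∃ b, a * star b + star a * b = t := by
  obtain ⟨x, hx⟩ := exists_trace ht
  have ha' : star a ≠ 0 := star_ne_zero.2 ha
  refine ⟨x / star a, ?_⟩
  rw [← hx, star_div₀, star_star]
  field_simp
  ring

theorem Z_le {E : Subgroup (U K)} {M B : (U K → U K) → Prop} (h : Crit E M B) : Z K ≤ E := fun _ hx =>
  h.cen _ fun e _ => (commutatorElement_eq_one_iff_commute.1 (comm_Z e hx)).symm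

end ESCx

open ESCx

theorem esc1 : ESC1 K := by
  intro E M B h n1 n2
  have hZ := Z_le h
  by_cases hR : cz E E ≤ Q1 K
  · exact .inl fun x hx => h.mem1 (h.inv_cz h.inv_top h.inv_top)
      (fun e _ => mem_cz.2 ⟨hZ (comm_mem_Z e hx), fun y _ =>
        commutatorElement_eq_one_iff_mul_comm.1 (comm_Z y (comm_mem_Z e hx))⟩)
      fun r hr => comm_Q1 (hR hr) hx.1
  obtain ⟨z, hz, za⟩ := SetLike.not_le_iff_exists.1 hR
  obtain ⟨y, hy, yd⟩ := SetLike.not_le_iff_exists.1 n2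
  have hc : ∀ e ∈ E, ⁅e, z⁆ = 1 := fun e he => commutatorElement_eq_one_iff_mul_comm.2 ((mem_cz.1 hz).2 e he)
  refine .inr ⟨z, (mem_cz.1 hz).1, za, fun zd => ?_, hc⟩
  have k := congrArg U.b (hc y hy)
  rw [comm_b, zd, mul_zero, zero_sub, one_b, neg_eq_zero] at k
  exact (mul_ne_zero za yd) k

theorem esc2 (tv : TV.{u}) : ESC2 K := by
  intro E M B h z hz za zd hc
  obtain ⟨a0, e0⟩ : ∃ a0, z.a = a0 * z.d := ⟨z.a / z.d, by field_simp⟩
  have a0n : a0 ≠ 0 := fun k => za (by rw [e0, k, zero_mul])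
  have P1 : ∀ e ∈ E, e.a = a0 * e.d ∧ z.d * uu a0 e = e.d * uu a0 z := fun e he => by
    have k := congrArg U.b (hc e he)
    rw [comm_b, one_b, e0] at k
    have k1 : e.a = a0 * e.d := mul_right_cancel₀ zd (by linear_combination k)
    have k2 := congrArg U.c (hc e he)
    rw [comm_c' k1 e0, one_c] at k2
    exact ⟨k1, by linear_combination -k2⟩
  have P2 : ∀ g g' : U K, g.a = a0 * g.d ∧ z.d * uu a0 g = g.d * uu a0 z →
      g'.a = a0 * g'.d ∧ z.d * uu a0 g' = g'.d * uu a0 z → ⁅g, g'⁆ = 1 := fun g g' k k' => by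
    refine eq_one_iff.2 ⟨comm_a _ _, comm_d _ _, comm_b' k.1 k'.1, ?_⟩
    rw [comm_c' k.1 k'.1]
    exact mul_left_cancel₀ zd (by linear_combination g.d * k'.2 - g'.d * k.2)
  have WE : W0 a0 ≤ E := fun g hg => h.cen g fun e he =>
    commutatorElement_eq_one_iff_commute.1 (P2 g e ⟨by rw [hg.1, hg.2.1, mul_zero],
      by rw [uu, hg.2.2, hg.2.1]; ring⟩ (P1 e he))
  have P3 : ∀ e ∈ E, e.d = 0 → e ∈ W0 a0 := fun e he k => by
    obtain ⟨k1, k2⟩ := P1 e he
    rw [k, zero_mul, uu, k] at k2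
    exact ⟨by rw [k1, k, mul_zero], k, by simpa [zd] using k2⟩
  have T := tv (U K) E M B h ⊥ E PUnit (fun _ => W K) (fun _ => Z K) (fun _ => W0 a0) h.inv_bot
    (fun n hn x => by rw [Subgroup.mem_bot.1 hn, commutatorElement_one_left]) h.inv_top
    (fun v hv e he => Subgroup.mem_bot.2 (P2 e v (P1 e he) (P1 v hv)))
    (fun _ => ⟨bot_le, Z_le h, Z_le_W0 a0⟩) (fun _ a ha e _ => comm_mem_Z e ha)
    (fun _ a ha v _ hv => Subgroup.mem_bot.2 (comm_Q1 hv.1 ha.1))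
    (fun _ w hw nw y hy => by
      have wd : w.d ≠ 0 := fun k => nw (P3 w hw k)
      have wa : w.a ≠ 0 := by rw [(P1 w hw).1]; exact mul_ne_zero a0n wd
      obtain ⟨b, hb⟩ := onto wa y.hc
      have k := comm_mem_Z w (h := xb b) ⟨rfl, rfl⟩
      refine ⟨xb b, ⟨rfl, rfl⟩, Subgroup.mem_bot.2 (inv_mul_eq_one.2 (U.ext (k.1.trans hy.1.symm)
        (k.2.1.trans hy.2.1.symm) (k.2.2.trans hy.2.2.symm) ?_))⟩
      rw [← hb]
      simp [xb])
    (fun _ a ha na v hv k => by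
      have k1 := congrArg U.c (Subgroup.mem_bot.1 k)
      have a1 : a.a = 0 := ha.1
      have a2 : a.d = 0 := ha.2
      rw [comm_c' (P1 v hv).1 (by rw [a1, a2, mul_zero]), one_c, a2, zero_mul, sub_zero, uu, a2] at k1
      refine P3 v hv ((mul_eq_zero.1 k1).resolve_right fun k2 => na (WE ⟨a1, a2, by simpa using k2⟩)))
    (fun _ => by
      obtain ⟨b, hb⟩ := onto a0n (star_one K)
      refine ⟨xb b, ⟨rfl, rfl⟩, fun k => ?_⟩
      have k1 : a0 * star b + star a0 * b = 0 := (P3 _ k rfl).2.2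
      exact one_ne_zero (hb.symm.trans k1))
    (fun _ _ => rfl)
  obtain ⟨f, g, hf, nf, hg, ng, e⟩ := h.exists_out
  have z1Z : xc (1 : K) (star_one K) ∈ Z K := ⟨rfl, rfl, rfl⟩
  have z1n : xc (1 : K) (star_one K) ∉ (⊥ : Subgroup (U K)) := fun k =>
    one_ne_zero (congrArg U.c (Subgroup.mem_bot.1 k) : (1 : K) = 0)
  generalize xc (1 : K) (star_one K) = z1 at z1Z z1n
  have z1E := Z_le h z1Z
  have e1E := h.mem hf _ z1E
  have ed : (f z1).d ≠ 0 := fun k => z1n ((T f hf nf ⟨⟩ ⟨⟩).1 z1 z1Z (P3 _ e1E k))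
  have ea : (f z1).a ≠ 0 := by rw [(P1 _ e1E).1]; exact mul_ne_zero a0n ed
  obtain ⟨s, s0, hs⟩ := exists_skew K
  have wW : xb (s * a0) ∈ W0 a0 := ⟨rfl, rfl, by simp only [tr, xb, star_mul', hs]; ring⟩
  obtain ⟨z', hz', k⟩ := (T g hg ng ⟨⟩ ⟨⟩).2 _ (inv_mem (h.mem hg _ (WE wW)))
  rw [inv_inv, ← h.mul hg _ (WE wW) _ (Z_le h hz')] at k
  have cW : xb (s * a0) * z' ∈ W0 a0 := mul_mem wW (Z_le_W0 a0 hz')
  have cb : (xb (s * a0) * z').b ≠ 0 := by
    rw [mul_b, hz'.2.1, hz'.2.2, mul_zero, add_zero, add_zero]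
    exact mul_ne_zero s0 a0n
  generalize xb (s * a0) * z' = c0 at k cW cb
  obtain ⟨a', ha'⟩ : ∃ a', c0.b = a' * (f z1).d := ⟨c0.b / (f z1).d, by field_simp⟩
  obtain ⟨b', hb'⟩ := onto (t := a' * star (f z1).b + star a' * (f z1).b + a' * star a' * (f z1).d - c0.c -
    ((f z1).a * star c0.b + star (f z1).a * c0.b)) ea (by simp; ring)
  have ta' : a0 * star a' + star a0 * a' = 0 := by
    have k1 := cW.2.2
    simp only [tr, ha', star_mul', U.star_d] at k1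
    exact mul_right_cancel₀ ed (by linear_combination k1)
  let n : U K := ⟨a', 0, b', 0, by simp, by simp⟩
  have hn : n * f z1 * n⁻¹ = f z1 * c0 := by
    refine U.ext ?_ ?_ ?_ ?_
    · rw [conj_a, mul_a, cW.1, add_zero]
    · rw [conj_d, mul_d, cW.2.1, add_zero]
    · rw [conj_b, mul_b, cW.2.1, ha']; simp [n]
    · rw [conj_c, mul_c, cW.2.1]
      simp only [n]
      linear_combination -hb'
  have hN : Nm E n := fun x _ => WE ⟨comm_a _ _, comm_d _ _, by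
    simp only [tr, comm_b, n, mul_zero, zero_sub, star_neg, star_mul', U.star_d]
    linear_combination -x.d * ta'⟩
  have nE : n ∉ E := fun k => cb (by
    have k1 : a' = a0 * 0 := (P1 n k).1
    rw [ha', k1, mul_zero, zero_mul])
  refine z1n ((T _ (h.comp hg (h.comp (h.conj hN) hf)) (h.far hf nf hg (fun y hy => (e y hy).1) hN nE) ⟨⟩ ⟨⟩).1
    z1 z1Z ?_)
  show g (n * f z1 * n⁻¹) ∈ W0 a0
  rw [hn, h.mul hg _ e1E _ (WE cW), (e z1 z1E).1]
  exact mul_mem (Z_le_W0 a0 z1Z) k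

end CL.U4
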