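/-
Project U4: essential subgroups containing `W` and not contained in `Q1` or `Q2`.
-/
import Cfsg.Agent.U4.Defs2

set_option autoImplicit false
set_option linter.unusedSectionVars false

namespace CL.U4

open Cfsg CL.Fus CL.U5
open scoped commutatorElement

universe u

variable {K : Type u} [Field K] [StarRing K] [UF K]

namespace ESDx

/-- a hyperplane of `W` -/
def W0 (a : K) : Subgroup (U K) where
  carrier := {g | g.a = 0 ∧ g.d = 0 ∧ a * star g.b + star a * g.b = 0}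
  mul_mem' := fun {g h} hg hh => ⟨by simp [hg.1, hh.1], by simp [hg.2.1, hh.2.1], by
    simp only [mul_b, hg.1, zero_mul, add_zero, star_add]; linear_combination hg.2.2 + hh.2.2⟩
  one_mem' := ⟨rfl, rfl, by simp⟩
  inv_mem' := fun {g} hg => ⟨by simp [hg.1], by simp [hg.2.1], by
    simp only [inv_b, hg.1, zero_mul, zero_sub, star_neg]; linear_combination -hg.2.2⟩

theorem mem_W0 {a : K} {g : U K} : g ∈ W0 a ↔ g.a = 0 ∧ g.d = 0 ∧ a * star g.b + star a * g.b = 0 := Iff.rfl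

instance (a : K) : (W0 a).Normal := ⟨fun g hg s => ⟨(conj_a s g).trans hg.1, (conj_d s g).trans hg.2.1, by
  rw [conj_b, hg.1, hg.2.1]; simpa using hg.2.2⟩⟩

theorem W0_le (a : K) : W0 a ≤ W K := fun _ h => ⟨h.1, h.2.1⟩
theorem le_W0 (a : K) : Z K ≤ W0 a := fun _ h => ⟨h.1, h.2.1, by simp [h.2.2]⟩

theorem comm_W0 {a t : K} (ht : star t = t) {x w : U K} (hx : x.a = t * a) (hw : w ∈ W0 a) : ⁅x, w⁆ = 1 := by
  refine eq_one_iff.2 ⟨comm_a _ _, comm_d _ _, by simp [hw.1, hw.2.1], ?_⟩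
  simp only [comm_c, hw.1, hw.2.1, hx, star_mul', ht, star_zero]
  linear_combination t * hw.2.2

theorem one_symm {x y : U K} (h : ⁅x, y⁆ = 1) : ⁅y, x⁆ = 1 := by rw [← commutatorElement_inv, h, inv_one]

theorem xb_mem (b : K) : xb b ∈ W K := ⟨rfl, rfl⟩

theorem exists_xb {g : U K} (hg : g.a ≠ 0) {z : U K} (hz : z ∈ Z K) : ∃ b, ⁅g, xb b⁆ = z := by
  obtain ⟨t, ht⟩ := exists_trace z.hc
  refine ⟨star (t / g.a), U.ext ((comm_a _ _).trans hz.1.symm) ((comm_d _ _).trans hz.2.1.symm)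
    (by simp [xb, hz.2.2]) ?_⟩
  have h' : star g.a ≠ 0 := star_ne_zero.2 hg
  simp only [comm_c, xb, star_star, star_div₀, star_zero, ← ht]
  field_simp
  ring

theorem a_zero {r : U K} (h : ∀ b : K, ⁅r, xb b⁆ = 1) : r.a = 0 := by
  by_contra hr
  obtain ⟨b, hb⟩ := exists_xb hr (z := xc 1 (by simp)) ⟨rfl, rfl, rfl⟩
  have := congrArg U.c ((h b).symm.trans hb)
  simp [xc] at this

variable {E : Subgroup (U K)} {M B : (U K → U K) → Prop}

theorem lemA (h : Crit E M B) {g : U K} (hg : g ∈ E) (ha : g.a ≠ 0) {X : Subgroup (U K)} (hX : Inv E M X)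
    (h1 : W K ≤ X) (h2 : ∀ e ∈ E, ∀ x ∈ X, ⁅e, x⁆ ∈ Z K) : Inv E M (Z K) := by
  have e : ⁅E, X⁆ = Z K := le_antisymm (Subgroup.commutator_le.2 h2) fun z hz => by
    obtain ⟨b, rfl⟩ := exists_xb ha hz
    exact Subgroup.commutator_mem_commutator hg (h1 (xb_mem b))
  exact e ▸ h.inv_comm h.inv_top hX

theorem lemB (h : Crit E M B) (hZ : Inv E M (Z K)) (hW : Inv E M (W K)) : False :=
  h.ne (eq_top_iff.2 fun x _ => h.mem2 hW hZ (fun e _ => comm_mem_W e x) (fun _ he => comm_symm (comm_mem_Z x he))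
    fun _ he => one_symm (comm_Z x he))

theorem line {g k y : U K} (hg : g ∈ E) (ha : g.a ≠ 0) (hk : k ∈ E) (hd : k.d ≠ 0) (hy : y ∉ W K)
    (h : ∀ e ∈ E, ⁅e, y⁆.b = 0) : ∃ a1, a1 ≠ 0 ∧ ∀ e ∈ E, e.a = a1 * e.d := by
  have h1 := h g hg
  have h2 := h k hk
  rw [comm_b] at h1 h2
  have yd : y.d ≠ 0 := fun e => hy ⟨by
    rw [e, mul_zero, zero_sub, neg_eq_zero] at h2
    exact (mul_eq_zero.1 h2).resolve_right hd, e⟩
  have ya : y.a ≠ 0 := fun e => by
    rw [e, zero_mul, sub_zero] at h1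
    exact mul_ne_zero ha yd h1
  refine ⟨y.a / y.d, div_ne_zero ya yd, fun e he => ?_⟩
  have h3 := h e he
  rw [comm_b] at h3
  field_simp
  linear_combination h3

theorem cz_a (hW : W K ≤ E) {r : U K} (hr : r ∈ cz E E) : r.a = 0 :=
  a_zero fun b => commutatorElement_eq_one_iff_mul_comm.2 (hr.2 _ (hW (xb_mem b))).symm

theorem W0_cz (hW : W K ≤ E) {a : K} (hE : ∀ e ∈ E, ∃ t, star t = t ∧ e.a = t * a) : W0 a ≤ cz E E := fun w hw =>
  mem_cz.2 ⟨hW (W0_le a hw), fun x hx => by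
    obtain ⟨t, ht, e⟩ := hE x hx
    exact commutatorElement_eq_one_iff_mul_comm.1 (comm_W0 ht e hw)⟩

theorem tr_b {a : K} {e y : U K} (he : e ∈ X0 a) (hy : y ∈ X0 a) :
    ∃ τ, ⁅e, y⁆.b = τ * a ∧ a * star ⁅e, y⁆.b + star a * ⁅e, y⁆.b = 2 * (a * star a * τ) := by
  obtain ⟨t, ht, e1⟩ := he
  obtain ⟨t', ht', e2⟩ := hy
  refine ⟨t * y.d - t' * e.d, by rw [comm_b, e1, e2]; ring, ?_⟩
  simp only [comm_b, e1, e2, star_sub, star_mul', ht, ht', U.star_d]
  ring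

end ESDx

open ESDx

theorem esd1 : ESD1 K := by
  intro E M B h hW n1 n2 hZ
  obtain ⟨g, hg, ha⟩ := SetLike.not_le_iff_exists.1 n1
  obtain ⟨k, hk, hd⟩ := SetLike.not_le_iff_exists.1 n2
  have hY := h.inv_czm h.inv_top h.inv_top hZ
  have hWY : W K ≤ czm E E (Z K) := fun w hw => mem_czm.2 ⟨hW hw, fun x _ => comm_mem_Z x hw⟩
  by_cases c : czm E E (Z K) ≤ W K
  · exact lemB h hZ (le_antisymm c hWY ▸ hY)
  obtain ⟨y, hy, hy'⟩ := SetLike.not_le_iff_exists.1 c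
  obtain ⟨a1, h1, hl⟩ := line hg ha hk hd hy' fun e he => ((mem_czm.1 hy).2 e he).2.2
  obtain ⟨s, hs, ss⟩ := exists_skew K
  have hR := h.inv_cz h.inv_top h.inv_top
  have h0 : W0 a1 ≤ cz E E := W0_cz hW fun e he => ⟨e.d, e.hd, by rw [hl e he, mul_comm]⟩
  have hx : xa (s * a1) ∈ E := h.mem2 hR hZ (fun e _ => h0 ⟨comm_a _ _, comm_d _ _, by
      simp only [comm_b, xa, star_sub, star_mul', ss, U.star_d, star_zero]; ring⟩)
    (fun r hr => comm_symm (comm_mem_Z _ ⟨cz_a hW hr, by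
      have := hl r hr.1
      rw [cz_a hW hr] at this
      exact (mul_eq_zero.1 this.symm).resolve_left h1⟩))
    fun _ he => one_symm (comm_Z _ he)
  have := hl _ hx
  simp only [xa, mul_zero] at this
  exact mul_ne_zero hs h1 this

theorem esd2 : ESD2 K := by
  intro E M B h hW n1 n2 hZ
  obtain ⟨g, hg, ha⟩ := SetLike.not_le_iff_exists.1 n1
  obtain ⟨k, hk, hd⟩ := SetLike.not_le_iff_exists.1 n2
  replace ha : g.a ≠ 0 := ha
  have hR := h.inv_cz h.inv_top h.inv_top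
  have cm : ∀ r ∈ cz E E, ∀ e ∈ E, ⁅e, r⁆ = 1 := fun r hr e he =>
    commutatorElement_eq_one_iff_mul_comm.2 (hr.2 e he)
  have rd : ∀ r ∈ cz E E, r.d = 0 := fun r hr => by
    have := congrArg U.b (cm r hr g hg)
    rw [comm_b, cz_a hW hr, zero_mul, sub_zero] at this
    exact (mul_eq_zero.1 this).resolve_left ha
  have rc : ∀ r ∈ cz E E, ∀ e ∈ E, e.a * star r.b + star e.a * r.b = 0 := fun r hr e he => by
    simpa [cz_a hW hr, rd r hr] using congrArg U.c (cm r hr e he)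
  have hZR : Z K ≤ cz E E := fun z hz => mem_cz.2 ⟨hW (Z_le_W hz), fun x _ =>
    commutatorElement_eq_one_iff_mul_comm.1 (comm_Z x hz)⟩
  obtain ⟨r, hr, hr'⟩ := SetLike.not_le_iff_exists.1 fun c : cz E E ≤ Z K => hZ (le_antisymm c hZR ▸ hR)
  have rb : r.b ≠ 0 := fun e => hr' ⟨cz_a hW hr, rd r hr, e⟩
  have hX : E ≤ X0 g.a := fun e he => ⟨e.a / g.a, by
    rw [star_div₀, div_eq_div_iff (star_ne_zero.2 ha) ha]
    refine mul_right_cancel₀ rb ?_
    linear_combination g.a * rc r hr e he - e.a * rc r hr g hg, by field_simp⟩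
  have e0 : cz E E = W0 g.a := le_antisymm (fun r hr => ⟨cz_a hW hr, rd r hr, rc r hr g hg⟩)
    (W0_cz hW fun e he => hX he)
  rw [e0] at hR
  have two : (2 : K) = 0 := by
    by_contra two
    have hY := h.inv_czm h.inv_top h.inv_top hR
    have hWY : W K ≤ czm E E (W0 g.a) := fun w hw => mem_czm.2 ⟨hW hw, fun x _ => le_W0 _ (comm_mem_Z x hw)⟩
    by_cases c : czm E E (W0 g.a) ≤ W K
    · exact hZ (lemA h hg ha (le_antisymm c hWY ▸ hY) le_rfl fun e _ x hx => comm_mem_Z e hx)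
    obtain ⟨y, hy, hy'⟩ := SetLike.not_le_iff_exists.1 c
    obtain ⟨a1, -, hl⟩ := line hg ha hk hd hy' fun e he => by
      obtain ⟨τ, e1, e2⟩ := tr_b (hX he) (hX (mem_czm.1 hy).1)
      rw [((mem_czm.1 hy).2 e he).2.2] at e2
      rw [e1, (mul_eq_zero.1 ((mul_eq_zero.1 e2.symm).resolve_left two)).resolve_left
        (mul_ne_zero ha (star_ne_zero.2 ha)), zero_mul]
    exact hZ (lemA h hg ha h.inv_top hW fun e he x hx => ⟨comm_a _ _, comm_d _ _, by
      rw [comm_b, hl e he, hl x hx]; ring⟩)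
  refine ⟨two, g.a, ha, le_antisymm hX fun x hx => h.mem1 hR (fun e he => ?_) fun e he => ?_⟩
  · obtain ⟨τ, -, e2⟩ := tr_b (hX he) hx
    exact ⟨comm_a _ _, comm_d _ _, by rw [e2, two, zero_mul]⟩
  · obtain ⟨t, ht, e1⟩ := hx
    exact one_symm (comm_W0 ht e1 he)

end CL.U4
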