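/-
Project U4: the centre is invariant under the automizer of `X0 a0` when `q > 2` is even.
-/
import Cfsg.Agent.U4.Defs2

set_option autoImplicit false

namespace CL.U4

open Cfsg CL.Fus CL.U5
open scoped commutatorElement

universe u

variable {K : Type u} [Field K] [StarRing K] [UF K]

namespace ESD3x

/-- every central element of `E` is a commutator with `e` -/
def PP (E : Subgroup (U K)) (e : U K) : Prop := ∀ w ∈ cz E E, ∃ e' ∈ E, ⁅e, e'⁆ = w

theorem xa_mem (a0 : K) {t : K} (ht : star t = t) : xa (t * a0) ∈ X0 a0 := ⟨t, ht, rfl⟩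

theorem pp_of {a0 : K} (h0 : a0 ≠ 0) (h2 : (2 : K) = 0) {e : U K} (he : e ∈ X0 a0) (hq : e ∉ Q1 K) :
    PP (X0 a0) e := fun w hw => by
  obtain ⟨t, ht, ea⟩ := he
  have e0 : e.a ≠ 0 := hq
  have k1 := commutatorElement_eq_one_iff_mul_comm.2 (hw.2 (xd 1 (star_one K)) (Q1_le_X0 a0 rfl))
  have k2 := commutatorElement_eq_one_iff_mul_comm.2 (hw.2 (xa (1 * a0)) (xa_mem a0 (star_one K)))
  have wa : w.a = 0 := by simpa [xd] using (eq_one_iff.1 k1).2.2.1
  have wd : w.d = 0 := by simpa [xa, h0] using (eq_one_iff.1 k2).2.2.1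
  have wb : a0 * star w.b + star a0 * w.b = 0 := by simpa [xa, wa, wd] using (eq_one_iff.1 k2).2.2.2
  have s0 : star e.a ≠ 0 := star_ne_zero.2 e0
  have hd : star (w.b / e.a) = w.b / e.a := by
    rw [star_div₀, div_eq_div_iff s0 e0, ea, star_mul', ht]
    linear_combination t * wb - (t * star a0 * w.b) * h2
  obtain ⟨x, hx⟩ := exists_trace (a := w.c - e.a * star e.a * (w.b / e.a)) (by
    rw [star_sub, star_mul', star_mul', star_star, hd, w.hc]; ring)
  refine ⟨⟨0, w.b / e.a, star (x / e.a), 0, hd, star_zero K⟩, Q1_le_X0 a0 rfl, U.ext ?_ ?_ ?_ ?_⟩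
  · rw [comm_a, wa]
  · rw [comm_d, wd]
  · rw [comm_b, zero_mul, sub_zero, mul_div_cancel₀ _ e0]
  · simp only [comm_c, star_star, star_div₀, star_zero, zero_mul, add_zero, sub_zero]
    rw [mul_div_cancel₀ _ e0, mul_div_cancel₀ _ s0, hx]
    ring

theorem not_pp {a0 : K} (h0 : a0 ≠ 0) (h2 : (2 : K) = 0) {e : U K} (hq : e ∈ Q1 K) : ¬ PP (X0 a0) e := fun h => by
  have ea : e.a = 0 := hq
  by_cases hd : e.d = 0
  · obtain ⟨e', -, k⟩ := h (xb a0) ⟨Q1_le_X0 a0 rfl, fun x ⟨t, ht, xa⟩ =>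
      commutatorElement_eq_one_iff_mul_comm.1 (eq_one_iff.2 ⟨comm_a _ _, comm_d _ _, by simp [xb], by
        simp only [comm_c, xb, xa, star_mul', ht, star_zero]
        linear_combination (t * a0 * star a0) * h2⟩)⟩
    have := congrArg U.b k
    rw [comm_b, ea, hd] at this
    exact h0 (by simpa [xb] using this.symm)
  · obtain ⟨e', -, k⟩ := h (xc 1 (star_one K)) ⟨Q1_le_X0 a0 rfl, fun x _ =>
      commutatorElement_eq_one_iff_mul_comm.1 (comm_Z x ⟨rfl, rfl, rfl⟩)⟩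
    have h1 := congrArg U.b k
    rw [comm_b, ea] at h1
    have h3 : e'.a = 0 := by simpa [xc, hd] using h1
    rw [comm_Q1 hq h3] at k
    exact zero_ne_one (congrArg U.c k)

variable {a0 : K} {M B : (U K → U K) → Prop}

theorem out (h0 : a0 ≠ 0) (h : Crit (X0 a0) M B) (h2 : (2 : K) = 0) {f : U K → U K} (hf : M f) {e : U K}
    (he : e ∈ X0 a0) (hq : e ∉ Q1 K) : f e ∉ Q1 K := fun k => not_pp h0 h2 k fun w hw => by
  obtain ⟨g, hg, hg'⟩ := h.inv hf
  obtain ⟨e', he', k⟩ := pp_of h0 h2 he hq _ ((h.inv_cz h.inv_top h.inv_top).2 g hg w hw)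
  exact ⟨f e', h.mem hf _ he', by rw [← h.map_comm hf he he', k, (hg' w hw.1).2]⟩

theorem inn (h0 : a0 ≠ 0) (h : Crit (X0 a0) M B) (h2 : (2 : K) = 0) {f : U K → U K} (hf : M f) {e : U K}
    (hq : e ∈ Q1 K) : f e ∈ Q1 K := by
  by_contra k
  obtain ⟨g, hg, hg'⟩ := h.inv hf
  have := out h0 h h2 hg (h.mem hf _ (Q1_le_X0 a0 hq)) k
  rw [(hg' e (Q1_le_X0 a0 hq)).1] at this
  exact this hq

theorem exists_t (hq : UF.q K ≠ 2) : ∃ t : K, star t = t ∧ t ≠ 0 ∧ t ≠ 1 := by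
  by_contra hc
  push Not at hc
  have h1 := two_le_q (K := K)
  have h3 : Nat.card {x : K // star x = x} ≤ Nat.card Prop := Nat.card_le_card_of_injective (fun x => x.1 = 0)
    fun x y e => Subtype.ext (by
      have e' : x.1 = 0 ↔ y.1 = 0 := iff_of_eq e
      by_cases hx : x.1 = 0
      · rw [hx, e'.1 hx]
      · rw [hc _ x.2 hx, hc _ y.2 fun hy => hx (e'.2 hy)])
  rw [card_fix, Nat.card_eq_fintype_card, Fintype.card_prop] at h3
  omega

end ESD3x

open ESD3x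

theorem esd3 : ESD3 K := by
  intro a0 M B h0 h h2 hq
  refine ⟨fun z hz => Q1_le_X0 a0 hz.1, fun f hf z hz => ?_⟩
  obtain ⟨t, ht, t0, t1⟩ := exists_t hq
  have s0 : star a0 ≠ 0 := star_ne_zero.2 h0
  obtain ⟨x, hx⟩ := exists_trace z.hc
  obtain ⟨b1, hb⟩ : ∃ b1 : K, a0 * star b1 + star a0 * b1 = z.c := ⟨star (x / a0), by
    rw [star_star, star_div₀, mul_div_cancel₀ _ h0, mul_div_cancel₀ _ s0, hx]⟩
  have ht2 : star (t * t) = t * t := by rw [star_mul', ht]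
  have ms := xa_mem a0 (star_one K)
  have mr := xa_mem a0 ht
  have mr' := xa_mem a0 ht2
  have q1 : xb b1 ∈ Q1 K := rfl
  have q2 : xb (t * b1) ∈ Q1 K := rfl
  have m1 := Q1_le_X0 a0 q1
  have m2 := Q1_le_X0 a0 q2
  have r0 : ⁅xa (1 * a0), xb b1⁆ = z := U.ext (by rw [comm_a, hz.1]) (by rw [comm_d, hz.2.1])
    (by rw [hz.2.2]; simp [xa, xb]) (by rw [← hb]; simp [xa, xb])
  have r1 : ⁅xa (1 * a0), xb (t * b1)⁆ = ⁅xa (t * a0), xb b1⁆ := U.ext (by simp) (by simp) (by simp [xa, xb])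
    (by simp only [comm_c, xa, xb, star_mul', ht, star_one, star_zero]; ring)
  have r2 : ⁅xa (t * a0), xb (t * b1)⁆ = ⁅xa (t * t * a0), xb b1⁆ := U.ext (by simp) (by simp) (by simp [xa, xb])
    (by simp only [comm_c, xa, xb, star_mul', ht, star_zero]; ring)
  have f1 := congrArg f r1
  have f2 := congrArg f r2
  rw [h.map_comm hf ms m2, h.map_comm hf mr m1] at f1
  rw [h.map_comm hf mr m2, h.map_comm hf mr' m1] at f2
  rw [← r0, h.map_comm hf ms m1]
  have n1 : (f (xa (t * a0))).a ≠ 0 := out h0 h h2 hf mr (mul_ne_zero t0 h0)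
  have n2 : (f (xa (t * a0)) * (f (xa (1 * a0)))⁻¹).a ≠ 0 := by
    rw [← h.map_inv hf ms, ← h.mul hf _ mr _ (inv_mem ms)]
    refine out h0 h h2 hf (mul_mem mr (inv_mem ms)) fun k => t1 (mul_right_cancel₀ h0 ?_)
    have k' : t * a0 + -(1 * a0) = 0 := k
    linear_combination k'
  have v1 : (f (xb b1)).a = 0 := inn h0 h h2 hf q1
  have v2 : (f (xb (t * b1))).a = 0 := inn h0 h h2 hf q2
  obtain ⟨σ, hσ, eσ⟩ := h.mem hf _ ms
  obtain ⟨τ, hτ, eτ⟩ := h.mem hf _ mr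
  obtain ⟨υ, hυ, eυ⟩ := h.mem hf _ mr'
  refine comm_mem_Z _ ⟨v1, ?_⟩
  by_contra hd
  have hd' : (f (xb b1)).d ≠ 0 := hd
  have b1' := congrArg U.b f1
  have c1 := congrArg U.c f1
  have b2 := congrArg U.b f2
  have c2 := congrArg U.c f2
  simp only [comm_b, comm_c, v1, v2, eσ, eτ, eυ, star_mul', hσ, hτ, hυ, star_zero, zero_mul, add_zero,
    sub_zero] at b1' c1 b2 c2
  rw [mul_a, inv_a, eτ, eσ] at n2
  rw [eτ] at n1
  have τ0 : τ ≠ 0 := left_ne_zero_of_mul n1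
  have τσ : σ - τ ≠ 0 := fun k => n2 (by linear_combination (-a0) * k)
  have e1 : υ * σ = τ * τ := mul_right_cancel₀ (mul_ne_zero h0 hd') (by linear_combination τ * b1' - σ * b2)
  generalize (f (xb b1)).d = d1 at *
  generalize (f (xb (t * b1))).d = d2 at *
  generalize (f (xb b1)).b = y1 at *
  generalize (f (xb (t * b1))).b = y2 at *
  have e2 : a0 * star a0 * d1 * τ ^ 2 * (σ - τ) ^ 2 = 0 := by
    linear_combination (σ * τ) * c1 - σ ^ 2 * c2 - (σ * τ * star a0 * (σ - τ)) * b1' -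
      (σ * (a0 * star y1 + star a0 * y1) + a0 * star a0 * d1 * (υ * σ + τ * τ) + a0 * star a0 * d1 * τ ^ 2 -
        a0 * star a0 * d1 * τ ^ 2) * e1
  exact mul_ne_zero (mul_ne_zero (mul_ne_zero (mul_ne_zero h0 s0) hd') (pow_ne_zero 2 τ0)) (pow_ne_zero 2 τσ) e2

end CL.U4
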