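/-
Project U4: the automizer of `Q1` is generated by the reflection and the restrictions.
-/
import Cfsg.Agent.U4.Defs2

set_option autoImplicit false
set_option linter.unusedSectionVars false

namespace CL.U4

open Cfsg CL.Fus CL.U5

universe u

variable {K : Type u} [Field K] [StarRing K] [UF K]

namespace GEN1x

theorem nt_norm {g : MulAut (Q1 K)} (h : NT g) :
    g ∈ Subgroup.normalizer (autInducedBy ⊤ (Q1 K) : Set (MulAut (Q1 K))) :=
  Subgroup.mem_normalizer_fintype fun n hn => by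
    obtain ⟨a, rfl⟩ := mem_TA.1 hn
    obtain ⟨a', e⟩ := h a
    exact mem_TA.2 ⟨a', e⟩

theorem res_nt {α : MulAut (U K)} {g : MulAut (Q1 K)} (h : Res α g) : NT g := fun a =>
  ⟨_, (conj_conjNormal h (xa a)).trans (conjNormal_Q1 _)⟩

variable {p : ℕ} {A0 : Subgroup (MulAut (U K))} {A : Subgroup (MulAut (Q1 K))} {H : Subgroup (P4 K)}

theorem ext (hR : Rk1 p (Q1 K) A0 A) {g : MulAut (Q1 K)} (hg : g ∈ A) (h : NT g) : ∃ α ∈ A0, Res α g :=
  hR.ext g hg (nt_norm h)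

theorem toH1 (hR : Rk1 p (Q1 K) A0 A) (hT : TIh A) : H1 p A := by
  obtain ⟨a, ha, n⟩ := hR.ne
  exact ⟨hR.syl, hT, a, ha, fun nt => n (ext hR ha nt)⟩

theorem nf_r1 : NF (r1 K) 0 0 0 where
  ff := by simp
  ef := by simp
  zz v := by
    rw [mem_Zv]
    show v.1.c = 0 ∧ -star v.1.b = 0 ↔ _
    simp [and_comm]
  ww v := by
    rw [mem_Wv]
    show v.1.c = 0 ↔ _
    simp

theorem par_eq {s : U K} {h : P4 K} {u : Kˣ} {g : MulAut (Q1 K)} (r : Res (MulAut.conj s * act h) g)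
    (r' : Res (act (h1 u)) g) : h = h1 u := by
  have k : ∀ x : Q1 K, s * act h x * s⁻¹ = act (h1 u) x := fun x => (r x).symm.trans (r' x)
  have e1 : (h.1.m : K) = (h1 u).1.m := by
    have := congrArg U.d (k (vv 1 0 0 (by simp) (by simp)))
    rw [conj_d] at this
    simpa only [act_d, vv, map_one, mul_one] using this
  have e2 : ∀ y : K, (h.1.l : K) * h.1.m * h.1.γ y = (h1 u).1.l * (h1 u).1.m * y := fun y => by
    have := congrArg U.b (k (vv 0 y 0 (by simp) (by simp)))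
    rw [conj_b] at this
    simpa only [act_a, act_d, act_b, vv, map_zero, mul_zero, zero_mul, add_zero, sub_zero, h1_γ] using this
  have e3 : (h.1.l : K) = (h1 u).1.l := by
    have := e2 1
    rw [map_one, mul_one, mul_one, e1] at this
    exact mul_right_cancel₀ (Units.ne_zero _) this
  refine p4_ext e3 e1 fun y => ?_
  have := e2 y
  rw [e1, e3] at this
  exact mul_left_cancel₀ (mul_ne_zero (Units.ne_zero _) (Units.ne_zero _)) this

theorem conj_iff {c : MulAut (Q1 K)} (hc : ∀ a, c * ta a * c⁻¹ = ta a) (x : MulAut (Q1 K)) (a a' : K) :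
    c * x * c⁻¹ * ta a * (c * x * c⁻¹)⁻¹ = ta a' ↔ x * ta a * x⁻¹ = ta a' := by
  have e : c * x * c⁻¹ * ta a * (c * x * c⁻¹)⁻¹ = c * (x * ta a * x⁻¹) * c⁻¹ := by
    conv_lhs => rw [← hc a]
    group
  rw [e]
  conv_lhs => rw [← hc a']
  simp

theorem nt_iff {c : MulAut (Q1 K)} (hc : ∀ a, c * ta a * c⁻¹ = ta a) (x : MulAut (Q1 K)) :
    NT (c * x * c⁻¹) ↔ NT x := forall_congr' fun a => exists_congr fun a' => conj_iff hc x a a'

theorem h1_map {c : MulAut (Q1 K)} (hc : ∀ a, c * ta a * c⁻¹ = ta a) (h : H1 p A) :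
    H1 p (A.map (MulAut.conj c).toMonoidHom) := by
  refine ⟨?_, ?_, ?_⟩
  · have := h.syl.map_conj c
    rwa [map_conj_eq_of_mem_normalizer (Y := TA K) (nt_norm fun a => ⟨a, hc a⟩)] at this
  · rintro _ ⟨x, hx, rfl⟩ a a' ha e
    exact (nt_iff hc x).2 (h.ti x hx a a' ha ((conj_iff hc x a a').1 e))
  · obtain ⟨x, hx, n⟩ := h.ne
    exact ⟨_, ⟨x, hx, rfl⟩, fun k => n ((nt_iff hc x).1 k)⟩

end GEN1x

open GEN1x in
theorem gen1b (e : L1E K) (h : L1H K) : GEN1B K := by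
  intro p _ _ A0 A H hR hT hS hr
  have hH := toH1 hR hT
  obtain ⟨-, m2, m3⟩ := h p A hH (e p A hH) ⟨_, hr, nf_r1⟩
  refine ⟨fun u => ?_, fun A' r' hA' g hg => ?_⟩
  · obtain ⟨a, ha, r⟩ := m2 u
    obtain ⟨α, hα, r0⟩ := ext hR ha (res_nt r)
    obtain ⟨s, k, hk, rfl⟩ := (hS α).1 hα
    exact par_eq r0 r ▸ hk
  · rcases m3 g hg with nt | ⟨a, nt⟩
    · obtain ⟨α, hα, r⟩ := ext hR hg nt
      exact hA' α hα g r
    · obtain ⟨α, hα, r⟩ := ext hR (mul_mem (inv_mem (mul_mem (hH.syl.le (mem_TA.2 ⟨a, rfl⟩)) hr)) hg) nt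
      exact (mul_mem_cancel_left (inv_mem (mul_mem (hA' _ (hR.inn (xa a)) _ (res_conj _)) r'))).1 (hA' α hα _ r)

open GEN1x in
theorem gen1a (h0 : NTZ K) (e : L1E K) (f : L1F K) (g : L1G K) (a : ALG K) (h : L1H K) (hC : L1C K) :
    GEN1A K := by
  intro p _ _ A0 A H hR hT hS
  have hH := toH1 hR hT
  have k1 := e p A hH
  obtain ⟨x, hx, b, φ, ε, b1, nf⟩ := f p A hH k1
  obtain ⟨hb, hε⟩ := a b ε b1 nf.ef (g p A hH k1 x hx b φ ε nf)
  have zz : ∀ v : Q1 K, x⁻¹ v ∈ Zv K ↔ v.1.b = 0 ∧ v.1.c = φ v.1.d := fun v => by rw [nf.zz, hb _ v.1.hd]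
  have ww : ∀ v : Q1 K, x⁻¹ v ∈ Wv K ↔ v.1.c = φ v.1.d := fun v => by rw [nf.ww, hε, add_zero]
  have hφ : ∀ d, star d = d → star ((-φ) d) = (-φ) d := fun d hd => by simp [nf.ff d hd]
  obtain ⟨c, rc⟩ := exists_res (Q := Q1 K) (cf (-φ) hφ) fun _ => Iff.rfl
  have cd : ∀ v, (c v).1.d = v.1.d := fun v => by rw [rc v, cf_d]
  have cb : ∀ v, (c v).1.b = v.1.b := fun v => by rw [rc v, cf_b]
  have cc : ∀ v, (c v).1.c = v.1.c - φ v.1.d := fun v => by rw [rc v, cf_c]; simp [sub_eq_add_neg]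
  have cd' : ∀ v, (c⁻¹ v).1.d = v.1.d := fun v => by rw [← cd, MulAut.apply_inv_self]
  have cb' : ∀ v, (c⁻¹ v).1.b = v.1.b := fun v => by rw [← cb, MulAut.apply_inv_self]
  have cc' : ∀ v, (c⁻¹ v).1.c = v.1.c + φ v.1.d := fun v => by
    have := cc (c⁻¹ v)
    rw [MulAut.apply_inv_self, cd'] at this
    rw [this, sub_add_cancel]
  have hc : ∀ t, c * ta t * c⁻¹ = ta t := fun t => mul_inv_eq_of_eq_mul (MulEquiv.ext fun v => q1_ext
    (by simp only [MulAut.mul_apply, cd, ta_d]) (by simp only [MulAut.mul_apply, cd, cb, ta_b])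
    (by simp only [MulAut.mul_apply, cd, cb, cc, ta_c, ta_d]; ring))
  have hH2 := h1_map hc hH
  have nf2 : NF (c * x * c⁻¹) 0 0 0 := by
    have e0 : ∀ v, (c * x * c⁻¹)⁻¹ v = c (x⁻¹ (c⁻¹ v)) := fun v => by simp [mul_assoc]
    refine ⟨by simp, by simp, fun v => ?_, fun v => ?_⟩
    · rw [e0, mem_Zv, cd, cb, ← mem_Zv, zz, cb', cc', cd']
      simp
    · rw [e0, mem_Wv, cd, ← mem_Wv, ww, cc', cd']
      simp
  obtain ⟨⟨y, hy, ey⟩, -⟩ := h p _ hH2 (e p _ hH2) ⟨_, ⟨x, hx, rfl⟩, nf2⟩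
  refine ⟨cf (-φ) hφ, fun k hk => ?_, c, rc, ?_⟩
  swap
  · rw [← ey]
    simpa [mul_assoc] using hy
  obtain ⟨α, hα, r⟩ := hR.res _ ((hS _).2 ⟨1, k, hk, by rw [map_one, one_mul]⟩)
  have pα : PZ α⁻¹ := (h0 _ (h0 α (res_nt r)).1).2.1
  have nx : ¬ PZ x := fun px => by
    have := (zz (vv 0 0 1 (by simp) (by simp))).1
      ((h0 _ (h0 x ((hC p A hH).1 x hx px)).1).2.1 _ (mem_Zv.2 ⟨rfl, rfl⟩))
    simp [vv] at this
  have nαx : ¬ PZ (α * x) := fun px => nx fun z hz => by simpa using pα _ (px z hz)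
  obtain ⟨t, pt⟩ := k1.2 x hx _ (mul_mem hα hx) nx nαx
  have key : ∀ d, star d = d → t * (k.1.m * k.1.γ d) = 0 ∧
      k.1.l * star (k.1.l : K) * k.1.m * k.1.γ (φ d) - (star t * 0 + t * 0) + t * star t * (k.1.m * k.1.γ d) =
        φ (k.1.m * k.1.γ d) := fun d hd => by
    have h1 := pt _ ((zz (vv d 0 (φ d) hd (nf.ff d hd))).2 ⟨rfl, rfl⟩)
    have e1 : ((ta t * x)⁻¹ * (α * x)) (x⁻¹ (vv d 0 (φ d) hd (nf.ff d hd))) =
        x⁻¹ (ta (-t) (α (vv d 0 (φ d) hd (nf.ff d hd)))) := by simp [ta_neg]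
    rw [e1, zz, ta_b, ta_c, ta_d, r] at h1
    simp only [act_b, act_c, act_d, vv, map_zero, mul_zero, zero_add, neg_mul, neg_eq_zero, star_zero, add_zero,
      star_neg, mul_neg, neg_neg] at h1
    simpa using h1
  have t0 : t = 0 := by simpa using (key 1 (by simp)).1
  refine MulEquiv.ext fun v => U.ext rfl rfl rfl ?_
  have := (key v.d v.hd).2
  simp only [MulAut.mul_apply, act_c, act_d, cf_c, cf_d, AddMonoidHom.neg_apply, map_add, map_neg]
  rw [← this, t0]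
  ring

end CL.U4
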