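/-
Project U4: the automizer of `Q2` is generated by the restrictions and the reflection `r2`.
-/
import Cfsg.Agent.U4.Defs2

set_option autoImplicit false
set_option linter.unusedSectionVars false

namespace CL.U4

open Cfsg CL.Fus CL.U5

universe u

variable {K : Type u} [Field K] [StarRing K] [UF K]

namespace GEN2x

variable {ρ : MulAut (Q2 K) →* Au (V2 K)} (hρ : ∀ α (x : Q2 K), pW (α x : U K) = ρ α (pW x.1))
include hρ

theorem rho_eq {α : MulAut (Q2 K)} {g : Au (V2 K)} (h : ∀ x : Q2 K, pW (α x : U K) = g (pW x.1)) : ρ α = g :=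
  au_ext fun v => by
    obtain ⟨x, rfl⟩ := exists_pW v
    rw [← hρ, h]

theorem rho_conj (s : U K) : ρ (MulAut.conjNormal s) = Tw (-s.d) :=
  rho_eq hρ fun x => pW_conj s x.2

theorem rho_r2 : rW K * ρ (r2 K) = 1 := au_ext fun v => by
  obtain ⟨x, rfl⟩ := exists_pW v
  rw [au_mul, ← hρ, pW_r2, au_one]

theorem rho_r2' : ρ (r2 K)⁻¹ = rW K := by
  rw [map_inv]; exact (eq_inv_of_mul_eq_one_left (rho_r2 hρ)).symm

theorem rho_res {s : U K} {h : P4 K} {a : MulAut (Q2 K)} (ha : Res (MulAut.conj s * act h) a) :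
    ρ a = Tw (-s.d) * aW h :=
  rho_eq hρ fun x => by
    rw [ha x, au_mul, ← pW_act]
    exact pW_conj s ((act_Q2 h x).2 x.2)

theorem rho_res1 {h : P4 K} {a : MulAut (Q2 K)} (ha : Res (act h) a) : ρ a = aW h :=
  rho_eq hρ fun x => by rw [ha x, pW_act]

theorem rho_xd {a : K} (k : star a = a) :
    ρ (MulAut.conjNormal (xd (-a) (by rw [star_neg, k]))) = Tw a := by
  rw [rho_conj hρ]; congr 1; exact neg_neg a

theorem map_T : (autInducedBy ⊤ (Q2 K)).map ρ = TF K := by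
  ext g
  constructor
  · rintro ⟨a, ha, rfl⟩
    obtain ⟨s, rfl⟩ := mem_T.1 ha
    exact ⟨_, by rw [star_neg, s.hd], (rho_conj hρ s).symm⟩
  · rintro ⟨a, k, rfl⟩
    exact ⟨_, mem_T.2 ⟨_, rfl⟩, rho_xd hρ k⟩

omit hρ in
theorem par_eq {a : K} {h : P4 K} {t : Kˣ} {ht : star (t : K) = t} (e : Tw a * aW h = aW (h2 t ht)) : h = h2 t ht := by
  have e1 : ∀ x : K, (h.1.l : K) * h.1.γ x = (t : K)⁻¹ * x := fun x => by
    have := congrArg (fun g : Au (V2 K) => (g (x, 0)).1) e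
    simpa [au_mul, Tw_apply, aW_apply] using this
  have e2 : (h.1.l : K) = (t : K)⁻¹ := by simpa using e1 1
  have e3 : ∀ x, h.1.γ x = x := fun x => by
    have := e1 x
    rw [e2] at this
    exact mul_left_cancel₀ (inv_ne_zero t.ne_zero) this
  have e4 : (h.1.l : K) * h.1.m = (t : K)⁻¹ * (t : K) ^ 2 := by
    have := congrArg (fun g : Au (V2 K) => (g (0, 1)).2) e
    simpa [au_mul, Tw_apply, aW_apply] using this
  rw [e2] at e4
  exact p4_ext (by rw [h2_l, e2]) (by rw [h2_m]; exact mul_left_cancel₀ (inv_ne_zero t.ne_zero) e4) e3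

omit hρ in
theorem Tw_eq_one {a : K} (e : Tw a = 1) : a = 0 := by
  have := congrArg (fun g : Au (V2 K) => (g (1, 0)).2) e
  simpa [Tw_apply, au_one] using this

omit hρ in
theorem p_two (p : ℕ) [Fact p.Prime] [CharP K p] (hq : UF.q K = 2) : p = 2 := by
  have := Fintype.ofFinite K
  have h1 : ((Fintype.card K : ℕ) : K) = 0 := FiniteField.cast_card_eq_zero K
  rw [← Nat.card_eq_fintype_card, card_K, hq, CharP.cast_eq_zero_iff K p] at h1
  exact (Nat.prime_dvd_prime_iff_eq Fact.out Nat.prime_two).1 ((Fact.out : p.Prime).dvd_of_dvd_pow h1)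

end GEN2x

open GEN2x in
theorem gen2 (ker : KER.{u}) (rho : RHO2 K) (kq : KQ K) (a : L2A K) (b : L2B K) (c : L2C K) (d : L2D K) (e : L2E K)
    (f : L2F K) (l : LIFT2 K) : GEN2 K := by
  intro p _ _ A0 A H R S hq
  obtain ⟨ρ, hρ, hL, hk⟩ := rho
  obtain ⟨k1, k2, k3⟩ := ker (U K) p (Q2 K) A0 A _ ρ R (hk p)
  rw [map_T hρ] at k1
  have HL : H2 p (A.map ρ) := ⟨k1, by rintro _ ⟨a, -, rfl⟩; exact (hL a).1, by rintro _ ⟨a, -, rfl⟩; exact (hL a).2⟩
  have hres : ∀ h ∈ H, ∃ α ∈ A, Res (act h) α := fun h hh =>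
    R.res _ ((S _).2 ⟨1, h, hh, by rw [map_one, one_mul]⟩)
  have hq' : p ≠ 2 → 3 < UF.q K ∧ ∀ u, h1 u ∈ H := fun hp => hq.resolve_left fun h => hp (p_two p h)
  have dj : DJ (A.map ρ) := by
    by_cases hp : p = 2
    · subst hp
      exact b _ HL
    · exact c p _ HL hp (hq' hp).1
  have gr : ∀ g ∈ A.map ρ, ¬ PW g → ∃ c, star c = c ∧ GR g c 0 := fun g hg np => by
    obtain ⟨c', d', h1', h2', h3'⟩ := d p _ HL dj g hg np
    have : d' = 0 := by
      by_cases hp : p = 2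
      · exact h3' hp
      · refine e p _ HL dj (hq' hp).1 (fun u => ?_) g hg c' d' h1' h2'
        obtain ⟨α, hα, r⟩ := hres _ ((hq' hp).2 u)
        exact ⟨α, hα, rho_res1 hρ r⟩
    exact ⟨c', h1', this ▸ h2'⟩
  have ext : ∀ a ∈ A, PW (ρ a) → ∃ α ∈ A0, Res α a := fun a' ha hp => k3 a' ha fun s => by
    obtain ⟨b', kb, hb⟩ := (a p _ HL).1 _ ⟨a', ha, rfl⟩ hp (Tw (-s.d)) ⟨_, by rw [star_neg, s.hd], rfl⟩
    exact ⟨xd (-b') (by rw [star_neg, kb]), by rw [rho_xd hρ kb, rho_conj hρ, hb]⟩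
  obtain ⟨m1, m2, m3⟩ := f p _ HL gr (by
    obtain ⟨a, ha, na⟩ := R.ne
    exact ⟨ρ a, ⟨a, ha, rfl⟩, fun hp => na (ext a ha hp)⟩)
  have cA : ∀ s : U K, (MulAut.conjNormal s : MulAut (Q2 K)) ∈ A := fun s => R.syl.le (mem_T.2 ⟨s, rfl⟩)
  have hH : ∀ t ht, h2 t ht ∈ H := fun t ht => by
    obtain ⟨a, haA, e⟩ := m2 t ht
    obtain ⟨α, hα, r⟩ := ext a haA (by
      rw [e]
      intro c
      simp [aW_apply])
    obtain ⟨s, h, hh, rfl⟩ := (S α).1 hα
    rw [← par_eq ((rho_res hρ r).symm.trans e)]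
    exact hh
  have r2A : r2 K ∈ A := by
    obtain ⟨g, hg, e⟩ := m1
    rcases hq with hq | hq
    · obtain ⟨s, -, hs⟩ := kq (hq ▸ Nat.prime_two) (g * r2 K) fun x => by
        rw [hρ, map_mul, e, rho_r2 hρ, au_one]
      exact (A.mul_mem_cancel_left hg).1 (hs ▸ cA s)
    · refine l A (fun s _ => cA s) (fun α hα t => ?_) (fun u => hres _ (hq.2 u)) g hg fun x => by rw [hρ, e]
      have e1 : ρ α = 1 := rho_eq hρ t
      obtain ⟨s, rfl⟩ := k2 α hα e1
      rw [rho_conj hρ] at e1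
      exact ⟨s, neg_eq_zero.1 (Tw_eq_one e1), rfl⟩
  refine ⟨hH, r2A, fun A' r' res' a haA => ?_⟩
  have ext' : ∀ a ∈ A, PW (ρ a) → a ∈ A' := fun a ha hp => by
    obtain ⟨α, hα, r⟩ := ext a ha hp
    exact res' α hα a r
  rcases m3 _ ⟨a, haA, rfl⟩ with hp | ⟨_, ⟨b, kb, rfl⟩, hp⟩
  · exact ext' a haA hp
  · have c' : (MulAut.conjNormal (xd (-b) (by rw [star_neg, kb])) : MulAut (Q2 K)) ∈ A' :=
      res' _ (R.inn _) _ (res_conj _)
    have := ext' ((r2 K)⁻¹ * MulAut.conjNormal (xd (-b) (by rw [star_neg, kb])) * a)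
      (A.mul_mem (A.mul_mem (A.inv_mem r2A) (cA _)) haA) (by
      rw [map_mul, map_mul, rho_r2' hρ, rho_xd hρ kb]; exact hp)
    exact (A'.mul_mem_cancel_left (A'.mul_mem (A'.inv_mem r') c')).1 this

end CL.U4
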