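/-
Project U4: the automizer of `Q2` for `q = 3` is generated by the restrictions and the cells.
-/
import Cfsg.Agent.U4.Defs2

set_option autoImplicit false
set_option linter.unusedSectionVars false

namespace CL.U4

open Cfsg CL.Fus CL.U5

universe u

namespace GEN3x

variable {K : Type u} [Field K] [StarRing K] [UF K]
variable {ρ : MulAut (Q2 K) →* Au (V2 K)} (hρ : ∀ α (x : Q2 K), pW (α x : U K) = ρ α (pW x.1))
include hρ

theorem rho_eq {α : MulAut (Q2 K)} {g : Au (V2 K)} (h : ∀ x : Q2 K, pW (α x : U K) = g (pW x.1)) : ρ α = g :=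
  au_ext fun v => by
    obtain ⟨x, rfl⟩ := exists_pW v
    rw [← hρ, h]

theorem rho_conj (s : U K) : ρ (MulAut.conjNormal s) = Tw (-s.d) :=
  rho_eq hρ fun x => pW_conj s x.2

theorem rho_res {s : U K} {h : P4 K} {a : MulAut (Q2 K)} (ha : Res (MulAut.conj s * act h) a) :
    ρ a = Tw (-s.d) * aW h :=
  rho_eq hρ fun x => by
    rw [ha x, au_mul, ← pW_act]
    exact pW_conj s ((act_Q2 h x).2 x.2)

theorem rho_act {h : P4 K} {a : MulAut (Q2 K)} (ha : Res (act h) a) : ρ a = aW h :=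
  rho_eq hρ fun x => by rw [ha x, pW_act]

theorem map_T : (autInducedBy ⊤ (Q2 K)).map ρ = TF K := by
  ext g
  constructor
  · rintro ⟨a, ha, rfl⟩
    obtain ⟨s, rfl⟩ := mem_T.1 ha
    exact ⟨_, by simp, (rho_conj hρ s).symm⟩
  · rintro ⟨a, k, rfl⟩
    refine ⟨MulAut.conjNormal (xd (-a) (by simp [k])), mem_T.2 ⟨_, rfl⟩, ?_⟩
    rw [rho_conj hρ]
    simp [xd]

end GEN3x

theorem GEN3x.cell {ρ : MulAut (Q2 F9) →* Au (V2 F9)} (hρ : ∀ α (x : Q2 F9), pW (α x : U F9) = ρ α (pW x.1))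
    (A : Subgroup (MulAut (Q2 F9))) : Cell A = JC (A.map ρ) := by
  funext w
  apply propext
  constructor
  · rintro ⟨α, hα, e⟩
    refine ⟨ρ α, ⟨α, hα, rfl⟩, fun v => ?_⟩
    obtain ⟨x, rfl⟩ := exists_pW v
    rw [← hρ, e]
  · rintro ⟨_, ⟨α, hα, rfl⟩, e⟩
    exact ⟨α, hα, fun x => by rw [hρ, e]⟩

open GEN3x in
theorem gen3 (ker : KER.{0}) (rho : RHO2 F9) (kq : KQ F9) (l2a : L2A F9) (a : C3A) (b : C3B) : GEN3 := by
  intro A0 A H R S hH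
  haveI : Fact (Nat.Prime 3) := ⟨Nat.prime_three⟩
  obtain ⟨ρ, hρ, hL, hk⟩ := rho
  obtain ⟨k1, -, k3⟩ := ker (U F9) 3 (Q2 F9) A0 A _ ρ R (hk 3)
  rw [map_T hρ] at k1
  have cf : ∀ g ∈ A.map ρ, Conf g := by rintro _ ⟨x, -, rfl⟩; exact (hL x).1
  obtain ⟨l1, -⟩ := l2a 3 (A.map ρ) ⟨k1, cf, by rintro _ ⟨x, -, rfl⟩; exact (hL x).2⟩
  have ext : ∀ x ∈ A, PW (ρ x) → ∃ α ∈ A0, Res α x := fun x hx hp => k3 x hx fun s => by
    obtain ⟨c, kc, hc⟩ := l1 _ ⟨x, hx, rfl⟩ hp (Tw (-s.d)) ⟨_, by simp, rfl⟩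
    refine ⟨xd (-c) (by simp [kc]), ?_⟩
    rw [rho_conj hρ, rho_conj hρ, ← hc]
    simp [xd]
  have aA0 : ∀ h ∈ H, act h ∈ A0 := fun h hh => (S _).2 ⟨1, h, hh, by rw [map_one, one_mul]⟩
  have h3 : H3 (A.map ρ) H := by
    refine ⟨k1, cf, hH, fun h hh => ?_, ?_⟩
    · obtain ⟨x, hx, r⟩ := R.res _ (aA0 h hh)
      exact ⟨x, hx, rho_act hρ r⟩
    · rintro _ ⟨x, hx, rfl⟩ hp
      obtain ⟨α, hα, r⟩ := ext x hx hp
      obtain ⟨s, h, hh, rfl⟩ := (S α).1 hα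
      exact ⟨_, ⟨_, by simp, rfl⟩, h, hh, rho_res hρ r⟩
  obtain ⟨b1, b2⟩ := b _ _ h3
  rw [cell hρ A]
  refine ⟨a _ _ h3, b1 ?_, fun A' res' hc x hx => ?_⟩
  · obtain ⟨x, hx, nx⟩ := R.ne
    exact ⟨ρ x, ⟨x, hx, rfl⟩, fun hp => nx (ext x hx hp)⟩
  · have c' : ∀ s : U F9, (MulAut.conjNormal s : MulAut (Q2 F9)) ∈ A' := fun s => res' _ (R.inn s) _ (res_conj s)
    have hle := b2 (A'.map ρ) (by
      rw [← map_T hρ]
      refine Subgroup.map_mono fun y hy => ?_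
      obtain ⟨s, rfl⟩ := mem_T.1 hy
      exact c' s) (fun h hh => by
      obtain ⟨y, -, r⟩ := R.res _ (aA0 h hh)
      exact ⟨y, res' _ (aA0 h hh) y r, rho_act hρ r⟩) (fun w hw => by
      rw [← cell hρ A']
      exact hc w hw)
    obtain ⟨x', hx', e⟩ := hle ⟨x, hx, rfl⟩
    obtain ⟨s, -, hs⟩ := kq (by rw [q_F9]; exact Nat.prime_three) (x * x'⁻¹) fun y => by
      rw [hρ, map_mul, map_inv, ← e, mul_inv_cancel, au_one]
    have := A'.mul_mem (hs ▸ c' s) hx'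
    simpa using this

end CL.U4
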