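/-
Project U4 (S5210), job L1AB (helper74): `NTZ`, `L1A`, `L1B`.
-/
import Cfsg.Agent.U4.Defs2

set_option autoImplicit false
set_option linter.unusedSectionVars false

namespace CL.U4

open Cfsg CL.Fus CL.U5

universe u

variable {K : Type u} [Field K] [StarRing K] [UF K]

namespace L1ABx

theorem ta_fix {z : Q1 K} (hz : z ∈ Zv K) (a : K) : ta a z = z := by
  obtain ⟨h1, h2⟩ := mem_Zv.1 hz
  exact q1_ext (ta_d _ _) (by rw [ta_b, h1]; simp) (by rw [ta_c, h1, h2]; simp)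

theorem mem_of_fix {z : Q1 K} (h : ∀ a, ta a z = z) : z ∈ Zv K := by
  have h1 : z.1.d = 0 := by
    have := ta_b 1 z
    rw [h, one_mul] at this
    exact left_eq_add.1 this
  refine mem_Zv.2 ⟨h1, ?_⟩
  by_contra hb
  have hb' : star z.1.b ≠ 0 := star_ne_zero.2 hb
  obtain ⟨x, hx⟩ := exists_trace (star_one K)
  have := ta_c (x / star z.1.b) z
  rw [h, h1, mul_zero, add_zero, div_mul_cancel₀ _ hb', star_div₀, star_star, div_mul_cancel₀ _ hb, add_assoc, hx]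
    at this
  exact one_ne_zero (left_eq_add.1 this)

theorem cm_mem (a : K) (v : Q1 K) : v⁻¹ * ta a v ∈ Wv K := by
  rw [mem_Wv, q1_mul_d, q1_inv_d, ta_d, neg_add_cancel]

theorem ex_cm {w : Q1 K} (hw : w ∈ Wv K) : ∃ a v a' v', w = (v⁻¹ * ta a v) * (v'⁻¹ * ta a' v') := by
  obtain ⟨x, hx⟩ := exists_trace (a := w.1.c - w.1.b * star w.1.b) (by simp [mul_comm])
  refine ⟨w.1.b, vv 1 0 0 (by simp) (by simp), x, vv 0 1 0 (by simp) (by simp), q1_ext ?_ ?_ ?_⟩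
  · rw [mem_Wv.1 hw, q1_mul_d, mem_Wv.1 (cm_mem _ _), mem_Wv.1 (cm_mem _ _), add_zero]
  · rw [q1_mul_b, q1_mul_b, q1_mul_b, q1_inv_b, q1_inv_b, ta_b, ta_b]
    simp [vv]
  · rw [q1_mul_c, q1_mul_c, q1_mul_c, q1_inv_c, q1_inv_c, ta_c, ta_c]
    simp only [vv, star_zero, star_one, mul_zero, mul_one, add_zero, zero_add, neg_zero]
    linear_combination -hx

theorem cj_app (g : MulAut (Q1 K)) (a : K) (v : Q1 K) : (g * ta a * g⁻¹) (g v) = g (ta a v) := by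
  rw [MulAut.mul_apply, MulAut.mul_apply, MulAut.inv_apply, MulEquiv.symm_apply_apply]

theorem syl {p : ℕ} [Fact p.Prime] {L C : Subgroup (MulAut (Q1 K))} (h : H1 p L) (hC : C ≤ L)
    {g : MulAut (Q1 K)} (hg : g ∈ L) (k : ∀ a, g * ta a * g⁻¹ ∈ C) {a : K} (ha : a ≠ 0) (k' : ta a ∈ C) :
    ∃ c ∈ C, NT (g⁻¹ * c) := by
  have : Finite (MulAut (Q1 K)) :=
    Finite.of_injective (fun a : MulAut (Q1 K) => (a : Q1 K → Q1 K)) DFunLike.coe_injective
  have s : SylIn p ((TA K).map (MulAut.conj g).toMonoidHom) C := (h.syl.conj_of_mem hg).mono (by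
    rintro _ ⟨t, ht, rfl⟩
    obtain ⟨b, rfl⟩ := mem_TA.1 ht
    exact k b) hC
  obtain ⟨c, hc, e⟩ := s.exists_conj_le
    (h.syl.isPGroup.to_le (Subgroup.zpowers_le_of_mem (mem_TA.2 ⟨a, rfl⟩))) (Subgroup.zpowers_le_of_mem k')
  obtain ⟨t, ht, e'⟩ := e _ (Subgroup.mem_zpowers _)
  obtain ⟨b, rfl⟩ := mem_TA.1 ht
  have e'' : g * ta b * g⁻¹ = c * ta a * c⁻¹ := e'
  refine ⟨c, hc, h.ti _ (mul_mem (inv_mem hg) (hC hc)) a b ha ?_⟩
  calc g⁻¹ * c * ta a * (g⁻¹ * c)⁻¹ = g⁻¹ * (c * ta a * c⁻¹) * g := by group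
    _ = ta b := by rw [← e'']; group

/-- the element `(0, b, 0)` -/
def xv (b : K) : Q1 K := vv 0 b 0 (star_zero K) (star_zero K)

theorem xv_add (b b' : K) : xv (b + b') = xv b * xv b' :=
  q1_ext (by rw [q1_mul_d]; exact (add_zero _).symm) (by rw [q1_mul_b]; rfl) (by rw [q1_mul_c]; exact (add_zero _).symm)

theorem ex_a (χ : Q1 K →* ℂˣ) : ∃ a : K, a ≠ 0 ∧ ∀ d, star d = d → χ (xv (a * d)) = 1 := by
  have : NeZero ((Monoid.exponent (Multiplicative (selfAdjoint K)) : ℕ) : ℂ) :=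
    ⟨Nat.cast_ne_zero.2 Monoid.exponent_ne_zero_of_finite⟩
  have e := CommGroup.card_monoidHom_of_hasEnoughRootsOfUnity (Multiplicative (selfAdjoint K)) ℂ
  have : Finite (Multiplicative (selfAdjoint K) →* ℂˣ) := Nat.finite_of_card_ne_zero (e ▸ Nat.card_pos.ne')
  have e' : Nat.card (Multiplicative (selfAdjoint K)) = UF.q K := card_fix
  let Φ : K → (Multiplicative (selfAdjoint K) →* ℂˣ) := fun a =>
    MonoidHom.mk' (fun d => χ (xv (a * (d.toAdd : K)))) fun d d' => by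
      rw [← map_mul, ← xv_add, ← mul_add]; rfl
  have ni : ¬ Function.Injective Φ := fun hi => by
    have h1 := Nat.card_le_card_of_injective Φ hi
    rw [e, e', card_K] at h1
    have h2 := two_le_q (K := K)
    nlinarith
  obtain ⟨a, a', h, hne⟩ := Function.not_injective_iff.1 ni
  refine ⟨a - a', sub_ne_zero.2 hne, fun d hd => ?_⟩
  have h' : χ (xv (a * d)) = χ (xv (a' * d)) := DFunLike.congr_fun h (Multiplicative.ofAdd ⟨d, hd⟩)
  rw [show a * d = (a - a') * d + a' * d by ring, xv_add, map_mul] at h'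
  exact mul_eq_right.1 h'

theorem ta_eq (a : K) (v : Q1 K) : ∃ z ∈ Zv K, ta a v = v * xv (a * v.1.d) * z := by
  refine ⟨vv 0 0 (a * star v.1.b + star a * v.1.b + a * star a * v.1.d) (star_zero K) (by simp; ring),
    mem_Zv.2 ⟨rfl, rfl⟩, q1_ext ?_ ?_ ?_⟩
  · rw [q1_mul_d, q1_mul_d, ta_d]; simp [xv, vv]
  · rw [q1_mul_b, q1_mul_b, ta_b]; simp [xv, vv]
  · rw [q1_mul_c, q1_mul_c, ta_c]; simp only [xv, vv]; ring

end L1ABx

open L1ABx

theorem ntz : NTZ K := by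
  intro g h
  choose f hf using h
  have fi : Function.Injective f := fun a a' e => ta_inj (by
    have : g * ta a * g⁻¹ = g * ta a' * g⁻¹ := by rw [hf, hf, e]
    exact mul_left_cancel (mul_right_cancel this))
  have fs := Finite.injective_iff_surjective.1 fi
  refine ⟨fun a => ?_, fun z hz => mem_of_fix fun a => ?_, fun w hw => ?_⟩
  · obtain ⟨b, rfl⟩ := fs a
    exact ⟨b, by rw [← hf]; group⟩
  · obtain ⟨b, rfl⟩ := fs a
    rw [← hf, cj_app, ta_fix hz]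
  · obtain ⟨a, v, a', v', rfl⟩ := ex_cm hw
    rw [map_mul, map_mul, map_mul, map_inv, map_inv, ← cj_app, ← cj_app, hf, hf]
    exact mul_mem (cm_mem _ _) (cm_mem _ _)

theorem l1a (h : NTZ K) : L1A K := by
  intro p _ _ L H g hg z hz hw
  refine mem_Zv.2 ⟨hw, ?_⟩
  by_contra hb
  obtain ⟨s, s0, hs⟩ := exists_skew K
  have hd : (g z).1.d = 0 := hw
  obtain ⟨c, hc, n⟩ := syl (C := L ⊓ MulAction.stabilizer (MulAut (Q1 K)) (g z)) H inf_le_left hg
    (fun a => ⟨L.mul_mem (L.mul_mem hg (H.syl.le (mem_TA.2 ⟨a, rfl⟩))) (L.inv_mem hg),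
      show (g * ta a * g⁻¹) (g z) = g z by rw [cj_app, ta_fix hz]⟩) (mul_ne_zero s0 hb)
    ⟨H.syl.le (mem_TA.2 ⟨_, rfl⟩), show ta (s * (g z).1.b) (g z) = g z from
      q1_ext (ta_d _ _) (by rw [ta_b, hd]; simp) (by rw [ta_c, hd, star_mul', hs]; ring)⟩
  have e : c (g z) = g z := hc.2
  have k := (h _ (h _ n).1).2.1 z hz
  have e' : (g⁻¹ * c)⁻¹ z = g z := by
    rw [mul_inv_rev, inv_inv, MulAut.mul_apply, MulAut.inv_apply, MulEquiv.symm_apply_eq, e]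
  rw [e'] at k
  exact hb (mem_Zv.1 k).2

theorem l1b (h : NTZ K) : L1B K := by
  intro p _ _ L H g hg w hw
  by_cases hY : w ∈ (Wv K).map g.toMonoidHom ⊔ Zv K
  · obtain ⟨_, ⟨w', hw', rfl⟩, z, hz, e⟩ := Subgroup.mem_sup.1 hY
    exact ⟨w', hw', z, hz, e.symm⟩
  exfalso
  set Y := (Wv K).map g.toMonoidHom ⊔ Zv K with hYd
  have : NeZero ((Monoid.exponent (Q1 K ⧸ Y) : ℕ) : ℂ) := ⟨Nat.cast_ne_zero.2 Monoid.exponent_ne_zero_of_finite⟩
  obtain ⟨φ, hφ⟩ := CommGroup.exists_apply_ne_one_of_hasEnoughRootsOfUnity (Q1 K ⧸ Y) ℂ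
    (a := QuotientGroup.mk w) fun e => hY ((QuotientGroup.eq_one_iff w).1 e)
  set χ : Q1 K →* ℂˣ := φ.comp (QuotientGroup.mk' Y) with hχ
  have c1 : ∀ y ∈ Y, χ y = 1 := fun y hy => by
    change φ (QuotientGroup.mk y) = 1
    rw [(QuotientGroup.eq_one_iff y).2 hy, map_one]
  have cW : ∀ y ∈ Wv K, χ (g y) = 1 := fun y hy => c1 _ (Subgroup.mem_sup_left ⟨y, hy, rfl⟩)
  have cZ : ∀ y ∈ Zv K, χ y = 1 := fun y hy => c1 _ (Subgroup.mem_sup_right hy)
  let D : Subgroup (MulAut (Q1 K)) :=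
    { carrier := {k | ∀ v, χ (k v) = χ v}
      mul_mem' := fun {k k'} e e' v => by rw [MulAut.mul_apply, e, e']
      one_mem' := fun _ => rfl
      inv_mem' := fun {k} e v => by rw [← e (k⁻¹ v), MulAut.inv_apply, MulEquiv.apply_symm_apply] }
  obtain ⟨a, a0, ha⟩ := ex_a χ
  obtain ⟨c, hc, n⟩ := syl (C := L ⊓ D) H inf_le_left hg
    (fun b => ⟨L.mul_mem (L.mul_mem hg (H.syl.le (mem_TA.2 ⟨b, rfl⟩))) (L.inv_mem hg), fun v => by
      obtain ⟨v, rfl⟩ := g.surjective v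
      have k := cW _ (cm_mem b v)
      rw [map_mul, map_mul, map_inv, map_inv, inv_mul_eq_one] at k
      rw [cj_app, k]⟩) a0
    ⟨H.syl.le (mem_TA.2 ⟨_, rfl⟩), fun v => by
      obtain ⟨z, hz, e⟩ := ta_eq a v
      rw [e, map_mul, map_mul, ha _ v.1.hd, cZ z hz, mul_one, mul_one]⟩
  have k := cW _ ((h _ n).2.2 w hw)
  rw [MulAut.mul_apply, MulAut.inv_apply, MulEquiv.apply_symm_apply, hc.2 w] at k
  exact hφ k

end CL.U4
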