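/-
Project U4: the stabiliser of `Zv` normalises the Sylow subgroup; the trivial intersection property.
-/
import Cfsg.Agent.U4.Defs2
import Cfsg.Agent.Fus.EssCube

set_option autoImplicit false
set_option linter.unusedSectionVars false

namespace CL.U4

open Cfsg CL.Fus CL.U5
open scoped commutatorElement

universe u

namespace L1Cx

section Gen
variable {G : Type*} [Group G]

/-- the stabiliser of the chain `G ≥ W ≥ Z ≥ 1` -/
def St (W Z : Subgroup G) : Subgroup (MulAut G) where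
  carrier := {k | (∀ v, v⁻¹ * k v ∈ W) ∧ (∀ w ∈ W, w⁻¹ * k w ∈ Z) ∧ ∀ z ∈ Z, k z = z}
  one_mem' := ⟨fun v => by simp, fun v _ => by simp, fun _ _ => rfl⟩
  mul_mem' := fun {k l} hk hl => ⟨fun v => by simpa [mul_assoc] using mul_mem (hl.1 v) (hk.1 (l v)),
    fun w hw => by simpa [mul_assoc] using mul_mem (hl.2.1 w hw) (hk.2.1 (l w) (by simpa using mul_mem hw (hl.1 w))),
    fun z hz => by rw [MulAut.mul_apply, hl.2.2 z hz, hk.2.2 z hz]⟩
  inv_mem' := fun {k} hk => by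
    have e : ∀ v, v⁻¹ * k⁻¹ v ∈ W := fun v => by simpa using inv_mem (hk.1 (k⁻¹ v))
    exact ⟨e, fun w hw => by simpa using inv_mem (hk.2.1 (k⁻¹ w) (by simpa using mul_mem hw (e w))),
      fun z hz => k.injective (by rw [hk.2.2 z hz, MulAut.apply_inv_self])⟩

theorem step {k : MulAut G} {v : G} (h : k (v⁻¹ * k v) = v⁻¹ * k v) (n : ℕ) : (k ^ n) v = v * (v⁻¹ * k v) ^ n := by
  induction n with
  | zero => simp
  | succ n ih => rw [pow_succ', MulAut.mul_apply, ih, map_mul, map_pow, h, pow_succ', ← mul_assoc, mul_inv_cancel_left]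

theorem St_pg {p : ℕ} (hp : ∀ v : G, v ^ p = 1) (W Z : Subgroup G) : IsPGroup p (St W Z) := fun k => by
  have h1 : ∀ w ∈ W, (k.1 ^ p) w = w := fun w hw => by rw [step (k.2.2.2 _ (k.2.2.1 w hw)), hp, mul_one]
  refine ⟨2, Subtype.ext (MulEquiv.ext fun v => ?_)⟩
  rw [Subgroup.coe_pow, pow_two, pow_mul, step (h1 _ ((pow_mem k.2 p).1 v)), hp, mul_one]
  rfl

theorem St_conj {W Z : Subgroup G} {g k : MulAut G} (h1 : ∀ w ∈ W, g w ∈ W) (h2 : ∀ w ∈ W, g⁻¹ w ∈ W)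
    (h3 : ∀ w ∈ Z, g w ∈ Z) (h4 : ∀ w ∈ Z, g⁻¹ w ∈ Z) (hk : k ∈ St W Z) : g * k * g⁻¹ ∈ St W Z :=
  ⟨fun v => by simpa using h1 _ (hk.1 (g⁻¹ v)), fun w hw => by simpa using h3 _ (hk.2.1 _ (h2 w hw)),
    fun z hz => by rw [MulAut.mul_apply, MulAut.mul_apply, hk.2.2 _ (h4 z hz), MulAut.apply_inv_self]⟩

theorem inv_pres [Finite G] {X : Subgroup G} {g : MulAut G} (h : ∀ x ∈ X, g x ∈ X) : ∀ x ∈ X, g⁻¹ x ∈ X :=
  fun x hx => by
    obtain ⟨y, hy, rfl⟩ := (((X : Set G).toFinite.injOn_iff_bijOn_of_mapsTo (f := g) h).1 g.injective.injOn).surjOn hx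
    rwa [MulAut.inv_apply_self]

end Gen

variable {K : Type u} [Field K] [StarRing K] [UF K]

theorem pow_p (p : ℕ) [CharP K p] (v : Q1 K) : v ^ p = 1 := by
  have : ∀ n : ℕ, (v ^ n).1.d = n * v.1.d ∧ (v ^ n).1.b = n * v.1.b ∧ (v ^ n).1.c = n * v.1.c := fun n => by
    induction n with
    | zero => simp
    | succ n ih =>
      rw [pow_succ, q1_mul_d, q1_mul_b, q1_mul_c, ih.1, ih.2.1, ih.2.2]
      push_cast
      exact ⟨by ring, by ring, by ring⟩
  have k := this p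
  simp only [CharP.cast_eq_zero, zero_mul] at k
  exact q1_ext k.1 k.2.1 k.2.2

theorem ta_St (a : K) : ta a ∈ St (Wv K) (Zv K) :=
  ⟨fun v => mem_Wv.2 (by rw [q1_mul_d, q1_inv_d, ta_d, neg_add_cancel]),
    fun w hw => mem_Zv.2 ⟨by rw [q1_mul_d, q1_inv_d, ta_d, neg_add_cancel],
      by rw [q1_mul_b, q1_inv_b, ta_b, mem_Wv.1 hw]; simp⟩,
    fun z hz => q1_ext (ta_d _ _) (by rw [ta_b, (mem_Zv.1 hz).1]; simp)
      (by rw [ta_c, (mem_Zv.1 hz).1, (mem_Zv.1 hz).2]; simp)⟩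

/-- too many commutators -/
theorem noB {F : FusionSystem (⊤ : Subgroup (U K))} {P : Subgroup (U K)} {k : U K → U K} (hk : Mor F P k)
    (hQ : Q1 K ≤ P) {a : K} (h0 : a ≠ 0) (ha : xa a ∈ P) (hZ : ∀ x ∈ P, ∀ y ∈ P, ⁅k x, k y⁆ ∈ Z K) : False := by
  choose t ht using fun c : {x : K // star x = x} => exists_trace c.2
  let w : {x : K // star x = x} × {x : K // star x = x} → Q1 K := fun x => vv x.1 (star (t x.2 / a)) 0 x.1.2 (by simp)
  have m : ∀ x, ⁅xa a, (w x : U K)⁆ ∈ P := fun x =>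
    mul_mem (mul_mem (mul_mem ha (hQ (w x).2)) (inv_mem ha)) (inv_mem (hQ (w x).2))
  have z : ∀ x, k ⁅xa a, (w x : U K)⁆ ∈ Z K := fun x => hk.homOn.map_commutator ha (hQ (w x).2) ▸ hZ _ ha _ (hQ (w x).2)
  have c : ∀ x, ⁅xa a, (w x : U K)⁆.c = x.2 + a * star a * x.1 := fun x => by
    have : star a ≠ 0 := star_ne_zero.2 h0
    simp only [comm_c, w, vv, xa, star_star, star_div₀, ← ht x.2]
    field_simp
    simp
  have i := Nat.card_le_card_of_injective
    (fun x => (⟨(k ⁅xa a, (w x : U K)⁆).c, U.hc _⟩ : {x : K // star x = x})) fun x y e => by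
      have e1 := hk.injOn (m x) (m y) (U.ext ((z x).1.trans (z y).1.symm) ((z x).2.1.trans (z y).2.1.symm)
        ((z x).2.2.trans (z y).2.2.symm) (congrArg Subtype.val e))
      have e2 : (x.1 : K) = y.1 := by simpa [w, vv, xa, h0] using congrArg U.b e1
      have e3 := congrArg U.c e1
      rw [c, c, e2, add_left_inj] at e3
      exact Prod.ext (Subtype.ext e2) (Subtype.ext e3)
  rw [Nat.card_prod, card_fix] at i
  have := two_le_q (K := K)
  nlinarith

end L1Cx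

open L1Cx

variable {K : Type u} [Field K] [StarRing K] [UF K]

theorem l1c (h : NTZ K) (hb : L1B K) : L1C K := by
  intro p _ _ L H
  have : Finite (MulAut (Q1 K)) := Finite.of_injective (fun a : MulAut (Q1 K) => (a : Q1 K → Q1 K)) DFunLike.coe_injective
  have k1 : ∀ g ∈ L, PZ g → NT g := fun g hg pz a => by
    have z := inv_pres pz
    have w : ∀ w ∈ Wv K, g⁻¹ w ∈ Wv K := fun w hw => by
      obtain ⟨w', hw', x, hx, rfl⟩ := hb p L H g hg w hw
      rw [map_mul, MulAut.inv_apply_self]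
      exact mul_mem hw' (mem_Zv.1 (z x hx)).1
    exact mem_TA.1 (H.syl.2.2 (L ⊓ St (Wv K) (Zv K)) ((St_pg (pow_p p) _ _).to_le inf_le_right)
      (le_inf H.syl.le fun t ht => by obtain ⟨b, rfl⟩ := mem_TA.1 ht; exact ta_St b) inf_le_left
      ⟨L.mul_mem (L.mul_mem hg (H.syl.le (mem_TA.2 ⟨a, rfl⟩))) (L.inv_mem hg), St_conj (inv_pres w) w pz z (ta_St a)⟩)
  refine ⟨k1, fun g hg a a0 pz => ?_⟩
  have mL : g⁻¹ * ta a * g ∈ L := mul_mem (mul_mem (inv_mem hg) (H.syl.le (mem_TA.2 ⟨a, rfl⟩))) hg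
  have n : g⁻¹ * ta a * g ∈ Subgroup.normalizer (TA K : Set (MulAut (Q1 K))) := mem_normalizer_of_finite fun t ht => by
    obtain ⟨b, rfl⟩ := mem_TA.1 ht
    exact mem_TA.2 (k1 _ mL pz b)
  have pk : IsPGroup p (Subgroup.zpowers (g⁻¹ * ta a * g)) :=
    (H.syl.isPGroup.map (MulAut.conj g⁻¹).toMonoidHom).to_le
      (Subgroup.zpowers_le.2 ⟨ta a, mem_TA.2 ⟨a, rfl⟩, by simp⟩)
  obtain ⟨a', e⟩ := mem_TA.1 (H.syl.2.2 _ (H.syl.isPGroup.to_sup_of_normal_left' pk (Subgroup.zpowers_le.2 n))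
    le_sup_left (sup_le H.syl.le (Subgroup.zpowers_le.2 mL)) (Subgroup.mem_sup_right (Subgroup.mem_zpowers _)))
  exact (h g (by simpa using (h _ (H.ti g⁻¹ (inv_mem hg) a a' a0 (by rwa [inv_inv]))).1)).2.1

theorem ti : TI K := by
  intro p _ _ F hF hE g hg a a' a0 e
  have hS : IsPGroup p (⊤ : Subgroup (U K)) := (pg p).to_subgroup _
  have m := mor_autFun le_top hg
  obtain ⟨f, hf, e1⟩ := m.extend (by
    rw [img_autFun]
    exact receptive_of_fullyNormalized hS hF (isFullyNormalized_of_normalizerIn_eq F le_top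
      Subgroup.le_normalizer_of_normal))
  have mx : xa a ∈ extenderF ⊤ (Q1 K) (autFun g) :=
    ⟨trivial, Subgroup.le_normalizer_of_normal (Subgroup.mem_top _), xa a', trivial, fun x hx => by
      have := congrArg (fun k : MulAut (Q1 K) => (k ⟨x, hx⟩ : U K)) (mul_inv_eq_iff_eq_mul.1 e)
      rw [autFun_apply g hx]
      exact (autFun_coe g (ta a ⟨x, hx⟩)).trans this⟩
  obtain ⟨G, hG, e2⟩ := exists_extend_top hS hF (fun B hB k hk hB' => noB hk m.le_extenderF a0 mx fun x hx y hy => by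
    rcases hE B hB with rfl | rfl
    · rw [comm_Q1 (hB' x hx) (hB' y hy)]; exact one_mem _
    · exact comm_Q2 (hB' x hx) (hB' y hy)) hf
  have e3 : ∀ x : Q1 K, (g x : U K) = G x := fun x => by rw [e2 _ (m.le_extenderF x.2), e1 _ x.2, autFun_coe]
  refine fun b => ⟨(G (xa b)).a, ?_⟩
  rw [← conjNormal_Q1, mul_inv_eq_iff_eq_mul]
  refine MulEquiv.ext fun v => Subtype.ext ((e3 _).trans ?_)
  rw [MulAut.mul_apply, MulAut.conjNormal_apply, e3]
  exact hG.homOn.map_conj trivial trivial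

end CL.U4
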