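/-
Project U4, job L1D: the counting argument for the conjugates of `Zv`.
-/
import Cfsg.Agent.U4.Defs2

set_option autoImplicit false
set_option linter.unusedSectionVars false

namespace CL.U4

open Cfsg CL.Fus CL.U5

universe u

namespace L1Dx

open MulAction Subgroup
open scoped Pointwise

theorem free_card {G X : Type*} [Group G] [Finite G] [Finite X] [MulAction G X] (x0 : X) (h0 : ∀ g : G, g • x0 = x0)
    (h : ∀ (g : G) (x : X), x ≠ x0 → g • x = x → g = 1) :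
    ∃ k, Nat.card X = 1 + k * Nat.card G ∧ ((∃ x, x ≠ x0) → 1 ≤ k) ∧
      (k = 1 → ∀ x y, x ≠ x0 → y ≠ x0 → ∃ g : G, g • x = y) := by
  classical
  let J : SubMulAction G X := ⟨{x | x ≠ x0}, fun g x hx e => hx (by rw [← inv_smul_smul g x, e, h0])⟩
  have hs : ∀ b : J, stabilizer G b = ⊥ := fun b => (eq_bot_iff_forall _).2 fun g hg =>
    h g b.1 b.2 (congrArg Subtype.val hg)
  have e1 : Nat.card J = Nat.card (Quotient (orbitRel G J)) * Nat.card G := by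
    rw [Nat.card_congr (selfEquivOrbitsQuotientProd hs), Nat.card_prod]
  have e2 : Nat.card X = Nat.card J + 1 := by
    rw [← Finite.card_option]
    exact (Nat.card_congr (Equiv.optionSubtypeNe x0)).symm
  refine ⟨_, by rw [e2, e1, add_comm], fun ⟨x, hx⟩ => ?_, fun k x y hx hy => ?_⟩
  · have : Nonempty (Quotient (orbitRel G J)) := ⟨Quotient.mk _ ⟨x, hx⟩⟩
    exact Nat.card_pos
  · rw [k, one_mul] at e1
    have i : Function.Injective fun g : G => g • (⟨x, hx⟩ : J) := fun a b e => by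
      have : (b⁻¹ * a) • x = x := by
        rw [mul_smul, inv_smul_eq_iff]
        exact congrArg Subtype.val e
      exact (inv_mul_eq_one.1 (h _ x hx this)).symm
    obtain ⟨g, hg⟩ := (i.bijective_of_nat_card_le e1.le).2 ⟨y, hy⟩
    exact ⟨g, congrArg Subtype.val hg⟩

theorem core {V : Type u} [Group V] [Finite V] (hc : CNT.{u}) (L T : Subgroup (MulAut V)) (Z W U0 X : Subgroup V)
    (q : ℕ) (TL : T ≤ L) (cT : Nat.card T = q ^ 2) (cZ : Nat.card Z = q) (cW : Nat.card W = q ^ 3) (ZW : Z ≤ W)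
    (UZ : U0 ≤ Z) (f1 : ∀ g ∈ L, g • Z = Z → g • W = W)
    (f2 : ∀ t ∈ T, t ≠ 1 → ∀ g ∈ L, (g⁻¹ * t * g) • Z = Z → g • Z = Z) (f3 : ∀ t ∈ T, t • Z = Z)
    (f4 : ∀ g ∈ L, g • Z ≠ Z → ∀ z ∈ Z, g z ∈ W → g z ∈ U0)
    (f5 : ∀ g ∈ L, ∀ w ∈ W, ∃ w' ∈ W, ∃ z ∈ Z, w = g w' * z)
    (f6 : ∀ w ∈ W, w ∉ Z → ∀ z ∈ Z, ∃ t ∈ T, t w = w * z) (fU : ∀ g ∈ L, ∀ v ∈ U0, g v = v)
    (fX : ∀ g ∈ L, ∀ w ∈ W, g w ∈ X) (ne : ∃ g ∈ L, g • Z ≠ Z) (cX : Nat.card U0 * Nat.card X ≤ q ^ 4) :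
    U0 = ⊥ ∧ ∀ g ∈ L, ∀ g' ∈ L, g • Z ≠ Z → g' • Z ≠ Z → ∃ t ∈ T, ((t * g)⁻¹ * g') • Z = Z := by
  classical
  have := Fintype.ofFinite V
  let ι := orbit L (Z, W)
  have := Fintype.ofFinite ι
  let x0 : ι := ⟨(Z, W), mem_orbit_self _⟩
  have ex : ∀ i : ι, ∃ g : L, i = g • x0 := fun ⟨_, g, e⟩ => ⟨g, Subtype.ext e.symm⟩
  have m1 : ∀ (g : L) (i : ι) (v : V), (g : MulAut V) v ∈ (g • i).1.1 ↔ v ∈ i.1.1 := fun g i v =>
    smul_mem_pointwise_smul_iff (a := (g : MulAut V)) (S := i.1.1) (x := v)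
  have m2 : ∀ (g : L) (i : ι) (v : V), (g : MulAut V) v ∈ (g • i).1.2 ↔ v ∈ i.1.2 := fun g i v =>
    smul_mem_pointwise_smul_iff (a := (g : MulAut V)) (S := i.1.2) (x := v)
  have st : ∀ g : L, g • x0 = x0 ↔ (g : MulAut V) • Z = Z := fun g =>
    ⟨fun e => congrArg (fun i : ι => i.1.1) e, fun e => Subtype.ext (Prod.ext e (f1 g g.2 e))⟩
  have sj : ∀ (g : L) (v : V), ∃ v', v = (g : MulAut V) v' := fun g v => ⟨_, ((g : MulAut V).apply_symm_apply v).symm⟩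
  let fs : Subgroup V → Finset V := fun S => Finset.univ.filter (· ∈ S)
  have mf : ∀ {S : Subgroup V} {v : V}, v ∈ fs S ↔ v ∈ S := by simp [fs]
  have cf : ∀ S : Subgroup V, (fs S).card = Nat.card S := fun S => by
    rw [Nat.card_eq_fintype_card, Fintype.card_subtype]
  have a1 : ∀ i : ι, U0 ≤ i.1.1 := fun i v hv => by
    obtain ⟨g, rfl⟩ := ex i
    rw [← fU g g.2 v hv, m1]
    exact UZ hv
  have a2 : ∀ i : ι, i.1.1 ≤ i.1.2 := fun i v hv => by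
    obtain ⟨g, rfl⟩ := ex i
    obtain ⟨v, rfl⟩ := sj g v
    exact (m2 g x0 v).2 (ZW ((m1 g x0 v).1 hv))
  have a3 : ∀ i : ι, i.1.2 ≤ X := fun i v hv => by
    obtain ⟨g, rfl⟩ := ex i
    obtain ⟨v, rfl⟩ := sj g v
    exact fX g g.2 v ((m2 g x0 v).1 hv)
  have a4 : ∀ i : ι, Nat.card i.1.1 = q ∧ Nat.card i.1.2 = q ^ 3 := fun i => by
    obtain ⟨g, rfl⟩ := ex i
    exact ⟨(Nat.card_congr (equivSMul (g : MulAut V) Z).toEquiv).symm.trans cZ,
      (Nat.card_congr (equivSMul (g : MulAut V) W).toEquiv).symm.trans cW⟩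
  have a5 : ∀ i j : ι, i ≠ j → ∀ v ∈ i.1.1, v ∈ j.1.2 → v ∈ U0 := fun i j n v h1 h2 => by
    obtain ⟨g', rfl⟩ := ex j
    obtain ⟨k, hk⟩ := ex (g'⁻¹ • i)
    rw [inv_smul_eq_iff] at hk
    subst hk
    obtain ⟨v, rfl⟩ := sj g' v
    obtain ⟨v, rfl⟩ := sj k v
    rw [m1, m1] at h1
    rw [m2] at h2
    have := f4 k k.2 (fun e => n (by rw [(st k).2 e])) v h1 h2
    rwa [fU g' g'.2 _ this]
  obtain ⟨k, k1, k2, k3⟩ := free_card (G := T.subgroupOf L) x0 (fun t => (st t).2 (f3 _ t.2)) fun t i n e => by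
    by_contra t1
    obtain ⟨g, rfl⟩ := ex i
    refine n ((st g).2 (f2 _ t.2 (fun e => t1 (Subtype.ext (Subtype.ext e))) g g.2 ((st (g⁻¹ * t * g)).1 ?_)))
    rw [mul_smul, mul_smul, inv_smul_eq_iff]
    exact e
  rw [Nat.card_congr (subgroupOfEquivOfLe TL).toEquiv, cT, Nat.card_eq_fintype_card] at k1
  obtain ⟨g0, g0L, g0n⟩ := ne
  have k4 := k2 ⟨(⟨g0, g0L⟩ : L) • x0, fun e => g0n ((st _).1 e)⟩
  let n : V → ℕ := fun w => (Finset.univ.filter fun j : ι => w ∈ fs j.1.2).card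
  have ni : ∀ (g : L) (w : V), n ((g : MulAut V) w) = n w := fun g w =>
    (Finset.card_equiv (toPerm g) fun j => by simp only [Finset.mem_filter, Finset.mem_univ, true_and, mf,
      toPerm_apply, m2]).symm
  have qp : 0 < q := cZ ▸ Nat.card_pos
  have n0 : ∀ w ∈ W, w ∉ Z → n w = 1 + k * q * (fs U0).card := fun w hw hz => by
    have s1 : ∑ z ∈ fs Z, n (w * z) = q * n w := by
      rw [Finset.sum_congr rfl (g := fun _ => n w) fun z m => by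
        obtain ⟨t, ht, e⟩ := f6 w hw hz z (mf.1 m)
        rw [← e]
        exact ni ⟨t, TL ht⟩ w, Finset.sum_const, cf, cZ, smul_eq_mul]
    have s2 : ∑ z ∈ fs Z, n (w * z) = ∑ j : ι, ((fs Z).filter fun z => w * z ∈ fs j.1.2).card := by
      simp only [n, Finset.card_filter]
      exact Finset.sum_comm
    have s3 : ((fs Z).filter fun z => w * z ∈ fs x0.1.2).card = q := by
      rw [Finset.filter_true_of_mem fun z m => mf.2 (mul_mem hw (ZW (mf.1 m))), cf, cZ]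
    have s4 : ∀ j ∈ Finset.univ.erase x0, ((fs Z).filter fun z => w * z ∈ fs j.1.2).card = (fs U0).card := by
      intro j hj
      have jn := Finset.ne_of_mem_erase hj
      obtain ⟨z0, z1, z2⟩ : ∃ z0 ∈ Z, w * z0 ∈ j.1.2 := by
        obtain ⟨g, rfl⟩ := ex j
        obtain ⟨w', hw', z, hz', e⟩ := f5 g g.2 w hw
        exact ⟨z⁻¹, inv_mem hz', by rw [e, mul_inv_cancel_right]; exact (m2 g x0 w').2 hw'⟩
      refine (Finset.card_equiv (Equiv.mulLeft z0) fun v => ?_).symm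
      simp only [Finset.mem_filter, mf, Equiv.coe_mulLeft]
      refine ⟨fun m => ⟨mul_mem z1 (UZ m), ?_⟩, fun ⟨m, m'⟩ => ?_⟩
      · rw [← mul_assoc]
        exact mul_mem z2 (a2 j (a1 j m))
      · rw [← mul_assoc] at m'
        exact a5 x0 j jn.symm v ((mul_mem_cancel_left z1).1 m) ((mul_mem_cancel_left z2).1 m')
    rw [s1, ← Finset.add_sum_erase _ _ (Finset.mem_univ x0), s3, Finset.sum_congr rfl s4, Finset.sum_const,
      Finset.card_erase_of_mem (Finset.mem_univ x0), Finset.card_univ, k1, Nat.add_sub_cancel_left, smul_eq_mul] at s2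
    exact Nat.eq_of_mul_eq_mul_left qp (by rw [s2]; ring)
  have lt : U0 ≠ Z := fun e => g0n (by
    ext v
    rw [mem_pointwise_smul_iff_inv_smul_mem, ← e]
    refine ⟨fun m => ?_, fun m => ?_⟩
    · have := fU g0 g0L _ m
      rw [show g0 (g0⁻¹ • v) = v from g0.apply_symm_apply v] at this
      rwa [this]
    · rwa [show g0⁻¹ • v = v from fU _ (inv_mem g0L) v m])
  obtain ⟨r1, r2⟩ := hc V ι (fun i => fs i.1.1) (fun i => fs i.1.2) (fs U0) (fs X) q k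
    (fun i => ⟨fun v m => mf.2 (a1 i (mf.1 m)), fun v m => mf.2 (a2 i (mf.1 m)), fun v m => mf.2 (a3 i (mf.1 m)),
      (cf _).trans (a4 i).1, (cf _).trans (a4 i).2⟩)
    (fun i j e v m => mf.2 (a5 i j e v (mf.1 (Finset.mem_inter.1 m).1) (mf.1 (Finset.mem_inter.1 m).2))) k1 k4
    (fun i w h1 h2 => by
      obtain ⟨g, rfl⟩ := ex i
      obtain ⟨w, rfl⟩ := sj g w
      exact (ni g w).trans (n0 w ((m2 g x0 w).1 (mf.1 h1)) fun m => h2 (mf.2 ((m1 g x0 w).2 m))))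
    (by rw [cf, ← cZ]; exact card_dvd_of_le UZ)
    (by
      rw [cf, ← cZ]
      exact lt_of_not_ge fun e => lt (eq_of_le_of_card_ge UZ e))
    (by rw [cf]; exact Nat.card_pos) (by rwa [cf, cf])
  refine ⟨card_eq_one.1 ((cf _).symm.trans r1), fun g hg g' hg' n1 n2 => ?_⟩
  obtain ⟨t, e⟩ := k3 r2 ((⟨g, hg⟩ : L) • x0) ((⟨g', hg'⟩ : L) • x0) (fun e => n1 ((st _).1 e)) fun e => n2 ((st _).1 e)
  refine ⟨_, t.2, (st ((t.1 * ⟨g, hg⟩)⁻¹ * ⟨g', hg'⟩)).1 ?_⟩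
  rw [mul_smul, inv_smul_eq_iff, mul_smul]
  exact e.symm

variable {K : Type u} [Field K] [StarRing K] [UF K]

theorem sm_iff {V : Type*} [Group V] [Finite V] (g : MulAut V) (S : Subgroup V) : g • S = S ↔ ∀ z ∈ S, g z ∈ S :=
  ⟨fun e z hz => e ▸ smul_mem_pointwise_smul z g S hz, fun h => eq_of_le_of_card_ge (fun v hv => by
    have := h _ (mem_pointwise_smul_iff_inv_smul_mem.1 hv)
    rwa [show g (g⁻¹ • v) = v from g.apply_symm_apply v] at this) (Nat.card_congr (equivSMul g S).toEquiv).le⟩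

theorem cT : Nat.card (TA K) = UF.q K ^ 2 := by
  rw [← card_K]
  exact (Nat.card_congr (Equiv.ofBijective (fun a : K => (⟨ta a, mem_TA.2 ⟨a, rfl⟩⟩ : TA K))
    ⟨fun a b e => ta_inj (congrArg Subtype.val e), fun g => let ⟨a, e⟩ := mem_TA.1 g.2; ⟨a, Subtype.ext e.symm⟩⟩)).symm

theorem cZ : Nat.card (Zv K) = UF.q K := by
  rw [← card_fix]
  exact Nat.card_congr ⟨fun z => ⟨z.1.1.c, z.1.1.hc⟩, fun c => ⟨vv 0 0 c (star_zero K) c.2, mem_Zv.2 ⟨rfl, rfl⟩⟩,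
    fun z => Subtype.ext (q1_ext (mem_Zv.1 z.2).1.symm (mem_Zv.1 z.2).2.symm rfl), fun _ => rfl⟩

theorem cW : Nat.card (Wv K) = UF.q K ^ 3 := by
  rw [pow_succ, ← card_K, ← card_fix, ← Nat.card_prod]
  exact Nat.card_congr ⟨fun z => ⟨z.1.1.b, z.1.1.c, z.1.1.hc⟩,
    fun c => ⟨vv 0 c.1 c.2 (star_zero K) c.2.2, mem_Wv.2 rfl⟩,
    fun z => Subtype.ext (q1_ext (mem_Wv.1 z.2).symm rfl rfl), fun _ => rfl⟩

end L1Dx

variable {K : Type u} [Field K] [StarRing K] [UF K]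

open L1Dx in
theorem l1d (hc : CNT.{u}) (h0 : NTZ K) (ha : L1A K) (hb : L1B K) (hC : L1C K) : L1D K := by
  intro p _ _ L L' U0 X h TL LL ne fU UZ hU fX cX
  obtain ⟨r1, r2⟩ := core hc L' (TA K) (Zv K) (Wv K) U0 X (UF.q K) TL cT cZ cW (fun v m => (mem_Zv.1 m).1) UZ
    (fun g hg e => (sm_iff _ _).2 (h0 g ((hC p L h).1 g (LL hg) ((sm_iff _ _).1 e))).2.2)
    (fun t ht t1 g hg e => by
      obtain ⟨a, rfl⟩ := mem_TA.1 ht
      exact (sm_iff _ _).2 ((hC p L h).2 g (LL hg) a (fun k => t1 (by rw [k, ta_zero])) ((sm_iff _ _).1 e)))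
    (fun t ht => by
      obtain ⟨a, rfl⟩ := mem_TA.1 ht
      exact (sm_iff _ _).2 fun z hz => mem_Zv.2 ⟨(ta_d a z).trans (mem_Zv.1 hz).1, by
        rw [ta_b, (mem_Zv.1 hz).1, (mem_Zv.1 hz).2, mul_zero, add_zero]⟩)
    (fun g hg n z hz m => hU g hg (fun k => n ((sm_iff _ _).2 k)) z hz (ha p L h g (LL hg) z hz m))
    (fun g hg => hb p L h g (LL hg))
    (fun w hw hz z m => by
      have d0 : w.1.d = 0 := hw
      have b0 : w.1.b ≠ 0 := fun e => hz (mem_Zv.2 ⟨hw, e⟩)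
      have b1 : star w.1.b ≠ 0 := star_ne_zero.2 b0
      obtain ⟨x, hx⟩ := exists_trace z.1.hc
      refine ⟨ta (x / star w.1.b), mem_TA.2 ⟨_, rfl⟩, q1_ext ?_ ?_ ?_⟩
      · rw [ta_d, q1_mul_d, (mem_Zv.1 m).1, add_zero]
      · rw [ta_b, q1_mul_b, d0, (mem_Zv.1 m).2, mul_zero]
      · rw [ta_c, q1_mul_c, d0, mul_zero, add_zero, ← hx, star_div₀, star_star, div_mul_cancel₀ _ b1,
          div_mul_cancel₀ _ b0, add_assoc])
    fU fX (let ⟨g, hg, n⟩ := ne; ⟨g, hg, fun e => n ((sm_iff _ _).1 e)⟩) cX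
  refine ⟨r1, fun g hg g' hg' n n' => ?_⟩
  obtain ⟨t, ht, e⟩ := r2 g hg g' hg' (fun e => n ((sm_iff _ _).1 e)) fun e => n' ((sm_iff _ _).1 e)
  obtain ⟨a, rfl⟩ := mem_TA.1 ht
  exact ⟨a, (sm_iff _ _).1 e⟩

end CL.U4
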