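/-
Project U4: the normal form of the images of `Zv` and `Wv`.
-/
import Cfsg.Agent.U4.Defs2

set_option autoImplicit false

namespace CL.U4

open Cfsg CL.Fus CL.U5

universe u

variable {K : Type u} [Field K] [StarRing K] [UF K]

namespace L1Fx

theorem sec {G : Type*} [Group G] {A : Type*} [AddGroup A] (X : Subgroup G) (π : G → A) (ρ : A → A)
    (hπ : ∀ v w, π (v * w) = π v + π w) (hρ : ∀ x y, ρ (x + y) = ρ x + ρ y) (ex : ∀ x, ∃ v ∈ X, π v = ρ x)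
    (un : ∀ v ∈ X, π v = 0 → v = 1) : ∃ s : A → G, (∀ x, s x ∈ X ∧ π (s x) = ρ x) ∧ (∀ x y, s (x + y) = s x * s y) ∧
      ∀ v ∈ X, ∀ x, π v = ρ x → v = s x := by
  choose s h1 h2 using ex
  have k : ∀ v ∈ X, ∀ x, π v = ρ x → v = s x := fun v hv x e => mul_inv_eq_one.1 (un _ (mul_mem hv (inv_mem (h1 x)))
    (add_right_cancel (b := π (s x)) (by rw [← hπ, inv_mul_cancel_right, zero_add, e, h2])))
  exact ⟨s, fun x => ⟨h1 x, h2 x⟩,
    fun x y => (k _ (mul_mem (h1 x) (h1 y)) _ (by rw [hπ, h2, h2, hρ])).symm, k⟩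

theorem nf {g : MulAut (Q1 K)} (i1 : ∀ z ∈ Zv K, g z ∈ Wv K → z = 1) (i2 : ∀ z ∈ Zv K, g⁻¹ z ∈ Wv K → z = 1)
    (hb : ∀ w ∈ Wv K, ∃ w' ∈ Wv K, ∃ z ∈ Zv K, w = g w' * z) : ∃ b f e, NF g b f e := by
  obtain ⟨t, ht⟩ := exists_ne K
  have t1 : t - star t ≠ 0 := sub_ne_zero.2 ht.symm
  have t2 : star t - t ≠ 0 := sub_ne_zero.2 ht
  have sj : ∀ d : K, star d = d → ∃ v : Q1 K, g⁻¹ v ∈ Zv K ∧ v.1.d = d := fun d hd => by
    obtain ⟨c, hc⟩ := (Finite.injective_iff_surjective (f := fun c : {x : K // star x = x} =>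
      (⟨(g (vv 0 0 c (star_zero K) c.2)).1.d, U.hd _⟩ : {x : K // star x = x}))).1 (fun c c' e => by
        have := i1 (vv 0 0 c.1 (star_zero K) c.2 * (vv 0 0 c'.1 (star_zero K) c'.2)⁻¹)
          (mul_mem (mem_Zv.2 ⟨rfl, rfl⟩) (inv_mem (mem_Zv.2 ⟨rfl, rfl⟩))) (by
            rw [mem_Wv, map_mul, map_inv, q1_mul_d, q1_inv_d, ← sub_eq_add_neg, sub_eq_zero]
            exact congrArg Subtype.val e)
        exact Subtype.ext (congrArg (fun v : Q1 K => v.1.c) (mul_inv_eq_one.1 this))) ⟨d, hd⟩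
    exact ⟨_, by rw [MulAut.inv_apply_self]; exact mem_Zv.2 ⟨rfl, rfl⟩, congrArg Subtype.val hc⟩
  obtain ⟨s, s1, s2, s3⟩ := sec ((Zv K).comap g⁻¹.toMonoidHom) (fun v => v.1.d)
    (fun x => (t * star x - star t * x) / (t - star t)) q1_mul_d (fun x y => by rw [star_add]; ring)
    (fun x => sj _ (by simp only [star_div₀, star_sub, star_mul', star_star]; field_simp; ring))
    fun v hv e => g⁻¹.map_eq_one_iff.1 (i1 _ hv (by rwa [MulAut.apply_inv_self]))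
  obtain ⟨r, r1, r2, r3⟩ := sec (Wv K ⊓ (Wv K).comap g⁻¹.toMonoidHom) (fun v => v.1.b) id q1_mul_b (fun _ _ => rfl)
    (fun y => by
      obtain ⟨w, hw, z, hz, e⟩ := hb (vv 0 y 0 (star_zero K) (star_zero K)) rfl
      rw [← mul_inv_eq_iff_eq_mul] at e
      refine ⟨g w, ⟨e ▸ (Wv K).mul_mem rfl ((Wv K).inv_mem (mem_Zv.1 hz).1), ?_⟩, ?_⟩
      · change g⁻¹ (g w) ∈ Wv K
        rwa [MulAut.inv_apply_self]
      · rw [← e, q1_mul_b, q1_inv_b, (mem_Zv.1 hz).2, neg_zero, add_zero]; rfl)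
    fun v hv e => i2 v (mem_Zv.2 ⟨hv.1, e⟩) hv.2
  have rd : ∀ v : Q1 K, v.1.d = (t * star v.1.d - star t * v.1.d) / (t - star t) := fun v => by
    rw [U.star_d]; field_simp
  have sd : ∀ v : Q1 K, (s v.1.d).1.d = v.1.d := fun v => (s1 _).2.trans (rd v).symm
  refine ⟨.mk' (fun x => (s x).1.b) fun x y => by rw [s2, q1_mul_b],
    .mk' (fun x => (s x).1.c) fun x y => by rw [s2, q1_mul_c], .mk' (fun x => (r x).1.c) fun x y => by rw [r2, q1_mul_c],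
    fun _ _ => U.hc _, fun _ => U.hc _, fun v => ⟨fun k => ?_, fun k => ?_⟩, fun v => ?_⟩
  · have := s3 v k _ (rd v)
    exact ⟨congrArg (·.1.b) this, congrArg (·.1.c) this⟩
  · exact q1_ext (sd v).symm k.1 k.2 ▸ (s1 _).1
  · have zW : g⁻¹ (s v.1.d) ∈ Wv K := (mem_Zv.1 (s1 v.1.d).1).1
    have ud : (v * (s v.1.d)⁻¹).1.d = 0 := by rw [q1_mul_d, q1_inv_d, sd, add_neg_cancel]
    have ub : (v * (s v.1.d)⁻¹).1.b = v.1.b - (s v.1.d).1.b := by rw [q1_mul_b, q1_inv_b, sub_eq_add_neg]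
    have uc : (v * (s v.1.d)⁻¹).1.c = v.1.c - (s v.1.d).1.c := by rw [q1_mul_c, q1_inv_c, sub_eq_add_neg]
    rw [← mul_mem_cancel_right (inv_mem zW), ← map_inv, ← map_mul, ← sub_eq_iff_eq_add']
    exact ⟨fun k => uc.symm.trans (congrArg (·.1.c) (r3 _ ⟨ud, k⟩ _ ub)),
      fun k => q1_ext (ud.trans (r1 _).1.1.symm) (ub.trans (r1 _).2.symm) (uc.trans k) ▸ (r1 _).1.2⟩

end L1Fx

theorem l1f (h0 : NTZ K) (ha : L1A K) (hb : L1B K) (hC : L1C K) : L1F K := by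
  intro p _ _ L h k
  have nf : ∀ g ∈ L, ¬ PZ g → ∃ b f e, NF g b f e := fun g hg np =>
    L1Fx.nf (fun z hz e => k.1 g hg np z hz (ha p L h g hg z hz e))
      (fun z hz e => k.1 _ (inv_mem hg) (fun q => np (h0 _ (h0 _ ((hC p L h).1 _ (inv_mem hg) q)).1).2.1) z hz
        (ha p L h _ (inv_mem hg) z hz e)) (hb p L h g hg)
  obtain ⟨g, hg, ng⟩ := h.ne
  have np : ¬ PZ g := fun q => ng ((hC p L h).1 g hg q)
  obtain ⟨b, f, e, n⟩ := nf g hg np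
  have hg' := mul_mem (h.syl.1 (mem_TA.2 ⟨-b 1, rfl⟩)) hg
  obtain ⟨b', f', e', n'⟩ := nf _ hg' fun q => np fun z hz => by
    obtain ⟨q1, q2⟩ := mem_Zv.1 (q z hz)
    rw [MulAut.mul_apply, ta_d] at q1
    rw [MulAut.mul_apply, ta_b, q1, mul_zero, add_zero] at q2
    exact mem_Zv.2 ⟨q1, q2⟩
  refine ⟨_, hg', b', f', e', ?_, n'⟩
  have := ((n'.zz (ta (-b 1) (vv 1 (b 1) (f 1) (star_one K) (n.ff 1 (star_one K))))).1 (by
    rw [mul_inv_rev, MulAut.mul_apply, MulAut.inv_apply_self]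
    exact (n.zz _).2 ⟨rfl, rfl⟩)).1
  rw [ta_b, ta_d] at this
  exact this.symm.trans (by simp [vv])

end CL.U4
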