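/-
Project U4: the quadratic maps attached to a conjugate of the pair `Zv ≤ Wv` are proportional.
-/
import Cfsg.Agent.U4.Defs2

set_option autoImplicit false
set_option linter.unusedSectionVars false

namespace CL.U4

open Cfsg CL.Fus CL.U5

universe u

variable {K : Type u} [Field K] [StarRing K] [UF K]

namespace L1Gx

theorem alg (P Φ : K → K → K) (add : ∀ a d d', P a (d + d') = P a d + P a d') (p0 : ∀ d, P 0 d = 0)
    (fx : ∀ a d, star d = d → star (P a d) = P a d) (inj : ∀ a d, a ≠ 0 → star d = d → P a d = 0 → d = 0)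
    (fa : ∀ x y c, star c = c → Φ (x + y) c = Φ x c + Φ y c)
    (h1 : ∀ x, x ≠ 0 → ∃ a, ∀ c, star c = c → ∃ d, star d = d ∧ P a d = c ∧ Φ x c = a * d)
    (h2 : ∀ a, a ≠ 0 → ∃ x, ∀ c, star c = c → ∃ d, star d = d ∧ P a d = c ∧ Φ x c = a * d) (a : K) :
    ∃ r, star r = r ∧ ∀ d, star d = d → P a d = P 1 (r * d) := by
  have z : ∀ a, P a 0 = 0 := fun a => by simpa using add a 0 0
  have step : ∀ a θ : K, a ≠ 0 → star θ ≠ θ → ∃ r, star r = r ∧ ∀ d, star d = d → P (θ * a) d = P a (r * d) := by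
    intro a θ ha hθ
    have n : θ - star θ ≠ 0 := sub_ne_zero.2 hθ.symm
    have n' : star θ - θ ≠ 0 := sub_ne_zero.2 hθ
    have a2 : θ * a ≠ 0 := mul_ne_zero (fun e => hθ (by simp [e])) ha
    have ind : ∀ s t : K, star s = s → star t = t → a * s + θ * a * t = 0 → s = 0 ∧ t = 0 := fun s t hs ht e => by
      have e1 : s + θ * t = 0 := mul_left_cancel₀ ha (by linear_combination e)
      have e2 := congrArg star e1
      rw [star_add, star_mul', hs, ht, star_zero] at e2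
      have t0 : t = 0 := mul_left_cancel₀ n (by linear_combination e1 - e2)
      exact ⟨by linear_combination e1 - θ * t0, t0⟩
    obtain ⟨x, hx⟩ := h2 a ha
    obtain ⟨y, hy⟩ := h2 _ a2
    by_cases e : x + y = 0
    · obtain ⟨d, fd, e1, e2⟩ := hx 1 (star_one K)
      obtain ⟨d', fd', -, e2'⟩ := hy 1 (star_one K)
      have k := fa x y 1 (star_one K)
      have k0 := fa 0 0 1 (star_one K)
      rw [add_zero] at k0
      rw [e, e2, e2'] at k
      rw [(ind d d' fd fd' (by linear_combination -k - k0)).1, z] at e1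
      exact absurd e1 zero_ne_one
    obtain ⟨u, hu⟩ := h1 _ e
    obtain ⟨s, t, hs, ht, rfl⟩ : ∃ s t, star s = s ∧ star t = t ∧ u = a * s + θ * a * t :=
      ⟨(θ * star (u / a) - star θ * (u / a)) / (θ - star θ), (u / a - star (u / a)) / (θ - star θ), by
        generalize u / a = w
        simp only [star_div₀, star_sub, star_star, star_mul']; field_simp; ring, by
        generalize u / a = w
        simp only [star_div₀, star_sub, star_star]; field_simp; ring, by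
        generalize star (u / a) = w
        field_simp; ring⟩
    have key : ∀ c, star c = c → ∃ d, star d = d ∧ P a (s * d) = c ∧ P (θ * a) (t * d) = c := fun c hc => by
      obtain ⟨d1, f1, e1, k1⟩ := hx c hc
      obtain ⟨d2, f2, e2, k2⟩ := hy c hc
      obtain ⟨d3, f3, -, k3⟩ := hu c hc
      have k := fa x y c hc
      obtain ⟨l1, l2⟩ := ind (d1 - s * d3) (d2 - t * d3) (by simp [f1, f3, hs]) (by simp [f2, f3, ht])
        (by linear_combination -k - k1 - k2 + k3)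
      exact ⟨d3, f3, sub_eq_zero.1 l1 ▸ e1, sub_eq_zero.1 l2 ▸ e2⟩
    have t0 : t ≠ 0 := fun k => by
      obtain ⟨d, -, -, e2⟩ := key 1 (star_one K)
      rw [k, zero_mul, z] at e2
      exact zero_ne_one e2
    refine ⟨s / t, by simp [hs, ht], fun d hd => ?_⟩
    obtain ⟨d', f', e1, e2⟩ := key _ (fx (θ * a) d hd)
    have k := add (θ * a) (t * d' - d) d
    rw [sub_add_cancel, e2, right_eq_add] at k
    rw [← e1, ← sub_eq_zero.1 (inj _ _ a2 (by simp [ht, f', hd]) k)]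
    congr 1
    field_simp
  by_cases a0 : a = 0
  · exact ⟨0, star_zero K, fun d _ => by rw [a0, p0, zero_mul, z]⟩
  by_cases fa : star a = a
  · obtain ⟨θ, hθ⟩ := exists_ne K
    have θ0 : θ ≠ 0 := fun e => hθ (by simp [e])
    obtain ⟨r, hr, e⟩ := step θ (a / θ) θ0 fun k => hθ (by
      rw [star_div₀, fa, div_eq_div_iff (star_ne_zero.2 θ0) θ0] at k
      exact (mul_left_cancel₀ a0 k).symm)
    obtain ⟨r', hr', e'⟩ := step 1 θ one_ne_zero hθ
    rw [div_mul_cancel₀ _ θ0] at e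
    rw [mul_one] at e'
    exact ⟨r' * r, by simp [hr, hr'], fun d hd => by rw [e d hd, e' _ (by simp [hr, hd]), mul_assoc]⟩
  · simpa only [mul_one] using step 1 a one_ne_zero fa

def mu (b : K →+ K) (v : Q1 K) : K := v.1.b - b v.1.d
def lam (b f e : K →+ K) (v : Q1 K) : K := v.1.c - f v.1.d - e (v.1.b - b v.1.d)

theorem mu_mul (b : K →+ K) (v w : Q1 K) : mu b (v * w) = mu b v + mu b w := by
  simp only [mu, q1_mul_b, q1_mul_d, map_add]; ring
theorem lam_mul (b f e : K →+ K) (v w : Q1 K) : lam b f e (v * w) = lam b f e v + lam b f e w := by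
  simp only [lam, q1_mul_b, q1_mul_c, q1_mul_d, map_add, map_sub]; ring

theorem ta_z {b f : K →+ K} (e : K →+ K) (a : K) {v : Q1 K} (h : v.1.b = b v.1.d ∧ v.1.c = f v.1.d) :
    lam b f e (ta a v) = PP b e a v.1.d ∧ mu b (ta a v) = a * v.1.d := by
  simp only [lam, mu, PP, ta_b, ta_c, ta_d, h.1, h.2, add_sub_cancel_left, and_true]; ring

theorem ta_W (x : K) (u : Q1 K) : u⁻¹ * ta x u ∈ Wv K := mem_Wv.2 (by rw [q1_mul_d, q1_inv_d, ta_d, neg_add_cancel])
theorem ta_Z (x : K) {u : Q1 K} (h : u ∈ Wv K) : u⁻¹ * ta x u ∈ Zv K := mem_Zv.2 ⟨ta_W x u, by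
  rw [q1_mul_b, q1_inv_b, ta_b, mem_Wv.1 h]; ring⟩

end L1Gx

open L1Gx in
theorem l1g (h0 : NTZ K) (ha : L1A K) (hC : L1C K) : L1G K := by
  intro p _ _ L H k g hg b f e nf
  obtain ⟨c1, c2⟩ := hC p L H
  have tL : ∀ a, ta a ∈ L := fun a => H.syl.1 (mem_TA.2 ⟨a, rfl⟩)
  have pi : ∀ k ∈ L, PZ k → PZ k⁻¹ := fun k hk h => (h0 _ (h0 _ (c1 k hk h)).1).2.1
  have ia : ∀ v, g⁻¹ (g v) = v := g.symm_apply_apply
  have ai : ∀ v, g (g⁻¹ v) = v := g.apply_symm_apply
  have ng : ¬ PZ g := fun h => one_ne_zero (mem_Zv.1 (ai _ ▸ h _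
    ((nf.zz (vv 1 (b 1) (f 1) (star_one K) (nf.ff 1 (star_one K)))).2 ⟨rfl, rfl⟩))).1
  have ng' : ¬ PZ g⁻¹ := fun h => ng (inv_inv g ▸ pi _ (inv_mem hg) h)
  have lw : ∀ v, lam b f e v = 0 ↔ g⁻¹ v ∈ Wv K := fun v => by
    rw [nf.ww, lam, sub_sub, sub_eq_zero]
  have mz : ∀ u ∈ Zv K, mu b (g u) = 0 := fun u hu => sub_eq_zero.2 ((nf.zz _).1 (by rwa [ia])).1
  have inj : ∀ a d, a ≠ 0 → star d = d → PP b e a d = 0 → d = 0 := fun a d a0 hd h => by
    have z0 := (nf.zz (vv d (b d) (f d) hd (nf.ff d hd))).2 ⟨rfl, rfl⟩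
    have kL := mul_mem (mul_mem (inv_mem hg) (tL a)) hg
    have := k.1 _ kL (fun h => ng (c2 g hg a a0 h)) _ z0 (ha p L H _ kL _ z0 ((lw _).1 (show lam b f e (ta a (g _)) = 0 by
      rw [ai, (ta_z e a ⟨rfl, rfl⟩).1]; exact h)))
    exact congrArg (fun v : Q1 K => v.1.d) ((map_eq_one_iff _ g⁻¹.injective).1 this)
  classical
  let Φ : K → K → K := fun x c => if hc : star c = c then mu b (g (ta x (g⁻¹ (vv 0 0 c (star_zero K) hc)))) else 0
  have B : ∀ x a, PZ ((ta a * g)⁻¹ * (g * ta x * g⁻¹)) → ∀ c, star c = c →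
      ∃ d, star d = d ∧ PP b e a d = c ∧ Φ x c = a * d := fun x a h c hc => by
    have := ta_z e a ((nf.zz ((ta a)⁻¹ (g (ta x (g⁻¹ (vv 0 0 c (star_zero K) hc)))))).1
      (h _ (mem_Zv.2 ⟨rfl, rfl⟩)))
    rw [MulAut.apply_inv_self] at this
    refine ⟨_, U.hd _, this.1.symm.trans ?_, (dif_pos hc).trans this.2⟩
    have k1 := lam_mul b f e (g (g⁻¹ (vv 0 0 c (star_zero K) hc)))
      (g ((g⁻¹ (vv 0 0 c (star_zero K) hc))⁻¹ * ta x (g⁻¹ (vv 0 0 c (star_zero K) hc))))
    rw [← map_mul, mul_inv_cancel_left, (lw (g (_ * _))).2 (by rw [ia]; exact ta_W _ _), ai] at k1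
    rw [k1]
    simp [lam, vv]
  have add : ∀ a d d', PP b e a (d + d') = PP b e a d + PP b e a d' := fun a d d' => by
    simp only [PP, map_add, star_add, mul_add]; ring
  choose κ hκ eκ using alg (PP b e) Φ add (fun d => by simp [PP])
    (fun a d hd => by simp only [PP, star_add, star_sub, star_mul', star_star, hd, nf.ef]; ring) inj
    (fun x y c hc => by
      simp only [Φ, dif_pos hc]
      generalize hu : g⁻¹ (vv 0 0 c _ hc) = u
      have u0 : mu b (g u) = 0 := by rw [← hu, ai]; simp [mu, vv]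
      have k1 := mu_mul b (g u) (g (u⁻¹ * ta y u))
      have k2 := mu_mul b (g (u⁻¹ * ta y u)) (g ((u⁻¹ * ta y u)⁻¹ * ta x (u⁻¹ * ta y u)))
      rw [← map_mul, mul_inv_cancel_left] at k1 k2
      rw [ta_add, MulAut.mul_apply, ← mul_inv_cancel_left u (ta y u), map_mul, map_mul, mu_mul, k2,
        mz _ (ta_Z x (ta_W y u)), mul_inv_cancel_left, k1, u0, add_zero, zero_add])
    (fun x hx => (k.2 g hg _ (mul_mem (mul_mem hg (tL x)) (inv_mem hg)) ng
      fun h => ng' (c2 _ (inv_mem hg) x hx (by rwa [inv_inv]))).imp (B x))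
    fun a a0 => (k.2 _ (inv_mem hg) _ (mul_mem (mul_mem (inv_mem hg) (tL a)) hg) ng'
      fun h => ng (c2 g hg a a0 h)).imp fun x h => B x a (by
        convert pi _ (mul_mem (inv_mem (mul_mem (tL x) (inv_mem hg))) (mul_mem (mul_mem (inv_mem hg) (tL a)) hg)) h
          using 1
        group)
  exact ⟨inj, PP b e 1, κ, fun x y _ _ => add 1 x y, hκ, eκ⟩

end CL.U4
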