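/-
Project U4 (S5210): the step L1H.
-/
import Cfsg.Agent.U4.Defs2

set_option autoImplicit false
set_option linter.unusedSectionVars false

namespace CL.U4

open Cfsg CL.Fus CL.U5

universe u

variable {K : Type u} [Field K] [StarRing K] [UF K]

namespace L1Hx

def tb (y : K) : MulAut (Q1 K) := r1 K * ta (-star y) * r1 K

theorem tb_d (y : K) (v : Q1 K) :
    (tb y v).1.d = v.1.d + star y * v.1.b + y * star v.1.b + y * star y * v.1.c := by
  simp only [tb, MulAut.mul_apply, r1_d, r1_b, r1_c, ta_c, star_neg, star_star]; ring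
theorem tb_b (y : K) (v : Q1 K) : (tb y v).1.b = v.1.b + y * v.1.c := by
  simp only [tb, MulAut.mul_apply, r1_d, r1_b, ta_b, star_neg, star_star, star_add, star_mul', U.star_c]; ring
theorem tb_c (y : K) (v : Q1 K) : (tb y v).1.c = v.1.c := by
  simp only [tb, MulAut.mul_apply, r1_d, r1_c, ta_d]

theorem tb_zero : tb (0 : K) = 1 := MulEquiv.ext fun v =>
  q1_ext (by simp [tb_d]) (by simp [tb_b]) (tb_c _ _)

theorem eq_tb {t : MulAut (Q1 K)} {y a : K} (e : a * star y = 1) (h1 : ∀ v : Q1 K, v.1.b = 0 → v.1.c = 0 → t v = v)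
    (h2 : ∀ v : Q1 K, (t v).1.c = v.1.c) (h3 : ∀ v : Q1 K, v.1.c = 0 → (t v).1.b = v.1.b)
    (h4 : ∀ w ∈ Wv K, ∃ u : Q1 K, t w = ta a u ∧ u.1.c = 0 ∧ (w ∈ Zv K → u.1.b = 0)) : t = tb y := by
  have e' : star a * y = 1 := by simpa using congrArg star e
  have k1 : ∀ v : Q1 K, v.1.b = 0 → v.1.c = 0 → t v = tb y v := fun v hb hc => by
    rw [h1 v hb hc]
    exact q1_ext (by simp [tb_d, hb, hc]) (by simp [tb_b, hc]) (tb_c _ _).symm
  have k2 : ∀ v : Q1 K, v.1.d = 0 → v.1.c = 0 → t v = tb y v := fun v hd hc => by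
    obtain ⟨u, eu, uc, -⟩ := h4 v hd
    have b := h3 v hc
    have c := h2 v
    refine q1_ext ?_ (by rw [b, tb_b, hc, mul_zero, add_zero]) (by rw [c, tb_c])
    rw [eu, ta_b] at b
    rw [eu, ta_c, uc, hc] at c
    rw [eu, ta_d, tb_d, hd, hc, ← b]
    simp only [star_add, star_mul', U.star_d]
    linear_combination (-(y * star y)) * c + (star u.1.b * y + star a * y * u.1.d - u.1.d) * e +
      (u.1.b * star y) * e'
  have k3 : ∀ v : Q1 K, v.1.d = 0 → v.1.b = 0 → t v = tb y v := fun v hd hb => by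
    obtain ⟨u, eu, uc, ub⟩ := h4 v hd
    have ub := ub (mem_Zv.2 ⟨hd, hb⟩)
    have c := h2 v
    refine q1_ext ?_ ?_ (by rw [c, tb_c]) <;> rw [eu, ta_c, uc, ub, star_zero] at c
    · rw [eu, ta_d, tb_d, hd, hb, ← c, star_zero]
      linear_combination (-(star a * y * u.1.d)) * e - u.1.d * e'
    · rw [eu, ta_b, tb_b, ub, hb, ← c]
      linear_combination (-(a * u.1.d)) * e'
  refine MulEquiv.ext fun v => ?_
  rw [show v = vv v.1.d 0 0 v.1.hd (star_zero K) * vv 0 v.1.b 0 (star_zero K) (star_zero K) *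
      vv 0 0 v.1.c (star_zero K) v.1.hc from q1_ext (by simp [vv]) (by simp [vv]) (by simp [vv]),
    map_mul, map_mul, map_mul, map_mul, k1 _ rfl rfl, k2 _ rfl rfl, k3 _ rfl rfl]

def z1 (K : Type u) [Field K] [StarRing K] : Q1 K := vv 0 0 1 (star_zero K) (star_one K)
theorem z1_mem : z1 K ∈ Zv K := mem_Zv.2 ⟨rfl, rfl⟩

def nw (u : K) : MulAut (Q1 K) := ta u * tb (-(star u)⁻¹) * ta u

theorem nw_app {u : K} (hu : u ≠ 0) (v : Q1 K) : (nw u v).1.d = (u * star u)⁻¹ * v.1.c ∧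
    (nw u v).1.b = -(u * (star u)⁻¹ * star v.1.b) ∧ (nw u v).1.c = u * star u * v.1.d := by
  have hs : star u ≠ 0 := star_ne_zero.2 hu
  simp only [nw, MulAut.mul_apply, ta_d, ta_b, ta_c, tb_d, tb_b, tb_c, star_add, star_mul', star_neg, star_inv₀, star_star,
    U.star_d, U.star_c]
  refine ⟨?_, ?_, ?_⟩ <;> field_simp <;> ring

end L1Hx

open L1Hx in
theorem l1h (h0 : NTZ K) (hC : L1C K) : L1H K := by
  rintro p _ _ L h k1 ⟨g, hg, nf⟩
  obtain ⟨c1, c2⟩ := hC p L h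
  have zz : ∀ v : Q1 K, g⁻¹ v ∈ Zv K ↔ v.1.b = 0 ∧ v.1.c = 0 := nf.zz
  have ww : ∀ v : Q1 K, g⁻¹ v ∈ Wv K ↔ v.1.c = 0 := fun v => (nf.ww v).trans (by simp)
  have ht : ∀ a, ta a ∈ L := fun a => h.syl.1 (mem_TA.2 ⟨a, rfl⟩)
  have n1 : ¬ PZ g := fun k => by
    have a := mem_Zv.1 (k _ z1_mem)
    have b := (zz (g (z1 K))).1 (by rw [MulAut.inv_apply_self]; exact z1_mem)
    have e : g (z1 K) = 1 := q1_ext a.1 a.2 b.2
    exact one_ne_zero (congrArg (fun v : Q1 K => v.1.c) (g.map_eq_one_iff.1 e))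
  have n2 : ¬ PZ g⁻¹ := fun k => one_ne_zero ((zz _).1 (k _ z1_mem)).2
  have hb : ∀ y, tb y ∈ L := fun y => by
    by_cases hy : y = 0
    · rw [hy, tb_zero]; exact one_mem _
    have hs : star y ≠ 0 := star_ne_zero.2 hy
    have hk := mul_mem (mul_mem (inv_mem hg) (ht (star y)⁻¹)) hg
    obtain ⟨x, hx⟩ := k1.2 _ (inv_mem hg) _ hk n2 fun k => n1 (c2 g hg _ (inv_ne_zero hs) k)
    obtain ⟨-, pz, pv⟩ := h0 _ (h0 _ (c1 _ (mul_mem (inv_mem (mul_mem (ht x) (inv_mem hg))) hk) hx)).1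
    have q : ∀ v : Q1 K, g⁻¹ (v⁻¹ * (g * ta x * g⁻¹) v) = (g⁻¹ v)⁻¹ * ta x (g⁻¹ v) := fun v => by
      rw [map_mul, map_inv, MulAut.mul_apply, MulAut.mul_apply, MulAut.inv_apply_self]
    rw [← eq_tb (t := g * ta x * g⁻¹) (inv_mul_cancel₀ hs) (fun v b c => ?_) (fun v => ?_) (fun v c => ?_) fun w hw => ?_]
    · exact mul_mem (mul_mem hg (ht x)) (inv_mem hg)
    · have m := mem_Zv.1 ((zz v).2 ⟨b, c⟩)
      rw [MulAut.mul_apply, MulAut.mul_apply, show ta x (g⁻¹ v) = g⁻¹ v from q1_ext (ta_d _ _)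
        (by rw [ta_b, m.1, mul_zero, add_zero]) (by simp only [ta_c, m.1, m.2, star_zero, mul_zero, add_zero]),
        MulAut.apply_inv_self]
    · have := (ww (v⁻¹ * (g * ta x * g⁻¹) v)).1 (by rw [q, mem_Wv, q1_mul_d, q1_inv_d, ta_d, neg_add_cancel])
      rw [q1_mul_c, q1_inv_c] at this
      linear_combination this
    · have m := mem_Wv.1 ((ww v).2 c)
      have := ((zz (v⁻¹ * (g * ta x * g⁻¹) v)).1 (by
        rw [q, mem_Zv, q1_mul_d, q1_inv_d, ta_d, neg_add_cancel, q1_mul_b, q1_inv_b, ta_b, m, mul_zero, add_zero,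
          neg_add_cancel]
        exact ⟨rfl, rfl⟩)).1
      rw [q1_mul_b, q1_inv_b] at this
      linear_combination this
    · refine ⟨g (((ta x * g⁻¹)⁻¹ * (g⁻¹ * ta (star y)⁻¹ * g))⁻¹ w), ?_, (ww _).1 ?_, fun hz => ((zz _).1 ?_).1⟩
      · rw [← MulAut.mul_apply, ← MulAut.mul_apply]
        congr 1
        group
      · rw [MulAut.inv_apply_self]; exact pv w hw
      · rw [MulAut.inv_apply_self]; exact pz w hz
  have hn : ∀ u, nw u ∈ L := fun u => mul_mem (mul_mem (ht u) (hb _)) (ht u)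
  have hr : r1 K ∈ L := by
    rw [show r1 K = nw 1 from MulEquiv.ext fun v => q1_ext (by simp [(nw_app one_ne_zero v).1, r1_d])
      (by simp [(nw_app one_ne_zero v).2.1, r1_b]) (by simp [(nw_app one_ne_zero v).2.2, r1_c])]
    exact hn 1
  refine ⟨hr, fun u => ⟨nw (u : K) * r1 K, mul_mem (hn u) hr, fun x => ?_⟩, fun g' hg' => ?_⟩
  · obtain ⟨e1, e2, e3⟩ := nw_app u.ne_zero (r1 K x)
    have hu := u.ne_zero
    have hs : star (u : K) ≠ 0 := star_ne_zero.2 hu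
    rw [MulAut.mul_apply]
    refine U.ext (by rw [q1_a, act_a, q1_a, map_zero, mul_zero]) (by rw [e1, act_d, h1_m, h1_γ, r1_c]) ?_ ?_
    · rw [e2, act_b, h1_l, h1_m, h1_γ, r1_b, star_neg, star_star]
      field_simp
    · rw [e3, act_c, h1_l, h1_m, h1_γ, r1_d, star_pow]
      field_simp
  · by_cases k : PZ g'
    · exact .inl (c1 g' hg' k)
    · obtain ⟨a, ha⟩ := k1.2 _ hr _ hg' (fun k => one_ne_zero (mem_Zv.1 (k _ z1_mem)).1) k
      exact .inr ⟨a, c1 _ (mul_mem (inv_mem (mul_mem (ht a) hr)) hg') ha⟩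

end CL.U4
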