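/-
Project U4: conjugates of the Sylow subgroup on `Q2 / Z`.
-/
import Cfsg.Agent.U4.Defs2

set_option autoImplicit false
set_option linter.unusedSectionVars false

namespace CL.U4

open Cfsg CL.Fus CL.U5

universe u

namespace L2Ax

section Gen
variable {V : Type u} [AddCommGroup V]

/-- the stability group of the chain `0, A, B, V` -/
def St (A B : AddSubgroup V) : Subgroup (Au V) where
  carrier := {k | (∀ v, k v - v ∈ B) ∧ (∀ v ∈ B, k v - v ∈ A) ∧ ∀ v ∈ A, k v = v}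
  mul_mem' := by
    rintro k k' ⟨a1, a2, a3⟩ ⟨b1, b2, b3⟩
    have e : ∀ v, (k * k') v - v = (k (k' v) - k' v) + (k' v - v) := fun v => by rw [au_mul]; abel
    refine ⟨fun v => e v ▸ B.add_mem (a1 _) (b1 _), fun v hv => e v ▸ A.add_mem (a2 _ ?_) (b2 _ hv), fun v hv => ?_⟩
    · simpa using B.add_mem (b1 v) hv
    · rw [au_mul, b3 v hv, a3 v hv]
  one_mem' := ⟨fun v => by rw [au_one, sub_self]; exact B.zero_mem, fun v _ => by rw [au_one, sub_self]; exact A.zero_mem,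
    fun v _ => rfl⟩
  inv_mem' := by
    rintro k ⟨a1, a2, a3⟩
    have e : ∀ v, k⁻¹ v - v = -(k (k⁻¹ v) - k⁻¹ v) := fun v => by rw [au_apply_inv]; abel
    have b1 : ∀ v, k⁻¹ v - v ∈ B := fun v => e v ▸ B.neg_mem (a1 _)
    refine ⟨b1, fun v hv => e v ▸ A.neg_mem (a2 _ ?_), fun v hv => ?_⟩
    · simpa using B.add_mem (b1 v) hv
    · conv_lhs => rw [← a3 v hv]
      exact au_inv_apply k v

theorem step {p : ℕ} (hp : ∀ w : V, p • w = 0) (Y Z : AddSubgroup V) (k : Au V) (h1 : ∀ v, k v - v ∈ Y)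
    (h2 : ∀ n : ℕ, ∀ w ∈ Y, (k ^ n) w - w ∈ Z) (v : V) : (k ^ p) v - v ∈ Z := by
  have : ∀ n : ℕ, (k ^ n) v - v - n • (k v - v) ∈ Z := fun n => by
    induction n with
    | zero => rw [pow_zero, au_one, sub_self, zero_smul, sub_self]; exact Z.zero_mem
    | succ n ih =>
      have e : (k ^ (n + 1)) v - v - (n + 1) • (k v - v) =
          ((k ^ n) v - v - n • (k v - v)) + ((k ^ n) (k v - v) - (k v - v)) := by
        rw [pow_succ, au_mul, map_sub, add_smul, one_smul]; abel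
      exact e ▸ Z.add_mem ih (h2 n _ (h1 v))
  have h := this p
  rwa [hp, sub_zero] at h

theorem st_pg {p : ℕ} (hp : ∀ w : V, p • w = 0) (A B : AddSubgroup V) : IsPGroup p (St A B) := by
  rintro ⟨k, hk⟩
  refine ⟨2, Subtype.ext (au_ext fun v => ?_)⟩
  have h1 := step hp B A k hk.1 fun n => ((St A B).pow_mem hk n).2.1
  have h2 := step hp A ⊥ (k ^ p) h1 (fun n w hw => by
    rw [((St A B).pow_mem ((St A B).pow_mem hk p) n).2.2 w hw, sub_self]; exact AddSubgroup.zero_mem _) v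
  rw [AddSubgroup.mem_bot, sub_eq_zero, ← pow_mul] at h2
  rw [Subgroup.coe_pow, sq]
  exact h2

theorem st_conj {A B A' B' : AddSubgroup V} {g t : Au V} (hA : ∀ v, g v ∈ A' ↔ v ∈ A) (hB : ∀ v, g v ∈ B' ↔ v ∈ B)
    (ht : t ∈ St A B) : g * t * g⁻¹ ∈ St A' B' := by
  have e : ∀ v, (g * t * g⁻¹) v - v = g (t (g⁻¹ v) - g⁻¹ v) := fun v => by rw [map_sub, au_apply_inv]; rfl
  refine ⟨fun v => e v ▸ (hB _).2 (ht.1 _), fun v hv => e v ▸ (hA _).2 (ht.2.1 _ ((hB _).1 ?_)), fun v hv => ?_⟩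
  · rwa [au_apply_inv]
  · rw [au_mul, au_mul, ht.2.2 _ ((hA _).1 (by rwa [au_apply_inv])), au_apply_inv]

theorem st_syl {p : ℕ} (hp : ∀ w : V, p • w = 0) {A B : AddSubgroup V} {T L : Subgroup (Au V)} (h : SylIn p T L)
    (hT : T ≤ St A B) {k : Au V} (h1 : k ∈ L) (h2 : k ∈ St A B) : k ∈ T :=
  h.2.2 (L ⊓ St A B) (st_pg hp A B).to_inf_right (le_inf h.le hT) inf_le_left ⟨h1, h2⟩

end Gen

variable {K : Type u} [Field K] [StarRing K] [UF K]

theorem psmul (p : ℕ) [CharP K p] (w : V2 K) : p • w = 0 := by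
  ext <;> simp

theorem tr_nd {x : K} (h : ∀ z, x * star z + star x * z = 0) : x = 0 := by
  by_contra hx
  obtain ⟨y, hy⟩ := exists_trace (K := K) (a := 1) (star_one K)
  have hs : star x ≠ 0 := star_ne_zero.2 hx
  have := h (star (y / x))
  rw [star_star, star_div₀, mul_div_cancel₀ _ hx, mul_div_cancel₀ _ hs, hy] at this
  exact one_ne_zero this

theorem fst_zero {u : V2 K} (h : ∀ z, fm u (0, z) = 0) : u.1 = 0 :=
  tr_nd fun z => by simpa [fm] using h z

theorem fm_nd {u : V2 K} (h : ∀ w, fm u w = 0) : u = 0 := by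
  refine Prod.ext (fst_zero fun z => h _) (tr_nd fun z => ?_)
  have := h (z, 0)
  simp only [fm, star_zero] at this
  linear_combination -this

theorem conf_iff {g : Au (V2 K)} (h : Conf g) (u v : V2 K) : fm (g u) (g v) = 0 ↔ fm u v = 0 := by
  obtain ⟨ζ, h1, h2⟩ := h
  refine ⟨h2 u v, fun e => ?_⟩
  have z : fm (0 : V2 K) 0 = 0 := by simp [fm]
  have := h1 0 0
  rw [map_zero, z] at this
  rw [h1, e, ← this]

theorem iso_lin {k : Au (V2 K)} (h : ∀ u v, fm (k u) (k v) = fm u v) {l : K} (hl : star l = l) (v : V2 K) :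
    k (l • v) = l • k v := by
  refine sub_eq_zero.1 (fm_nd fun w => ?_)
  have h1 := h (l • v) (k⁻¹ w)
  have h2 := h v (k⁻¹ w)
  rw [au_apply_inv] at h1 h2
  simp only [fm, Prod.fst_sub, Prod.snd_sub, Prod.smul_fst, Prod.smul_snd, smul_eq_mul, star_sub, star_mul', hl]
    at h1 h2 ⊢
  linear_combination h1 - l * h2

/-- the vectors `(0, y)` -/
def BB (K : Type u) [Field K] : AddSubgroup (V2 K) where
  carrier := {v | v.1 = 0}
  add_mem' := fun {v w} (hv : v.1 = 0) (hw : w.1 = 0) => show v.1 + w.1 = 0 by rw [hv, hw, add_zero]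
  zero_mem' := rfl
  neg_mem' := fun {v} (hv : v.1 = 0) => show -v.1 = 0 by rw [hv, neg_zero]

theorem tf_BB : TF K ≤ St (BB K) (BB K) := by
  rintro _ ⟨a, -, rfl⟩
  have e : ∀ v, Tw a v - v ∈ BB K := fun v => sub_self v.1
  refine ⟨e, fun v _ => e v, fun v (hv : v.1 = 0) => ?_⟩
  rw [Tw_apply, hv, mul_zero, add_zero, ← hv]

/-- the vectors orthogonal to `x` -/
def Pe (x : V2 K) : AddSubgroup (V2 K) where
  carrier := {v | fm v x = 0}
  add_mem' := fun {v w} (hv : fm v x = 0) (hw : fm w x = 0) => show fm (v + w) x = 0 by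
    simp only [fm, Prod.fst_add, Prod.snd_add, star_add] at hv hw ⊢; linear_combination hv + hw
  zero_mem' := show fm 0 x = 0 by simp [fm]
  neg_mem' := fun {v} (hv : fm v x = 0) => show fm (-v) x = 0 by
    simp only [fm, Prod.fst_neg, Prod.snd_neg, star_neg] at hv ⊢; linear_combination -hv

/-- the vectors orthogonal to all vectors orthogonal to `x` -/
def Pp (x : V2 K) : AddSubgroup (V2 K) := ⨅ w : Pe x, Pe w.1

theorem mem_Pe {x v : V2 K} : v ∈ Pe x ↔ fm v x = 0 := Iff.rfl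
theorem mem_Pp {x v : V2 K} : v ∈ Pp x ↔ ∀ w, fm w x = 0 → fm v w = 0 :=
  AddSubgroup.mem_iInf.trans ⟨fun h w hw => h ⟨w, hw⟩, fun h w => h w.1 w.2⟩

theorem tf_Pp (h2 : (2 : K) = 0) {y : K} (hy : y ≠ 0) : TF K ≤ St (Pp (0, y)) (Pe (0, y)) := by
  rintro _ ⟨a, ha, rfl⟩
  refine ⟨fun v => mem_Pe.2 (by simp [fm, Tw_apply]), fun v hv => mem_Pp.2 fun w hw => ?_, fun v hv => ?_⟩
  · rw [mem_Pe] at hv
    refine mul_left_cancel₀ (mul_ne_zero hy (star_ne_zero.2 hy)) ?_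
    simp only [fm, Tw_apply, Prod.fst_sub, Prod.snd_sub, star_sub, star_add, star_mul', star_zero, ha] at hv hw ⊢
    linear_combination (-a * w.1 * star y) * hv - (a * v.1 * star y) * hw + (a * v.1 * w.1 * star y * star y) * h2
  · have : v.1 = 0 := fst_zero fun z => mem_Pp.1 hv _ (by simp [fm])
    rw [Tw_apply, this, mul_zero, add_zero, ← this]

end L2Ax

variable {K : Type u} [Field K] [StarRing K] [UF K]

open L2Ax

theorem l2a : L2A K := by
  intro p _ _ L H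
  refine ⟨fun g hg hP t ht => ?_, fun g hg t ht => ?_, fun g hg v => ?_⟩
  · have h1 : ∀ v ∈ (BB K : Set (V2 K)), g v ∈ (BB K : Set (V2 K)) := fun v (hv : v.1 = 0) => by
      rw [show v = (0, v.2) from Prod.ext hv rfl]
      exact hP v.2
    have h2 : ∀ v, g v ∈ BB K ↔ v ∈ BB K := fun v =>
      ⟨fun h => by have := inv_mem_of h1 h; rwa [au_inv_apply] at this, h1 v⟩
    exact st_syl (psmul p) H.syl tf_BB (L.mul_mem (L.mul_mem hg (H.syl.le ht)) (L.inv_mem hg))
      (st_conj h2 h2 (tf_BB ht))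
  · have : ∀ u v, fm ((g * t * g⁻¹) u) ((g * t * g⁻¹) v) = fm u v := fun u v => by
      obtain ⟨ζ, h1, -⟩ := H.conf g hg
      obtain ⟨a, ha, rfl⟩ := ht
      rw [au_mul, au_mul, au_mul, au_mul, h1, fm_Tw ha, ← h1, au_apply_inv, au_apply_inv]
    exact ⟨this, fun l hl v => iso_lin this hl v⟩
  · constructor
    · rintro ⟨y', rfl⟩ y
      exact (conf_iff (H.conf g hg) _ _).2 (by simp [fm])
    · intro h
      have : (g⁻¹ v).1 = 0 := fst_zero fun z => (conf_iff (H.conf g hg) _ _).1 (by rw [au_apply_inv]; exact h z)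
      exact ⟨(g⁻¹ v).2, by rw [← this]; exact au_apply_inv g v⟩

theorem l2b (_h : L2A K) : L2B K := by
  intro L _ H g hg hP y0 h0
  by_contra hy
  apply hP
  have two : (2 : K) = 0 := by exact_mod_cast CharP.cast_eq_zero K 2
  have e : g (0, y0) = (0, (g (0, y0)).2) := Prod.ext h0 rfl
  have hy1 : (g (0, y0)).2 ≠ 0 := fun h => hy (by
    rw [h] at e
    exact congrArg Prod.snd (g.map_eq_zero_iff.1 e))
  have c := conf_iff (H.conf g hg)
  have hB : ∀ v, g v ∈ Pe (0, (g (0, y0)).2) ↔ v ∈ Pe (0, y0) := fun v => by rw [← e, mem_Pe, mem_Pe, c]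
  have hA : ∀ v, g v ∈ Pp (0, (g (0, y0)).2) ↔ v ∈ Pp (0, y0) := fun v => by
    rw [← e, mem_Pp, mem_Pp]
    refine ⟨fun h w hw => (c _ _).1 (h _ ((c _ _).2 hw)), fun h w hw => ?_⟩
    rw [← au_apply_inv g w] at hw ⊢
    exact (c _ _).2 (h _ ((c _ _).1 hw))
  have ht : Tw (1 : K) ∈ TF K := ⟨1, star_one K, rfl⟩
  obtain ⟨a, -, ha⟩ := st_syl (psmul 2) H.syl (tf_Pp two hy1) (L.mul_mem (L.mul_mem hg (H.syl.le ht)) (L.inv_mem hg))
    (st_conj hA hB (tf_Pp two hy ht))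
  have k : ∀ v, Tw a (g v) = g (Tw 1 v) := fun v => by rw [ha, au_mul, au_mul, au_inv_apply]
  have a0 : a ≠ 0 := by
    rintro rfl
    have k1 := k (1, 0)
    rw [Tw_zero, au_one] at k1
    have := congrArg Prod.snd (g.injective k1)
    simp [Tw_apply] at this
  intro x
  have := congrArg Prod.snd (k (0, x))
  simp only [Tw_apply, mul_zero, add_zero] at this
  exact (mul_eq_zero.1 (add_eq_left.1 this)).resolve_left a0

end CL.U4
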