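/-
Project U4: in odd characteristic and for `q > 3` the conjugates of `{(0, y)}` meet trivially.
-/
import Cfsg.Agent.U4.Defs2

set_option autoImplicit false
set_option linter.unusedSectionVars false

namespace CL.U4

open Cfsg CL.Fus CL.U5

universe u

namespace L2Cx

section Gen
variable {V : Type u} [AddCommGroup V] [Finite V]

/-- the maps that are trivial on `X / Y` -/
def stb (X Y : AddSubgroup V) (h : Y ≤ X) : Subgroup (Au V) where
  carrier := {k | ∀ v ∈ X, k v - v ∈ Y}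
  mul_mem' := fun {k k'} h1 h2 v hv => by
    have := add_mem (h1 _ (add_mem (h (h2 v hv)) hv)) (h2 v hv)
    rwa [sub_add_cancel, sub_add_sub_cancel] at this
  one_mem' := fun v _ => by rw [au_one, sub_self]; exact zero_mem _
  inv_mem' := fun {k} h1 v hv => by
    have := neg_mem (h1 _ (inv_mem_of (g := k) (W := X) (fun v hv => by
      simpa using add_mem (h (h1 v hv)) hv) hv))
    rwa [au_apply_inv, neg_sub] at this

theorem unip {p : ℕ} (hp : p.Prime) (hV : ∀ v : V, p • v = 0) {k : Au V} {X Y Z : AddSubgroup V}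
    (h1 : ∀ v, k v - v ∈ X) (h2 : ∀ v ∈ X, k v - v ∈ Y) (h3 : ∀ v ∈ Y, k v - v ∈ Z) (h4 : ∀ v ∈ Z, k v - v = 0) :
    k ^ p ^ 2 = 1 := by
  let N : Module.End ℤ V := k.toLinearMap - 1
  have e : ∀ (n : ℕ) v, (k ^ n) v = ((N + 1) ^ n) v := fun n => by
    induction n with
    | zero => exact fun _ => rfl
    | succ n ih => exact fun v => by rw [pow_succ, pow_succ, au_mul, ih, Module.End.mul_apply, sub_add_cancel]; rfl
  have n4 : N ^ 4 = 0 := LinearMap.ext fun v => h4 _ (h3 _ (h2 _ (h1 v)))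
  obtain ⟨r, hr⟩ := (Commute.one_right N).exists_add_pow_prime_pow_eq hp 2
  refine au_ext fun v => ?_
  rw [e, hr, pow_eq_zero_of_le (Nat.pow_le_pow_left hp.two_le 2) n4, one_pow, zero_add, mul_assoc, mul_assoc,
    LinearMap.add_apply, Module.End.mul_apply, Module.End.natCast_apply, hV, add_zero]
  rfl

end Gen

variable {K : Type u} [Field K] [StarRing K] [UF K] {L : Subgroup (Au (V2 K))} {y a0 y' : K} {k k' : Au (V2 K)}
  {a b c d a' b' c' d' : K}

/-- linear isometries fixing `(0, y)` -/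
structure Mm (L : Subgroup (Au (V2 K))) (y : K) (k : Au (V2 K)) : Prop where
  mem : k ∈ L
  iso : ∀ u v, fm (k u) (k v) = fm u v
  lin : ∀ l : K, star l = l → ∀ v, k (l • v) = l • k v
  fix : k (0, y) = (0, y)

theorem Mm.mul (h : Mm L y k) (h' : Mm L y k') : Mm L y (k * k') :=
  ⟨mul_mem h.mem h'.mem, fun u v => (h.iso _ _).trans (h'.iso u v), fun l hl v => by
    rw [au_mul, h'.lin l hl, h.lin l hl, au_mul], by rw [au_mul, h'.fix, h.fix]⟩

theorem Mm.inv (h : Mm L y k) : Mm L y k⁻¹ :=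
  ⟨inv_mem h.mem, fun u v => by rw [← h.iso, au_apply_inv, au_apply_inv], fun l hl v => by
    rw [← au_apply_inv k v, ← h.lin l hl, au_inv_apply, au_inv_apply], by rw [← h.fix, au_inv_apply, h.fix]⟩

theorem mm_Tw (h : TF K ≤ L) (hd : star d = d) : Mm L y (Tw d) :=
  ⟨h ⟨d, hd, rfl⟩, fm_Tw hd, fun l _ v => by ext <;> simp [Tw_apply]; ring, by simp [Tw_apply]⟩

/-- a vector of the hyperplane in coordinates -/
def cmb (y a0 y' a b r : K) : V2 K := (a * a0, a * y' + b * a0 + r * y)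

/-- the matrix of `k` on the middle section -/
def Act (y a0 y' : K) (k : Au (V2 K)) (a b c d : K) : Prop :=
  (star a = a ∧ star b = b ∧ star c = c ∧ star d = d) ∧ ∃ r r', star r = r ∧ star r' = r' ∧
    k (a0, y') = cmb y a0 y' a b r ∧ k (0, a0) = cmb y a0 y' c d r'

theorem Mm.cmb (h : Mm L y k) {x x' r : K} (h1 : star x = x) (h2 : star x' = x') (h3 : star r = r) :
    k (cmb y a0 y' x x' r) = x • k (a0, y') + x' • k (0, a0) + r • (0, y) := by
  rw [← h.lin _ h1, ← h.lin _ h2, ← h.fix, ← h.lin _ h3, ← map_add, ← map_add]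
  congr 1
  ext <;> simp [L2Cx.cmb]

theorem Act.app (h : Mm L y k) (e : Act y a0 y' k a b c d) {x x' r : K} (h1 : star x = x) (h2 : star x' = x')
    (h3 : star r = r) : ∃ s, star s = s ∧ k (cmb y a0 y' x x' r) = cmb y a0 y' (x * a + x' * c) (x * b + x' * d) s := by
  obtain ⟨-, s, s', hs, hs', e1, e2⟩ := e
  refine ⟨x * s + x' * s' + r, by simp [h1, h2, h3, hs, hs'], ?_⟩
  rw [h.cmb h1 h2 h3, e1, e2]
  ext <;> simp [cmb] <;> ring

theorem Act.mul (h : Mm L y k) (e : Act y a0 y' k a b c d) (e' : Act y a0 y' k' a' b' c' d') :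
    Act y a0 y' (k * k') (a' * a + b' * c) (a' * b + b' * d) (c' * a + d' * c) (c' * b + d' * d) := by
  obtain ⟨⟨f1, f2, f3, f4⟩, s, s', hs, hs', e1, e2⟩ := e'
  obtain ⟨r, hr, k1⟩ := e.app h f1 f2 hs
  obtain ⟨r', hr', k2⟩ := e.app h f3 f4 hs'
  obtain ⟨⟨g1, g2, g3, g4⟩, -⟩ := e
  exact ⟨by simp [*], r, r', hr, hr', by rw [au_mul, e1, k1], by rw [au_mul, e2, k2]⟩

theorem act_Tw (hd : star d = d) : Act y a0 y' (Tw d) 1 d 0 1 :=
  ⟨by simp [hd], 0, 0, by simp, by simp, by simp [Tw_apply, cmb], by simp [Tw_apply, cmb]⟩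

theorem Act.cg (e : Act y a0 y' k a b c d) (h1 : a = a') (h2 : b = b') (h3 : c = c') (h4 : d = d') :
    Act y a0 y' k a' b' c' d' := h1 ▸ h2 ▸ h3 ▸ h4 ▸ e

theorem dec (h2 : (2 : K) ≠ 0) (hy : y ≠ 0) (ha : a0 ≠ 0) (hs : fm (a0, y') (0, y) = 0) {v : V2 K} (hv : fm v (0, y) = 0) :
    ∃ x x' r, star x = x ∧ star x' = x' ∧ star r = r ∧ v = cmb y a0 y' x x' r := by
  have hy' := star_ne_zero.2 hy
  have ha' := star_ne_zero.2 ha
  simp only [fm, star_zero, zero_mul, add_zero, sub_zero] at hs hv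
  obtain ⟨w, hw⟩ : ∃ w, w = (v.2 - v.1 / a0 * y') / y := ⟨_, rfl⟩
  refine ⟨v.1 / a0, (w - star w) / 2 * (y / a0), (w + star w) / 2, ?_, ?_, by simp [add_comm], ?_⟩
  · rw [star_div₀, div_eq_div_iff ha' ha]
    exact mul_right_cancel₀ hy (by linear_combination a0 * hv - v.1 * hs)
  · have : star y / star a0 = -(y / a0) := by
      rw [← neg_div, div_eq_div_iff ha' ha]; linear_combination hs
    rw [star_mul', star_div₀ y, this, star_div₀, star_sub, star_star, star_ofNat]; ring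
  · rw [eq_div_iff hy] at hw
    ext
    · simp [cmb, ha]
    · simp only [cmb]
      field_simp
      field_simp at hw
      linear_combination (-2) * hw

theorem triv {p : ℕ} [Fact p.Prime] [CharP K p] (hT : SylIn p (TF K) L) (h2 : (2 : K) ≠ 0) (hy : y ≠ 0) (ha : a0 ≠ 0)
    (hs : fm (a0, y') (0, y) = 0) (h : Mm L y k) (e : Act y a0 y' k 1 0 0 1) : k = 1 := by
  let X3 : AddSubgroup (V2 K) :=
    { carrier := {v | fm v (0, y) = 0}
      add_mem' := fun {u v} (hu : fm u _ = 0) (hv : fm v _ = 0) => show fm _ _ = 0 by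
        simp only [fm, Prod.fst_add, Prod.snd_add, star_add] at hu hv ⊢; linear_combination hu + hv
      zero_mem' := show fm _ _ = 0 by simp [fm]
      neg_mem' := fun {u} (hu : fm u _ = 0) => show fm _ _ = 0 by
        simp only [fm, Prod.fst_neg, Prod.snd_neg, star_neg] at hu ⊢; linear_combination -hu }
  let X2 : AddSubgroup (V2 K) := (AddMonoidHom.fst K K).ker
  let X1 : AddSubgroup (V2 K) :=
    { carrier := {v | ∃ r : K, star r = r ∧ v = r • ((0, y) : V2 K)}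
      add_mem' := by
        rintro _ _ ⟨r, hr, rfl⟩ ⟨s, hs, rfl⟩
        exact ⟨r + s, by simp [hr, hs], (add_smul _ _ _).symm⟩
      zero_mem' := ⟨0, by simp, by simp⟩
      neg_mem' := by
        rintro _ ⟨r, hr, rfl⟩
        exact ⟨-r, by simp [hr], (neg_smul _ _).symm⟩ }
  have l1 : X1 ≤ X2 := by rintro _ ⟨r, -, rfl⟩; exact mul_zero r
  have l2 : X2 ≤ X3 := fun v (hv : v.1 = 0) => show fm _ _ = 0 by simp [fm, hv]
  let S := L ⊓ (stb ⊤ X3 le_top ⊓ stb X3 X2 l2 ⊓ stb X2 X1 l1 ⊓ stb X1 ⊥ bot_le)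
  have hS : IsPGroup p S := fun g => ⟨2, Subtype.ext (unip Fact.out (fun v => by
    rw [← Nat.cast_smul_eq_nsmul K, CharP.cast_eq_zero, zero_smul]) (fun v => g.2.2.1.1.1 v trivial) g.2.2.1.1.2
      g.2.2.1.2 g.2.2.2)⟩
  have tS : TF K ≤ S := by
    rintro _ ⟨d, hd, rfl⟩
    have t1 : ∀ v, Tw d v - v ∈ X2 := fun v => sub_self v.1
    have t2 : ∀ v ∈ X2, Tw d v - v = 0 := fun v (hv : v.1 = 0) => by ext <;> simp [Tw_apply, hv]
    exact ⟨hT.1 ⟨d, hd, rfl⟩, ⟨⟨fun v _ => l2 (t1 v), fun v _ => t1 v⟩, fun v hv => t2 v hv ▸ zero_mem _⟩,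
      fun v hv => t2 v (l1 hv)⟩
  have k3 : ∀ v ∈ X3, k v - v ∈ X1 := fun v hv => by
    obtain ⟨x, x', r, h1, h2, h3, rfl⟩ := dec h2 hy ha hs hv
    obtain ⟨s, hs, e⟩ := e.app h h1 h2 h3
    exact ⟨s - r, by simp [hs, h3], by rw [e]; ext <;> simp [cmb]; ring⟩
  obtain ⟨d, hd, rfl⟩ := hT.2.2 S hS tS inf_le_left (show k ∈ S from ⟨h.mem, ⟨⟨fun v _ => by
    have := h.iso v (0, y)
    rw [h.fix] at this
    change fm _ _ = 0
    simp only [fm, Prod.fst_sub, Prod.snd_sub, star_sub] at this ⊢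
    linear_combination this, fun v hv => l1 (k3 v hv)⟩, fun v hv => k3 v (l2 hv)⟩, by
      rintro _ ⟨r, hr, rfl⟩
      rw [h.lin r hr, h.fix, sub_self]
      exact zero_mem _⟩)
  obtain ⟨-, r, -, hr, -, e1, -⟩ := e
  have e2 : d * a0 = r * y := by simpa [Tw_apply, cmb] using congrArg Prod.snd e1
  have e3 := congrArg star e2
  simp only [fm, star_zero, zero_mul, add_zero, sub_zero] at hs
  rw [star_mul', star_mul', hd, hr] at e3
  have : d = 0 := mul_right_cancel₀ (mul_ne_zero h2 (mul_ne_zero ha (star_ne_zero.2 hy)))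
    (by linear_combination d * hs + star y * e2 - y * e3)
  rw [this, Tw_zero]

theorem uniq {p : ℕ} [Fact p.Prime] [CharP K p] (hT : SylIn p (TF K) L) (h2 : (2 : K) ≠ 0) (hy : y ≠ 0) (ha : a0 ≠ 0)
    (hs : fm (a0, y') (0, y) = 0) (h : Mm L y k) (h' : Mm L y k') (e : Act y a0 y' k a b c d)
    (e' : Act y a0 y' k' a b c d) : k = k' := by
  obtain ⟨-, r, r', hr, hr', e1, e2⟩ := e
  obtain ⟨-, s, s', hs1, hs2, e3, e4⟩ := e'
  refine inv_mul_eq_one.1 (triv hT h2 hy ha hs (h.inv.mul h') ⟨by simp, s - r, s' - r', by simp [hr, hs1],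
    by simp [hr', hs2], k.injective ?_, k.injective ?_⟩)
  · rw [au_mul, au_apply_inv, h.cmb (by simp) (by simp) (by simp [hr, hs1]), e1, e3]
    ext <;> simp [cmb]; ring
  · rw [au_mul, au_apply_inv, h.cmb (by simp) (by simp) (by simp [hr', hs2]), e2, e4]
    ext <;> simp [cmb]; ring

theorem exists_s (hq : 3 < UF.q K) : ∃ s : K, star s = s ∧ s ≠ 0 ∧ s ^ 2 ≠ 1 := by
  by_contra! h
  have h1 : {x : K | star x = x} ⊆ {0, 1, -1} := fun x hx =>
    (em (x = 0)).imp_right fun x0 => sq_eq_one_iff.1 (h x hx x0)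
  have h2 := (Set.ncard_le_ncard h1).trans ((Set.ncard_insert_le _ _).trans
    (Nat.add_le_add_right (Set.ncard_insert_le _ _) 1))
  rw [Set.ncard_singleton, ← Nat.card_coe_set_eq] at h2
  exact absurd ((card_fix (K := K)).symm.le.trans h2) (by omega)

end L2Cx

open L2Cx

variable {K : Type u} [Field K] [StarRing K] [UF K]

theorem l2c (h : L2A K) : L2C K := by
  intro p _ _ L H hp hq g hg ng y0 e0
  obtain ⟨-, A2, A3⟩ := h p L H
  have h2 : (2 : K) ≠ 0 := fun e => hp ((Nat.prime_dvd_prime_iff_eq Fact.out Nat.prime_two).1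
    ((CharP.cast_eq_zero_iff K p 2).1 (by exact_mod_cast e)))
  by_contra n0
  obtain ⟨y, ey⟩ : ∃ y, g (0, y0) = (0, y) := ⟨_, Prod.ext e0 rfl⟩
  have hy : y ≠ 0 := fun e => n0 (congrArg Prod.snd (g.map_eq_zero_iff.1 (ey.trans (by rw [e]; rfl))))
  obtain ⟨c, ha⟩ : ∃ c, (g (0, c)).1 ≠ 0 := not_forall.1 ng
  obtain ⟨a0, y', ec⟩ : ∃ a0 y', g (0, c) = (a0, y') := ⟨_, _, rfl⟩
  rw [ec] at ha
  have iso : ∀ x x', fm (g (0, x)) (g (0, x')) = 0 := fun x => (A3 g hg _).1 ⟨x, rfl⟩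
  have hs : fm (a0, y') (0, y) = 0 := ec ▸ ey ▸ iso c y0
  have fx : ∀ d x : K, (g * Tw d * g⁻¹ : Au (V2 K)) (g (0, x)) = g (0, x) := fun d x => by
    rw [au_mul, au_mul, au_inv_apply]; simp [Tw_apply]
  have mT : ∀ d, star d = d → Mm L y (g * Tw d * g⁻¹) := fun d hd =>
    ⟨mul_mem (mul_mem hg (H.syl.1 ⟨d, hd, rfl⟩)) (inv_mem hg), (A2 g hg _ ⟨d, hd, rfl⟩).1, (A2 g hg _ ⟨d, hd, rfl⟩).2,
      ey ▸ fx d y0⟩
  have aT : ∀ d : {x : K // star x = x}, ∃ ε : {x : K // star x = x}, Act y a0 y' (g * Tw d.1 * g⁻¹) 1 0 ε 1 := fun d => by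
    have e : (g * Tw d.1 * g⁻¹ : Au (V2 K)) (0, a0) = g (0, d * (g⁻¹ (0, a0)).1) + (0, a0) := by
      rw [au_mul, au_mul, ← sub_eq_iff_eq_add, ← congrArg (HSub.hSub _) (au_apply_inv g (0, a0)), ← map_sub]
      congr 1
      ext <;> simp [Tw_apply]
    generalize d * (g⁻¹ (0, a0)).1 = w at e
    obtain ⟨x, x', r, h1, h3, h4, e1⟩ := dec h2 hy ha hs (v := g (0, w)) (ey ▸ iso w y0)
    have e2 := iso w c
    rw [e1, ec] at e2
    have x0 : x' = 0 := mul_right_cancel₀ (mul_ne_zero h2 (mul_ne_zero ha (star_ne_zero.2 ha))) (by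
      simp only [fm, cmb, star_add, star_mul', h1, h3, h4, star_zero] at e2 hs
      linear_combination -e2 - r * hs)
    refine ⟨⟨x, h1⟩, by simp [h1], 0, r, by simp, h4, by rw [← ec, fx, ec]; simp [cmb], ?_⟩
    rw [e, e1, x0]
    ext <;> simp [cmb]; ring
  choose ε hε using aT
  have sur : Function.Surjective ε := Finite.injective_iff_surjective.1 fun d d' e => by
    have := uniq H.syl h2 hy ha hs (mT _ d.2) (mT _ d'.2) (hε d) (e ▸ hε d')
    simpa [Tw_apply, Subtype.ext_iff] using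
      congrArg (fun t : Au (V2 K) => (t (1, 0)).2) (mul_left_cancel (mul_right_cancel this))
  have nn : ∀ s : K, star s = s → s ≠ 0 → ∃ n, Mm L y n ∧ Act y a0 y' n 0 s (-s⁻¹) 0 := fun s h1 h3 => by
    obtain ⟨d, e⟩ := sur ⟨-s⁻¹, by simp [h1]⟩
    have := hε d
    rw [e] at this
    have m := (mm_Tw H.syl.1 h1).mul (mT _ d.2)
    exact ⟨_, m.mul (mm_Tw H.syl.1 h1), (((act_Tw h1).mul (mm_Tw H.syl.1 h1) this).mul m (act_Tw h1)).cg
      (by simp [h3]) (by simp [h3]) (by simp) (by simp [h3])⟩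
  obtain ⟨s, s1, s0, s2⟩ := exists_s hq
  obtain ⟨n, mn, an⟩ := nn s s1 s0
  obtain ⟨n', mn', an'⟩ := nn (-1) (by simp) (by simp)
  have mk := mn.mul mn'
  have ak : Act y a0 y' (n * n') s⁻¹ 0 0 s := (an.mul mn an').cg (by simp) (by simp) (by simp) (by simp)
  have ss : star (s ^ 2) = s ^ 2 := by simp [s1]
  have e := uniq H.syl h2 hy ha hs (mk.mul (mm_Tw H.syl.1 (star_one K))) ((mm_Tw H.syl.1 ss).mul mk)
    (ak.mul mk (act_Tw (star_one K))) (((act_Tw ss).mul (mm_Tw H.syl.1 ss) ak).cg (by simp) (by field_simp; simp)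
      (by simp) (by simp))
  generalize n * n' = k at e mk
  have e1 := congrArg (fun t : Au (V2 K) => (t (y, 0)).2) e
  have e2 := mk.iso (y, 0) (0, y)
  simp only [au_mul, Tw_apply] at e1
  rw [show ((y, 0 + 1 * y) : V2 K) = (y, 0) + (0, y) by simp, map_add, mk.fix] at e1
  rw [mk.fix] at e2
  have e3 : y = s ^ 2 * (k (y, 0)).1 := add_left_cancel e1
  have e4 := congrArg star e3
  rw [star_mul', ss] at e4
  simp only [fm, star_zero, zero_mul, add_zero, sub_zero] at e2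
  exact s2 (mul_right_cancel₀ (mul_ne_zero h2 (mul_ne_zero hy (star_ne_zero.2 hy)))
    (by linear_combination -s ^ 2 * e2 - star y * e3 - y * e4))

end CL.U4
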