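/-
Project U4 (helper98): the graphs of the conjugates of `{(0, y)}` in `Q2 / Z`.
-/
import Cfsg.Agent.U4.Defs2

set_option autoImplicit false
set_option linter.unusedSectionVars false

namespace CL.U4

open Cfsg CL.Fus CL.U5

universe u

variable {K : Type u} [Field K] [StarRing K] [UF K]

namespace L2Dx

theorem g_add (g : Au (V2 K)) (y y' : K) : g (0, y + y') = g (0, y) + g (0, y') := by rw [← map_add]; simp
theorem g_sub (g : Au (V2 K)) (y y' : K) : g (0, y - y') = g (0, y) - g (0, y') := by rw [← map_sub]; simp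

theorem fm_smul {l : K} (h : star l = l) (u v : V2 K) : fm (l • u) v = l * fm u v := by
  simp [fm, h]; ring

/-- the set of the second parameters -/
def DD (L : Subgroup (Au (V2 K))) : Set K := {d | ∃ g ∈ L, ∃ c, star c = c ∧ GR g c d}

theorem eq_of_fix {L : Subgroup (Au (V2 K))} (hT : TF K ≤ L) (dj : DJ L) {d d' : K} (hd : d ∈ DD L) (hd' : d' ∈ DD L)
    (f : star (d - d') = d - d') : d = d' := by
  obtain ⟨g, hg, c, hc, g1, g2⟩ := hd
  obtain ⟨g', hg', c', hc', g1', g2'⟩ := hd'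
  have he : star (c' - c - (d - d')) = c' - c - (d - d') := by rw [star_sub, star_sub, hc, hc', f]
  have hk : g'⁻¹ * Tw (c' - c - (d - d')) * g ∈ L := mul_mem (mul_mem (inv_mem hg') (hT ⟨_, he, rfl⟩)) hg
  have pw : PW (g'⁻¹ * Tw (c' - c - (d - d')) * g) := by
    by_contra hn
    obtain ⟨y, hy⟩ := g2 1
    obtain ⟨y', hy'⟩ := g2' 1
    have e : Tw (c' - c - (d - d')) (g (0, y)) = g' (0, y') := by
      rw [Tw_apply]
      refine Prod.ext (hy.trans hy'.symm) ?_
      simp only [g1, g1', hy, hy', star_one]; ring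
    have := dj _ hk hn y (by rw [au_mul, au_mul, e, au_inv_apply])
    rw [this, show ((0, 0) : V2 K) = 0 from rfl, map_zero] at hy
    exact zero_ne_one hy
  obtain ⟨θ, hθ⟩ := exists_ne K
  obtain ⟨y, hy⟩ := g2 θ
  have e : g' (0, ((g'⁻¹ * Tw (c' - c - (d - d')) * g) (0, y)).2) = Tw (c' - c - (d - d')) (g (0, y)) := by
    rw [show ((0, ((g'⁻¹ * Tw (c' - c - (d - d')) * g) (0, y)).2) : V2 K) = (g'⁻¹ * Tw (c' - c - (d - d')) * g) (0, y)
      from Prod.ext (pw y).symm rfl, au_mul, au_mul, au_apply_inv]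
  have k := g1' ((g'⁻¹ * Tw (c' - c - (d - d')) * g) (0, y)).2
  rw [e, Tw_apply] at k
  simp only [g1, hy] at k
  have : (d - d') * (star θ - θ) = 0 := by linear_combination k
  exact sub_eq_zero.1 ((mul_eq_zero.1 this).resolve_right (sub_ne_zero.2 hθ))

theorem card_DD {L : Subgroup (Au (V2 K))} (hT : TF K ≤ L) (dj : DJ L) : Nat.card (DD L) ≤ UF.q K := by
  have k := Nat.card_le_card_of_injective (fun x : DD L × {x : K // star x = x} => x.1.1 + x.2.1)
    fun ⟨d, c⟩ ⟨d', c'⟩ e => by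
      replace e : d.1 + c.1 = d'.1 + c'.1 := e
      have e1 : d.1 - d'.1 = c'.1 - c.1 := by linear_combination e
      have e2 := eq_of_fix hT dj d.2 d'.2 (by rw [e1, star_sub, c.2, c'.2])
      exact Prod.ext (Subtype.ext e2) (Subtype.ext (add_left_cancel (e2 ▸ e)))
  rw [Nat.card_prod, card_fix, card_K (K := K), pow_two] at k
  exact Nat.le_of_mul_le_mul_right k (by have := two_le_q (K := K); omega)

theorem DD_inv {L : Subgroup (Au (V2 K))} (hh : ∀ u, aW (h1 u) ∈ L) {d : K} (hd : d ∈ DD L) (u : Kˣ) :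
    d * ((u : K) / star (u : K) ^ 3) ∈ DD L := by
  obtain ⟨g, hg, c, hc, g1, g2⟩ := hd
  have u0 : (u : K) ≠ 0 := u.ne_zero
  have u1 : star (u : K) ≠ 0 := star_ne_zero.2 u0
  refine ⟨aW (h1 u) * g, mul_mem (hh u) hg, c / ((u : K) * star (u : K)),
    by rw [star_div₀, hc, star_mul', star_star, mul_comm], fun y => ?_, fun x => ?_⟩
  · simp only [au_mul, aW_apply, h1_l, h1_m, h1_γ, g1, star_mul', star_pow]
    field_simp
  · obtain ⟨y, hy⟩ := g2 (x / (u : K) ^ 2)
    exact ⟨y, by simp only [au_mul, aW_apply, h1_l, h1_γ, hy]; field_simp⟩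

end L2Dx

open L2Dx

theorem l2d (h : L2A K) : L2D K := fun p _ _ L hL dj g hg hn => by
  have pp := (h p L hL).2.2 g hg
  have inj : Function.Injective fun y => (g (0, y)).1 := fun y y' (e : (g (0, y)).1 = (g (0, y')).1) =>
    sub_eq_zero.1 (dj g hg hn _ (by rw [g_sub, Prod.fst_sub, e, sub_self]))
  have sur := Finite.injective_iff_surjective.1 inj
  choose σ hσ using sur
  have hσ : ∀ x, (g (0, σ x)).1 = x := hσ
  have key : ∀ y, (g (0, σ (g (0, y)).1)).2 = (g (0, y)).2 := fun y => by rw [inj (hσ (g (0, y)).1)]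
  obtain ⟨c, d, hcd⟩ := flin (fun x => (g (0, σ x)).2)
    (fun x x' => by
      have := key (σ x + σ x')
      rwa [g_add, Prod.fst_add, hσ, hσ, Prod.snd_add] at this)
    fun l x hl => by
      obtain ⟨y, hy⟩ := (pp (l • g (0, σ x))).2 fun y => by rw [fm_smul hl, (pp _).1 ⟨_, rfl⟩ y, mul_zero]
      have := key y
      rwa [hy, Prod.smul_fst, hσ, Prod.smul_snd, smul_eq_mul, smul_eq_mul] at this
  have hcd : ∀ x, (g (0, σ x)).2 = c * x + d * star x := hcd
  have hc : star c = c := by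
    obtain ⟨θ, hθ⟩ := exists_ne K
    have k := (pp _).1 ⟨σ 1, rfl⟩ (σ θ)
    simp only [fm, hσ, hcd, star_add, star_mul', star_star, star_one] at k
    have : (star c - c) * (star θ - θ) = 0 := by linear_combination k
    exact sub_eq_zero.1 ((mul_eq_zero.1 this).resolve_right (sub_ne_zero.2 hθ))
  refine ⟨c, d, hc, ⟨fun y => by rw [← key, hcd], fun x => ⟨_, hσ x⟩⟩, ?_⟩
  rintro rfl
  by_contra d0
  have two : (2 : K) = 0 := CharP.cast_eq_zero K 2
  obtain ⟨z, hz⟩ := exists_trace (star_one K)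
  obtain ⟨x, hx⟩ := FiniteField.isSquare_of_char_two (ringChar.eq K 2) (z / star d)
  have hx' : z = star d * (x * x) := by rw [← hx, mul_div_cancel₀ _ (star_ne_zero.2 d0)]
  have k := hL.sq g hg two (0, σ x) (by simp [qf])
  simp only [qf, hσ, hcd, star_add, star_mul', star_star, hc] at k
  rw [hx', star_mul', star_mul', star_star] at hz
  exact zero_ne_one (α := K) (by linear_combination hz - k + c * x * star x * two)

theorem l2e : L2E K := fun p _ _ L hL dj hq hh g hg c d hc gr => by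
  by_contra d0
  have hd : d ∈ DD L := ⟨g, hg, c, hc, gr⟩
  let ψ : Kˣ →* Kˣ := MonoidHom.id Kˣ / powMonoidHom (UF.q K * 3)
  have hψ : ∀ u, (ψ u : K) = (u : K) / star (u : K) ^ 3 := fun u => by
    simp [ψ, star_eq_pow, pow_mul]
  have k1 : Nat.card ψ.range ≤ UF.q K := (Nat.card_le_card_of_injective
    (fun x : ψ.range => (⟨d * x.1, by obtain ⟨_, u, rfl⟩ := x; rw [hψ]; exact DD_inv hh hd u⟩ : DD L))
    fun x y e => Subtype.ext (Units.ext (mul_left_cancel₀ d0 (congrArg Subtype.val e)))).trans (card_DD hL.syl.le dj)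
  have : NeZero (UF.q K - 3) := ⟨by omega⟩
  have k2 : Nat.card ψ.ker ≤ UF.q K - 3 := by
    refine (Subgroup.card_le_of_le (K := rootsOfUnity (UF.q K - 3) K) fun u hu => ?_).trans ?_
    · have e := hψ u
      rw [MonoidHom.mem_ker.1 hu, Units.val_one, eq_comm, div_eq_one_iff_eq (pow_ne_zero _ (star_ne_zero.2 u.ne_zero))]
        at e
      have e' := congrArg star e
      rw [star_pow, star_star, star_eq_pow] at e'
      rw [mem_rootsOfUnity']
      refine mul_right_cancel₀ (pow_ne_zero 3 u.ne_zero) ?_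
      rw [← pow_add, Nat.sub_add_cancel hq.le, e', one_mul]
    · simpa using card_rootsOfUnity K (UF.q K - 3)
  have k3 := ψ.ker.card_mul_index
  rw [Subgroup.index_ker, Nat.card_units, card_K (K := K)] at k3
  have k4 := Nat.mul_le_mul k2 k1
  rw [k3] at k4
  obtain ⟨n, hn⟩ := Nat.exists_eq_add_of_le hq.le
  rw [hn, Nat.add_sub_cancel_left] at k4
  have : (3 + n) ^ 2 = n * (3 + n) + 3 * n + 9 := by ring
  omega

end CL.U4
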