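/-
Project U4, parts L2F and LIFT2: the reflection on `Q2 / Z` and its lift to `Q2`.
-/
import Cfsg.Agent.U4.Defs2

set_option autoImplicit false
set_option linter.unusedSectionVars false

namespace CL.U4

open Cfsg CL.Fus CL.U5
open scoped commutatorElement

universe u

variable {K : Type u} [Field K] [StarRing K] [UF K]

namespace L2Fx

theorem move {g : Au (V2 K)} {c : K} (hc : star c = c) (h : GR g c 0) :
    ∃ t ∈ TF K, (∀ k, ((t * g) (0, k)).2 = 0) ∧ ∀ x, ∃ y, ((t * g) (0, y)).1 = x := by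
  refine ⟨Tw (-c), ⟨-c, by simp [hc], rfl⟩, fun k => ?_, fun x => ?_⟩
  · rw [au_mul, Tw_apply, h.1 k]
    ring
  · obtain ⟨y, hy⟩ := h.2 x
    exact ⟨y, by rw [au_mul, Tw_apply]; exact hy⟩

theorem opp {L : Subgroup (Au (V2 K))} (hT : TF K ≤ L)
    (hG : ∀ g ∈ L, ¬ PW g → ∃ c, star c = c ∧ GR g c 0) {g : Au (V2 K)} (hg : g ∈ L)
    (h : ∀ k, (g (0, k)).2 = 0) (sj : ∀ x, ∃ y, (g (0, y)).1 = x) (k : K) (hk : star k = k) :
    ∃ r ∈ L, ∀ v, r v = (v.1 + k * v.2, v.2) := by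
  have e0 : ∀ k, g (0, k) = ((g (0, k)).1, 0) := fun k => Prod.ext rfl (h k)
  have r0 : ∀ (s : K) (v : V2 K), (g * Tw s * g⁻¹ : Au (V2 K)) v = v + ((g (0, s * (g⁻¹ v).1)).1, 0) := fun s v => by
    have : Tw s (g⁻¹ v) = g⁻¹ v + (0, s * (g⁻¹ v).1) := by rw [Tw_apply]; ext <;> simp
    rw [au_mul, au_mul, this, map_add, au_apply_inv, ← e0]
  have r1 : ∀ s b : K, (g * Tw s * g⁻¹ : Au (V2 K)) (b, 0) = (b, 0) := fun s b => by
    obtain ⟨y, rfl⟩ := sj b
    rw [← e0, au_mul, au_mul, au_inv_apply, Tw_apply]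
    simp
  have m : ∀ s : K, star s = s → g * Tw s * g⁻¹ ∈ L := fun s hs =>
    mul_mem (mul_mem hg (hT ⟨s, hs, rfl⟩)) (inv_mem hg)
  have ex : ∀ s : {x : K // star x = x}, ∃ e : {x : K // star x = x},
      ∀ v, (g * Tw s.1 * g⁻¹ : Au (V2 K)) v = (v.1 + e.1 * v.2, v.2) := by
    rintro ⟨s, hs⟩
    have r2 : ∀ y : K, ((g * Tw s * g⁻¹ : Au (V2 K)) (0, y)).2 = y := fun y => by
      rw [r0]; simp
    have r3 := r1 s
    have r4 := m s hs
    dsimp only
    generalize g * Tw s * g⁻¹ = r at r2 r3 r4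
    have fin : ∀ e : K, (∀ y, (r (0, y)).1 = e * y) → ∀ v, r v = (v.1 + e * v.2, v.2) := fun e he v => by
      have : v = (v.1, 0) + (0, v.2) := by simp
      conv_lhs => rw [this, map_add, r3]
      ext
      · rw [Prod.fst_add, he]
      · rw [Prod.snd_add, r2, zero_add]
    by_cases pw : PW r
    · exact ⟨⟨0, star_zero K⟩, fin 0 fun y => by rw [pw y, zero_mul]⟩
    obtain ⟨c, hc, h1, -⟩ := hG r r4 pw
    have h2 : ∀ y : K, y = c * (r (0, y)).1 := fun y => by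
      have := h1 y
      rwa [r2, zero_mul, add_zero] at this
    have c0 : c ≠ 0 := fun e => by
      have := h2 1
      rw [e, zero_mul] at this
      exact one_ne_zero this
    refine ⟨⟨c⁻¹, by rw [star_inv₀, hc]⟩, fin c⁻¹ fun y => ?_⟩
    conv_rhs => rw [h2 y, ← mul_assoc, inv_mul_cancel₀ c0, one_mul]
  choose ε hε using ex
  have inj : Function.Injective ε := fun s s' e => by
    have h1 : g * Tw s.1 * g⁻¹ = g * Tw s'.1 * g⁻¹ := au_ext fun v => by rw [hε, hε, e]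
    have h2 : Tw s.1 = Tw s'.1 := mul_left_cancel (mul_right_cancel h1)
    have h3 := congrArg (fun t : Au (V2 K) => (t (1, 0)).2) h2
    exact Subtype.ext (by simpa [Tw_apply] using h3)
  obtain ⟨s, hs⟩ := Finite.injective_iff_surjective.1 inj ⟨k, hk⟩
  exact ⟨_, m s.1 s.2, fun v => by rw [hε, hs]⟩

theorem exists_u (K : Type u) [Field K] [StarRing K] [UF K] : ∃ u : K, u * star u = 1 ∧ u ^ 2 ≠ 1 := by
  by_contra h
  push Not at h
  have sk : ∀ x : K, star x ≠ x → x + star x = 0 := fun x hx => by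
    have x0 : x ≠ 0 := fun e => hx (by simp [e])
    have s0 : star x ≠ 0 := by simpa using x0
    have h1 := h (x / star x) (by rw [star_div₀, star_star]; field_simp)
    rw [div_pow, div_eq_one_iff_eq (pow_ne_zero 2 s0)] at h1
    exact mul_left_cancel₀ (sub_ne_zero.2 hx) (by linear_combination -h1)
  obtain ⟨t, ht⟩ := exists_ne K
  have a1 := sk t ht
  have a2 := sk (t + 1) (by simpa using ht)
  rw [star_add, star_one] at a2
  exact ht (by linear_combination a1 - t * (a2 - a1))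

theorem d0 (x : Q2 K) : x.1.d = 0 := x.2

/-- a scalar automorphism of `Q2` -/
def Dg (ν : K) (h : MulAut (Q2 K)) : Prop := ∀ x : Q2 K, (h x).1.a = ν * x.1.a ∧ (h x).1.b = ν * x.1.b ∧
  (h x).1.c = x.1.c

theorem r2_dg {ν : K} (hν : ν * star ν = 1) {h : MulAut (Q2 K)} (d : Dg ν h) (x : Q2 K) :
    r2 K (h x) = h (r2 K x) := by
  obtain ⟨e1, e2, e3⟩ := d x
  obtain ⟨f1, f2, f3⟩ := d (r2 K x)
  refine Subtype.ext (U.ext ?_ ((d0 _).trans (d0 _).symm) ?_ ?_)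
  · rw [f1, r2_a, r2_a, e2]
  · rw [f2, r2_b, r2_b, e1, mul_neg]
  · rw [f3, r2_c, r2_c, e1, e2, e3, star_mul', star_mul']
    linear_combination (-x.1.a * star x.1.b - star x.1.a * x.1.b) * hν

theorem exQ (w : V2 K) : ∃ x : Q2 K, x.1.a = w.1 ∧ x.1.b = w.2 :=
  ⟨⟨⟨w.1, 0, w.2, 0, by simp, by simp⟩, rfl⟩, rfl, rfl⟩

/-- an automorphism that is trivial on `Q2 / Z` is trivial on `Z` -/
theorem fix0 {m : MulAut (Q2 K)} (hm : ∀ x : Q2 K, (m x).1.a = x.1.a ∧ (m x).1.b = x.1.b) (x : Q2 K)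
    (h1 : x.1.a = 0) (h2 : x.1.b = 0) : m x = x := by
  have cm : ∀ p q : Q2 K, m ⁅p, q⁆ = ⁅p, q⁆ := fun p q => by
    rw [map_commutatorElement]
    refine Subtype.ext ?_
    change ⁅(m p).1, (m q).1⁆ = ⁅p.1, q.1⁆
    ext <;> simp [d0, hm]
  obtain ⟨b, hb⟩ := exists_trace (a := x.1.c) x.1.hc
  obtain ⟨p, p1, p2⟩ := exQ ((1, 0) : V2 K)
  obtain ⟨q, q1, q2⟩ := exQ ((0, b) : V2 K)
  have e : x = ⁅p, q⁆ := by
    refine Subtype.ext ?_
    change x.1 = ⁅p.1, q.1⁆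
    ext <;> simp [d0, h1, h2, p1, p2, q1, q2, ← hb, add_comm]
  rw [e, cm]

end L2Fx

open L2Fx in
theorem l2f (h : L2A K) : L2F K := by
  have _ := h
  intro p _ _ L hH hG ⟨g0, hg0, n0⟩
  have hT : TF K ≤ L := hH.syl.le
  obtain ⟨c0, hc0, k0⟩ := hG g0 hg0 n0
  obtain ⟨t0, ht0, h0, s0⟩ := move hc0 k0
  have op := opp hT hG (mul_mem (hT ht0) hg0) h0 s0
  have hn : ∀ k : K, star k = k → k ≠ 0 → ∃ n ∈ L, ∀ v, n v = (-k * v.2, v.1 / k) := fun k sk hk => by
    obtain ⟨r, hr, e⟩ := op (-k) (by simp [sk])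
    refine ⟨r * Tw (1 / k) * r, mul_mem (mul_mem hr (hT ⟨_, by simp [sk], rfl⟩)) hr, fun v => ?_⟩
    rw [au_mul, au_mul, e, e, Tw_apply]
    ext <;> simp only <;> field_simp <;> ring
  have hr : rW K ∈ L := by
    obtain ⟨n, h, e⟩ := hn 1 (star_one K) one_ne_zero
    rwa [show rW K = n from au_ext fun v => by rw [e, rW_apply]; simp]
  refine ⟨hr, fun t ht => ?_, fun g hg => ?_⟩
  · obtain ⟨n, h, e⟩ := hn (t : K)⁻¹ (by rw [star_inv₀, ht]) (inv_ne_zero t.ne_zero)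
    refine (mul_mem_cancel_right hr).1 ?_
    rwa [show aW (h2 t ht) * rW K = n from au_ext fun v => by
      rw [e, au_mul, rW_apply, aW_apply, h2_l, h2_m, h2_γ, h2_γ]
      have := t.ne_zero
      ext <;> simp only <;> field_simp]
  · by_cases pw : PW g
    · exact Or.inl pw
    obtain ⟨c, hc, k⟩ := hG g hg pw
    obtain ⟨t, ht, h, -⟩ := move hc k
    exact Or.inr ⟨t, ht, fun c => by rw [mul_assoc, au_mul, rW_apply, h, neg_zero]⟩

open L2Fx in
theorem lift2 : LIFT2 K := fun A hI hT hD g hg hr => by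
  obtain ⟨m, em⟩ : ∃ m : MulAut (Q2 K), m = g * r2 K := ⟨_, rfl⟩
  have hm : ∀ x : Q2 K, (m x).1.a = x.1.a ∧ (m x).1.b = x.1.b := fun x => by
    have := hr (r2 K x)
    rw [pW_r2, ← MulAut.mul_apply, ← em] at this
    exact Prod.ext_iff.1 this
  choose σ σ1 σ2 using exQ (K := K)
  let F : Q2 K → K := fun x => (m x).1.c - x.1.c
  have Fm : ∀ x y, F (x * y) = F x + F y := fun x y => by
    simp only [F, map_mul, Subgroup.coe_mul, mul_c, d0, hm]
    ring
  have Fe : ∀ x y : Q2 K, x.1.a = y.1.a → x.1.b = y.1.b → F x = F y := fun x y h1 h2 => by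
    have := fix0 hm (x⁻¹ * y) (by simp [h1]) (by simp [d0, h2])
    rw [show y = x * (x⁻¹ * y) by group, Fm]
    simp only [F, this, sub_self]
    exact (add_zero _).symm
  have Fa : ∀ v w, F (σ (v + w)) = F (σ v) + F (σ w) := fun v w => by
    rw [← Fm]
    exact Fe _ _ (by simp [σ1]) (by simp [σ2, d0])
  obtain ⟨u, u1, u2⟩ := exists_u K
  have u0 : u ≠ 0 := left_ne_zero_of_mul_eq_one u1
  obtain ⟨h, hA, rs⟩ := hD (Units.mk0 u u0)
  have d : Dg (u ^ 2) h := fun x => by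
    rw [rs x]
    simp only [act_a, act_b, act_c, h1_l, h1_m, h1_γ, Units.val_mk0, u1, inv_one, mul_one, star_pow]
    refine ⟨trivial, trivial, ?_⟩
    rw [← mul_pow, u1, one_pow, one_mul]
  have hν : u ^ 2 * star (u ^ 2) = 1 := by rw [star_pow, ← mul_pow, u1, one_pow]
  generalize u ^ 2 = ν at d hν u2
  obtain ⟨s, hs, e⟩ := hT (g * h * g⁻¹ * h⁻¹) (mul_mem (mul_mem (mul_mem hg hA) (inv_mem hg)) (inv_mem hA)) fun x => by
    obtain ⟨y, rfl⟩ := (h * g).surjective x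
    have t := Prod.ext_iff.1 (hr y)
    simp only [MulAut.mul_apply, MulAut.inv_apply_self, hr]
    simp only [pW, rW_apply] at t ⊢
    rw [(d y).1, (d y).2.1, (d _).1, (d _).2.1, t.1, t.2, mul_neg]
  have key : ∀ y, (m (h y)).1 = s * (h (m y)).1 * s⁻¹ := fun y => by
    have := DFunLike.congr_fun e (h (g (r2 K y)))
    simp only [MulAut.mul_apply, MulAut.inv_apply_self] at this
    rw [em, MulAut.mul_apply, MulAut.mul_apply, r2_dg hν d, this]
    rfl
  have sd : s.d = 0 := hs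
  have k1 : ∀ w : V2 K, F (σ (ν * w.1, ν * w.2)) = F (σ w) + fm (s.a, s.b) (ν * w.1, ν * w.2) := fun w => by
    rw [Fe (σ (ν * w.1, ν * w.2)) (h (σ w)) (by rw [σ1, (d _).1, σ1]) (by rw [σ2, (d _).2.1, σ2])]
    obtain ⟨e1, e2, e3⟩ := d (m (σ w))
    obtain ⟨-, -, f3⟩ := d (σ w)
    simp only [F, key, conj_c, d0, sd, e1, e2, e3, f3, hm, σ1, σ2, fm]
    ring
  have n1 : ν - 1 ≠ 0 := sub_ne_zero.2 u2
  obtain ⟨κ, hκ⟩ : ∃ κ : K, κ = ν / (ν - 1) := ⟨_, rfl⟩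
  have k2 : ∀ x : V2 K, F (σ x) = fm (star κ * s.a, star κ * s.b) x := fun x => by
    have := k1 (x.1 / (ν - 1), x.2 / (ν - 1))
    dsimp only at this
    rw [show ((ν * (x.1 / (ν - 1)), ν * (x.2 / (ν - 1))) : V2 K) = (x.1 / (ν - 1), x.2 / (ν - 1)) + x by
      ext <;> simp <;> field_simp <;> ring, Fa] at this
    rw [add_left_cancel this, show ((x.1 / (ν - 1), x.2 / (ν - 1)) + x : V2 K) = (κ * x.1, κ * x.2) by
      ext <;> simp [hκ] <;> field_simp <;> ring]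
    simp only [fm, star_mul', star_star]
    ring
  have : m = MulAut.conjNormal (σ (star κ * s.a, star κ * s.b)).1 := MulEquiv.ext fun x => Subtype.ext (by
    have t := k2 (x.1.a, x.1.b)
    rw [Fe (σ (x.1.a, x.1.b)) x (σ1 _) (σ2 _)] at t
    simp only [F, fm] at t
    change (m x).1 = (σ (star κ * s.a, star κ * s.b)).1 * x.1 * (σ (star κ * s.a, star κ * s.b)).1⁻¹
    refine U.ext (by rw [conj_a, (hm x).1]) (by rw [conj_d, d0, d0]) (by rw [conj_b, (hm x).2, d0, d0]; ring) ?_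
    rw [conj_c, σ1, σ2, d0, d0]; linear_combination t)
  rw [show r2 K = g⁻¹ * m by rw [em]; group, this]
  exact mul_mem (inv_mem hg) (hI _ (σ _).2)

end CL.U4
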