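/-
Project U4: the normalisers of the unipotent group and of `Q2` in `SU₄(q)`.
-/
import Cfsg.Agent.U4.Defs2

set_option autoImplicit false
set_option linter.unusedSectionVars false

namespace CL.U4

open Cfsg CL.Fus CL.U5 Matrix

universe u

variable {K : Type u} [Field K] [StarRing K] [UF K]

namespace MBx

theorem tri {M : Matrix (Fin 4) (Fin 4) K} (h : ∀ x', ∃ x, matM x' * M = M * matM x) :
    M 1 0 = 0 ∧ M 2 0 = 0 ∧ M 3 0 = 0 ∧ M 2 1 = 0 ∧ M 3 1 = 0 ∧ M 3 2 = 0 := by
  obtain ⟨x, e⟩ := h (xa 1)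
  obtain ⟨w, f⟩ := h (xd 1 (star_one K))
  have e00 := congrFun (congrFun e 0) 0
  have e20 := congrFun (congrFun e 2) 0
  have e21 := congrFun (congrFun e 2) 1
  have e22 := congrFun (congrFun e 2) 2
  have f10 := congrFun (congrFun f 1) 0
  have f11 := congrFun (congrFun f 1) 1
  simp only [Matrix.mul_apply, Fin.sum_univ_four, matM, xa, xd, Fin.isValue, of_apply, cons_val, star_one, star_zero]
    at e00 e20 e21 e22 f10 f11
  have a10 : M 1 0 = 0 := by linear_combination e00
  have a30 : M 3 0 = 0 := by linear_combination -e20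
  have a20 : M 2 0 = 0 := by linear_combination f10
  have a21 : M 2 1 = 0 := by linear_combination f11 + w.a * a10
  have a31 : M 3 1 = 0 := by linear_combination -e21 - x.a * a20
  have a32 : M 3 2 = 0 := by linear_combination -e22 - x.b * a20 - x.d * a21
  exact ⟨a10, a20, a30, a21, a31, a32⟩

theorem tri2 {M : Matrix (Fin 4) (Fin 4) K} (h : ∀ x' ∈ Q2 K, ∃ x ∈ Q2 K, matM x' * M = M * matM x) :
    M 1 0 = 0 ∧ M 2 0 = 0 ∧ M 3 1 = 0 ∧ M 3 2 = 0 := by
  obtain ⟨x, hx, e⟩ := h (xa 1) rfl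
  obtain ⟨w, -, f⟩ := h (xb 1) rfl
  have hx' : x.d = 0 := hx
  have e00 := congrFun (congrFun e 0) 0
  have e21 := congrFun (congrFun e 2) 1
  have e22 := congrFun (congrFun e 2) 2
  have f00 := congrFun (congrFun f 0) 0
  simp only [Matrix.mul_apply, Fin.sum_univ_four, matM, xa, xb, Fin.isValue, of_apply, cons_val, star_one, star_zero]
    at e00 e21 e22 f00
  have a10 : M 1 0 = 0 := by linear_combination e00
  have a20 : M 2 0 = 0 := by linear_combination f00
  have a31 : M 3 1 = 0 := by linear_combination -e21 - x.a * a20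
  have a32 : M 3 2 = 0 := by linear_combination -e22 - x.b * a20 - M 2 1 * hx'
  exact ⟨a10, a20, a31, a32⟩

theorem dg (h : P4 K) (hγ : ∀ x, h.1.γ x = x) (d : Fin 4 → K) (h0 : d 0 = h.1.l * d 1) (h1 : d 1 = h.1.m * d 2)
    (h2 : d 2 = star (h.1.l : K) * d 3) (x : U K) :
    diagonal d * matM x = matM (act h x) * diagonal d := by
  ext i j
  rw [diagonal_mul, mul_diagonal]
  fin_cases i <;> fin_cases j <;> simp only [matM, Fin.zero_eta, Fin.mk_one, Fin.reduceFinMk, Fin.isValue, of_apply,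
    cons_val, act_a, act_b, act_c, act_d, hγ, star_mul', star_m, h0, h1, h2] <;> ring

theorem dec {M : Matrix (Fin 4) (Fin 4) K} (hU : M * Jm K * Mᴴ = Jm K)
    (t : M 1 0 = 0 ∧ M 2 0 = 0 ∧ M 3 0 = 0 ∧ M 2 1 = 0 ∧ M 3 1 = 0 ∧ M 3 2 = 0) :
    star (M 0 0) * M 3 3 = 1 ∧ star (M 1 1) * M 2 2 = 1 ∧ ∃ s, M = matM s * diagonal fun i => M i i := by
  obtain ⟨a10, a20, a30, a21, a31, a32⟩ := t
  have u00 := congrFun (congrFun hU 0) 0
  have u10 := congrFun (congrFun hU 1) 0
  have u20 := congrFun (congrFun hU 2) 0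
  have u30 := congrFun (congrFun hU 3) 0
  have u11 := congrFun (congrFun hU 1) 1
  have u21 := congrFun (congrFun hU 2) 1
  have u12 := congrFun (congrFun hU 1) 2
  simp only [Matrix.mul_apply, Fin.sum_univ_four, conjTranspose_apply, Jm, Fin.isValue, of_apply, cons_val, a10, a20,
    a30, a21, a31, a32, star_zero]
    at u00 u10 u20 u30 u11 u21 u12
  have r0 : star (M 0 0) * M 3 3 = 1 := by linear_combination -u30
  have r1 : star (M 1 1) * M 2 2 = 1 := by linear_combination -u21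
  have r2 : M 1 1 * star (M 2 2) = 1 := by linear_combination u12
  refine ⟨r0, r1, ⟨M 0 1 * star (M 2 2), M 1 2 * star (M 1 1), M 0 2 * star (M 1 1),
      M 0 3 * star (M 0 0) + star (M 0 1) * M 2 2 * (M 0 2 * star (M 1 1)), ?_, ?_⟩, ?_⟩
  · simp only [star_mul', star_star]
    linear_combination u11
  · simp only [star_add, star_mul', star_star]
    linear_combination u00 + M 0 1 * star (M 0 2) * r2 - star (M 0 1) * M 0 2 * r1
  · ext i j
    rw [mul_diagonal]
    fin_cases i <;> fin_cases j <;> simp only [matM, Fin.zero_eta, Fin.mk_one, Fin.reduceFinMk, Fin.isValue, of_apply,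
      cons_val, star_mul', star_star, a10, a20, a30, a21, a31, a32, one_mul, zero_mul]
    · linear_combination -M 0 1 * r2
    · linear_combination -M 0 2 * r1
    · linear_combination -M 0 3 * r0
    · linear_combination -M 1 2 * r1
    · linear_combination -M 1 3 * r0 - M 3 3 * u10 + M 3 3 * star (M 0 1) * M 1 2 * r1
    · linear_combination -M 2 3 * r0 - M 3 3 * u20

theorem row {M : Matrix (Fin 4) (Fin 4) K} (a31 : M 3 1 = 0) (a32 : M 3 2 = 0) {x x' : U K} (hx : x.d = 0)
    (e : matM x' * M = M * matM x) :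
    x'.a * M 1 1 + x'.b * M 2 1 = M 0 0 * x.a ∧ x'.a * M 1 2 + x'.b * M 2 2 = M 0 0 * x.b := by
  have e01 := congrFun (congrFun e 0) 1
  have e02 := congrFun (congrFun e 0) 2
  simp only [Matrix.mul_apply, Fin.sum_univ_four, matM, Fin.isValue, of_apply, cons_val, a31, a32, hx] at e01 e02
  exact ⟨by linear_combination e01, by linear_combination e02⟩

theorem ker {M : Matrix (Fin 4) (Fin 4) K} (hU : M * Jm K * Mᴴ = Jm K) (a10 : M 1 0 = 0) (a20 : M 2 0 = 0) {v w : K}
    (e1 : v * M 1 1 + w * M 2 1 = 0) (e2 : v * M 1 2 + w * M 2 2 = 0) : v = 0 ∧ w = 0 := by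
  have u11 := congrFun (congrFun hU 1) 1
  have u21 := congrFun (congrFun hU 2) 1
  have u12 := congrFun (congrFun hU 1) 2
  have u22 := congrFun (congrFun hU 2) 2
  simp only [Matrix.mul_apply, Fin.sum_univ_four, conjTranspose_apply, Jm, Fin.isValue, of_apply, cons_val, a10, a20,
    star_zero] at u11 u21 u12 u22
  exact ⟨by linear_combination -v * u12 - w * u22 + star (M 2 2) * e1 - star (M 2 1) * e2,
    by linear_combination v * u11 + w * u21 - star (M 1 2) * e1 + star (M 1 1) * e2⟩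

theorem coe_conj {g : SUm K} {x x' : U K} (e : mat x' = g * mat x * g⁻¹) : matM x' * g.1.1 = g.1.1 * matM x :=
  congrArg (fun N : SUm K => N.1.1) (eq_mul_inv_iff_mul_eq.1 e)

end MBx

open MBx

theorem mb : MB K := by
  intro g hg
  choose f hf using hg
  have fi : Function.Injective f := fun x y e => mat_inj (by
    have := (hf x).trans ((congrArg mat e).trans (hf y).symm)
    simpa using this)
  have t := tri (M := g.1.1) fun x' => by
    obtain ⟨x, rfl⟩ := Finite.injective_iff_surjective.1 fi x'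
    exact ⟨x, coe_conj (hf x).symm⟩
  obtain ⟨r0, r1, s, e⟩ := dec g.2 t
  have hd : g.1.1 0 0 * g.1.1 1 1 * g.1.1 2 2 * g.1.1 3 3 = 1 := by
    have := g.1.2
    rwa [e, det_mul, det_matM, one_mul, det_diagonal, Fin.prod_univ_four] at this
  have n0 : g.1.1 0 0 ≠ 0 := fun c => by simp [c] at hd
  have n1 : g.1.1 1 1 ≠ 0 := fun c => by simp [c] at hd
  have m0 : star (g.1.1 0 0) ≠ 0 := star_ne_zero.2 n0
  have m1 : star (g.1.1 1 1) ≠ 0 := star_ne_zero.2 n1
  have k : g.1.1 0 0 * g.1.1 1 1 = star (g.1.1 0 0) * star (g.1.1 1 1) := by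
    linear_combination star (g.1.1 0 0) * star (g.1.1 1 1) * hd -
      g.1.1 0 0 * g.1.1 1 1 * (star (g.1.1 1 1) * g.1.1 2 2 * r0 + r1)
  have ht : star ((Units.mk0 _ (mul_ne_zero n0 n1) : Kˣ) : K) = (Units.mk0 _ (mul_ne_zero n0 n1) : Kˣ) := by
    rw [Units.val_mk0, star_mul', ← k]
  refine ⟨s, Units.mk0 _ n0, Units.mk0 _ (mul_ne_zero n0 n1), ht, fun x => ?_, ?_⟩
  · generalize hh : h1 (Units.mk0 _ n0) * h2 (Units.mk0 _ (mul_ne_zero n0 n1)) ht = h
    have hγ : ∀ x, h.1.γ x = x := fun x => by rw [← hh]; rfl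
    have h0 : g.1.1 0 0 = h.1.l * g.1.1 1 1 := by
      simp only [← hh, Subgroup.coe_mul, par_mul_l, h1_l, h1_γ, h2_l, Units.val_mk0]
      field_simp
    have h1 : g.1.1 1 1 = h.1.m * g.1.1 2 2 := by
      simp only [← hh, Subgroup.coe_mul, par_mul_m, h1_m, h1_γ, h2_m, Units.val_mk0]
      field_simp
      linear_combination -g.1.1 2 2 * k - star (g.1.1 0 0) * r1
    have h0' := congrArg star h0
    rw [star_mul'] at h0'
    have h2 : g.1.1 2 2 = star (h.1.l : K) * g.1.1 3 3 := by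
      linear_combination -g.1.1 2 2 * r0 + g.1.1 2 2 * g.1.1 3 3 * h0' + star (h.1.l : K) * g.1.1 3 3 * r1
    have key := dg h hγ (fun i => g.1.1 i i) h0 h1 h2 x
    rw [mul_inv_eq_iff_eq_mul]
    refine Subtype.ext (Subtype.ext ?_)
    change g.1.1 * matM x = matM (s * act h x * s⁻¹) * g.1.1
    generalize (diagonal fun i => g.1.1 i i) = D at e key
    rw [e, ← Matrix.mul_assoc, ← matM_mul, inv_mul_cancel_right, matM_mul, Matrix.mul_assoc, key, Matrix.mul_assoc]
  · have e1 : matM (1 : U K) = 1 := congrArg (fun N : SUm K => N.1.1) (map_one mat)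
    have e2 : (diagonal fun i => g.1.1 i i) = Matrix.diagonal ![g.1.1 0 0, g.1.1 0 0 * g.1.1 1 1 / g.1.1 0 0,
        star (g.1.1 0 0) / (g.1.1 0 0 * g.1.1 1 1), (star (g.1.1 0 0))⁻¹] := by
      congr 1
      funext i
      fin_cases i <;> simp only [Fin.zero_eta, Fin.mk_one, Fin.reduceFinMk, Fin.isValue, cons_val]
      · field_simp
      · rw [eq_div_iff (mul_ne_zero n0 n1)]
        linear_combination g.1.1 2 2 * k + star (g.1.1 0 0) * r1
      · exact eq_inv_of_mul_eq_one_right r0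
    rw [← map_inv]
    change matM s⁻¹ * g.1.1 = _
    simp only [Units.val_mk0]
    rw [← e2]
    generalize (diagonal fun i => g.1.1 i i) = D at e
    rw [e, ← Matrix.mul_assoc, ← matM_mul, inv_mul_cancel, e1, Matrix.one_mul]

theorem mn : MN K := by
  intro g hg x x' y y' k hx hy ex ey hk
  have hg' : ∀ x : Q2 K, ∃ x' : Q2 K, mat x'.1 = g * mat x.1 * g⁻¹ := fun x => by
    obtain ⟨x', a, b⟩ := hg x.1 x.2
    exact ⟨⟨x', a⟩, b⟩
  choose f hf using hg'
  have fi : Function.Injective f := fun x y e => Subtype.ext (mat_inj (by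
    have := (hf x).symm.trans ((congrArg (fun z : Q2 K => mat z.1) e).trans (hf y))
    simpa using this))
  obtain ⟨a10, a20, a31, a32⟩ := tri2 (M := g.1.1) fun x' hx' => by
    obtain ⟨x, hx⟩ := Finite.injective_iff_surjective.1 fi ⟨x', hx'⟩
    refine ⟨x.1, x.2, coe_conj ?_⟩
    rw [← hf x, hx]
  obtain ⟨p1, p2⟩ := row a31 a32 hx (coe_conj ex)
  obtain ⟨q1, q2⟩ := row a31 a32 hy (coe_conj ey)
  have k1 : y.a = k * x.a := congrArg Prod.fst hk
  have k2 : y.b = k * x.b := congrArg Prod.snd hk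
  obtain ⟨z1, z2⟩ := ker g.2 a10 a20 (v := y'.a - k * x'.a) (w := y'.b - k * x'.b)
    (by linear_combination q1 - k * p1 + g.1.1 0 0 * k1) (by linear_combination q2 - k * p2 + g.1.1 0 0 * k2)
  exact Prod.ext (sub_eq_zero.1 z1) (sub_eq_zero.1 z2)

end CL.U4
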