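/-
Project U4: the matrix model is `SU₄(q)`, and `U K` is a Sylow `p`-subgroup.
-/
import Cfsg.Agent.U4.Defs2
import Cfsg.Agent.Cls.UniSimple

set_option autoImplicit false
set_option linter.unusedSectionVars false

namespace CL.U4

open Cfsg CL.Fus CL.U5 CL.Uni Matrix

universe u

variable {K : Type u} [Field K] [StarRing K] [UF K]

namespace MCx

theorem J_sq : Jm K * Jm K = -1 := by
  ext i j
  rw [Matrix.mul_apply, Fin.sum_univ_four]
  fin_cases i <;> fin_cases j <;> simp [Jm]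

theorem J_star : (Jm K)ᴴ = -Jm K := by
  ext i j
  fin_cases i <;> fin_cases j <;> simp [Jm]

/-- the form with matrix `ω • Jm` -/
def BJ (ω : K) : (Fin 4 → K) →ₛₗ[starRingEnd K] (Fin 4 → K) →ₗ[K] K :=
  (stdB (starRingEnd K) (Fin 4)).compl₂ (ω • Jm K).mulVecLin

theorem BJ_apply (ω : K) (u v : Fin 4 → K) : BJ ω u v = star u ⬝ᵥ (ω • Jm K) *ᵥ v := rfl

theorem form_ext {A A' : Matrix (Fin 4) (Fin 4) K} (h : ∀ u v : Fin 4 → K, star u ⬝ᵥ A *ᵥ v = star u ⬝ᵥ A' *ᵥ v) :
    A = A' := by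
  ext i j
  simpa [← Pi.single_star] using h (Pi.single i 1) (Pi.single j 1)

theorem herm {ω : K} (h0 : ω ≠ 0) (hω : star ω = -ω) : IsHerm (BJ ω) (UF.q K) where
  bar := UF.bar
  symm x y := by
    have e : (ω • Jm K)ᴴ = ω • Jm K := by rw [conjTranspose_smul, J_star, hω, neg_smul_neg]
    simp only [BJ_apply, starRingEnd_apply, ← star_dotProduct_star, star_star, star_mulVec, e, ← dotProduct_mulVec]
  nondeg x h := by
    have := (isHerm_stdB (UF.bar (K := K)) (Fin 4)).nondeg x fun y => by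
      have k := h (((-ω⁻¹) • Jm K) *ᵥ y)
      rwa [BJ_apply, mulVec_mulVec, Matrix.smul_mul, Matrix.mul_smul, J_sq, neg_smul_neg, smul_smul, mul_inv_cancel₀ h0,
        one_smul, one_mulVec] at k
    exact this

theorem mem_iff {ω : K} (h0 : ω ≠ 0) (M : Matrix (Fin 4) (Fin 4) K) :
    M * Jm K * Mᴴ = Jm K ↔ ∀ u v, BJ ω (M *ᵥ u) (M *ᵥ v) = BJ ω u v := by
  have e : ∀ u v, BJ ω (M *ᵥ u) (M *ᵥ v) = star u ⬝ᵥ (ω • (Mᴴ * Jm K * M)) *ᵥ v := fun u v => by
    rw [BJ_apply, star_mulVec, ← dotProduct_mulVec, mulVec_mulVec, mulVec_mulVec, Matrix.mul_smul, Matrix.smul_mul]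
  have k : ∀ {A C : Matrix (Fin 4) (Fin 4) K}, A * Jm K * C = Jm K → C * Jm K * A = Jm K := fun {A C} h => by
    have h1 : A * (Jm K * C * (-Jm K)) = 1 := by
      rw [← Matrix.mul_assoc, ← Matrix.mul_assoc, h, Matrix.mul_neg, J_sq, neg_neg]
    have h2 := congrArg (Jm K * ·) (mul_eq_one_comm.1 h1)
    simpa only [← Matrix.mul_assoc, J_sq, Matrix.one_mul, Matrix.mul_one, Matrix.neg_mul, Matrix.mul_neg, neg_neg]
      using h2
  simp only [e, BJ_apply]
  exact ⟨fun h u v => by rw [k h], fun h => k (smul_right_injective _ h0 (form_ext h))⟩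

/-- the bridge -/
noncomputable def br {ω : K} (h0 : ω ≠ 0) : SUm K ≃* SUG (BJ ω) where
  toFun A := ⟨glEquiv (Fin 4) K (Matrix.SpecialLinearGroup.toGL A.1),
    mem_SUG.2 ⟨(mem_iff h0 _).1 A.2, by rw [dt_glEquiv]; exact A.1.2⟩⟩
  invFun g := ⟨⟨((glEquiv (Fin 4) K).symm g.1 : Matrix.GeneralLinearGroup (Fin 4) K), by
      rw [← dt_glEquiv, MulEquiv.apply_symm_apply]; exact (mem_SUG.1 g.2).2⟩, (mem_iff h0 _).2 fun u v => by
    have := (mem_SUG.1 g.2).1 u v
    rwa [← (glEquiv (Fin 4) K).apply_symm_apply g.1] at this⟩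
  left_inv A := by
    ext i j
    simp
  right_inv g := by
    apply Subtype.ext
    dsimp only
    rw [← MulEquiv.eq_symm_apply]
    ext i j
    rfl
  map_mul' A C := by
    apply Subtype.ext
    simp

theorem card_U : Nat.card (U K) = UF.q K ^ 6 := by
  let e : U K ≃ (K × K) × {x : K // star x = x} × {x : K // star x = x} :=
    { toFun := fun g => ⟨(g.a, g.b), ⟨g.d, g.hd⟩, ⟨g.c, g.hc⟩⟩
      invFun := fun t => ⟨t.1.1, t.2.1.1, t.1.2, t.2.2.1, t.2.1.2, t.2.2.2⟩
      left_inv := fun _ => rfl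
      right_inv := fun _ => rfl }
  rw [Nat.card_congr e]
  simp only [Nat.card_prod, card_K, card_fix]
  ring

theorem dvd_q (p : ℕ) [CharP K p] : p ∣ UF.q K := (CharP.cast_eq_zero_iff K p _).1 UF.bar.cast_q

end MCx

open MCx

theorem mc : MC K := by
  have := Fintype.ofFinite K
  obtain ⟨ω, h0, hω⟩ := exists_skew K
  obtain ⟨e⟩ := (herm h0 hω).nonempty_suEquiv (n := 4) (by simp)
  refine ⟨⟨(br h0).trans e⟩, fun p hp _ h => ?_⟩
  have h1 := card_SU (F := K) UF.bar.fintype_card (n := 4) (by decide)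
  rw [← Nat.card_congr ((br h0).trans e).toEquiv, ← (mat : U K →* SUm K).range.card_mul_index,
    ← Nat.card_congr (MonoidHom.ofInjective mat_inj).toEquiv, card_U, guOrder, mul_left_comm] at h1
  have h2 := Nat.eq_of_mul_eq_mul_left (pow_pos (by have := two_le_q (K := K); omega) _) h1
  obtain ⟨i, -, hi⟩ := (Prime.dvd_finsetProd_iff hp.out.prime _).1 (h2 ▸ h.mul_left _)
  have h3 : p ∣ UF.q K ^ (i + 1) := (dvd_q p).trans (dvd_pow_self _ i.succ_ne_zero)
  have h4 : 0 < UF.q K ^ (i + 1) := pow_pos (by have := two_le_q (K := K); omega) _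
  refine hp.out.one_lt.ne' (Nat.dvd_one.1 ?_)
  split_ifs at hi
  · exact (Nat.dvd_add_right h3).1 hi
  · have := Nat.dvd_sub h3 hi
    rwa [Nat.sub_sub_self h4] at this

theorem syl (h : MC K) : SYL K := fun p hp _ T => by
  have := Fintype.ofFinite K
  obtain ⟨⟨e⟩, hi⟩ := h
  let c := Subgroup.center (Cfsg.SU 4 K (UF.q K))
  let f : SUm K →* Cfsg.PSU 4 K (UF.q K) := (QuotientGroup.mk' c).comp e.toMonoidHom
  have hf : Function.Surjective f := (QuotientGroup.mk'_surjective c).comp e.surjective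
  have hj : Function.Injective (f.comp mat) := (injective_iff_map_eq_one _).2 fun x hx => by
    have h1 : e (mat x) ∈ c := (QuotientGroup.eq_one_iff _).1 hx
    have h2 := c.orderOf_dvd_natCard h1
    rw [card_center_SU UF.bar.fintype_card (by decide), e.orderOf_eq, orderOf_injective _ mat_inj] at h2
    obtain ⟨k, hk⟩ := IsPGroup.iff_orderOf.1 (pg (K := K) p) x
    rcases k with _ | k
    · exact orderOf_eq_one_iff.1 hk
    · have h3 := ((hk ▸ dvd_pow_self p k.succ_ne_zero).trans h2).trans (Nat.gcd_dvd_right _ _)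
      exact absurd (Nat.dvd_one.1 ((Nat.dvd_add_right (dvd_q p)).1 h3)) hp.out.one_lt.ne'
  have hP : IsPGroup p (f.comp mat).range := (pg p).of_surjective _ (f.comp mat).rangeRestrict_surjective
  have hn : ¬ p ∣ (f.comp mat).range.index := fun k =>
    hi p (k.trans (MonoidHom.range_comp f mat ▸ Subgroup.index_map_dvd _ hf))
  exact ⟨(Sylow.equiv T (hP.toSylow hn)).trans (MonoidHom.ofInjective hj).symm⟩

end CL.U4
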