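/-
Project U4 (helper38): the diagonal and field automorphisms and the reflections in the matrix model, and the realising group.
-/
import Cfsg.Agent.U4.Defs2

set_option autoImplicit false
set_option linter.unusedSectionVars false

namespace CL.U4

open Cfsg CL.Fus CL.U5 Matrix

universe u

namespace MDx

variable {K : Type u} [Field K] [StarRing K]

theorem Jm_zero {i j : Fin 4} (h : j ≠ i.rev) : Jm K i j = 0 := by
  fin_cases i <;> fin_cases j <;> first | rfl | exact absurd rfl h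

theorem diag_J {e : Fin 4 → K} {c : K} (h : ∀ i, e i * star (e i.rev) = c) :
    diagonal e * Jm K * (diagonal e)ᴴ = c • Jm K := by
  ext i j
  rw [diagonal_conjTranspose, mul_diagonal, diagonal_mul, Matrix.smul_apply, smul_eq_mul]
  by_cases k : j = i.rev
  · rw [← h i, k, mul_right_comm]; rfl
  · rw [Jm_zero k, mul_zero, zero_mul, mul_zero]

def g1 (K : Type u) [Field K] : Matrix (Fin 4) (Fin 4) K :=
  !![0, 1, 0, 0; -1, 0, 0, 0; 0, 0, 0, -1; 0, 0, 1, 0]
def g2 (K : Type u) [Field K] : Matrix (Fin 4) (Fin 4) K :=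
  !![1, 0, 0, 0; 0, 0, 1, 0; 0, -1, 0, 0; 0, 0, 0, 1]

theorem det_g1 : (g1 K).det = 1 := by
  simp [g1, det_succ_row_zero, Fin.sum_univ_succ, Fin.succAbove]
theorem det_g2 : (g2 K).det = 1 := by
  simp [g2, det_succ_row_zero, Fin.sum_univ_succ, Fin.succAbove]

theorem g1_mem : g1 K * Jm K * (g1 K)ᴴ = Jm K := by
  ext i j
  simp only [Matrix.mul_apply, Fin.sum_univ_four, conjTranspose_apply]
  fin_cases i <;> fin_cases j <;> simp only [g1, Jm, Fin.zero_eta, Fin.mk_one, Fin.reduceFinMk, Fin.isValue, of_apply,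
    cons_val, star_neg, star_zero, star_one] <;> ring
theorem g2_mem : g2 K * Jm K * (g2 K)ᴴ = Jm K := by
  ext i j
  simp only [Matrix.mul_apply, Fin.sum_univ_four, conjTranspose_apply]
  fin_cases i <;> fin_cases j <;> simp only [g2, Jm, Fin.zero_eta, Fin.mk_one, Fin.reduceFinMk, Fin.isValue, of_apply,
    cons_val, star_neg, star_zero, star_one] <;> ring

theorem g1_conj (x : Q1 K) : matM (r1 K x : U K) * g1 K = g1 K * matM (x : U K) := by
  ext i j
  simp only [Matrix.mul_apply, Fin.sum_univ_four]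
  fin_cases i <;> fin_cases j <;> simp only [g1, matM, Fin.zero_eta, Fin.mk_one, Fin.reduceFinMk, Fin.isValue, of_apply,
    cons_val, star_neg, star_zero, star_star, q1_a, r1_d, r1_b, r1_c] <;> ring
theorem g2_conj (x : Q2 K) : matM (r2 K x : U K) * g2 K = g2 K * matM (x : U K) := by
  have k : (r2 K x : U K).d = 0 := (r2 K x).2
  have k' : (x : U K).d = 0 := x.2
  ext i j
  simp only [Matrix.mul_apply, Fin.sum_univ_four]
  fin_cases i <;> fin_cases j <;> simp only [g2, matM, Fin.zero_eta, Fin.mk_one, Fin.reduceFinMk, Fin.isValue, of_apply,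
    cons_val, star_neg, star_zero, k, k', r2_a, r2_b, r2_c] <;> ring

variable [UF K]

def dd (h : P4 K) : Fin 4 → K :=
  ![1, (h.1.l : K)⁻¹, (h.1.l * h.1.m : K)⁻¹, (h.1.l * star (h.1.l : K) * h.1.m : K)⁻¹]

theorem dd_ne (h : P4 K) (i : Fin 4) : dd h i ≠ 0 := by fin_cases i <;> simp [dd]
theorem dd_one (i : Fin 4) : dd (1 : P4 K) i = 1 := by fin_cases i <;> simp [dd]
theorem dd_mul (h k : P4 K) (i : Fin 4) : dd (h * k) i = dd h i * h.1.γ (dd k i) := by
  fin_cases i <;> simp [dd] <;> ring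
theorem dd_star (h : P4 K) (i : Fin 4) : dd h i * star (dd h i.rev) = dd h 3 := by
  fin_cases i
  · show (1 : K) * star (h.1.l * star (h.1.l : K) * h.1.m : K)⁻¹ = (h.1.l * star (h.1.l : K) * h.1.m : K)⁻¹
    rw [star_inv₀, star_mul', star_mul', star_star, star_m, one_mul, mul_comm (star _)]
  · show (h.1.l : K)⁻¹ * star (h.1.l * h.1.m : K)⁻¹ = (h.1.l * star (h.1.l : K) * h.1.m : K)⁻¹
    rw [star_inv₀, star_mul', star_m, ← mul_inv, mul_assoc]
  · show (h.1.l * h.1.m : K)⁻¹ * star (h.1.l : K)⁻¹ = (h.1.l * star (h.1.l : K) * h.1.m : K)⁻¹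
    rw [star_inv₀, ← mul_inv, mul_right_comm]
  · show (h.1.l * star (h.1.l : K) * h.1.m : K)⁻¹ * star (1 : K) = (h.1.l * star (h.1.l : K) * h.1.m : K)⁻¹
    rw [star_one, mul_one]

def phiM (h : P4 K) (M : Matrix (Fin 4) (Fin 4) K) : Matrix (Fin 4) (Fin 4) K :=
  diagonal (dd h) * M.map h.1.γ * diagonal fun i => (dd h i)⁻¹

theorem phiM_apply (h : P4 K) (M : Matrix (Fin 4) (Fin 4) K) (i j : Fin 4) :
    phiM h M i j = dd h i * h.1.γ (M i j) * (dd h j)⁻¹ := by
  rw [phiM, mul_diagonal, diagonal_mul, map_apply]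

theorem diag_inv (h : P4 K) : (diagonal fun i => (dd h i)⁻¹) * diagonal (dd h) = 1 := by
  rw [diagonal_mul_diagonal, ← diagonal_one]
  exact congrArg _ (funext fun i => inv_mul_cancel₀ (dd_ne h i))

theorem phiM_mul (h : P4 K) (M N : Matrix (Fin 4) (Fin 4) K) : phiM h (M * N) = phiM h M * phiM h N := by
  simp only [phiM, Matrix.map_mul, Matrix.mul_assoc]
  rw [← Matrix.mul_assoc (diagonal fun i => (dd h i)⁻¹), diag_inv, Matrix.one_mul]

theorem phiM_comp (h k : P4 K) (M : Matrix (Fin 4) (Fin 4) K) : phiM (h * k) M = phiM h (phiM k M) := by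
  ext i j
  simp only [phiM_apply, dd_mul, Subgroup.coe_mul, par_mul_γ, map_mul, map_inv₀, _root_.mul_inv_rev]
  ring

theorem phiM_one (M : Matrix (Fin 4) (Fin 4) K) : phiM 1 M = M := by
  ext i j
  simp only [phiM_apply, dd_one, Subgroup.coe_one, par_one_γ, inv_one, one_mul, mul_one]

theorem phiM_det (h : P4 K) {M : Matrix (Fin 4) (Fin 4) K} (e : M.det = 1) : (phiM h M).det = 1 := by
  have k : (M.map h.1.γ).det = 1 := by
    have := (h.1.γ : K →+* K).map_det M
    rw [e, map_one] at this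
    exact this.symm
  rw [phiM, det_mul, det_mul, k, mul_one, mul_comm, ← det_mul, diag_inv, det_one]

theorem phiM_mem (h : P4 K) {M : Matrix (Fin 4) (Fin 4) K} (e : M * Jm K * Mᴴ = Jm K) :
    phiM h M * Jm K * (phiM h M)ᴴ = Jm K := by
  have e1 : (Jm K).map h.1.γ = Jm K := by
    ext i j
    fin_cases i <;> fin_cases j <;> simp [Jm]
  have e2 : (M.map h.1.γ)ᴴ = Mᴴ.map h.1.γ := by
    ext i j
    simp only [conjTranspose_apply, map_apply, map_star']
  have e3 : M.map h.1.γ * Jm K * (M.map h.1.γ)ᴴ = Jm K := by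
    rw [e2]
    calc _ = (M * Jm K * Mᴴ).map h.1.γ := by rw [Matrix.map_mul, Matrix.map_mul, e1]
      _ = _ := by rw [e, e1]
  have e4 := diag_J (e := fun i => (dd h i)⁻¹) (c := (dd h 3)⁻¹) fun i => by rw [star_inv₀, ← mul_inv, dd_star]
  calc _ = diagonal (dd h) * (M.map h.1.γ * ((diagonal fun i => (dd h i)⁻¹) * Jm K * (diagonal fun i => (dd h i)⁻¹)ᴴ) *
        (M.map h.1.γ)ᴴ) * (diagonal (dd h))ᴴ := by simp only [phiM, conjTranspose_mul, Matrix.mul_assoc]
    _ = _ := by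
      rw [e4, Matrix.mul_smul, Matrix.smul_mul, e3, Matrix.mul_smul, Matrix.smul_mul, diag_J (dd_star h), smul_smul,
        inv_mul_cancel₀ (dd_ne h 3), one_smul]

theorem phiM_mat (h : P4 K) (x : U K) : phiM h (matM x) = matM (act h x) := by
  have h1 : (h.1.l : K) ≠ 0 := h.1.l.ne_zero
  have h2 : (h.1.m : K) ≠ 0 := h.1.m.ne_zero
  have h3 : star (h.1.l : K) ≠ 0 := star_ne_zero.2 h1
  ext i j
  rw [phiM_apply]
  fin_cases i <;> fin_cases j <;> simp only [matM, dd, Fin.zero_eta, Fin.mk_one, Fin.reduceFinMk, Fin.isValue, of_apply,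
    cons_val, act_a, act_b, act_c, act_d, star_m, map_sub, map_neg, map_mul, map_star', map_zero, map_one,
    star_mul', mul_zero, zero_mul] <;> field_simp

def phiF (h : P4 K) (M : SUm K) : SUm K := ⟨⟨phiM h M.1.1, phiM_det h M.1.2⟩, phiM_mem h M.2⟩

theorem phiF_comp (h k : P4 K) (M : SUm K) : phiF (h * k) M = phiF h (phiF k M) :=
  Subtype.ext (Subtype.ext (phiM_comp h k _))
theorem phiF_one (M : SUm K) : phiF 1 M = M := Subtype.ext (Subtype.ext (phiM_one _))

def phi : P4 K →* MulAut (SUm K) := MonoidHom.mk' (fun h =>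
  { toFun := phiF h
    invFun := phiF h⁻¹
    left_inv := fun g => by rw [← phiF_comp, inv_mul_cancel, phiF_one]
    right_inv := fun g => by rw [← phiF_comp, mul_inv_cancel, phiF_one]
    map_mul' := fun M N => Subtype.ext (Subtype.ext (phiM_mul h _ _)) }) fun h k => MulEquiv.ext (phiF_comp h k)

theorem conj_inl {N G : Type*} [Group N] [Group G] {φ : G →* MulAut N} (g : N ⋊[φ] G) (n : N) :
    g * SemidirectProduct.inl n * g⁻¹ = SemidirectProduct.inl (g.left * φ g.right n * g.left⁻¹) := by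
  ext <;> simp

end MDx

variable {K : Type u} [Field K] [StarRing K] [UF K]

open MDx in
theorem md : MD K :=
  ⟨⟨phi, fun h x => Subtype.ext (Subtype.ext (phiM_mat h x))⟩,
    ⟨⟨⟨g1 K, det_g1⟩, g1_mem⟩, fun x => eq_mul_inv_of_mul_eq (Subtype.ext (Subtype.ext (g1_conj x)))⟩,
    ⟨⟨g2 K, det_g2⟩, g2_mem⟩, fun x => eq_mul_inv_of_mul_eq (Subtype.ext (Subtype.ext (g2_conj x)))⟩

open MDx SemidirectProduct in
theorem real (mb : MB K) (mc : MC K) (md : MD K) (mn : MN K) : REAL K := by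
  intro p _ _ H hH hu hv
  obtain ⟨⟨φ, hφ⟩, ⟨a, ha'⟩, b, hb'⟩ := md
  have inj : Function.Injective ((inl : SUm K →* SUm K ⋊[φ.comp H.subtype] H).comp mat) := inl_injective.comp mat_inj
  refine ⟨SUm K ⋊[φ.comp H.subtype] H, inferInstance, Finite.of_equiv _ equivProd.symm, inl.comp mat, inj, ?_,
    fun α => ⟨?_, ?_⟩, ⟨inl a, fun x => ?_⟩, ⟨inl b, fun x => ?_⟩, fun g hg => ?_⟩
  · have e1 := ((inl : SUm K →* SUm K ⋊[φ.comp H.subtype] H).comp mat).range.card_mul_index
    have e2 := (mat : U K →* SUm K).range.card_mul_index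
    rw [← Nat.card_congr (MonoidHom.ofInjective inj).toEquiv, SemidirectProduct.card, ← e2,
      ← Nat.card_congr (MonoidHom.ofInjective mat_inj).toEquiv, mul_assoc] at e1
    rw [Nat.eq_of_mul_eq_mul_left Nat.card_pos e1]
    exact fun d => ((Nat.Prime.dvd_mul Fact.out).1 d).elim (mc.2 p) hH
  · rintro ⟨g, hg⟩
    have k : ∀ x, mat (α x) = g.left * mat (act g.right.1 x) * g.left⁻¹ := fun x => by
      rw [← hφ]
      exact inl_injective ((hg x).trans (conj_inl g _))
    obtain ⟨s, u, v, ht, e, -⟩ := mb g.left fun x => ⟨α ((act g.right.1)⁻¹ x), by rw [k, MulAut.apply_inv_self]⟩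
    refine ⟨s, h1 u * h2 v ht * g.right.1, mul_mem (mul_mem (hu u) (hv v ht)) g.right.2,
      MulEquiv.ext fun x => mat_inj ?_⟩
    rw [k, e, map_mul act (h1 u * h2 v ht)]
    rfl
  · rintro ⟨s, h, hh, rfl⟩
    refine ⟨⟨mat s, ⟨h, hh⟩⟩, fun x => Eq.trans (congrArg inl ?_) (conj_inl _ _).symm⟩
    show mat (s * act h x * s⁻¹) = mat s * φ h (mat x) * (mat s)⁻¹
    rw [hφ, map_mul, map_mul, map_inv]
  · rw [MonoidHom.comp_apply, ha', map_mul, map_mul, map_inv]
    rfl
  · rw [MonoidHom.comp_apply, hb', map_mul, map_mul, map_inv]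
    rfl
  · have k : ∀ {x x' : U K}, ((inl : SUm K →* SUm K ⋊[φ.comp H.subtype] H).comp mat) x' =
        g * ((inl : SUm K →* SUm K ⋊[φ.comp H.subtype] H).comp mat) x * g⁻¹ →
        mat x' = g.left * mat (act g.right.1 x) * g.left⁻¹ := fun e => by
      rw [← hφ]
      exact inl_injective (e.trans (conj_inl g _))
    refine ⟨g.right.1.1.γ, fun x x' y y' c hx hy e1 e2 e3 => mn g.left (fun z hz => ?_) _ x' _ y' _
      ((act_Q2 _ x).2 hx) ((act_Q2 _ y).2 hy) (k e1) (k e2) ?_⟩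
    · obtain ⟨z', h1, h2⟩ := hg ((act g.right.1)⁻¹ z) ((act_Q2 g.right.1 _).1 (by rwa [MulAut.apply_inv_self]))
      exact ⟨z', h1, by rw [k h2, MulAut.apply_inv_self]⟩
    · rw [pW_act, pW_act, e3, aW_apply, aW_apply]
      ext <;> simp <;> ring

end CL.U4
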