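/-
Project U4: the Sylow 3-normaliser of `PSU₄(3)`, and a presentation of the Sylow 3-subgroup.
-/
import Cfsg.Agent.U4.Defs2
import Cfsg.Agent.Cls.UniSimple
import Cfsg.Agent.Loc.PConstr

set_option autoImplicit false
set_option linter.unusedSectionVars false

namespace CL.U4

open Cfsg CL.Fus CL.U5 Subgroup

universe u

namespace NB3x

theorem gen {H H' : Type*} [Group H] [Group H'] [Finite H] (f : H →* H') (hf : Function.Surjective f)
    (hk : Nat.card f.ker = 4) (hz : f.ker ≤ center H) (P : Subgroup H) (hP : IsPGroup 3 P) (hi : ¬ 3 ∣ P.index)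
    (hc : Nat.card P ≤ 729) (hN : Nat.card (normalizer (P : Set H)) ≤ 729 * 16) (T : Subgroup H')
    (hT : Nat.card T = 729) : Nat.card (normalizer (T : Set H')) ≤ 4 * 729 := by
  have := Finite.of_surjective f hf
  have : Fact (Nat.Prime 3) := ⟨Nat.prime_three⟩
  let P0 : Sylow 3 H' := (hP.map f).toSylow fun k => hi (k.trans (index_map_dvd _ hf))
  obtain ⟨Q, hQ⟩ := (IsPGroup.of_card (p := 3) (n := 6) hT).exists_le_sylow
  have h1 : Nat.card Q ≤ 729 := by
    rw [Nat.card_congr (Sylow.equiv Q P0).toEquiv]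
    exact (Nat.card_le_card_of_surjective _ (f.subgroupMap_surjective P)).trans hc
  have h2 : T = Q := eq_of_le_of_card_ge hQ (hT ▸ h1)
  have h3 : Nat.card (normalizer (T : Set H')) = Nat.card (normalizer ((P.map f : Subgroup H') : Set H')) := by
    have a := card_mul_index (normalizer (Q : Set H'))
    have b := card_mul_index (normalizer (P0 : Set H'))
    rw [← Sylow.card_eq_index_normalizer] at a b
    rw [h2]
    exact Nat.eq_of_mul_eq_mul_right Nat.card_pos (a.trans b.symm)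
  rw [h3, ← CL.Loc.map_normalizer_eq_of_coprime_ker hf (by rw [hk]; decide) hP, ← relIndex_ker]
  have h4 : f.ker ≤ normalizer (P : Set H) := hz.trans (center_le_normalizer _)
  have h5 := card_mul_index (f.ker.subgroupOf (normalizer (P : Set H)))
  rw [Nat.card_congr (subgroupOfEquivOfLe h4).toEquiv, hk] at h5
  rw [relIndex]
  omega

theorem card_U : Nat.card (U F9) ≤ 729 := by
  have h := Nat.card_le_card_of_injective (fun g : U F9 =>
    ((g.a, g.b, ⟨g.d, g.hd⟩, ⟨g.c, g.hc⟩) : F9 × F9 × {d : F9 // star d = d} × {d : F9 // star d = d})) fun g h e => by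
      simp only [Prod.mk.injEq, Subtype.mk.injEq] at e
      exact U.ext e.1 e.2.2.1 e.2.1 e.2.2.2
  have h1 : Nat.card {d : F9 // star d = d} = 3 := by
    rw [Nat.card_eq_fintype_card]; decide +kernel
  rwa [Nat.card_prod, Nat.card_prod, Nat.card_prod, h1, Nat.card_eq_fintype_card (α := F9), card_F9] at h

theorem card_N (mb : MB F9) :
    Nat.card (normalizer ((mat : U F9 →* SUm F9).range : Set (SUm F9))) ≤ 729 * 16 := by
  choose s u t ht _ e using fun g : normalizer ((mat : U F9 →* SUm F9).range : Set (SUm F9)) =>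
    mb g fun x => ((mem_normalizer_iff.1 g.2 _).1 ⟨x, rfl⟩).imp fun _ h => h.symm
  have h := Nat.card_le_card_of_injective (fun g => ((s g, ⟨u g, (u g).ne_zero⟩, ⟨t g, (t g).ne_zero, ht g⟩) :
    U F9 × {d : F9 // d ≠ 0} × {d : F9 // d ≠ 0 ∧ star d = d})) fun g h k => by
      simp only [Prod.mk.injEq, Subtype.mk.injEq] at k
      have k1 := e g
      rw [k.1, k.2.1, k.2.2, ← e h] at k1
      exact Subtype.ext (mul_left_cancel (Subtype.ext (Subtype.ext k1)))
  have h1 : Nat.card {d : F9 // d ≠ 0} = 8 := by rw [Nat.card_eq_fintype_card]; decide +kernel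
  have h2 : Nat.card {d : F9 // d ≠ 0 ∧ star d = d} = 2 := by rw [Nat.card_eq_fintype_card]; decide +kernel
  rw [Nat.card_prod, Nat.card_prod, h1, h2] at h
  have := card_U
  omega

abbrev V : Type := ZMod 3 × ZMod 3 × ZMod 3 × ZMod 3

def tA (v : V) : V := v.1.val • (1, 1, 0, 1) + v.2.1.val • (0, 1, 0, -1) + v.2.2.1.val • (0, 0, 1, 0) +
  v.2.2.2.val • (0, 0, 0, 1)
def tB (v : V) : V := v.1.val • (1, 0, 1, 1) + v.2.1.val • (0, 1, 0, 0) + v.2.2.1.val • (0, 0, 1, -1) +
  v.2.2.2.val • (0, 0, 0, 1)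

theorem key : ∀ a d b c : F9, star d = d → ((d.re, (b + a * d).re, (b + a * d).im,
    (c + a * star b + star a * b + a * star a * d).re) : V) =
      tA^[a.re.val] (tB^[a.im.val] (d.re, b.re, b.im, c.re)) := by decide +kernel

variable {G : Type*} [Group G]

theorem pw_add {g : G} (h : g ^ 3 = 1) (x y : ZMod 3) : g ^ (x + y).val = g ^ x.val * g ^ y.val := by
  rw [ZMod.val_add, ← pow_eq_pow_mod _ h, pow_add]

theorem iter {φ : V → G} {A : G} {T : V → V} (h : ∀ v, A * φ v * A⁻¹ = φ (T v)) (k : ℕ) (v : V) :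
    A ^ k * φ v = φ (T^[k] v) * A ^ k := by
  induction k with
  | zero => simp
  | succ k ih => rw [pow_succ', mul_assoc, ih, Function.iterate_succ_apply', ← h]; group

end NB3x

open NB3x

theorem nb3 (mb : MB F9) (mc : MC F9) : NB3 := by
  obtain ⟨⟨e⟩, hi⟩ := mc
  have : Fact (Nat.Prime 3) := ⟨Nat.prime_three⟩
  have : Finite (SUm F9) := Subtype.finite
  let c := center (Cfsg.SU 4 F9 3)
  have hk : ((QuotientGroup.mk' c).comp e.toMonoidHom).ker = c.comap e.toMonoidHom := by
    rw [← MonoidHom.comap_ker, QuotientGroup.ker_mk']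
  refine gen ((QuotientGroup.mk' c).comp e.toMonoidHom) ((QuotientGroup.mk'_surjective c).comp e.surjective) ?_ ?_
    mat.range ((pg 3).of_surjective _ mat.rangeRestrict_surjective) (hi 3)
    ((Nat.card_le_card_of_surjective _ mat.rangeRestrict_surjective).trans card_U) (card_N mb)
  · rw [hk, ← card_map_of_injective (f := e.toMonoidHom) e.injective, map_comap_eq_self_of_surjective e.surjective]
    exact CL.Uni.card_center_SU (q := 3) card_F9 (by decide)
  · rw [hk]
    intro g hg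
    exact mem_center_iff.2 fun x => e.injective (by rw [map_mul, map_mul]; exact mem_center_iff.1 hg (e x))

theorem hom3 : HOM3 := by
  intro G _ X Y Y' Z A A' h3 hc hA a1 a2 a3 a4 b1 b2 b3 b4
  have x3 := h3 X (by simp)
  have y3 := h3 Y (by simp)
  have w3 := h3 Y' (by simp)
  have z3 := h3 Z (by simp)
  have xy : Commute X Y := hc X (by simp) Y (by simp)
  have xw : Commute X Y' := hc X (by simp) Y' (by simp)
  have xz : Commute X Z := hc X (by simp) Z (by simp)
  have yw : Commute Y Y' := hc Y (by simp) Y' (by simp)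
  have yz : Commute Y Z := hc Y (by simp) Z (by simp)
  have wz : Commute Y' Z := hc Y' (by simp) Z (by simp)
  obtain ⟨φ, hφ⟩ : ∃ φ : V → G, ∀ v, φ v = X ^ v.1.val * Y ^ v.2.1.val * Y' ^ v.2.2.1.val * Z ^ v.2.2.2.val :=
    ⟨_, fun _ => rfl⟩
  have add : ∀ u v, φ (u + v) = φ u * φ v := fun u v => by
    simp only [hφ, Prod.fst_add, Prod.snd_add, pw_add x3, pw_add y3, pw_add w3, pw_add z3]
    rw [(xy.pow_pow _ _).mul_mul_mul_comm, ((xw.pow_pow _ _).mul_left (yw.pow_pow _ _)).mul_mul_mul_comm,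
      (((xz.pow_pow _ _).mul_left (yz.pow_pow _ _)).mul_left (wz.pow_pow _ _)).mul_mul_mul_comm]
  have pw : ∀ (n : ℕ) v, φ (n • v) = φ v ^ n := fun n v => by
    induction n with
    | zero => simp [hφ]
    | succ n ih => rw [succ_nsmul, add, ih, pow_succ]
  have zi : Z ^ (-1 : ZMod 3).val = Z⁻¹ := eq_inv_of_mul_eq_one_left (by rw [← pow_succ]; exact z3)
  have v1 : (1 : ZMod 3).val = 1 := rfl
  have cj : ∀ (B : G) v, B * φ v * B⁻¹ = (B * X * B⁻¹) ^ v.1.val * (B * Y * B⁻¹) ^ v.2.1.val *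
      (B * Y' * B⁻¹) ^ v.2.2.1.val * (B * Z * B⁻¹) ^ v.2.2.2.val := fun B v => by
    simp only [hφ, conj_pow]; group
  have cA : ∀ v, A * φ v * A⁻¹ = φ (tA v) := fun v => by
    rw [cj, a1, a2, a3, a4, tA, add, add, add, pw, pw, pw, pw]
    simp only [hφ, zi, v1, ZMod.val_zero, pow_zero, pow_one, mul_one, one_mul]
  have cB : ∀ v, A' * φ v * A'⁻¹ = φ (tB v) := fun v => by
    rw [cj, b1, b2, b3, b4, tB, add, add, add, pw, pw, pw, pw]
    simp only [hφ, zi, v1, ZMod.val_zero, pow_zero, pow_one, mul_one, one_mul]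
  refine ⟨MonoidHom.mk' (fun x => φ (x.d.re, x.b.re, x.b.im, x.c.re) * (A ^ x.a.re.val * A' ^ x.a.im.val))
    fun x y => ?_, fun x => by simp only [MonoidHom.mk'_apply, hφ, mul_assoc]⟩
  have e : (((x * y).d.re, (x * y).b.re, (x * y).b.im, (x * y).c.re) : V) = (x.d.re, x.b.re, x.b.im, x.c.re) +
      tA^[x.a.re.val] (tB^[x.a.im.val] (y.d.re, y.b.re, y.b.im, y.c.re)) := by
    rw [← key x.a y.d y.b y.c y.hd]
    simp only [mul_d, mul_b, mul_c, add_assoc, QuadraticAlgebra.re_add, QuadraticAlgebra.im_add, Prod.mk_add_mk]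
  have k : A ^ x.a.re.val * A' ^ x.a.im.val * φ (y.d.re, y.b.re, y.b.im, y.c.re) =
      φ (tA^[x.a.re.val] (tB^[x.a.im.val] (y.d.re, y.b.re, y.b.im, y.c.re))) * (A ^ x.a.re.val * A' ^ x.a.im.val) := by
    rw [mul_assoc, iter cB, ← mul_assoc, iter cA, mul_assoc]
  rw [e, add, mul_a, QuadraticAlgebra.re_add, QuadraticAlgebra.im_add, pw_add (h3 A (by simp)),
    pw_add (h3 A' (by simp)), ((show Commute A A' from hA).pow_pow _ _).mul_mul_mul_comm,
    mul_assoc (φ (x.d.re, x.b.re, x.b.im, x.c.re)) (A ^ x.a.re.val * A' ^ x.a.im.val),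
    ← mul_assoc (A ^ x.a.re.val * A' ^ x.a.im.val) (φ _), k]
  simp only [mul_assoc]

end CL.U4
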