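/-
Project U4: the action of the automorphism group of `Q2` on the central quotient.
-/
import Cfsg.Agent.U4.Defs2
import Cfsg.Agent.U5.Rho

set_option autoImplicit false
set_option linter.unusedSectionVars false

namespace CL.U4

open Cfsg CL.Fus CL.U5
open scoped commutatorElement

universe u

variable {K : Type u} [Field K] [StarRing K] [UF K]

namespace RHO2x

theorem nd {d : K} (h : ∀ t, d * star t + star d * t = 0) : d = 0 := by
  obtain ⟨t, ht⟩ := exists_ne K
  have h1 := h 1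
  rw [mul_one, star_one, mul_one] at h1
  exact (mul_eq_zero.1 (show d * (star t - t) = 0 by linear_combination h t - t * h1)).resolve_right (sub_ne_zero.2 ht)

theorem fm_nd {u : V2 K} (k : ∀ v, fm u v = 0) : u = 0 :=
  Prod.ext (nd fun t => by simpa [fm] using k (0, t)) (nd fun t => by
    have := k (t, 0)
    simp only [fm, star_zero] at this
    linear_combination -this)

theorem Z_ext {g h : U K} (k : g ∈ Z K) (k' : h ∈ Z K) (e : g.c = h.c) : g = h :=
  U.ext (k.1.trans k'.1.symm) (k.2.1.trans k'.2.1.symm) (k.2.2.trans k'.2.2.symm) e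

theorem Z_pow (p : ℕ) [CharP K p] {g : U K} (k : g ∈ Z K) : g ^ p = 1 := by
  have : ∀ n : ℕ, (g ^ n).c = n * g.c := fun n => by
    induction n with
    | zero => simp
    | succ n ih =>
      rw [pow_succ, mul_c, ih, ((Z K).pow_mem k n).1]
      push_cast
      simp; ring
  refine Z_ext ((Z K).pow_mem k p) (one_mem _) ?_
  rw [this, CharP.cast_eq_zero K p, zero_mul, one_c]

theorem coe_comm (x y : Q2 K) : ((⁅x, y⁆ : Q2 K) : U K) = ⁅(x : U K), (y : U K)⁆ := rfl

theorem comm_c' (x y : Q2 K) : (⁅x, y⁆ : Q2 K).1.c = fm (pW x.1) (pW y.1) := comm_c_Q2 x.2 y.2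

theorem comm_one {x y : Q2 K} : ⁅x, y⁆ = 1 ↔ fm (pW x.1) (pW y.1) = 0 :=
  ⟨fun h => by rw [← comm_c', h]; rfl, fun h => Subtype.ext (Z_ext (comm_Q2 x.2 y.2) (one_mem _) ((comm_c' x y).trans h))⟩

theorem der (x : Q2 K) (h : x.1 ∈ Z K) : ∃ y z : Q2 K, x = ⁅y, z⁆ := by
  obtain ⟨t, ht⟩ := exists_trace x.1.hc
  refine ⟨⟨xa 1, rfl⟩, ⟨xb t, rfl⟩, Subtype.ext (Z_ext h (comm_Q2 rfl rfl) ?_)⟩
  rw [comm_c', ← ht]
  simp [fm, pW, xa, xb, add_comm]

theorem sq_one (h2 : (2 : K) = 0) (x : Q2 K) : x * x = 1 ↔ qf (pW x.1) = 0 := by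
  have d0 : x.1.d = 0 := x.2
  have e : (x * x).1.c = qf (pW x.1) := by
    simp only [Subgroup.coe_mul, mul_c, qf, pW, d0]
    linear_combination x.1.c * h2
  refine ⟨fun h => by rw [← e, h]; rfl, fun h => Subtype.ext (U.ext ?_ (x * x).2 ?_ (e.trans h))⟩
  · simp only [Subgroup.coe_mul, mul_a, Subgroup.coe_one, one_a]
    linear_combination x.1.a * h2
  · simp only [Subgroup.coe_mul, mul_b, Subgroup.coe_one, one_b, d0]
    linear_combination x.1.b * h2

theorem fix_nat (hq : (UF.q K).Prime) {l : K} (hl : star l = l) : ∃ n : ℕ, l = n := by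
  have := Fact.mk hq
  have := Fintype.ofFinite K
  have h0 : (UF.q K : K) = 0 := by
    have := FiniteField.cast_card_eq_zero K
    rw [← Nat.card_eq_fintype_card, card_K, Nat.cast_pow] at this
    exact pow_eq_zero_iff two_ne_zero |>.1 this
  have := (CharP.charP_iff_prime_eq_zero hq).2 h0
  let f : Fin (UF.q K) → {x : K // star x = x} := fun i => ⟨(i : ℕ), star_natCast _⟩
  have hi : Function.Injective f := fun i j e =>
    Fin.ext (CharP.natCast_injOn_Iio K (UF.q K) i.2 j.2 (congrArg Subtype.val e))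
  obtain ⟨i, e⟩ := ((Nat.bijective_iff_injective_and_card f).2 ⟨hi, by rw [card_fix, Nat.card_fin]⟩).2 ⟨l, hl⟩
  exact ⟨i, (congrArg Subtype.val e).symm⟩

theorem trf (hq : (UF.q K).Prime) (F : K → K) (add : ∀ x y, F (x + y) = F x + F y) (fx : ∀ x, star (F x) = F x) :
    ∃ a : K, ∀ x, F x = a * x + star a * star x := by
  obtain ⟨a, b, h⟩ := flin F add fun l x hl => by
    obtain ⟨n, rfl⟩ := fix_nat hq hl
    rw [← nsmul_eq_mul, ← nsmul_eq_mul]
    exact map_nsmul (AddMonoidHom.mk' F add) n x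
  have e : star a - b = 0 := Rhox.nd fun t => by
    have := fx t
    rw [h] at this
    simp only [star_add, star_sub, star_mul', star_star] at this ⊢
    linear_combination -this
  exact ⟨a, fun x => by rw [h, sub_eq_zero.1 e]⟩

end RHO2x

open RHO2x

theorem rho2 : RHO2 K := by
  obtain ⟨ρ, h1, h2⟩ := Rhox.gen (Q := Q2 K) (fun x => pW (x : U K)) (fun x y => pW_mul _ y.2) exists_pW
    (fun x => ⟨fun h => Subgroup.mem_center_iff.2 fun g => Subtype.ext
      (commutatorElement_eq_one_iff_mul_comm.1 (comm_Z _ ((pW_eq_zero x.2).1 h))), fun h => fm_nd fun v => by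
      obtain ⟨w, rfl⟩ := exists_pW v
      exact comm_one.1 (commutatorElement_eq_one_iff_mul_comm.2 (Subgroup.mem_center_iff.1 h w).symm)⟩)
    (fun x h => by
      obtain ⟨y, z, rfl⟩ := der x ((pW_eq_zero x.2).1 h)
      exact Subgroup.commutator_mem_commutator trivial trivial)
  refine ⟨ρ, h1, fun α => ⟨?_, fun k2 v hv => ?_⟩,
    fun p _ _ => h2 p fun x h => Subtype.ext (Z_pow p ((pW_eq_zero x.2).1 h))⟩
  · classical
    refine ⟨fun s => if h : star s = s then (α ⟨xc s h, rfl⟩ : U K).c else 0, fun u v => ?_, fun u v k => ?_⟩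
    · obtain ⟨x, rfl⟩ := exists_pW u
      obtain ⟨y, rfl⟩ := exists_pW v
      have sk : star (fm (pW x.1) (pW y.1)) = fm (pW x.1) (pW y.1) := by rw [← comm_c', U.star_c]
      have zc : (⟨xc _ sk, rfl⟩ : Q2 K) = ⁅x, y⁆ :=
        Subtype.ext (Z_ext ⟨rfl, rfl, rfl⟩ (comm_Q2 x.2 y.2) (comm_c' x y).symm)
      beta_reduce
      rw [dif_pos sk, zc, map_commutatorElement, comm_c', h1, h1]
    · obtain ⟨x, rfl⟩ := exists_pW u
      obtain ⟨y, rfl⟩ := exists_pW v
      rw [← h1, ← h1, ← comm_one, ← map_commutatorElement, MulEquiv.map_eq_one_iff] at k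
      exact comm_one.1 k
  · obtain ⟨x, rfl⟩ := exists_pW v
    rw [← h1, ← sq_one k2, ← map_mul, (sq_one k2 x).2 hv, map_one]

theorem kq : KQ K := by
  intro hq α h
  have ha : ∀ x : Q2 K, (α x).1.a = x.1.a := fun x => congrArg Prod.fst (h x)
  have hb : ∀ x : Q2 K, (α x).1.b = x.1.b := fun x => congrArg Prod.snd (h x)
  have hd : ∀ x : Q2 K, x.1.d = 0 := fun x => x.2
  let D : Q2 K → K := fun x => (α x).1.c - x.1.c
  have Dm : ∀ x y, D (x * y) = D x + D y := fun x y => by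
    simp only [D, map_mul, Subgroup.coe_mul, mul_c, ha, hb, hd]; ring
  have Dz : ∀ x : Q2 K, x.1 ∈ Z K → D x = 0 := fun x hx => by
    obtain ⟨y, z, rfl⟩ := der x hx
    simp only [D, map_commutatorElement, comm_c', h, sub_self]
  have Df : ∀ x, star (D x) = D x := fun x => by simp only [D, star_sub, U.star_c]
  obtain ⟨a, ea⟩ := trf hq (fun t => D ⟨xa t, rfl⟩) (fun t t' => by
    rw [← Dm]; congr 1; exact Subtype.ext (by ext <;> simp [xa])) fun _ => Df _
  obtain ⟨b, eb⟩ := trf hq (fun t => D ⟨xb t, rfl⟩) (fun t t' => by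
    rw [← Dm]; congr 1; exact Subtype.ext (by ext <;> simp [xb])) fun _ => Df _
  refine ⟨⟨star b, 0, -star a, 0, by simp, by simp⟩, rfl, MulEquiv.ext fun x => Subtype.ext ?_⟩
  have e1 : D x = D ⟨xa x.1.a, rfl⟩ + D ⟨xb x.1.b, rfl⟩ := by
    rw [← Dm, ← add_zero (D (_ * _)), ← Dz ((⟨xa x.1.a, rfl⟩ * ⟨xb x.1.b, rfl⟩ : Q2 K)⁻¹ * x)
      (by simp [mem_Z, xa, xb, hd]), ← Dm, mul_inv_cancel_left]
  have e2 : D ⟨xa x.1.a, rfl⟩ = _ := ea _
  have e3 : D ⟨xb x.1.b, rfl⟩ = _ := eb _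
  rw [e2, e3] at e1
  rw [MulAut.conjNormal_apply]
  refine U.ext ((ha x).trans (conj_a _ _).symm) ((hd _).trans ((conj_d _ _).trans (hd x)).symm) ?_ ?_
  · rw [hb, conj_b, hd]; simp
  · rw [conj_c, hd]
    simp only [D] at e1
    simp only [star_neg, star_star]
    linear_combination e1

end CL.U4
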