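/-
Project U4: the translations of the cells for `q = 3`, and the reduction to the explicit small fields.
-/
import Cfsg.Agent.U4.Defs2

set_option autoImplicit false

namespace CL.U4

open Cfsg CL.Fus CL.U5

universe u

namespace THx

theorem three : (3 : F9) = 0 := by decide
theorem i9_sq : i9 * i9 = -1 := by decide
theorem star_i9 : star i9 = -i9 := by decide
theorem nm_sq : ∀ l : F9, l ≠ 0 → l * star l * (l * star l) = 1 := by decide +kernel

def thF (e : F9) (g : U F9) : U F9 :=
  ⟨g.a, g.d, g.b + e * star g.a, g.c - (star e * g.a ^ 2 + e * star g.a ^ 2), g.hd, by simp [add_comm]⟩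

/-- the translation -/
def thA (e : F9) : MulAut (U F9) where
  toFun := thF e
  invFun := thF (-e)
  left_inv g := U.ext rfl rfl (by simp [thF]) (by simp only [thF, star_neg]; ring)
  right_inv g := U.ext rfl rfl (by simp [thF]) (by simp only [thF, star_neg]; ring)
  map_mul' g h := U.ext rfl rfl (by simp only [thF, mul_a, mul_b, star_add]; ring) (by
    simp only [thF, mul_a, mul_c, star_add, star_mul', star_star]
    linear_combination (-(star e * g.a * h.a + e * star g.a * star h.a)) * three)

/-- the induced map on `Q2 / Z` -/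
def Sm (e : F9) (v : V2 F9) : V2 F9 := (v.1, v.2 + e * star v.1)

theorem Sm_inj (e : F9) {u v : V2 F9} (h : Sm e u = Sm e v) : u = v := by
  have h1 : u.1 = v.1 := (congrArg Prod.fst h :)
  have h2 : u.2 + e * star u.1 = v.2 + e * star v.1 := congrArg Prod.snd h
  rw [h1] at h2
  exact Prod.ext h1 (add_right_cancel h2)

theorem Sm_Jc (d w : F9) (v : V2 F9) : Sm (-i9 * d) (Jc (w + d) v) = Jc w (Sm (-i9 * d) v) := by
  refine Prod.ext ?_ ?_
  · simp only [Sm, Jc, Jf]
    linear_combination (d * star v.1) * i9_sq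
  · simp only [Sm, Jc, Jf, nm, star_add, star_mul', star_star, star_neg, star_i9, star_zero, star_one]
    linear_combination (d * star v.2) * i9_sq

theorem act_comm {d : F9} {h : P4 F9} (hd : cact h d = d) : act h * thA (-i9 * d) = thA (-i9 * d) * act h := by
  have k : (h.1.l : F9) * h.1.m * h.1.γ (-i9 * d) = -i9 * d * star (h.1.l : F9) := by
    have h1 := nm_sq _ h.1.l.ne_zero
    rw [cact, nm] at hd
    rw [map_mul, map_neg]
    linear_combination (-(i9 * star (h.1.l : F9))) * hd -
      (h.1.γ i9 * h.1.m * (h.1.l : F9) ^ 3 * star (h.1.l : F9) ^ 2 * h.1.γ d) * i9_sq +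
      (h.1.γ i9 * h.1.m * h.1.l * h.1.γ d) * h1
  generalize -i9 * d = e at k
  have k' := congrArg star k
  simp only [star_mul', star_star, star_m] at k'
  refine MulEquiv.ext fun g => U.ext rfl rfl ?_ ?_
  · change (act h (thF e g)).b = (thF e (act h g)).b
    simp only [thF, act_a, act_b, map_add, map_mul, map_star', star_mul']
    linear_combination star (h.1.γ g.a) * k
  · change (act h (thF e g)).c = (thF e (act h g)).c
    simp only [thF, act_a, act_c, map_add, map_sub, map_mul, map_pow, map_star', star_mul']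
    linear_combination (-(star (h.1.l : F9) * star (h.1.γ g.a) ^ 2)) * k - ((h.1.l : F9) * h.1.γ g.a ^ 2) * k'

theorem eqv {K : Type u} [Field K] [StarRing K] [UF K] {K' : Type} [Field K'] [StarRing K'] [UF K']
    (h : UF.q K = UF.q K') : Nonempty (U K ≃* U K') := by
  have := Fintype.ofFinite K
  have := Fintype.ofFinite K'
  have φ : K ≃+* K' := FiniteField.ringEquivOfCardEq (by
    rw [← Nat.card_eq_fintype_card, ← Nat.card_eq_fintype_card, card_K, card_K, h])
  have h1 : ∀ x, φ (star x) = star (φ x) := fun x => by rw [star_eq_pow, star_eq_pow, map_pow, h]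
  have h2 : ∀ x, φ.symm (star x) = star (φ.symm x) := fun x => by rw [star_eq_pow, star_eq_pow, map_pow, h]
  exact ⟨{ toFun := fun g => ⟨φ g.a, φ g.d, φ g.b, φ g.c, by rw [← h1, g.hd], by rw [← h1, g.hc]⟩
           invFun := fun g => ⟨φ.symm g.a, φ.symm g.d, φ.symm g.b, φ.symm g.c, by rw [← h2, g.hd], by rw [← h2, g.hc]⟩
           left_inv := fun g => by ext <;> simp
           right_inv := fun g => U.ext (by simp) (by simp) (by simp) (by simp)
           map_mul' := fun g k => U.ext (by simp) (by simp) (by simp) (by simp [h1]) }⟩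

end THx

open THx

theorem th : TH := by
  intro d
  refine ⟨thA (-i9 * d), fun x hx => ?_, fun h hd => act_comm hd, fun b hb A w => ?_⟩
  · have h0 : x.a = 0 := hx
    refine U.ext rfl rfl ?_ ?_
    · change (thF _ x).b = _
      simp [thF, h0]
    · change (thF _ x).c = _
      simp [thF, h0]
  have hS : ∀ x : Q2 F9, pW (b x : U F9) = Sm (-i9 * d) (pW x.1) := fun x => by rw [hb x]; rfl
  constructor
  · rintro ⟨_, ⟨α, hα, rfl⟩, k⟩
    refine ⟨α, hα, fun y => Sm_inj (-i9 * d) ?_⟩
    have := k (b y)
    rw [hS y, ← Sm_Jc] at this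
    rw [← this, ← hS]
    simp
  · rintro ⟨α, hα, k⟩
    refine ⟨_, ⟨α, hα, rfl⟩, fun x => ?_⟩
    obtain ⟨y, rfl⟩ := b.surjective x
    rw [hS y, ← Sm_Jc, ← k y, ← hS]
    simp

variable {K : Type u} [Field K] [StarRing K] [UF K]

theorem keq : KEQ K := ⟨fun h => eqv h, fun h => eqv h⟩

end CL.U4
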