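/-
Project U4: assembly of the parts.
-/
import Cfsg.Agent.U4.Defs2
import Cfsg.Agent.U5.Top

set_option autoImplicit false
set_option linter.unusedSectionVars false

namespace CL.U4

open Subgroup Cfsg Cfsg.FusionSystem CL.Fus CL.U5 CL.U5.Topx
open scoped commutatorElement

universe u

namespace Topy

section Gen
variable {U : Type*} [Group U] [Finite U] {p : ℕ} [Fact p.Prime] {F F' : FusionSystem (⊤ : Subgroup U)}

omit [Finite U] in
theorem img_eq {β : MulAut U} {Q : Subgroup U} (h : ∀ x, β x ∈ Q ↔ x ∈ Q) : img β Q = Q :=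
  le_antisymm (img_le_iff.2 fun x hx => (h x).2 hx) fun y hy =>
    β.apply_symm_apply y ▸ mem_img_of_mem β ((h _).1 (by rwa [β.apply_symm_apply]))

omit [Finite U] in
theorem transport (F : FusionSystem (⊤ : Subgroup U)) (β : MulAut U) : ∃ F' : FusionSystem (⊤ : Subgroup U),
    FIso F F' β β.symm ∧ aut0 F' = (aut0 F).map (MulAut.conj β).toMonoidHom ∧
    ∀ (Q : Subgroup U) (b : MulAut Q), Res β b → (∀ x, β x ∈ Q ↔ x ∈ Q) →
      F'.autGroup Q = (F.autGroup Q).map (MulAut.conj b).toMonoidHom := by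
  have gi : GIso (⊤ : Subgroup U) ⊤ β β.symm := ⟨fun a _ b _ => β.map_mul a b, fun _ _ => trivial,
    fun _ _ => trivial, fun a _ => β.symm_apply_apply a, fun a _ => β.apply_symm_apply a⟩
  have i := gi.fIso_transport F
  have top : ∀ {γ : MulAut U}, img γ ⊤ = ⊤ := fun {γ} => img_eq fun _ => Iff.rfl
  refine ⟨_, i, ?_, fun Q b hb hQ => ?_⟩
  · ext α
    rw [Subgroup.mem_map_equiv, mem_aut0, mem_aut0]
    refine ⟨fun h => ?_, fun h => ?_⟩
    · have := i.mor' _ _ h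
      rw [top (γ := β.symm)] at this
      exact this.congr fun x _ => rfl
    · have := i.mor _ _ h
      rw [top] at this
      exact this.congr fun x _ => by simp
  · have hQ' : ∀ x, β.symm x ∈ Q ↔ x ∈ Q := fun x => by rw [← hQ, β.apply_symm_apply]
    have hb' : ∀ x : Q, (b.symm x : U) = β.symm x := hb.inv
    ext α
    rw [Subgroup.mem_map_equiv]
    refine ⟨fun h => ?_, fun h => ?_⟩
    · have := i.mor' _ _ (mor_autFun le_top h)
      rw [img_eq (β := β.symm) hQ'] at this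
      refine this.mem_autGroup fun x => ?_
      show (b.symm (α (b x)) : U) = β.symm (autFun α (β x))
      rw [hb', ← hb x, autFun_coe]
    · have := i.mor _ _ (mor_autFun le_top h)
      rw [img_eq hQ] at this
      refine this.mem_autGroup fun x => ?_
      show (α x : U) = β (autFun _ (β.symm x))
      rw [← hb' x, autFun_coe, ← hb]
      simp

variable {G : Type*} [Group G] {ι : U →* G}

theorem aut_of (hι : Function.Injective ι) (hM : ∀ P f, Mor F P f ↔ ∃ g : G, ∀ x ∈ P, ι (f x) = g * ι x * g⁻¹)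
    {Q : Subgroup U} {g : G} (h : ∀ x ∈ Q, ∃ x' ∈ Q, ι x' = g * ι x * g⁻¹) :
    ∃ α ∈ F.autGroup Q, ∀ x : Q, ι (α x) = g * ι x * g⁻¹ := by
  classical
  choose! f hf e using h
  obtain ⟨α, hα, k⟩ := ((hM Q f).2 ⟨g, e⟩).exists_aut' le_rfl hf
  exact ⟨α, hα, fun x => by rw [← autFun_coe, k _ x.2, e _ x.2]⟩

omit [Finite U] in
theorem of_aut (hM : ∀ P f, Mor F P f ↔ ∃ g : G, ∀ x ∈ P, ι (f x) = g * ι x * g⁻¹) {Q : Subgroup U} {α : MulAut Q} :
    α ∈ F.autGroup Q ↔ ∃ g, ∀ x : Q, ι (α x) = g * ι x * g⁻¹ := by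
  rw [mem_autGroup_iff le_top, hM]
  exact exists_congr fun g => ⟨fun h x => by rw [← autFun_coe, h _ x.2], fun h x hx => by rw [autFun_apply _ hx, h]⟩

omit [Finite U] in
theorem res_mem {α : MulAut U} (hα : α ∈ aut0 F) {Q : Subgroup U} {a : MulAut Q} (r : Res α a) : a ∈ F.autGroup Q :=
  (Mor.mono (mem_aut0.1 hα) le_top).mem_autGroup r

end Gen

variable {K : Type u} [Field K] [StarRing K] [UF K] {p : ℕ} [Fact p.Prime] [CharP K p]
  {F F' : FusionSystem (⊤ : Subgroup (U K))} {H : Subgroup (P4 K)}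

/-- the essential subgroups -/
def ESS (K : Type u) [Field K] [StarRing K] [UF K] (p : ℕ) : Prop := ∀ F : FusionSystem (⊤ : Subgroup (U K)),
  F.IsSaturated p → ∀ E, F.IsEssential p E → E = Q1 K ∨ E = Q2 K ∨ (UF.q K = 2 ∧ ∃ a, a ≠ 0 ∧ E = X0 a)

theorem ess (cri : CRI.{u}) (h1 : ESB K) (h2 : ESC1 K) (h3 : ESC2 K) (h4 : ESD1 K) (h5 : ESD2 K) (h6 : ESD3 K) :
    ESS K p := fun F hF E hE => by
  obtain ⟨B, h⟩ := cri _ p (pg p) F hF E hE
  by_cases k1 : E ≤ Q1 K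
  · exact .inl (le_antisymm k1 fun x hx => h.cen x fun e he =>
      commutatorElement_eq_one_iff_commute.1 (comm_Q1 hx (k1 he)))
  by_cases k2 : E ≤ Q2 K
  · exact .inr (.inl (h1 _ _ _ h k2))
  have w : W K ≤ E := (h2 _ _ _ h k1 k2).resolve_right fun ⟨z, hz, a, d, c⟩ => h3 _ _ _ h z hz a d c
  have n := h4 _ _ _ h w k1 k2
  obtain ⟨t, a, ha, rfl⟩ := h5 _ _ _ h w k1 k2 n
  exact .inr (.inr ⟨not_not.1 fun q => n (h6 _ _ _ ha h t q), a, ha, rfl⟩)

def E12 (p : ℕ) (F : FusionSystem (⊤ : Subgroup (U K))) : Prop := ∀ E, F.IsEssential p E → E = Q1 K ∨ E = Q2 K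

structure Gd (p : ℕ) (F : FusionSystem (⊤ : Subgroup (U K))) : Prop where
  sat : F.IsSaturated p
  e12 : E12 p F
  e1 : F.IsEssential p (Q1 K)
  e2 : F.IsEssential p (Q2 K)

structure St (p : ℕ) (F : FusionSystem (⊤ : Subgroup (U K))) (H : Subgroup (P4 K)) : Prop extends Gd p F where
  std : Std (aut0 F) H
  hp : ¬ p ∣ Nat.card H
  r1 : r1 K ∈ F.autGroup (Q1 K)
  h1 : ∀ u, h1 u ∈ H

theorem Gd.iso (ch : CH K) (h : Gd p F) {β : MulAut (U K)} (i : FIso F F' β β.symm) : Gd p F' :=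
  ⟨i.isSaturated h.sat, fun E hE => by
    have e : img β (img β.symm E) = E := i.toGIso.symm.img_img le_top
    rcases h.e12 _ (i.symm.isEssential hE) with k | k <;> rw [← e, k]
    exacts [.inl (img_eq (ch β).1), .inr (img_eq (ch β).2)],
    img_eq (ch β).1 ▸ i.isEssential h.e1, img_eq (ch β).2 ▸ i.isEssential h.e2⟩

theorem one_or_both (hF : F.IsSaturated p) (e : E12 p F) : F.IsRealizable p ∨ Gd p F := by
  by_cases k : F.IsEssential p (Q1 K) ∧ F.IsEssential p (Q2 K)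
  · exact .inr ⟨hF, e, k.1, k.2⟩
  refine .inl (one_ess (pg p) hF fun E E' hE hE' => ?_)
  rcases e E hE with rfl | rfl <;> rcases e E' hE' with rfl | rfl
  exacts [rfl, (k ⟨hE, hE'⟩).elim, (k ⟨hE', hE⟩).elim, rfl]

theorem std_map {A0 : Subgroup (MulAut (U K))} (hs : Std A0 H) {β : MulAut (U K)} (c : ∀ h ∈ H, act h * β = β * act h) :
    Std (A0.map (MulAut.conj β).toMonoidHom) H := fun α => by
  have e : ∀ (γ : MulAut (U K)) s, γ * MulAut.conj s * γ⁻¹ = MulAut.conj (γ s) := fun γ s => MulEquiv.ext fun x => by simp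
  rw [Subgroup.mem_map]
  constructor
  · rintro ⟨a, ha, rfl⟩
    obtain ⟨s, h, hh, rfl⟩ := (hs a).1 ha
    refine ⟨β s, h, hh, ?_⟩
    show β * (MulAut.conj s * act h) * β⁻¹ = _
    rw [← e]
    calc β * (MulAut.conj s * act h) * β⁻¹ = β * MulAut.conj s * β⁻¹ * (β * act h) * β⁻¹ := by group
      _ = _ := by rw [← c h hh]; group
  · rintro ⟨s, h, hh, rfl⟩
    refine ⟨_, (hs _).2 ⟨β⁻¹ s, h, hh, rfl⟩, ?_⟩
    show β * (MulAut.conj (β⁻¹ s) * act h) * β⁻¹ = _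
    rw [← e, mul_assoc, mul_assoc _ (act h), mul_inv_eq_iff_eq_mul.2 (show act h = β⁻¹ * act h * β by
      rw [mul_assoc, c h hh]; group)]
    group

theorem exists_st (rk : RK.{u}) (ch : CH K) (au : AU2 K) (ti : TI K) (ga : GEN1A K) (gb : GEN1B K) (h : Gd p F) :
    ∃ (F' : FusionSystem (⊤ : Subgroup (U K))) (H : Subgroup (P4 K)), St p F' H ∧ (F'.IsRealizable p → F.IsRealizable p) := by
  obtain ⟨β, H, hp, hs⟩ := au p (aut0 F) (fun s => mor_conj F le_rfl trivial) (not_dvd (pg p) h.sat)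
  obtain ⟨F1, i1, a1, -⟩ := transport F β
  have g1 := h.iso ch i1
  rw [← a1] at hs
  obtain ⟨β', c, b, hb, hr⟩ := ga p _ _ H (rk _ p (pg p) F1 g1.sat _ g1.e1 fun α _ => (ch α).1) (ti p F1 g1.sat g1.e12) hs
  obtain ⟨F2, i2, a2, k2⟩ := transport F1 β'
  have g2 := g1.iso ch i2
  have s2 : Std (aut0 F2) H := a2 ▸ std_map hs c
  have r : r1 K ∈ F2.autGroup (Q1 K) := by
    rw [k2 _ b hb (ch β').1]
    exact ⟨_, hr, by simp [mul_assoc]⟩
  exact ⟨F2, H, ⟨g2, s2, hp, r, (gb p _ _ H (rk _ p (pg p) F2 g2.sat _ g2.e1 fun α _ => (ch α).1)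
    (ti p F2 g2.sat g2.e12) s2 r).1⟩, fun k => i1.symm.isRealizable (i2.symm.isRealizable k)⟩

theorem sub (rk : RK.{u}) (ch : CH K) (ti : TI K) (gb : GEN1B K) (hF : F.IsSaturated p) (e : E12 p F)
    (hs : Std (aut0 F) H) (r : r1 K ∈ F.autGroup (Q1 K)) (h0 : aut0 F ≤ aut0 F') (r' : r1 K ∈ F'.autGroup (Q1 K))
    (k : F.IsEssential p (Q2 K) → F.autGroup (Q2 K) ≤ F'.autGroup (Q2 K)) : F.IsSubsystemOf F' := by
  refine alperin_subsystem ((pg p).to_subgroup _) hF fun A a hA ha hi => ?_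
  rcases hA with rfl | hA
  · obtain ⟨α, hα, e⟩ := all_top ha hi
    exact (mem_aut0.1 (h0 hα)).congr fun x _ => e x
  · rcases e A hA with rfl | rfl
    · exact all_mor ((gb p _ _ H (rk _ p (pg p) F hF _ hA fun α _ => (ch α).1) (ti p F hF e) hs r).2 _ r'
        fun α hα a r => res_mem (h0 hα) r) ha hi
    · exact all_mor (k hA) ha hi

theorem aut0_eq' {G : Type*} [Group G] {ι : U K →* G} (hs : Std (aut0 F) H)
    (hM : ∀ P f, Mor F' P f ↔ ∃ g : G, ∀ x ∈ P, ι (f x) = g * ι x * g⁻¹)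
    (hG : ∀ α : MulAut (U K), (∃ g, ∀ x, ι (α x) = g * ι x * g⁻¹) ↔ ∃ s, ∃ h ∈ H, α = MulAut.conj s * act h) :
    aut0 F = aut0 F' := Subgroup.ext fun α => by
  rw [hs, ← hG, mem_aut0, hM]
  exact exists_congr fun g => ⟨fun h x _ => h x, fun h x => h x trivial⟩

theorem generic (rk : RK.{u}) (ch : CH K) (ti : TI K) (gb : GEN1B K) (g2 : GEN2 K) (re : REAL K) (h : St p F H)
    (hq : UF.q K = 2 ∨ 3 < UF.q K)
    (es : ∀ F' : FusionSystem (⊤ : Subgroup (U K)), F'.IsSaturated p → aut0 F = aut0 F' → E12 p F') :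
    F.IsRealizable p := by
  have hq' : UF.q K = 2 ∨ (3 < UF.q K ∧ ∀ u, h1 u ∈ H) := hq.imp_right fun k => ⟨k, h.h1⟩
  obtain ⟨a1, a2, a3⟩ := g2 p _ _ H (rk _ p (pg p) F h.sat _ h.e2 fun α _ => (ch α).2) h.std hq'
  obtain ⟨G, _, _, ι, hι, ho, hG, u1, u2, -⟩ := re p H h.hp h.h1 a1
  obtain ⟨F', sat, hR, hM⟩ := all_real (pg p) ι hι ho
  have h0 := aut0_eq' h.std hM hG
  have k1 := (of_aut hM).2 u1
  have k2 := (of_aut hM).2 u2
  rw [fusionSystem_le_antisymm (E := F) (F := F')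
    (sub rk ch ti gb h.sat h.e12 h.std h.r1 h0.le k1 fun _ => a3 _ k2 fun α hα a r => res_mem (h0.le hα) r)
    (sub rk ch ti gb sat (es F' sat h0) (h0 ▸ h.std) k1 h0.ge h.r1 fun e =>
      (g2 p _ _ H (rk _ p (pg p) F' sat _ e fun α _ => (ch α).2) (h0 ▸ h.std) hq').2.2 _ a2
        fun α hα a r => res_mem (h0.ge hα) r)]
  exact hR

theorem e12_of (es : ESS K p) (hq : UF.q K ≠ 2) (hF : F.IsSaturated p) : E12 p F := fun E hE =>
  (es F hF E hE).imp_right fun k => k.resolve_right fun k => hq k.1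

section Three
variable {F : FusionSystem (⊤ : Subgroup (U F9))} {H : Subgroup (P4 F9)}

theorem fin3 (rk : RK.{0}) (es : ESS F9 3) (ch : CH F9) (ti : TI F9) (gb : GEN1B F9) (g3 : GEN3) (h : St 3 F H)
    {G : Type} [Group G] [Finite G] {ι : U F9 →* G} (hι : Function.Injective ι) (ho : ¬ 3 ∣ ι.range.index)
    (hG : ∀ α : MulAut (U F9), (∃ g, ∀ x, ι (α x) = g * ι x * g⁻¹) ↔ ∃ s, ∃ h ∈ H, α = MulAut.conj s * act h)
    (u1 : ∃ g, ∀ x : Q1 F9, ι (r1 F9 x : U F9) = g * ι (x : U F9) * g⁻¹)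
    (c1 : ∀ w, Cell (F.autGroup (Q2 F9)) w → ∃ g, JG ι g w)
    (c2 : ∀ C : F9 → Prop, CL3 H C → (∀ w, Cell (F.autGroup (Q2 F9)) w → C w) → (∀ w, C w → ∃ g, JG ι g w) →
      ∀ w, C w → Cell (F.autGroup (Q2 F9)) w) : F.IsRealizable 3 := by
  obtain ⟨F', sat, hR, hM⟩ := all_real (pg 3) ι hι ho
  have h0 := aut0_eq' h.std hM hG
  have k1 := (of_aut hM).2 u1
  have cj : ∀ w, Cell (F'.autGroup (Q2 F9)) w ↔ ∃ g, JG ι g w := fun w => by
    constructor
    · rintro ⟨α, hα, e⟩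
      obtain ⟨g, hg⟩ := (of_aut hM).1 hα
      exact ⟨g, fun x hx => ⟨_, (α ⟨x, hx⟩).2, hg ⟨x, hx⟩, e ⟨x, hx⟩⟩⟩
    · rintro ⟨g, hg⟩
      obtain ⟨α, hα, e⟩ := aut_of hι hM fun x hx => (hg x hx).imp fun _ k => ⟨k.1, k.2.1⟩
      refine ⟨α, hα, fun x => ?_⟩
      obtain ⟨x', -, e1, e2⟩ := hg x x.2
      rw [hι ((e x).trans e1.symm), e2]
  have le : ∀ w, Cell (F.autGroup (Q2 F9)) w → Cell (F'.autGroup (Q2 F9)) w := fun w k => (cj w).2 (c1 w k)
  rw [fusionSystem_le_antisymm (E := F) (F := F')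
    (sub rk ch ti gb h.sat h.e12 h.std h.r1 h0.le k1 fun e =>
      (g3 _ _ H (rk _ 3 (pg 3) F h.sat _ e fun α _ => (ch α).2) h.std h.h1).2.2 _
        (fun α hα a r => res_mem (h0.le hα) r) le)
    (sub rk ch ti gb sat (e12_of es (by decide) sat) (h0 ▸ h.std) k1 h0.ge h.r1 fun e => by
      have g := g3 _ _ H (rk _ 3 (pg 3) F' sat _ e fun α _ => (ch α).2) (h0 ▸ h.std) h.h1
      exact g.2.2 _ (fun α hα a r => res_mem (h0.ge hα) r) (c2 _ g.1 le fun w => (cj w).1))]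
  exact hR

theorem fin3' (rk : RK.{0}) (es : ESS F9 3) (ch : CH F9) (ti : TI F9) (gb : GEN1B F9) (g3 : GEN3) (h : St 3 F H)
    {PH : P4 F9 → Prop} {C : F9 → Prop} (rl : RL PH C) (hH : ∀ h, h ∈ H ↔ PH h)
    (hC : ∀ w, Cell (F.autGroup (Q2 F9)) w ↔ C w)
    (mx : ∀ C', CL3 H C' → (∀ w, Cell (F.autGroup (Q2 F9)) w → C' w) → ∀ w, C' w → Cell (F.autGroup (Q2 F9)) w) :
    F.IsRealizable 3 := by
  obtain ⟨G, _, _, ι, hι, ho, hG, u1, u2⟩ := rl
  exact fin3 rk es ch ti gb g3 h hι ho (fun α => by simp only [hG, hH]) u1 (fun w k => u2 w ((hC w).1 k))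
    fun C' k l _ => mx C' k l

theorem gen3 (rk : RK.{0}) (es : ESS F9 3) (ch : CH F9) (ti : TI F9) (gb : GEN1B F9) (g3 : GEN3) (re : REAL F9)
    (h : St 3 F H) (cl : CL3 H (Cell (F.autGroup (Q2 F9)))) (hC : ∀ w, Cell (F.autGroup (Q2 F9)) w ↔ w = 0) :
    F.IsRealizable 3 := by
  have a1 : ∀ t ht, h2 t ht ∈ H := fun t ht => cl.c0 _ fun w => by
    have : ∀ t w : F9, t ≠ 0 → star t = t → -(i9 * i9) * t ^ 2 * t⁻¹ ^ 2 * nm t⁻¹ * w = w := fun t w k e => by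
      have : t = 1 ∨ t = -1 := by revert t; decide +kernel
      rcases this with rfl | rfl
      · rw [inv_one]; revert w; decide +kernel
      · rw [inv_neg_one]; revert w; decide +kernel
    simpa only [cact, h2_l, h2_m, h2_γ] using this t w t.ne_zero ht
  obtain ⟨G, _, _, ι, hι, ho, hG, u1, ⟨g2, u2⟩, ln⟩ := re 3 H h.hp h.h1 a1
  refine fin3 rk es ch ti gb g3 h hι ho hG u1 (fun w k => ?_) fun C _ _ k w hw => (hC w).2 ?_
  · obtain rfl := (hC w).1 k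
    let u : F9ˣ := Units.mk0 (1 - i9) (by decide +kernel)
    obtain ⟨g, hg⟩ := (hG (act (h1 u))).2 ⟨1, _, h.h1 u, by simp⟩
    refine ⟨g * g2, fun x hx => ⟨act (h1 u) (r2 F9 ⟨x, hx⟩), (act_Q2 _ _).2 (r2 F9 ⟨x, hx⟩).2, ?_, ?_⟩⟩
    · rw [hg, u2]; group
    · have e : ((1 - i9) * star (1 - i9) : F9)⁻¹ = -1 := by
        rw [show ((1 - i9) * star (1 - i9) : F9) = -1 by decide +kernel, inv_neg_one]
      have : ∀ a b : F9, ((1 - i9) ^ 2 * b, (1 - i9) ^ 2 * -1 * -a) = Jc 0 (a, b) := by decide +kernel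
      simpa only [pW, act_a, act_b, h1_l, h1_m, h1_γ, r2_a, r2_b, u, Units.val_mk0, e] using this x.a x.b
  · obtain ⟨g, hg⟩ := k w hw
    obtain ⟨γ, hγ⟩ := ln g fun x hx => (hg x hx).imp fun _ k => ⟨k.1, k.2.1⟩
    have t : ∀ v : V2 F9, Jc w (i9 • v) = γ i9 • Jc w v := fun v => by
      obtain ⟨x, rfl⟩ := exists_pW v
      obtain ⟨y, hy⟩ := exists_pW (i9 • pW x.1)
      obtain ⟨x', -, e1, e2⟩ := hg x x.2
      obtain ⟨y', -, e3, e4⟩ := hg y y.2
      rw [← hy, ← e4, ← e2]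
      exact hγ _ _ _ _ _ x.2 y.2 e1 e3 hy
    have : ∀ w k : F9, Jc w (i9 • (1, 0)) = k • Jc w (1, 0) → Jc w (i9 • (0, 1)) = k • Jc w (0, 1) → w = 0 := by
      decide +kernel
    exact this w _ (t _) (t _)

theorem three (rk : RK.{0}) (es : ESS F9 3) (ch : CH F9) (ti : TI F9) (gb : GEN1B F9) (g3 : GEN3) (re : REAL F9)
    (cc : C3C) (cd : C3D) (th : TH) (rl : RL3) (h : St 3 F H) : F.IsRealizable 3 := by
  obtain ⟨cl, ne, -⟩ := g3 _ _ H (rk _ 3 (pg 3) F h.sat _ h.e2 fun α _ => (ch α).2) h.std h.h1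
  obtain ⟨d, hd, nf⟩ := cc H _ cl ne
  obtain ⟨θ, t1, t2, t3⟩ := th d
  obtain ⟨F', i, a0, a1⟩ := transport F θ
  obtain ⟨b, hb⟩ := exists_res θ (ch θ).2
  have e1 : F'.autGroup (Q1 F9) = F.autGroup (Q1 F9) := by
    rw [a1 _ 1 (fun x => (t1 x x.2).symm) (ch θ).1, map_one]
    exact Subgroup.map_id _
  have h' : St 3 F' H := ⟨h.toGd.iso ch i, a0 ▸ std_map h.std fun k hk => t2 k (hd k hk), h.hp, e1 ▸ h.r1, h.h1⟩
  have ce : ∀ w, Cell (F'.autGroup (Q2 F9)) w ↔ Cell (F.autGroup (Q2 F9)) (w + d) := fun w => by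
    rw [a1 _ b hb (ch θ).2]; exact t3 b hb _ w
  obtain ⟨cl', -⟩ := g3 _ _ H (rk _ 3 (pg 3) F' h'.sat _ h'.e2 fun α _ => (ch α).2) h'.std h'.h1
  refine i.symm.isRealizable ?_
  rcases nf with k | ⟨s, hs, k⟩ | k
  · exact gen3 rk es ch ti gb g3 re h' cl' fun w => (ce w).trans (k w)
  · obtain ⟨hH, mx⟩ := (cd H _ cl').1 s hs fun w => (ce w).trans (k w)
    rcases hH with hH | hH
    · exact fin3' rk es ch ti gb g3 h' (rl.1 s hs).1 hH (fun w => (ce w).trans (k w)) mx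
    · exact fin3' rk es ch ti gb g3 h' (rl.1 s hs).2 hH (fun w => (ce w).trans (k w)) mx
  · obtain ⟨hH, mx⟩ := (cd H _ cl').2 fun w => (ce w).trans (k w)
    exact fin3' rk es ch ti gb g3 h' rl.2 (fun h => by simp [hH]) (fun w => (ce w).trans (k w)) mx

end Three

theorem es2 (es : ESS F4 2) : ES2 := fun F hF E hE => (es F hF E hE).imp_right fun k => k.imp_right fun k => k.2

theorem two (rk : RK.{0}) (es : ESS F4 2) (ch : CH F4) (au : AU2 F4) (ti : TI F4) (ga : GEN1A F4) (gb : GEN1B F4)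
    (g2 : GEN2 F4) (re : REAL F4) (xh : XH) (xt : XT) {F : FusionSystem (⊤ : Subgroup (U F4))} (hF : F.IsSaturated 2)
    (hc : F.core = ⊥) : F.IsRealizable 2 := by
  by_cases k : ∃ a, a ≠ 0 ∧ F.IsEssential 2 (X0 a)
  · obtain ⟨a, ha, k⟩ := k
    exact xt F hF hc a ha k
  have e : E12 2 F := fun E hE => (es2 es F hF E hE).imp_right fun l => l.resolve_right fun ⟨a, ha, e⟩ => k ⟨a, ha, e ▸ hE⟩
  rcases one_or_both hF e with k | g
  · exact k
  obtain ⟨F', H, st, hr⟩ := exists_st rk ch au ti ga gb g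
  refine hr (generic rk ch ti gb g2 re st (.inl rfl) fun F'' sat h0 E hE => ?_)
  refine (es2 es F'' sat E hE).imp_right fun l => l.resolve_right fun ⟨a, ha, e⟩ => ?_
  let u : F4ˣ := Units.mk0 w4 (by decide +kernel)
  obtain ⟨s, hs⟩ := xh F'' sat a ha (e ▸ hE) (act (h1 u)) (h0 ▸ (st.std _).2 ⟨1, _, st.h1 u, by simp⟩)
  have := congrArg (fun α : MulAut (U F4) => (α (xa 1)).a) hs
  simp only [act_a, h1_l, h1_γ, MulAut.conj_apply, conj_a, u, Units.val_mk0, xa] at this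
  exact absurd this (by decide +kernel)

end Topy

open Topy

theorem top {Ω : Type*} [Group Ω] {S : Subgroup Ω} [Finite S] (p : ℕ) [Fact p.Prime] (F : FusionSystem S)
    (hF : F.IsSaturated p) (hc : F.core = ⊥) {K : Type u} [Field K] [StarRing K] [UF K] [CharP K p]
    (T : Sylow p (Cfsg.PSU 4 K (UF.q K))) (e : ↥S ≃* ↥(T : Subgroup (Cfsg.PSU 4 K (UF.q K))))
    (sy : SYL K) (keq : KEQ K) (hp2 : UF.q K = 2 → p = 2) (hp3 : UF.q K = 3 → p = 3)
    (gen : 3 < UF.q K → ∀ F : FusionSystem (⊤ : Subgroup (U K)), F.IsSaturated p → F.IsRealizable p)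
    (h3 : ∀ F : FusionSystem (⊤ : Subgroup (U F9)), F.IsSaturated 3 → F.IsRealizable 3)
    (h2 : ∀ F : FusionSystem (⊤ : Subgroup (U F4)), F.IsSaturated 2 → F.core = ⊥ → F.IsRealizable 2) :
    F.IsRealizable p := by
  obtain ⟨φ⟩ := sy p T
  have q2 := two_le_q (K := K)
  rcases (by omega : UF.q K = 2 ∨ UF.q K = 3 ∨ 3 < UF.q K) with q | q | q
  · obtain rfl := hp2 q
    obtain ⟨ψ⟩ := keq.2 q
    have i := (gIso_of_mulEquiv (((e.trans φ).trans ψ).trans Subgroup.topEquiv.symm)).fIso_transport F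
    exact i.symm.isRealizable (h2 _ (i.isSaturated hF) (by rw [← i.img_core, hc]; exact i.toGIso.img_bot))
  · obtain rfl := hp3 q
    obtain ⟨ψ⟩ := keq.1 q
    have i := (gIso_of_mulEquiv (((e.trans φ).trans ψ).trans Subgroup.topEquiv.symm)).fIso_transport F
    exact i.symm.isRealizable (h3 _ (i.isSaturated hF))
  · have i := (gIso_of_mulEquiv ((e.trans φ).trans Subgroup.topEquiv.symm)).fIso_transport F
    exact i.symm.isRealizable (gen q _ (i.isSaturated hF))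

theorem top_gen {K : Type u} [Field K] [StarRing K] [UF K] {p : ℕ} [Fact p.Prime] [CharP K p] (rk : RK.{u})
    (es : Topy.ESS K p) (ch : CH K) (au : AU2 K) (ti : TI K) (ga : GEN1A K) (gb : GEN1B K) (g2 : GEN2 K) (re : REAL K)
    (q : 3 < UF.q K) (F : FusionSystem (⊤ : Subgroup (U K))) (hF : F.IsSaturated p) : F.IsRealizable p := by
  have q2 : UF.q K ≠ 2 := by omega
  rcases Topy.one_or_both hF (e12_of es q2 hF) with k | g
  · exact k
  obtain ⟨F', H, st, hr⟩ := exists_st rk ch au ti ga gb g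
  exact hr (generic rk ch ti gb g2 re st (.inr q) fun F'' sat _ => e12_of es q2 sat)

theorem top_three (rk : RK.{0}) (es : Topy.ESS F9 3) (ch : CH F9) (au : AU2 F9) (ti : TI F9) (ga : GEN1A F9) (gb : GEN1B F9)
    (g3 : GEN3) (re : REAL F9) (cc : C3C) (cd : C3D) (th : TH) (rl : RL3) (F : FusionSystem (⊤ : Subgroup (U F9)))
    (hF : F.IsSaturated 3) : F.IsRealizable 3 := by
  rcases Topy.one_or_both hF (e12_of es (by decide) hF) with k | g
  · exact k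
  obtain ⟨F', H, st, hr⟩ := exists_st rk ch au ti ga gb g
  exact hr (three rk es ch ti gb g3 re cc cd th rl st)

end CL.U4
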