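/-
Project U4, job XF: the fusion theoretic form of the extra involutions for `q = 2`.
-/
import Cfsg.Agent.U4.Defs2
import Cfsg.Agent.U5.RK

set_option autoImplicit false
set_option linter.unusedSectionVars false
set_option linter.unusedVariables false

namespace CL.U4

open Cfsg CL.Fus CL.U5

universe u

namespace XFx

/-- two involutions are conjugate or centralized by an involution of the dihedral group -/
theorem dih {G : Type*} [Group G] [Finite G] {t v : G} (ht : t * t = 1) (hv : v * v = 1) :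
    (∃ k : ℕ, ((t * v) ^ k)⁻¹ * t * (t * v) ^ k = v) ∨
      ∃ k : ℕ, (t * v) ^ k ≠ 1 ∧ (t * v) ^ k * (t * v) ^ k = 1 ∧ t * (t * v) ^ k * t⁻¹ = (t * v) ^ k ∧
        v * (t * v) ^ k * v⁻¹ = (t * v) ^ k := by
  have t' : t⁻¹ = t := inv_eq_of_mul_eq_one_right ht
  have v' : v⁻¹ = v := inv_eq_of_mul_eq_one_right hv
  have k1 : ∀ k : ℕ, t * (t * v) ^ k * t⁻¹ = ((t * v) ^ k)⁻¹ := fun k => by
    rw [← conj_pow, ← inv_pow, ← mul_assoc, ht, one_mul, mul_inv_rev, v']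
  have k2 : ∀ k : ℕ, v * (t * v) ^ k * v⁻¹ = ((t * v) ^ k)⁻¹ := fun k => by
    rw [← conj_pow, ← inv_pow, ← mul_assoc, mul_inv_cancel_right, mul_inv_rev, v', t']
  have h0 := pow_orderOf_eq_one (t * v)
  rcases Nat.even_or_odd' (orderOf (t * v)) with ⟨m, hm | hm⟩
  · have e : (t * v) ^ m * (t * v) ^ m = 1 := by rw [← pow_add, ← two_mul, ← hm, h0]
    have hp := orderOf_pos (t * v)
    refine .inr ⟨m, pow_ne_one_of_lt_orderOf (by omega) (by omega), e, ?_, ?_⟩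
    · rw [k1, inv_eq_of_mul_eq_one_right e]
    · rw [k2, inv_eq_of_mul_eq_one_right e]
  · refine .inl ⟨m + 1, ?_⟩
    rw [← k1, inv_mul_cancel_right, mul_assoc, ← pow_add, show m + 1 + (m + 1) = orderOf (t * v) + 1 by omega,
      pow_succ, h0, one_mul, ← mul_assoc, ht, one_mul]

/-- Burnside's fusion lemma for a self-normalizing abelian Sylow subgroup -/
theorem burn {G : Type*} [Group G] [Finite G] {p : ℕ} [Fact p.Prime] {T L : Subgroup G} (h : SylIn p T L)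
    (hc : ∀ a ∈ T, ∀ b ∈ T, a * b = b * a) (hn : ∀ g ∈ L, g ∈ Subgroup.normalizer (T : Set G) → g ∈ T)
    {s t g : G} (hs : s ∈ T) (ht : t ∈ T) (hg : g ∈ L) (e : g * s * g⁻¹ = t) : s = t := by
  have h1 : SylIn p T (L ⊓ Subgroup.centralizer {t}) :=
    ⟨fun a ha => ⟨h.le ha, Subgroup.mem_centralizer_singleton_iff.2 (hc a ha t ht)⟩, h.isPGroup,
      fun Z hZ hXZ hZY => h.2.2 Z hZ hXZ (hZY.trans inf_le_left)⟩
  obtain ⟨y, hy, hy'⟩ := h1.exists_conj_le (h.conj_of_mem hg).isPGroup (by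
    rintro _ ⟨a, ha, rfl⟩
    refine ⟨(h.conj_of_mem hg).le ⟨a, ha, rfl⟩, Subgroup.mem_centralizer_singleton_iff.2 ?_⟩
    change g * a * g⁻¹ * t = t * (g * a * g⁻¹)
    rw [← e, conj_mul, conj_mul, hc a ha s hs])
  have h2 : y * g ∈ T := hn _ (mul_mem hy.1 hg) (CL.Fus.mem_normalizer_of_finite fun a ha => by
    have := hy' _ ⟨a, ha, rfl⟩
    simpa [mul_assoc] using this)
  have h3 : y * t = t * y := Subgroup.mem_centralizer_singleton_iff.1 hy.2
  have h4 := hc _ h2 s hs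
  calc s = y * g * s * (y * g)⁻¹ := by rw [h4, mul_inv_cancel_right]
    _ = y * t * y⁻¹ := by rw [← e]; group
    _ = t := by rw [h3, mul_inv_cancel_right]

/-- a strongly embedded subgroup over a self-normalizing abelian Sylow subgroup -/
theorem uniq {G : Type*} [Group G] [Finite G] {T L B : Subgroup G} (h : SylIn 2 T L)
    (hc : ∀ a ∈ T, ∀ b ∈ T, a * b = b * a) (hn : ∀ g ∈ L, g ∈ Subgroup.normalizer (T : Set G) → g ∈ T)
    (hT : T ≤ B) (hse : ∀ t ∈ B, t ≠ 1 → t * t = 1 → ∀ β ∈ L, β * t * β⁻¹ ∈ B → β ∈ B) {γ : G} (hγ : γ ∈ L)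
    (hγ' : γ ∉ B) {s t : G} (hs : s ∈ T) (ht : t ∈ T) (s1 : s ≠ 1) (t1 : t ≠ 1) (s2 : s * s = 1) (t2 : t * t = 1) :
    s = t := by
  have hv : γ * s * γ⁻¹ ∈ L := mul_mem (mul_mem hγ (h.le hs)) (inv_mem hγ)
  have hr : ∀ k : ℕ, (t * (γ * s * γ⁻¹)) ^ k ∈ L := fun k => pow_mem (mul_mem (h.le ht) hv) k
  rcases dih t2 (v := γ * s * γ⁻¹) (by rw [conj_mul, s2, mul_one, mul_inv_cancel]) with ⟨k, e⟩ | ⟨k, z1, z2, e1, e2⟩
  · have hk := hr k
    generalize (t * (γ * s * γ⁻¹)) ^ k = r at e hk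
    refine burn h hc hn hs ht (mul_mem hk hγ) ?_
    rw [show r * γ * s * (r * γ)⁻¹ = r * (γ * s * γ⁻¹) * r⁻¹ by group, ← e]; group
  · have hk := hr k
    generalize (t * (γ * s * γ⁻¹)) ^ k = z at z1 z2 e1 e2 hk
    have hz : z ∈ B := hse t (hT ht) t1 t2 z hk (by
      rw [show z * t * z⁻¹ = t by rw [mul_inv_eq_iff_eq_mul.1 e1 |>.symm, mul_inv_cancel_right]]; exact hT ht)
    exact (hγ' (hse s (hT hs) s1 s2 γ hγ (hse z hz z1 z2 _ hv (e2.symm ▸ hz)))).elim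

theorem ext' {U : Type*} [Group U] [Finite U] {p : ℕ} [Fact p.Prime] (hU : IsPGroup p U)
    {F : FusionSystem (⊤ : Subgroup U)} (hF : F.IsSaturated p) {E : Subgroup U} [E.Normal] (hE : F.IsEssential p E)
    {a : MulAut E} (ha : a ∈ F.autGroup E) (hn : a ∈ Subgroup.normalizer (autInducedBy ⊤ E : Set (MulAut E))) :
    a ∈ extAut F E := by
  have hS : IsPGroup p (⊤ : Subgroup U) := hU.to_subgroup _
  have := finite_autGroup F E
  have := finite_autGroup F ⊤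
  obtain ⟨g, hg, e⟩ := (mor_autFun le_top ha).extend' (receptive_of_centric hS hF hE.1) (img_autFun _) (R := ⊤)
    fun u _ => by
      have hu : u ∈ Subgroup.normalizer (E : Set U) := Subgroup.le_normalizer_of_normal (Subgroup.mem_top u)
      obtain ⟨b, -, hb⟩ := mem_autInducedBy.1 (conj_mem_of_mem_normalizer hn (conjAut_mem_autInducedBy hu trivial))
      refine mem_extenderF.2 ⟨trivial, hu, b, trivial, fun x hx => ?_⟩
      rw [← hb _ (autFun_mem a hx), ← autFun_mul _ _ hx, inv_mul_cancel_right, autFun_mul _ _ hx,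
        autFun_conjAut _ hx]
  exact mem_extAut (IsEssential.lt_top hS hF hE) (hg.mono le_sup_right) fun x hx => (e x hx).symm

theorem syl {U : Type*} [Group U] [Finite U] {p : ℕ} [Fact p.Prime] (hU : IsPGroup p U)
    {F : FusionSystem (⊤ : Subgroup U)} (hF : F.IsSaturated p) (E : Subgroup U) [E.Normal] :
    SylIn p (autInducedBy ⊤ E) (F.autGroup E) :=
  sylIn_of_fullyNormalized (hU.to_subgroup _) hF
    (isFullyNormalized_of_normalizerIn_eq F le_top Subgroup.le_normalizer_of_normal)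

end XFx

open XFx

theorem xf (xe : XE) : XF := by
  intro F hF
  have hU := pg (K := F4) 2
  refine ⟨syl hU hF _, fun a e _ _ ⟨α, hα, k⟩ => ?_, fun a ha hE => ?_⟩
  · obtain ⟨β, hβ, k'⟩ := (mor_autFun le_top hα).exists_aut' (Q1_le_X0 a) fun x hx => by
      rw [autFun_apply α (Q1_le_X0 a hx)]
      exact (k ⟨x, Q1_le_X0 a hx⟩).1.trans hx
    refine ⟨β, hβ, fun v => ?_⟩
    rw [← autFun_coe, k' _ v.2, autFun_apply α (Q1_le_X0 a v.2)]
    exact k ⟨v.1, Q1_le_X0 a v.2⟩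
  · obtain ⟨γ, h1, h2⟩ := IsEssential.exists_notMem_extAut (hU.to_subgroup _) hF hE
    exact xe a _ ha (syl hU hF _) ⟨γ, h1, fun hn => h2 (ext' hU hF hE h1 hn)⟩

theorem xv (cri : CRI.{0}) : XV := by
  intro F hF h0 hE
  have hU := pg (K := F4) 2
  have hS : IsPGroup 2 (⊤ : Subgroup (U F4)) := hU.to_subgroup _
  have : Finite (MulAut (Q1 F4)) :=
    Finite.of_injective (fun a : MulAut (Q1 F4) => (a : Q1 F4 → Q1 F4)) DFunLike.coe_injective
  have R := rk _ 2 hU F hF (Q1 F4) hE fun α hα x => by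
    obtain ⟨s, rfl⟩ := h0 α hα
    rw [mem_Q1, mem_Q1, MulAut.conj_apply, conj_a]
  obtain ⟨γ, h1, h2⟩ := IsEssential.exists_notMem_extAut hS hF hE
  have sq : ∀ a : F4, ta a * ta a = 1 := fun a => by rw [← ta_add, CharTwo.add_self_eq_zero, ta_zero]
  have ne : ∀ a : F4, a ≠ 0 → ta a ≠ 1 := fun a ha e => ha (ta_inj (e.trans ta_zero.symm))
  have := uniq (T := TA F4) (B := extAut F (Q1 F4)) R.syl (fun a ha b hb => by
      obtain ⟨a, rfl⟩ := mem_TA.1 ha
      obtain ⟨b, rfl⟩ := mem_TA.1 hb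
      rw [← ta_add, ← ta_add, add_comm])
    (fun g hg hn => by
      obtain ⟨α, hα, e⟩ := R.ext g hg hn
      obtain ⟨s, rfl⟩ := h0 α hα
      exact mem_T.2 ⟨s, e.eq (res_conj s)⟩)
    (autInducedBy_le_extAut (IsEssential.lt_top hS hF hE))
    (fun t ht t1 t2 β hβ => IsEssential.mem_extAut_of_conj hS hF hE ht (fun k => t1 (by
      obtain ⟨s, hs, rfl⟩ := mem_I.1 k
      rw [conjNormal_Q1, mem_Q1.1 hs, ta_zero])) ⟨1, by rw [pow_one, pow_two, t2]⟩ hβ) h1 h2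
    (mem_TA.2 ⟨1, rfl⟩) (mem_TA.2 ⟨w4, rfl⟩) (ne _ one_ne_zero) (ne _ (by decide)) (sq _) (sq _)
  exact absurd (ta_inj this) (by decide)

end CL.U4
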