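/-
Project U4: the parts `XH` and `XN` (the field with four elements).
-/
import Cfsg.Agent.U4.Defs2
import Cfsg.Agent.U5.Top
import Cfsg.Agent.Fus.NormalCrit

set_option autoImplicit false

namespace CL.U4

open Cfsg CL.Fus CL.U5
open scoped commutatorElement

universe u

namespace XHx

theorem fix01 : ∀ t : F4, star t = t → t = 0 ∨ t = 1 := by decide +kernel
theorem fix3 : ∀ e e' e'' : F4, star e = e → star e' = e' → star e'' = e'' → e = e' ∨ e = e'' ∨ e' = e'' := by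
  decide +kernel
theorem dist3 : ∀ a l : F4, a ≠ 0 → l ≠ 0 → l ≠ 1 → l * a ≠ 0 ∧ l * (l * a) ≠ 0 ∧ a ≠ l * a ∧ a ≠ l * (l * a) ∧
    l * a ≠ l * (l * a) := by decide +kernel
theorem as01 : ∀ x : F4, x * x + x = 0 ∨ x * x + x = 1 := by decide +kernel
theorem asr : ∀ x y : F4, y * y + y = x * x + x → y = x ∨ y = x + 1 := by decide +kernel
theorem two : ∀ x : F4, x + 1 + 1 = x := by decide +kernel

theorem gam2 (γ : F4 ≃+* F4) (x : F4) : γ (γ x) = x := by
  have h : γ x * γ x + γ x = x * x + x := by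
    rw [← map_mul, ← map_add]
    rcases as01 x with e | e <;> rw [e]
    exacts [map_zero γ, map_one γ]
  rcases asr x _ h with e | e
  · rw [e, e]
  · rw [e, map_add, map_one, e, two]

theorem top_img (β : MulAut (U F4)) : img β ⊤ = ⊤ := top_le_iff.1 fun y _ =>
  β.apply_symm_apply y ▸ mem_img_of_mem β (Subgroup.mem_top _)

variable {F : FusionSystem (⊤ : Subgroup (U F4))}

theorem three (xp : XP) (xf : XF) (hF : F.IsSaturated 2) {a a' a'' : F4} (h : a ≠ 0) (h' : a' ≠ 0) (h'' : a'' ≠ 0)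
    (n1 : a ≠ a') (n2 : a ≠ a'') (n3 : a' ≠ a'') (e : F.IsEssential 2 (X0 a)) (e' : F.IsEssential 2 (X0 a'))
    (e'' : F.IsEssential 2 (X0 a'')) : False := by
  obtain ⟨syl, hn, hx⟩ := xf F hF
  obtain ⟨t, s, k, -⟩ := hx a h e
  obtain ⟨t', s', k', -⟩ := hx a' h' e'
  obtain ⟨t'', s'', k'', -⟩ := hx a'' h'' e''
  have m := hn _ _ h s k
  have m' := hn _ _ h' s' k'
  have m'' := hn _ _ h'' s'' k''
  rcases fix3 t t' t'' s s' s'' with q | q | q
  · exact n1 ((xp _ _ _ _ _ syl h h' s s' m m').2 q)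
  · exact n2 ((xp _ _ _ _ _ syl h h'' s s'' m m'').2 q)
  · exact n3 ((xp _ _ _ _ _ syl h' h'' s' s'' m' m'').2 q)

theorem img_X0 (α : MulAut (U F4)) {l : F4} (l0 : l ≠ 0) (hl : ∀ x, (α x).a = l * x.a) (a : F4) :
    img α (X0 a) = X0 (l * a) := by
  refine le_antisymm (img_le_iff.2 fun x ⟨t, k, e⟩ => ⟨t, k, by rw [hl, e]; ring⟩) fun y ⟨t, k, e⟩ => ?_
  rw [← α.apply_symm_apply y]
  refine mem_img_of_mem α ⟨t, k, mul_left_cancel₀ l0 ?_⟩
  rw [← hl, α.apply_symm_apply, e]; ring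

theorem key (xp : XP) (xf : XF) (hF : F.IsSaturated 2) {a : F4} (h : a ≠ 0) (e : F.IsEssential 2 (X0 a))
    {α : MulAut (U F4)} (hα : α ∈ aut0 F) {l : F4} (hl : ∀ x, (α x).a = l * x.a) : l = 1 := by
  by_contra l1
  have l0 : l ≠ 0 := fun z => by
    have := hl (α.symm (xa 1))
    rw [α.apply_symm_apply, z, zero_mul] at this
    exact one_ne_zero this
  obtain ⟨d1, d2, d3, d4, d5⟩ := dist3 a l h l0 l1
  have e1 := Topx.ess_img (mem_aut0.1 hα) (top_img α) e
  rw [img_X0 α l0 hl] at e1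
  have e2 := Topx.ess_img (mem_aut0.1 hα) (top_img α) e1
  rw [img_X0 α l0 hl] at e2
  exact three xp xf hF h d1 d2 d3 d4 d5 e e1 e2

theorem gam_odd (h : P4 F4) (k : ℕ) (x : F4) : (h ^ (2 * k + 1)).1.γ x = h.1.γ x := by
  induction k with
  | zero => simp
  | succ k ih =>
    rw [show 2 * (k + 1) + 1 = 2 * k + 1 + 1 + 1 by ring, pow_succ', pow_succ', Subgroup.coe_mul, Subgroup.coe_mul,
      par_mul_γ, par_mul_γ, gam2, ih]

/-! ### the normal subgroup -/

def L (a x : F4) : Prop := x = 0 ∨ x = a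
instance (a x : F4) : Decidable (L a x) := by unfold L; infer_instance
theorem L_add : ∀ a x y : F4, L a x → L a y → L a (x + y) := by decide +kernel
theorem L_neg : ∀ a x : F4, L a (-x) ↔ L a x := by decide +kernel
theorem L_conj : ∀ a x y d : F4, star d = d → L a x → L a y → L a (y - x * d) := by decide +kernel
theorem L_tr : ∀ a b : F4, a ≠ 0 → a * star b + star a * b = 0 → L a b := by decide +kernel
theorem tr_L : ∀ a x b : F4, L a x → L a b → x * star b + star x * b = 0 := by decide +kernel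
theorem wit : ∀ a : F4, a ≠ 0 → a * star (a * w4) + star a * (a * w4) ≠ 0 := by decide +kernel
theorem dbl : ∀ x : F4, x + x = 0 := by decide +kernel

def N (a : F4) : Subgroup (U F4) where
  carrier := {g | g.d = 0 ∧ L a g.a ∧ L a g.b}
  mul_mem' := fun {g h} hg hh => ⟨by rw [mul_d, hg.1, hh.1, add_zero], L_add _ _ _ hg.2.1 hh.2.1, by
    rw [mul_b, hh.1, mul_zero, add_zero]; exact L_add _ _ _ hg.2.2 hh.2.2⟩
  one_mem' := ⟨rfl, .inl rfl, .inl rfl⟩
  inv_mem' := fun {g} hg => ⟨by rw [inv_d, hg.1, neg_zero], (L_neg _ _).2 hg.2.1, by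
    rw [inv_b, hg.1, mul_zero, zero_sub]; exact (L_neg _ _).2 hg.2.2⟩

theorem mem_N {a : F4} {g : U F4} : g ∈ N a ↔ g.d = 0 ∧ L a g.a ∧ L a g.b := Iff.rfl

instance (a : F4) : (N a).Normal := ⟨fun g hg s => ⟨(conj_d s g).trans hg.1, by rw [conj_a]; exact hg.2.1, by
  rw [conj_b, hg.1, mul_zero, add_zero]; exact L_conj _ _ _ _ s.hd hg.2.1 hg.2.2⟩⟩

theorem X0_iff {a : F4} {g : U F4} : g ∈ X0 a ↔ L a g.a := by
  refine ⟨fun ⟨t, k, e⟩ => ?_, fun h => ?_⟩
  · rcases fix01 t k with rfl | rfl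
    · exact .inl (by rw [e, zero_mul])
    · exact .inr (by rw [e, one_mul])
  · rcases h with h | h
    · exact ⟨0, star_zero _, by rw [h, zero_mul]⟩
    · exact ⟨1, star_one _, by rw [h, one_mul]⟩

theorem cen_N {a : F4} (h : a ≠ 0) {x : U F4} (hx : x ∈ X0 a) (c : ⁅x, xa a⁆ = 1) : x ∈ N a := by
  have cb := congrArg U.b c
  have cc := congrArg U.c c
  simp only [comm_b, comm_c, xa, one_b, one_c, mul_zero, star_zero, zero_sub, add_zero, neg_eq_zero] at cb cc
  have d0 := (mul_eq_zero.1 cb).resolve_left h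
  rw [d0, mul_zero, add_zero] at cc
  exact ⟨d0, X0_iff.1 hx, L_tr _ _ h cc⟩

theorem sq_N {a : F4} (h : a ≠ 0) {x : U F4} (hx : x.a = a) (c : x * x = 1) : x ∈ N a := by
  have cb := congrArg U.b c
  have cc := congrArg U.c c
  rw [mul_b, dbl, zero_add, hx, one_b] at cb
  have d0 := (mul_eq_zero.1 cb).resolve_left h
  rw [mul_c, dbl, zero_add, hx, one_c, d0, mul_zero, add_zero] at cc
  exact ⟨d0, .inr hx, L_tr _ _ h cc⟩

theorem two_comm {a : F4} {x y z : U F4} (hx : x.a = 0) (hy : y ∈ X0 a) (hz : z ∈ X0 a) (n1 : ⁅x, y⁆ ≠ 1)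
    (n2 : ⁅x, z⁆ ≠ 1) : ⁅x, y⁆ = ⁅x, z⁆ := by
  have y1 := (X0_iff.1 hy).resolve_left fun k => n1 (comm_Q1 hx k)
  have z1 := (X0_iff.1 hz).resolve_left fun k => n2 (comm_Q1 hx k)
  refine U.ext (by simp) (by simp) ?_ ?_ <;> simp [hx, y1, z1]

theorem inv_X0 {a : F4} (h : a ≠ 0) {f : U F4 → U F4} (hf : Mor F (X0 a) f) (e : img f (X0 a) = X0 a) {g : U F4}
    (hg : g ∈ N a) : f g ∈ N a := by
  have gX : g ∈ X0 a := X0_iff.2 hg.2.1
  have m : ∀ {x}, x ∈ X0 a → f x ∈ X0 a := fun hx => e.le (mem_img_of_mem f hx)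
  have H := hf.homOn
  rcases hg.2.1 with k | k
  · obtain ⟨y, hy, ey⟩ := hf.mem_img.1 (e.ge (X0_iff.2 (.inr rfl) : xa a ∈ X0 a))
    refine cen_N h (m gX) ?_
    rw [← ey, ← H.map_commutator gX hy, ← H.map_one]
    congr 1
    have := tr_L a _ _ (X0_iff.1 hy) hg.2.2
    simp [eq_one_iff, k, hg.1, this]
  · have sq : g * g = 1 := by
      have := tr_L a _ _ hg.2.1 hg.2.2
      refine eq_one_iff.2 ⟨dbl _, dbl _, ?_, ?_⟩
      · rw [mul_b, dbl, hg.1, mul_zero, add_zero]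
      · rw [mul_c, dbl, hg.1, mul_zero, add_zero, zero_add, this]
    have sq' : f g * f g = 1 := by rw [← H.map_mul gX gX, sq, H.map_one]
    refine sq_N h ((X0_iff.1 (m gX)).resolve_left fun z => ?_) sq'
    have y1 : xd 1 (star_one _) ∈ X0 a := X0_iff.2 (.inl rfl)
    have y2 : xb (a * w4) ∈ X0 a := X0_iff.2 (.inl rfl)
    have c1 : ⁅g, xd 1 (star_one _)⁆ ∈ X0 a := X0_iff.2 (.inl (comm_a _ _))
    have c2 : ⁅g, xb (a * w4)⁆ ∈ X0 a := X0_iff.2 (.inl (comm_a _ _))
    have inj : ∀ {x y}, x ∈ X0 a → y ∈ X0 a → f x = f y → x = y := fun hx hy => hf.injOn hx hy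
    have := two_comm z (m y1) (m y2) (fun q => ?_) fun q => ?_
    · rw [← H.map_commutator gX y1, ← H.map_commutator gX y2] at this
      exact h (by simpa [xd, xb, k] using congrArg U.b (inj c1 c2 this))
    · rw [← H.map_commutator gX y1, ← H.map_one] at q
      exact h (by simpa [xd, k] using congrArg U.b (inj c1 (one_mem _) q))
    · rw [← H.map_commutator gX y2, ← H.map_one] at q
      have := congrArg U.c (inj c2 (one_mem _) q)
      simp only [comm_c, xb, k, one_c, mul_zero, zero_mul, star_zero, add_zero, sub_zero] at this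
      exact wit a h this

/-- the stabiliser of `N a` -/
def St (a : F4) : Subgroup (MulAut (Q2 F4)) where
  carrier := {α | ∀ x : Q2 F4, (α x : U F4) ∈ N a ↔ (x : U F4) ∈ N a}
  mul_mem' := fun {α β} hα hβ x => (hα (β x)).trans (hβ x)
  one_mem' := fun _ => Iff.rfl
  inv_mem' := fun {α} hα x => by rw [← hα, MulAut.apply_inv_self]

theorem conj_iff (Q : Subgroup (U F4)) [Q.Normal] (s x : U F4) : MulAut.conj s x ∈ Q ↔ x ∈ Q := by
  rw [MulAut.conj_apply, Subgroup.Normal.mem_comm_iff inferInstance, inv_mul_cancel_left]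

end XHx

open XHx

theorem xh (au1 : AU1 F4) (au2 : AU2 F4) (xp : XP) (xf : XF) : XH := fun F hF a a0 e α hα => by
  obtain ⟨β, H, hp, hs⟩ := au2 2 (aut0 F) (fun s => mor_conj F le_rfl trivial) (Topx.not_dvd (pg 2) hF)
  obtain ⟨h0, e0⟩ := au1 β
  have triv : ∀ h ∈ H, h = 1 := fun h hh => by
    obtain ⟨k, hk⟩ := Nat.odd_iff.2 (Nat.two_dvd_ne_zero.1 hp)
    have pw : h ^ (2 * k + 1) = 1 := by
      rw [← hk]; exact congrArg Subtype.val (pow_card_eq_one' (x := (⟨h, hh⟩ : H)))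
    have g1 : ∀ x, h.1.γ x = x := fun x => by rw [← gam_odd h k, pw]; rfl
    obtain ⟨δ, hδ, eδ⟩ := (hs (act h)).2 ⟨1, h, hh, by rw [map_one, one_mul]⟩
    have c : ∀ x, β (δ x) = act h (β x) := fun x => by
      rw [← eδ]; simp
    have l1 := key xp xf hF a0 e hδ (l := h0.1.γ.symm h.1.l) fun x => by
      have := congrArg U.a (c x)
      rw [(e0 _).1, act_a, act_a, (e0 _).1, act_a, g1] at this
      apply h0.1.γ.injective
      rw [map_mul, RingEquiv.apply_symm_apply]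
      exact mul_left_cancel₀ h0.1.l.ne_zero (by rw [this]; ring)
    refine p4_ext ?_ ((fix01 _ (star_m h)).resolve_left h.1.m.ne_zero) g1
    rw [← h0.1.γ.apply_symm_apply h.1.l, l1, map_one]; rfl
  obtain ⟨s, h, hh, es⟩ := (hs _).1 ⟨α, hα, rfl⟩
  rw [triv h hh, map_one, mul_one] at es
  refine ⟨β⁻¹ s, MulEquiv.ext fun x => β.injective ?_⟩
  have := congrArg (fun φ : MulAut (U F4) => φ (β x)) es
  simpa using this

theorem xn (rk : RK.{0}) (g2 : GEN2 F4) : XN := fun F hF a a0 hin hess hc => by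
  have hS : IsPGroup 2 (⊤ : Subgroup (U F4)) := (pg 2).to_subgroup _
  have hN : F.IsNormal (N a) := by
    refine isNormal_of_essential hS hF le_top (fun A hA => ?_) fun A f hA hf e => ?_
    · rcases hess A hA with rfl | rfl
      · exact fun x hx => hx.1
      · exact fun x hx => X0_iff.2 hx.2.1
    · rcases hA with rfl | hA
      · obtain ⟨α, hα, eα⟩ := Topx.all_top hf e
        obtain ⟨s, rfl⟩ := hin α hα
        exact hf.img_eq_self le_top fun x hx => by rw [← eα]; exact (conj_iff _ s x).2 hx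
      · rcases hess A hA with rfl | rfl
        · have sd : Std (aut0 F) ⊥ := fun α => ⟨fun hα => by
            obtain ⟨s, rfl⟩ := hin α hα
            exact ⟨s, 1, one_mem _, by rw [map_one, mul_one]⟩, by
            rintro ⟨s, h, hh, rfl⟩
            rw [Subgroup.mem_bot.1 hh, map_one, mul_one]
            exact mor_conj F le_rfl trivial⟩
          have le := (g2 2 _ _ ⊥ (rk _ 2 (pg 2) F hF _ hA fun α hα x => by
            obtain ⟨s, rfl⟩ := hin α hα
            exact conj_iff _ s x) sd (.inl q_F4)).2.2 (St a) (fun x => by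
              rw [mem_N, mem_N, r2_a, r2_b, L_neg]
              exact ⟨fun k => ⟨x.2, k.2.2, k.2.1⟩, fun k => ⟨(r2 F4 x).2, k.2.2, k.2.1⟩⟩) fun α hα b r x => by
            obtain ⟨s, rfl⟩ := hin α hα
            rw [r x]
            exact conj_iff _ s x
          obtain ⟨α, hα, eα⟩ := hf.exists_aut e
          refine hf.img_eq_self (fun x hx => hx.1) fun x hx => ?_
          rw [← eα x hx.1, autFun_apply _ hx.1]
          exact (le hα ⟨x, hx.1⟩).2 hx
        · exact hf.img_eq_self (fun x hx => X0_iff.2 hx.2.1) fun x hx => inv_X0 a0 hf e hx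
  have : N a ≤ F.core := le_sSup hN
  rw [hc] at this
  have z : xa a ∈ N a := ⟨rfl, .inr rfl, .inl rfl⟩
  exact a0 (congrArg U.a (Subgroup.mem_bot.1 (this z)))

end CL.U4
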