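/-
Project U4, job XP, finite computations over the field with four elements.
-/
import Cfsg.Agent.U4.Defs2

set_option autoImplicit false

namespace CL.U4

open Cfsg CL.Fus CL.U5
open scoped commutatorElement

namespace XPx

/-! ### the part on `Q1` -/

abbrev T3 : Type := F4 × F4 × F4
def co (v : Q1 F4) : T3 := (v.1.d, v.1.b, v.1.c)
def nf (a e : F4) (v : T3) : T3 := (v.2.1 * star a + star v.2.1 * a + v.1,
  a * (v.2.2 + e * v.1 + w4 * (v.2.1 * star a + star v.2.1 * a)),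
  v.2.1 * star a + (v.2.1 * star a + star v.2.1 * a) * w4 + e * (v.2.1 * star a + star v.2.1 * a + v.1))
def tf (a : F4) (v : T3) : T3 := (v.1, v.2.1 + a * v.1, v.2.2 + a * star v.2.1 + star a * v.2.1 + a * star a * v.1)
def wf (a e a' e' t : F4) (v : T3) : T3 := nf a e (nf a' e' (tf t v))

theorem co_nf {a e : F4} {v w : Q1 F4} (h : NV a e v.1 w.1) : co w = nf a e (co v) := by
  obtain ⟨-, h1, h2, h3⟩ := h
  rw [h1] at h3
  exact Prod.ext h1 (Prod.ext h2 h3)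

theorem co_tf (a : F4) (v : Q1 F4) : co (ta a v) = tf a (co v) := Prod.ext (ta_d a v) (Prod.ext (ta_b a v) (ta_c a v))

theorem co_inj {v w : Q1 F4} (h : co v = co w) : v = w :=
  q1_ext (congrArg (·.1) h) (congrArg (·.2.1) h) (congrArg (·.2.2) h)

set_option synthInstance.maxSize 4000 in
theorem words : ∀ a : F4, a ≠ 0 → ∀ a' : F4, a' ≠ 0 → ∀ e : F4, star e = e → ∀ e' : F4, star e' = e' →
    ¬ (a = a' ↔ e = e') → ∃ t : F4, (∃ d : F4, star d = d ∧ ∃ c : F4, star c = c ∧ ∃ b : F4,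
      wf a e a' e' t (wf a e a' e' t (d, b, c)) ≠ (d, b, c)) ∧ ∀ d : F4, star d = d → ∀ c : F4, star c = c → ∀ b : F4,
      wf a e a' e' t (wf a e a' e' t (wf a e a' e' t (wf a e a' e' t (d, b, c)))) = (d, b, c) := by
  decide +kernel

theorem two4 : ∀ a : F4, a + a = 0 := by decide +kernel

end XPx

open XPx in
theorem xp : XP := by
  intro A a e a' e' hS ha ha' he he' ⟨n, hn, Hn⟩ ⟨m, hm, Hm⟩
  by_contra hb
  obtain ⟨t, ⟨d, hd, c, hc, b, h2⟩, h4⟩ := words a ha a' ha' e he e' he' hb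
  have hw : ∀ v, co ((n * m * ta t) v) = wf a e a' e' t (co v) := fun v => by
    rw [MulAut.mul_apply, MulAut.mul_apply, co_nf (Hn _), co_nf (Hm _), co_tf]; rfl
  have hA : n * m * ta t ∈ A := A.mul_mem (A.mul_mem hn hm) (hS.le (mem_TA.2 ⟨t, rfl⟩))
  generalize n * m * ta t = g at hw hA
  have h1 : g ^ 2 ^ 2 = 1 := by
    refine MulEquiv.ext fun v => co_inj ?_
    rw [show g ^ 2 ^ 2 = g * (g * (g * g)) by simp only [← pow_two, ← pow_succ']; rfl]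
    simp only [MulAut.mul_apply, hw]
    exact h4 _ v.1.hd _ v.1.hc _
  have hp : IsPGroup 2 (Subgroup.zpowers g) := by
    rintro ⟨_, k, rfl⟩
    refine ⟨2, Subtype.ext ?_⟩
    simp only [SubmonoidClass.coe_pow, OneMemClass.coe_one]
    rw [← zpow_natCast, ← zpow_mul, mul_comm, zpow_mul, zpow_natCast, h1, one_zpow]
  obtain ⟨y, -, hy⟩ := hS.exists_conj_le hp ((Subgroup.zpowers_le).2 hA)
  obtain ⟨s, hs⟩ := mem_TA.1 (hy g (Subgroup.mem_zpowers g))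
  have h3 : g * g = 1 := by
    have : y * (g * g) * y⁻¹ = 1 := by
      rw [show y * (g * g) * y⁻¹ = y * g * y⁻¹ * (y * g * y⁻¹) by group, hs, ← ta_add, two4, ta_zero]
    simpa using this
  apply h2
  have := congrArg (fun f : MulAut (Q1 F4) => co (f (vv d b c hd hc))) h3
  simp only [MulAut.mul_apply, hw] at this
  exact this

/-! ### computations in `X0 a` -/

namespace XPx

def fx (e : ZMod 2) : F4 := ⟨e, 0⟩
theorem star_fx : ∀ e : ZMod 2, star (fx e) = fx e := by decide +kernel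
theorem fx_re : ∀ d : F4, star d = d → fx d.re = d := by decide +kernel
def mk (a : F4) (d : ZMod 2) (b : F4) (c : ZMod 2) : U F4 := ⟨a, fx d, b, fx c, star_fx d, star_fx c⟩

instance decU : DecidableEq (U F4) := fun g h =>
  decidable_of_iff (g.a = h.a ∧ g.d = h.d ∧ g.b = h.b ∧ g.c = h.c) U.ext_iff.symm

theorem mk_eta (g : U F4) : mk g.a g.d.re g.b g.c.re = g := U.ext rfl (fx_re _ g.hd) rfl (fx_re _ g.hc)

def x0 (a : F4) : U F4 := mk a 0 0 0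
def v1 (a : F4) : U F4 := mk 0 1 (a * w4) 0
def v2 (a : F4) : U F4 := mk 0 0 (a * w4) 0
def y1 (a : F4) : U F4 := mk 0 0 a 0
def y2 : U F4 := mk 0 0 0 1
def n1 (a : F4) (e : ZMod 2) : U F4 := mk 0 0 (a * (w4 + fx e)) 0
def n2 (a : F4) (e : ZMod 2) : U F4 := mk 0 1 (a * w4) e

/-- a word in three generators -/
def ap {G : Type} [Group G] (a : F4) (P Q X : G) (e : U F4) : G :=
  P ^ e.d.re.val * Q ^ ((e.b * star a).im + e.d.re).val * ⁅X, P⁆ ^ (e.b * star a).re.val * ⁅X, Q⁆ ^ e.c.re.val *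
    X ^ (if e.a = 0 then 0 else 1)

def cj (s g : U F4) : U F4 := s * g * s⁻¹

set_option synthInstance.maxSize 4000 in
theorem d1 : ∀ a : F4, a ≠ 0 → ∀ t : F4, (t = 0 ∨ t = a) → ∀ (d : ZMod 2) (b : F4) (c : ZMod 2),
    ap a (v1 a) (v2 a) (x0 a) (mk t d b c) = mk t d b c := by decide +kernel

instance (a e : F4) (x y : U F4) : Decidable (NV a e x y) := by unfold NV; infer_instance

set_option synthInstance.maxSize 4000 in
theorem d4 : ∀ a : F4, a ≠ 0 → ∀ (e : ZMod 2) (t : F4), (t = 0 ∨ t = a) → ∀ (d : ZMod 2) (b : F4) (c : ZMod 2),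
    NV a (fx e) (mk t d b c) (ap a (n1 a e) (n2 a e) (x0 a) (mk t d b c)) := by decide +kernel

set_option synthInstance.maxSize 4000 in
theorem d2 : ∀ a : F4, a ≠ 0 → ∀ (d : ZMod 2) (b : F4) (c : ZMod 2), mk a d b c * mk a d b c = 1 →
    ∀ (d1 : ZMod 2) (b1 : F4) (c1 : ZMod 2), ⁅mk a d b c, mk 0 d1 b1 c1⁆ = y1 a →
    ∀ (d2 : ZMod 2) (b2 : F4) (c2 : ZMod 2), ⁅mk a d b c, mk 0 d2 b2 c2⁆ = y2 →
    ap a (mk 0 d1 b1 c1) (mk 0 d2 b2 c2) (mk a d b c) (mk 0 d1 b1 c1) = v1 a ∧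
    ap a (mk 0 d1 b1 c1) (mk 0 d2 b2 c2) (mk a d b c) (mk 0 d2 b2 c2) = v2 a ∧
    ap a (mk 0 d1 b1 c1) (mk 0 d2 b2 c2) (mk a d b c) (mk a d b c) = x0 a := by decide +kernel

def tr (a : F4) (P Q X g : U F4) : U F4 := ap a P Q X (cj (x0 (a * w4)) g)

set_option synthInstance.maxSize 4000 in
theorem d3 : ∀ a : F4, a ≠ 0 → ∀ (d : ZMod 2) (b : F4) (c : ZMod 2), mk a d b c * mk a d b c = 1 →
    ∀ (d1 : ZMod 2) (b1 : F4) (c1 : ZMod 2), ⁅mk a d b c, mk 0 d1 b1 c1⁆ = y2 →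
    ∀ (d2 : ZMod 2) (b2 : F4) (c2 : ZMod 2), ⁅mk a d b c, mk 0 d2 b2 c2⁆ = y1 a →
    (∃ t : F4, ap a (mk 0 d1 b1 c1) (mk 0 d2 b2 c2) (mk a d b c) (mk 0 d1 b1 c1) = cj (x0 t) (v1 a) ∧
      ap a (mk 0 d1 b1 c1) (mk 0 d2 b2 c2) (mk a d b c) (mk 0 d2 b2 c2) = cj (x0 t) (v2 a)) →
    (∃ t : F4, (tr a (mk 0 d1 b1 c1) (mk 0 d2 b2 c2) (mk a d b c))^[3] (v1 a) = cj (x0 t) (v1 a) ∧
      (tr a (mk 0 d1 b1 c1) (mk 0 d2 b2 c2) (mk a d b c))^[3] (v2 a) = cj (x0 t) (v2 a)) →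
    ∃ (e : ZMod 2) (t : F4), cj (x0 t) (mk 0 d1 b1 c1) = n1 a e ∧ cj (x0 t) (mk 0 d2 b2 c2) = n2 a e ∧
      ∃ (d' : ZMod 2) (b' : F4), cj (mk t d' b' 0) (mk a d b c) = x0 a := by decide +kernel

set_option synthInstance.maxSize 4000 in
theorem d5 : ∀ a : F4, a ≠ 0 → ∀ t : F4, (t = 0 ∨ t = a) → ∀ t' : F4, (t' = 0 ∨ t' = a) → ∀ d d' c : ZMod 2,
    mk 0 0 (t * fx d' - t' * fx d) c = 1 ∨ mk 0 0 (t * fx d' - t' * fx d) c = y1 a ∨
    mk 0 0 (t * fx d' - t' * fx d) c = y2 ∨ mk 0 0 (t * fx d' - t' * fx d) c = y1 a * y2 := by decide +kernel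

set_option synthInstance.maxSize 4000 in
theorem d6 : ∀ a : F4, a ≠ 0 → ⁅x0 a, v1 a⁆ = y1 a ∧ ⁅x0 a, v2 a⁆ = y2 ∧ x0 a * x0 a = 1 ∧ y1 a ≠ 1 ∧ y2 ≠ 1 ∧ y1 a ≠ y2 ∧
    y1 a * y1 a = 1 ∧ y2 * y2 = 1 ∧ y2 * y1 a = y1 a * y2 ∧ cj (x0 (a * w4)) (y1 a) = y1 a * y2 ∧
    cj (x0 (a * w4)) y2 = y2 ∧ ∀ (d : ZMod 2) (b : F4) (c : ZMod 2),
      ⁅v1 a, mk a d b c⁆ ≠ 1 ∧ ⁅v2 a, mk a d b c⁆ ≠ 1 ∧ ⁅v1 a, mk a d b c⁆ ≠ ⁅v2 a, mk a d b c⁆ := by decide +kernel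

theorem d7 : ∀ t a : F4, star t = t → t * a = 0 ∨ t * a = a := by decide +kernel

end XPx
end CL.U4
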