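/-
Project U4, job XP: the extra essential subgroups over the field with four elements (`xp` is in `U4/XPd`).
-/
import Cfsg.Agent.U4.XPd

set_option autoImplicit false

namespace CL.U4

open Cfsg CL.Fus CL.U5
open scoped commutatorElement

namespace XPx

theorem map_ap {G H : Type} [Group G] [Group H] (φ : G →* H) (a : F4) (P Q X : G) (e : U F4) :
    φ (ap a P Q X e) = ap a (φ P) (φ Q) (φ X) e := by
  simp only [ap, map_mul, map_pow, map_commutatorElement]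

variable {a : F4}

theorem mem_iff {g : U F4} : g ∈ X0 a ↔ g.a = 0 ∨ g.a = a :=
  ⟨fun ⟨t, h, e⟩ => by rw [e]; exact d7 t a h,
    fun h => h.elim (fun h => ⟨0, by simp, by simp [h]⟩) fun h => ⟨1, by simp, by simp [h]⟩⟩

theorem eta0 {g : U F4} {t : F4} (h : g.a = t) : ∃ d b c, g = mk t d b c := ⟨_, _, _, by rw [← h]; exact (mk_eta g).symm⟩

theorem cjV (s : U F4) {g : U F4} (h : g.a = 0) : s * g * s⁻¹ = cj (x0 s.a) g :=
  U.ext ((conj_a _ _).trans (conj_a _ _).symm) ((conj_d _ _).trans (conj_d _ _).symm)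
    (by rw [cj, conj_b, conj_b, h]; simp [x0, mk]) (by rw [cj, conj_c, conj_c, h]; simp [x0, mk])

def ex (a : F4) : X0 a := ⟨x0 a, mem_iff.2 (Or.inr rfl)⟩
def e1 (a : F4) : X0 a := ⟨v1 a, mem_iff.2 (Or.inl rfl)⟩
def e2 (a : F4) : X0 a := ⟨v2 a, mem_iff.2 (Or.inl rfl)⟩
def z1 (a : F4) : X0 a := ⟨y1 a, mem_iff.2 (Or.inl rfl)⟩
def z2 (a : F4) : X0 a := ⟨y2, mem_iff.2 (Or.inl rfl)⟩

theorem app (ha : a ≠ 0) (α : MulAut (X0 a)) (g : X0 a) :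
    (α g).1 = ap a (α (e1 a)).1 (α (e2 a)).1 (α (ex a)).1 g.1 := by
  have h : ap a (e1 a) (e2 a) (ex a) g.1 = g := Subtype.ext <| (map_ap (X0 a).subtype _ _ _ _ _).trans <| by
    have := d1 a ha g.1.a (mem_iff.1 g.2) g.1.d.re g.1.b g.1.c.re
    rw [mk_eta] at this; exact this
  exact (congrArg (fun w => (α w).1) h.symm).trans (map_ap ((X0 a).subtype.comp α.toMonoidHom) a _ _ _ _)

theorem ext3 (ha : a ≠ 0) {α β : MulAut (X0 a)} (h1 : α (e1 a) = β (e1 a)) (h2 : α (e2 a) = β (e2 a))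
    (h3 : α (ex a) = β (ex a)) : α = β :=
  MulEquiv.ext fun g => Subtype.ext (by rw [app ha, app ha β, h1, h2, h3])

/-- `Q1` is characteristic in `X0 a` -/
theorem a_e (ha : a ≠ 0) (α : MulAut (X0 a)) {v : X0 a} (hv : v.1.a = 0) : (α v).1.a = 0 := by
  by_contra h
  obtain ⟨d, b, c, e⟩ := eta0 ((mem_iff.1 (α v).2).resolve_left h)
  have P : ∀ f g : X0 a, ⁅f, v⁆ = 1 ∨ ⁅g, v⁆ = 1 ∨ ⁅f, v⁆ = ⁅g, v⁆ := fun f g => by
    rcases mem_iff.1 f.2 with hf | hf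
    · exact Or.inl (Subtype.ext (comm_Q1 hf hv))
    rcases mem_iff.1 g.2 with hg | hg
    · exact Or.inr (Or.inl (Subtype.ext (comm_Q1 hg hv)))
    refine Or.inr (Or.inr (Subtype.ext ?_))
    show ⁅f.1, v.1⁆ = ⁅g.1, v.1⁆
    refine U.ext ?_ ?_ ?_ ?_ <;> simp [hf, hg, hv]
  have Q : ∀ f : X0 a, (α ⁅α⁻¹ f, v⁆).1 = ⁅f.1, mk a d b c⁆ := fun f => by
    rw [map_commutatorElement, MulAut.apply_inv_self, ← e]; rfl
  obtain ⟨k1, k2, k3⟩ := (d6 a ha).2.2.2.2.2.2.2.2.2.2.2 d b c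
  rcases P (α⁻¹ (e1 a)) (α⁻¹ (e2 a)) with k | k | k
  · exact k1 ((Q (e1 a)).symm.trans (by rw [k, map_one]; rfl))
  · exact k2 ((Q (e2 a)).symm.trans (by rw [k, map_one]; rfl))
  · exact k3 ((Q (e1 a)).symm.trans ((congrArg (fun w => (α w).1) k).trans (Q (e2 a))))

theorem a_x (ha : a ≠ 0) (α : MulAut (X0 a)) : (α (ex a)).1.a = a := by
  refine (mem_iff.1 (α (ex a)).2).resolve_left fun h => ha ?_
  have := a_e ha α⁻¹ h
  rwa [MulAut.inv_apply_self] at this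

theorem im1 (ha : a ≠ 0) (α : MulAut (X0 a)) : α (z1 a) = ⁅α (ex a), α (e1 a)⁆ := by
  rw [← map_commutatorElement]; exact congrArg α (Subtype.ext (d6 a ha).1.symm)
theorem im2 (ha : a ≠ 0) (α : MulAut (X0 a)) : α (z2 a) = ⁅α (ex a), α (e2 a)⁆ := by
  rw [← map_commutatorElement]; exact congrArg α (Subtype.ext (d6 a ha).2.1.symm)
theorem imx (ha : a ≠ 0) (α : MulAut (X0 a)) : (α (ex a)).1 * (α (ex a)).1 = 1 := by
  have h : ex a * ex a = 1 := Subtype.ext (d6 a ha).2.2.1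
  have := congrArg (fun w => (α w).1) h
  simp only [map_mul, map_one] at this
  exact this

theorem comm4 (ha : a ≠ 0) (f g : X0 a) : ⁅f, g⁆ = 1 ∨ ⁅f, g⁆ = z1 a ∨ ⁅f, g⁆ = z2 a ∨ ⁅f, g⁆ = z1 a * z2 a := by
  have h : (⁅f, g⁆ : X0 a).1 = mk 0 0 (f.1.a * fx g.1.d.re - g.1.a * fx f.1.d.re) ⁅f.1, g.1⁆.c.re :=
    U.ext (comm_a f.1 g.1) (comm_d f.1 g.1) ((comm_b f.1 g.1).trans (by rw [fx_re _ g.1.hd, fx_re _ f.1.hd]; rfl))
      (fx_re _ ⁅f.1, g.1⁆.hc).symm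
  exact (d5 a ha _ (mem_iff.1 f.2) _ (mem_iff.1 g.2) _ _ _).imp (fun k => Subtype.ext (h.trans k))
    (Or.imp (fun k => Subtype.ext (h.trans k)) (Or.imp (fun k => Subtype.ext (h.trans k)) fun k => Subtype.ext (h.trans k)))

/-- the automorphisms trivial on the centre -/
def KK (a : F4) : Subgroup (MulAut (X0 a)) where
  carrier := {α | α (z1 a) = z1 a ∧ α (z2 a) = z2 a}
  mul_mem' := fun h k => ⟨by rw [MulAut.mul_apply, k.1, h.1], by rw [MulAut.mul_apply, k.2, h.2]⟩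
  one_mem' := ⟨rfl, rfl⟩
  inv_mem' := fun {α} h => ⟨α.injective (by rw [MulAut.apply_inv_self, h.1]), α.injective (by rw [MulAut.apply_inv_self, h.2])⟩

theorem KK_normal (ha : a ≠ 0) : (KK a).Normal := by
  refine ⟨fun α h β => ?_⟩
  have P : ∀ f g : X0 a, α ⁅f, g⁆ = ⁅f, g⁆ := fun f g => by
    rcases comm4 ha f g with k | k | k | k <;> rw [k]
    exacts [map_one α, h.1, h.2, by rw [map_mul, h.1, h.2]]
  exact ⟨by rw [MulAut.mul_apply, MulAut.mul_apply, im1 ha β⁻¹, P, ← im1 ha, MulAut.apply_inv_self],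
    by rw [MulAut.mul_apply, MulAut.mul_apply, im2 ha β⁻¹, P, ← im2 ha, MulAut.apply_inv_self]⟩

theorem KK_sq (ha : a ≠ 0) {α : MulAut (X0 a)} (h : α ∈ KK a) : α * α = 1 := by
  have k1 : ⁅(α (ex a)).1, (α (e1 a)).1⁆ = y1 a := congrArg Subtype.val ((im1 ha α).symm.trans h.1)
  have k2 : ⁅(α (ex a)).1, (α (e2 a)).1⁆ = y2 := congrArg Subtype.val ((im2 ha α).symm.trans h.2)
  have k3 := imx ha α
  have q := app ha α
  have q1 := q (α (e1 a))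
  have q2 := q (α (e2 a))
  have q3 := q (α (ex a))
  obtain ⟨d, b, c, e⟩ := eta0 (a_x ha α)
  obtain ⟨d', b', c', e'⟩ := eta0 (a_e ha α (v := e1 a) rfl)
  obtain ⟨d'', b'', c'', e''⟩ := eta0 (a_e ha α (v := e2 a) rfl)
  rw [e, e'] at k1
  rw [e, e''] at k2
  rw [e] at k3
  rw [e, e', e''] at q1 q2 q3
  obtain ⟨r1, r2, r3⟩ := d2 a ha d b c k3 d' b' c' k1 d'' b'' c'' k2
  exact ext3 ha (Subtype.ext (q1.trans r1)) (Subtype.ext (q2.trans r2)) (Subtype.ext (q3.trans r3))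

theorem in_S (ha : a ≠ 0) {A : Subgroup (MulAut (X0 a))} (hS : SylIn 2 (autInducedBy ⊤ (X0 a)) A) {k : MulAut (X0 a)}
    (h : k ∈ A) (h' : k ∈ KK a) : k ∈ autInducedBy ⊤ (X0 a) := by
  refine hS.le_of_normalizes (Z := A ⊓ KK a) (fun g => ⟨1, Subtype.ext ?_⟩) inf_le_left (fun s hs => ?_) ⟨h, h'⟩
  · exact (pow_two g.1).trans (KK_sq ha g.2.2)
  · have P : ∀ s ∈ A, ∀ n ∈ A ⊓ KK a, s * n * s⁻¹ ∈ A ⊓ KK a := fun s hs n hn =>
      ⟨A.mul_mem (A.mul_mem hs hn.1) (A.inv_mem hs), (KK_normal ha).conj_mem _ hn.2 _⟩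
    refine Subgroup.mem_normalizer_iff.2 fun n => ⟨P s (hS.le hs) n, fun hn => ?_⟩
    simpa [mul_assoc] using P s⁻¹ (A.inv_mem (hS.le hs)) _ hn

def Sw (n : MulAut (X0 a)) : Prop := n (z1 a) = z2 a ∧ n (z2 a) = z1 a
def yy (a : F4) : MulAut (X0 a) := MulAut.conjNormal (x0 (a * w4))
theorem yy_mem : yy a ∈ autInducedBy ⊤ (X0 a) := mem_T.2 ⟨_, rfl⟩

theorem zz (ha : a ≠ 0) : z1 a ≠ 1 ∧ z2 a ≠ 1 ∧ z1 a ≠ z2 a ∧ z1 a * z1 a = 1 ∧ z2 a * z2 a = 1 ∧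
    z2 a * z1 a = z1 a * z2 a ∧ yy a (z1 a) = z1 a * z2 a ∧ yy a (z2 a) = z2 a := by
  obtain ⟨-, -, -, h1, h2, h3, h4, h5, h6, h7, h8, -⟩ := d6 a ha
  exact ⟨fun k => h1 (congrArg Subtype.val k), fun k => h2 (congrArg Subtype.val k), fun k => h3 (congrArg Subtype.val k),
    Subtype.ext h4, Subtype.ext h5, Subtype.ext h6, Subtype.ext h7, Subtype.ext h8⟩

theorem s3 (ha : a ≠ 0) (h : MulAut (X0 a)) : h ∈ KK a ∨ yy a * h ∈ KK a ∨ Sw h ∨ Sw (yy a * h) ∨ Sw (h * yy a) ∨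
    Sw (yy a * h * yy a) := by
  obtain ⟨n1, n2, n3, s1, s2, cm, k1, k2⟩ := zz ha
  have t1 : z1 a * z2 a * z2 a = z1 a := by rw [mul_assoc, s2, mul_one]
  have t2 : z1 a * z2 a * z1 a = z2 a := by rw [mul_assoc, cm, ← mul_assoc, s1, one_mul]
  have t3 : z1 a * (z1 a * z2 a) = z2 a := by rw [← mul_assoc, s1, one_mul]
  have c1 := comm4 ha (h (ex a)) (h (e1 a))
  have c2 := comm4 ha (h (ex a)) (h (e2 a))
  rw [← im1 ha] at c1
  rw [← im2 ha] at c2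
  have m : h (z1 a) ≠ h (z2 a) := fun k => n3 (h.injective k)
  rcases c1 with c1 | c1 | c1 | c1
  · exact absurd (h.injective (c1.trans (map_one h).symm)) n1
  all_goals
    rcases c2 with c2 | c2 | c2 | c2
    · exact absurd (h.injective (c2.trans (map_one h).symm)) n2
  · exact absurd (c1.trans c2.symm) m
  · exact Or.inl ⟨c1, c2⟩
  · exact Or.inr (Or.inr (Or.inr (Or.inr (Or.inr ⟨by simp only [MulAut.mul_apply, k1, map_mul, c1, c2, k2, t1, t2],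
      by simp only [MulAut.mul_apply, k2, map_mul, c2, k1, t1]⟩))))
  · exact Or.inr (Or.inr (Or.inl ⟨c1, c2⟩))
  · exact absurd (c1.trans c2.symm) m
  · exact Or.inr (Or.inr (Or.inr (Or.inl ⟨by simp only [MulAut.mul_apply, c1, k2],
      by simp only [MulAut.mul_apply, c2, map_mul, k1, k2, t1]⟩)))
  · exact Or.inr (Or.inr (Or.inr (Or.inr (Or.inl ⟨by simp only [MulAut.mul_apply, k1, map_mul, c1, c2, t2],
      by simp only [MulAut.mul_apply, k2, c2]⟩))))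
  · exact Or.inr (Or.inl ⟨by simp only [MulAut.mul_apply, c1, map_mul, k1, k2, t1], by simp only [MulAut.mul_apply, c2, k2]⟩)
  · exact absurd (c1.trans c2.symm) m

theorem key (ha : a ≠ 0) {A : Subgroup (MulAut (X0 a))} (hS : SylIn 2 (autInducedBy ⊤ (X0 a)) A)
    (B : Subgroup (MulAut (X0 a))) (hB : autInducedBy ⊤ (X0 a) ≤ B) (H : ∀ m ∈ A, Sw m → m ∈ B) : A ≤ B := fun h hh => by
  have yA : yy a ∈ A := hS.le yy_mem
  have yB : yy a ∈ B := hB yy_mem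
  rcases s3 ha h with k | k | k | k | k | k
  · exact hB (in_S ha hS hh k)
  · exact (B.mul_mem_cancel_left yB).1 (hB (in_S ha hS (A.mul_mem yA hh) k))
  · exact H _ hh k
  · exact (B.mul_mem_cancel_left yB).1 (H _ (A.mul_mem yA hh) k)
  · exact (B.mul_mem_cancel_right yB).1 (H _ (A.mul_mem hh yA) k)
  · exact (B.mul_mem_cancel_left yB).1 ((B.mul_mem_cancel_right yB).1 (H _ (A.mul_mem (A.mul_mem yA hh) yA) k))

theorem main (ha : a ≠ 0) {A : Subgroup (MulAut (X0 a))} (hS : SylIn 2 (autInducedBy ⊤ (X0 a)) A) {n : MulAut (X0 a)}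
    (hn : n ∈ A) (sw : Sw n) : ∃ (e : ZMod 2) (s : U F4), ∀ v : X0 a, NV a (fx e) v.1 (((MulAut.conjNormal s : MulAut (X0 a)) * n) v).1 := by
  obtain ⟨-, -, -, s1, s2, cm, k1, k2⟩ := zz ha
  have t2 : z1 a * (z2 a * z1 a) = z2 a := by rw [cm, ← mul_assoc, s1, one_mul]
  obtain ⟨s, hs⟩ := mem_T.1 (in_S ha hS (A.mul_mem hn hn)
    ⟨by rw [MulAut.mul_apply, sw.1, sw.2], by rw [MulAut.mul_apply, sw.2, sw.1]⟩)
  have r1 : (n * yy a) (z1 a) = z2 a * z1 a := by rw [MulAut.mul_apply, k1, map_mul, sw.1, sw.2]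
  have r2 : (n * yy a) (z2 a) = z1 a := by rw [MulAut.mul_apply, k2, sw.2]
  have rA : n * yy a ∈ A := A.mul_mem hn (hS.le yy_mem)
  have rt : ∀ g : X0 a, ((n * yy a) g).1 = tr a (n (e1 a)).1 (n (e2 a)).1 (n (ex a)).1 g.1 := fun g => app ha n _
  generalize n * yy a = r at r1 r2 rA rt
  obtain ⟨s', hs'⟩ := mem_T.1 (in_S ha hS (A.mul_mem rA (A.mul_mem rA rA))
    ⟨by rw [MulAut.mul_apply, MulAut.mul_apply, r1, map_mul r, r1, r2, t2, r2],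
      by rw [MulAut.mul_apply, MulAut.mul_apply, r2, r1, map_mul r, r1, r2, t2]⟩)
  have q : ∀ g : X0 a, g.1.a = 0 → ap a (n (e1 a)).1 (n (e2 a)).1 (n (ex a)).1 (n g).1 = cj (x0 s.a) g.1 := fun g hg =>
    (app ha n _).symm.trans ((congrArg (fun f : MulAut (X0 a) => (f g).1) hs).trans (cjV s hg))
  have q' : ∀ g : X0 a, g.1.a = 0 → (tr a (n (e1 a)).1 (n (e2 a)).1 (n (ex a)).1)^[3] g.1 = cj (x0 s'.a) g.1 := fun g hg => by
    refine Eq.trans ?_ ((congrArg (fun f : MulAut (X0 a) => (f g).1) hs').trans (cjV s' hg))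
    simp only [MulAut.mul_apply, rt, Function.iterate_succ_apply', Function.iterate_zero_apply]
  have j1 : ⁅(n (ex a)).1, (n (e1 a)).1⁆ = y2 := congrArg Subtype.val ((im1 ha n).symm.trans sw.1)
  have j2 : ⁅(n (ex a)).1, (n (e2 a)).1⁆ = y1 a := congrArg Subtype.val ((im2 ha n).symm.trans sw.2)
  have j3 := imx ha n
  have q1 := q (e1 a) rfl
  have q2 := q (e2 a) rfl
  have q3 := q' (e1 a) rfl
  have q4 := q' (e2 a) rfl
  obtain ⟨d, b, c, e⟩ := eta0 (a_x ha n)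
  obtain ⟨d', b', c', e'⟩ := eta0 (a_e ha n (v := e1 a) rfl)
  obtain ⟨d'', b'', c'', e''⟩ := eta0 (a_e ha n (v := e2 a) rfl)
  rw [e, e'] at j1
  rw [e, e''] at j2
  rw [e] at j3
  rw [e, e', e''] at q1 q2 q3 q4
  obtain ⟨u, t, p1, p2, dd, bb, p3⟩ := d3 a ha d b c j3 d' b' c' j1 d'' b'' c'' j2 ⟨_, q1, q2⟩ ⟨_, q3, q4⟩
  refine ⟨u, mk t dd bb 0, fun v => ?_⟩
  have w : ∀ g : X0 a, (((MulAut.conjNormal (mk t dd bb 0) : MulAut (X0 a)) * n) g).1 = mk t dd bb 0 * (n g).1 * (mk t dd bb 0)⁻¹ :=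
    fun g => rfl
  rw [app ha, w, w, w, e, e', e'', cjV _ (g := mk 0 d' b' c') rfl, cjV _ (g := mk 0 d'' b'' c'') rfl]
  have := d4 a ha u v.1.a (mem_iff.1 v.2) v.1.d.re v.1.b v.1.c.re
  rw [mk_eta, ← p1, ← p2, ← p3] at this
  exact this

end XPx

open XPx in
theorem xe : XE := by
  intro a A ha hS ⟨g, hg, hg'⟩
  obtain ⟨n, hn, sw⟩ : ∃ n ∈ A, Sw n := by
    by_contra h
    exact hg' (key ha hS _ Subgroup.le_normalizer (fun m hm k => absurd ⟨m, hm, k⟩ h) hg)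
  obtain ⟨e, s, H⟩ := main ha hS hn sw
  have hs : (MulAut.conjNormal s : MulAut (X0 a)) ∈ autInducedBy ⊤ (X0 a) := mem_T.2 ⟨_, rfl⟩
  refine ⟨fx e, star_fx e, ⟨_, A.mul_mem (hS.le hs) hn, H⟩, fun A' hA ⟨α, hα, H'⟩ => key ha hS _ hA fun m hm k => ?_⟩
  have h1 : α = MulAut.conjNormal s * n := MulEquiv.ext fun v => Subtype.ext <|
    U.ext ((H' v).1.trans (H v).1.symm) ((H' v).2.1.trans (H v).2.1.symm) ((H' v).2.2.1.trans (H v).2.2.1.symm)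
      ((H' v).2.2.2.trans (by rw [(H v).2.2.2, (H v).2.1, (H' v).2.1]))
  have h2 : n ∈ A' := (A'.mul_mem_cancel_left (hA hs)).1 (h1 ▸ hα)
  have h3 : n⁻¹ * m ∈ KK a := ⟨n.injective (by rw [MulAut.mul_apply, MulAut.apply_inv_self, k.1, sw.1]),
    n.injective (by rw [MulAut.mul_apply, MulAut.apply_inv_self, k.2, sw.2])⟩
  exact (A'.mul_mem_cancel_left (A'.inv_mem h2)).1 (hA (in_S ha hS (A.mul_mem (A.inv_mem hn) hm) h3))

end CL.U4
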