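/-
Project U4, `q = 2`: the Sylow subgroup inside `GL₄(2)`.
-/
import Cfsg.Agent.U4.Defs2

set_option autoImplicit false

namespace CL.U4

open Cfsg CL.Fus CL.U5 Matrix

namespace XRx

abbrev M4 : Type := Matrix (Fin 4) (Fin 4) (ZMod 2)

theorem fix0 : ∀ t : F4, star t = t → t = ⟨t.re, 0⟩ := by decide +kernel
theorem fix1 : ∀ t : ZMod 2, star (⟨t, 0⟩ : F4) = ⟨t, 0⟩ := by decide +kernel
theorem fix2 : ∀ t a : F4, star t = t → t * a = 0 ∨ t * a = a := by decide +kernel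
theorem cases4 : ∀ a : F4, a ≠ 0 → a = 1 ∨ a = w4 ∨ a = w4 + 1 := by decide +kernel

def eqv : F4 × F4 × ZMod 2 × ZMod 2 ≃ U F4 where
  toFun p := ⟨p.1, ⟨p.2.2.1, 0⟩, p.2.1, ⟨p.2.2.2, 0⟩, fix1 _, fix1 _⟩
  invFun x := (x.a, x.b, x.d.re, x.c.re)
  left_inv _ := rfl
  right_inv x := U.ext rfl (fix0 _ x.hd).symm rfl (fix0 _ x.hc).symm

scoped instance finU : Fintype (U F4) := Fintype.ofEquiv _ eqv
scoped instance decU : DecidableEq (U F4) := fun x y =>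
  decidable_of_iff (x.a = y.a ∧ x.d = y.d ∧ x.b = y.b ∧ x.c = y.c) U.ext_iff.symm
scoped instance decNV (a e : F4) (x y : U F4) : Decidable (NV a e x y) := by unfold NV; infer_instance

theorem cardU : Nat.card (U F4) = 64 := by
  rw [← Nat.card_congr eqv]; simp [card_F4]

def mk6 (p q r s t u : ZMod 2) : M4 := !![1, p, q, r; 0, 1, s, t; 0, 0, 1, u; 0, 0, 0, 1]

theorem mk6_mul (p q r s t u p' q' r' s' t' u' : ZMod 2) : mk6 p q r s t u * mk6 p' q' r' s' t' u' =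
    mk6 (p + p') (q + p * s' + q') (r + q * u' + p * t' + r') (s + s') (t + s * u' + t') (u + u') := by
  ext i j
  rw [Matrix.mul_apply, Fin.sum_univ_four]
  fin_cases i <;> fin_cases j <;> simp [mk6] <;> ring

def c3 (x : U F4) : ZMod 2 := x.d.re + x.b.re + x.b.im + x.a.re * x.b.im + x.c.re
def c5 (x : U F4) : ZMod 2 := x.a.re * x.d.re + x.b.re
def m (x : U F4) : M4 := mk6 x.a.im x.b.im (c3 x) x.d.re (c5 x) x.a.re

theorem hm : ∀ x y : U F4, (x * y).b.im = x.b.im + x.a.im * y.d.re + y.b.im ∧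
    c3 (x * y) = c3 x + x.b.im * y.a.re + x.a.im * c5 y + c3 y ∧ c5 (x * y) = c5 x + x.d.re * y.a.re + c5 y := by
  decide +kernel

theorem m_mul (x y : U F4) : m (x * y) = m x * m y := by
  obtain ⟨h1, h2, h3⟩ := hm x y
  rw [m, m, m, mk6_mul, h1, h2, h3]; rfl

def ι0 : U F4 →* GL (Fin 4) (ZMod 2) := MonoidHom.toHomUnits ⟨⟨m, by decide +kernel⟩, m_mul⟩

theorem ι0_val (x : U F4) : (ι0 x : M4) = m x := rfl

theorem inj : Function.Injective ι0 := (injective_iff_map_eq_one _).2 fun x e =>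
  (show ∀ x : U F4, m x = 1 → x = 1 by decide +kernel) x (congrArg Units.val e)

set_option synthInstance.maxSize 2000 in
theorem surj0 : ∀ p q r s t u : ZMod 2, ∃ x : U F4, x.a.im = p ∧ x.b.im = q ∧ c3 x = r ∧ x.d.re = s ∧ c5 x = t ∧
    x.a.re = u := by decide +kernel

theorem surj (p q r s t u : ZMod 2) : ∃ x, m x = mk6 p q r s t u := by
  obtain ⟨x, rfl, rfl, rfl, rfl, rfl, rfl⟩ := surj0 p q r s t u
  exact ⟨x, rfl⟩

theorem idx : ¬ 2 ∣ ι0.range.index := by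
  have h := ι0.range.card_mul_index
  rw [← Nat.card_congr (MonoidHom.ofInjective inj).toEquiv, cardU, Matrix.card_GL_field] at h
  simp only [ZMod.card, Fin.prod_univ_four] at h
  norm_num at h
  omega

theorem nrm (α : MulAut (U F4)) (g : GL (Fin 4) (ZMod 2)) (h : ∀ x, ι0 (α x) = g * ι0 x * g⁻¹) : ∃ s, ι0 s = g := by
  have e : ∀ x, m (α x) * (g : M4) = g * m x := fun x => congrArg Units.val (eq_mul_inv_iff_mul_eq.1 (h x))
  have l : ∀ p s u : ZMod 2, ∃ x, mk6 p 0 0 s 0 u * (g : M4) = g * m x := fun p s u => by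
    obtain ⟨y, hy⟩ := surj p 0 0 s 0 u
    exact ⟨α.symm y, by rw [← e, MulEquiv.apply_symm_apply, hy]⟩
  have r : ∀ p s u : ZMod 2, ∃ x, m x * (g : M4) = g * mk6 p 0 0 s 0 u := fun p s u => by
    obtain ⟨y, hy⟩ := surj p 0 0 s 0 u
    exact ⟨_, by rw [e, hy]⟩
  obtain ⟨x, hx⟩ := l 1 1 1
  obtain ⟨y, hy⟩ := r 1 1 1
  have a0 := congrFun (congrFun hx 0) 0
  have a1 := congrFun (congrFun hx 1) 0
  have a2 := congrFun (congrFun hx 2) 0
  have a3 := congrFun (congrFun hx 1) 1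
  have b1 := congrFun (congrFun hy 3) 2
  have b2 := congrFun (congrFun hy 3) 3
  simp [Matrix.mul_apply, Fin.sum_univ_four, m, mk6] at a0 a1 a2 a3 b1 b2
  rw [a0, zero_mul, zero_add, add_eq_left] at a3
  have d : (g : M4).det ≠ 0 := (Matrix.isUnits_det_units g).ne_zero
  rw [det_of_isUpperTriangular (fun i j k => by
    fin_cases i <;> fin_cases j <;> simp at k ⊢ <;> assumption), Fin.prod_univ_four] at d
  simp only [ne_eq, mul_eq_zero, not_or] at d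
  have o : ∀ t : ZMod 2, ¬ t = 0 → t = 1 := by decide
  obtain ⟨s, hs⟩ := surj (g 0 1) (g 0 2) (g 0 3) (g 1 2) (g 1 3) (g 2 3)
  refine ⟨s, Units.ext (hs.trans ?_)⟩
  ext i j
  fin_cases i <;> fin_cases j <;> simp [mk6, a0, a1, a2, a3, b1, b2, o _ d.1.1.1, o _ d.1.1.2, o _ d.1.2, o _ d.2]

def gA : M4 := !![1, 0, 0, 0; 1, 1, 0, 0; 0, 0, 1, 1; 0, 0, 0, 1]
def gB : M4 := !![1, 0, 0, 0; 0, 1, 0, 0; 0, 0, 1, 0; 0, 0, 1, 1]
def gC : M4 := !![1, 1, 1, 0; 0, 0, 1, 1; 0, 1, 0, 1; 0, 0, 0, 1]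

def r2f (x : U F4) : U F4 := ⟨x.b, 0, -x.a, x.c - x.a * star x.b - star x.a * x.b, by simp, by simp; ring⟩

theorem one (θ : MulAut (U F4)) (a e : F4) (A : M4) (hA : A * A = 1)
    (h : ∀ x : U F4, x.a = 0 ∨ x.a = a → ∃ y, NV a e x y ∧ m (θ y) = A * m (θ x) * A) :
    ∃ g, ∀ x ∈ X0 a, ∃ y, NV a e x y ∧ ι0.comp θ.toMonoidHom y = g * ι0.comp θ.toMonoidHom x * g⁻¹ := by
  refine ⟨⟨A, A, hA, hA⟩, fun x ⟨t, ht, k⟩ => ?_⟩
  obtain ⟨y, h1, h2⟩ := h x (k ▸ fix2 t a ht)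
  exact ⟨y, h1, Units.ext h2⟩

theorem fin (θ : MulAut (U F4)) (a a' : F4) (A B : M4) (hA : A * A = 1) (hB : B * B = 1)
    (h1 : ∀ x : U F4, x.a = 0 ∨ x.a = a → ∃ y, NV a 0 x y ∧ m (θ y) = A * m (θ x) * A)
    (h2 : ∀ x : U F4, x.a = 0 ∨ x.a = a' → ∃ y, NV a' 1 x y ∧ m (θ y) = B * m (θ x) * B)
    (h3 : ∀ x : U F4, x.d = 0 → m (θ (r2f x)) = gC * m (θ x) * gC) :
    ∃ (G : Type) (_ : Group G) (_ : Finite G) (ι : U F4 →* G), Function.Injective ι ∧ ¬ 2 ∣ ι.range.index ∧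
      (∀ α : MulAut (U F4), (∃ g, ∀ x, ι (α x) = g * ι x * g⁻¹) → ∃ s, α = MulAut.conj s) ∧
      (∃ g, ∀ x ∈ X0 a, ∃ y, NV a 0 x y ∧ ι y = g * ι x * g⁻¹) ∧
      (∃ g, ∀ x ∈ X0 a', ∃ y, NV a' 1 x y ∧ ι y = g * ι x * g⁻¹) ∧
      ∃ g, ∀ x : Q2 F4, ι (r2 F4 x : U F4) = g * ι (x : U F4) * g⁻¹ := by
  have hC : gC * gC = 1 := by decide +kernel
  refine ⟨GL (Fin 4) (ZMod 2), inferInstance, inferInstance, ι0.comp θ.toMonoidHom, inj.comp θ.injective, ?_,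
    fun α ⟨g, hg⟩ => ?_, one θ a 0 A hA h1, one θ a' 1 B hB h2, ⟨gC, gC, hC, hC⟩, fun x => Units.ext (h3 x.1 x.2)⟩
  · rw [MonoidHom.range_comp, MonoidHom.range_eq_top.2 θ.surjective, ← MonoidHom.range_eq_map]; exact idx
  · obtain ⟨s, rfl⟩ := nrm (θ * α * θ⁻¹) g fun x => by
      have := hg (θ⁻¹ x)
      rwa [show ι0.comp θ.toMonoidHom (θ⁻¹ x) = ι0 x from congrArg ι0 (θ.apply_symm_apply x)] at this
    refine ⟨θ⁻¹ s, MulEquiv.ext fun x => θ.injective (inj ?_)⟩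
    rw [MulAut.conj_apply, map_mul, map_mul, map_inv, map_mul, map_mul, map_inv, MulAut.apply_inv_self]
    exact hg x

def hl (l l' : F4) (h : l * l' = 1) : P4 F4 := ⟨⟨⟨l, l', h, (mul_comm _ _).trans h⟩, 1, 1⟩, star_one F4⟩
def cc : MulAut (U F4) := cf (AddMonoidHom.id F4) fun _ h => h
noncomputable def t1 : MulAut (U F4) := act (hl w4 (w4 + 1) (by decide +kernel))
noncomputable def t2 : MulAut (U F4) := act (hl (w4 + 1) w4 (by decide +kernel))

theorem hA : gA * gA = 1 := by decide +kernel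
theorem hB : gB * gB = 1 := by decide +kernel

end XRx

open XRx in
theorem xr : XR := by
  intro a a' h h' n
  rcases cases4 a h with rfl | rfl | rfl <;> rcases cases4 a' h' with rfl | rfl | rfl
  · exact (n rfl).elim
  · exact fin 1 _ _ gA gB hA hB (by decide +kernel) (by decide +kernel) (by decide +kernel)
  · exact fin (t1 * cc) _ _ gB gA hB hA (by decide +kernel) (by decide +kernel) (by decide +kernel)
  · exact fin cc _ _ gB gA hB hA (by decide +kernel) (by decide +kernel) (by decide +kernel)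
  · exact (n rfl).elim
  · exact fin t2 _ _ gA gB hA hB (by decide +kernel) (by decide +kernel) (by decide +kernel)
  · exact fin t1 _ _ gA gB hA hB (by decide +kernel) (by decide +kernel) (by decide +kernel)
  · exact fin (t2 * cc) _ _ gB gA hB hA (by decide +kernel) (by decide +kernel) (by decide +kernel)
  · exact (n rfl).elim

end CL.U4
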