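/-
Project U4: the case `q = 2` with an essential subgroup `X0 a`.
-/
import Cfsg.Agent.U4.Defs2
import Cfsg.Agent.U5.Top

set_option autoImplicit false
set_option linter.unusedSectionVars false

namespace CL.U4

open Cfsg Cfsg.FusionSystem CL.Fus CL.U5 CL.U5.Topx

universe u

namespace XTx

variable {F F' : FusionSystem (⊤ : Subgroup (U F4))} {a a' : F4}

theorem fix01 : ∀ e : F4, star e = e → e = 0 ∨ e = 1 := by decide +kernel

theorem pg2 : IsPGroup 2 (U F4) := pg 2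

theorem gen2 (rk : RK.{0}) (g2 : GEN2 F4) (hF : F.IsSaturated 2) (hi : ∀ α ∈ aut0 F, ∃ s, α = MulAut.conj s)
    (hE : F.IsEssential 2 (Q2 F4)) : r2 F4 ∈ F.autGroup (Q2 F4) ∧ ∀ A' : Subgroup (MulAut (Q2 F4)), r2 F4 ∈ A' →
      (∀ α ∈ aut0 F, ∀ b, Res α b → b ∈ A') → F.autGroup (Q2 F4) ≤ A' := by
  refine (g2 2 _ _ ⊥ (rk _ 2 pg2 F hF _ hE fun α hα x => ?_) (fun α => ⟨fun hα => ?_, ?_⟩) (.inl q_F4)).2
  · obtain ⟨s, rfl⟩ := hi α hα
    rw [mem_Q2, mem_Q2, MulAut.conj_apply, conj_d]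
  · obtain ⟨s, rfl⟩ := hi α hα
    exact ⟨s, 1, one_mem _, by rw [map_one, mul_one]⟩
  · rintro ⟨s, h, hh, rfl⟩
    rw [Subgroup.mem_bot.1 hh, map_one, mul_one]
    exact mor_conj F le_rfl trivial

/-- the data that determine the system -/
structure D (F : FusionSystem (⊤ : Subgroup (U F4))) (a a' : F4) : Prop where
  sat : F.IsSaturated 2
  inn : ∀ α ∈ aut0 F, ∃ s, α = MulAut.conj s
  x0 : HasX a (F.autGroup (X0 a)) 0
  x1 : HasX a' (F.autGroup (X0 a')) 1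
  r : r2 F4 ∈ F.autGroup (Q2 F4)

theorem sub (rk : RK.{0}) (es : ES2) (g2 : GEN2 F4) (xp : XP) (xf : XF) (xv : XV) (ha : a ≠ 0) (ha' : a' ≠ 0)
    (d : D F a a') (d' : D F' a a') : F.IsSubsystemOf F' := by
  have h0 : aut0 F ≤ aut0 F' := fun α hα => by
    obtain ⟨s, rfl⟩ := d.inn α hα
    exact mor_conj F' le_rfl trivial
  obtain ⟨f1, f2, f3⟩ := xf F d.sat
  refine alperin_subsystem (pg2.to_subgroup _) d.sat fun A f hA hf hi => ?_
  rcases hA with rfl | hA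
  · obtain ⟨α, hα, e⟩ := all_top hf hi
    exact (mem_aut0.1 (h0 hα)).congr fun x _ => e x
  rcases es F d.sat A hA with rfl | rfl | ⟨b, hb, rfl⟩
  · exact (xv F d.sat d.inn hA).elim
  · exact all_mor ((gen2 rk g2 d.sat d.inn hA).2 _ d'.r
      fun α hα c r => (Mor.mono (mem_aut0.1 (h0 hα)) le_top).mem_autGroup r) hf hi
  · obtain ⟨e, he, k1, k2⟩ := f3 b hb hA
    refine all_mor (k2 _ (autInducedBy_le_autGroup F' le_top) ?_) hf hi
    rcases fix01 e he with rfl | rfl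
    · obtain rfl := (xp _ _ _ _ _ f1 hb ha he he (f2 _ _ hb he k1) (f2 _ _ ha he d.x0)).2 rfl
      exact d'.x0
    · obtain rfl := (xp _ _ _ _ _ f1 hb ha' he he (f2 _ _ hb he k1) (f2 _ _ ha' he d.x1)).2 rfl
      exact d'.x1

theorem hasX {G : Type} [Group G] {ι : U F4 →* G}
    (hM : ∀ P f, Mor F P f ↔ ∃ g : G, ∀ x ∈ P, ι (f x) = g * ι x * g⁻¹) {e : F4}
    (h : ∃ g, ∀ x ∈ X0 a, ∃ y, NV a e x y ∧ ι y = g * ι x * g⁻¹) : HasX a (F.autGroup (X0 a)) e := by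
  obtain ⟨g, hg⟩ := h
  choose! f h1 h2 using hg
  obtain ⟨α, hα, k⟩ := ((hM _ f).2 ⟨g, h2⟩).exists_aut' le_rfl fun x hx => by
    rw [mem_X0, (h1 x hx).1]; exact hx
  exact ⟨α, hα, fun v => by rw [← autFun_coe, k _ v.2]; exact h1 _ v.2⟩

theorem real (rk : RK.{0}) (es : ES2) (g2 : GEN2 F4) (xp : XP) (xf : XF) (xv : XV) (xr : XR) (ha : a ≠ 0)
    (ha' : a' ≠ 0) (ne : a ≠ a') (d : D F a a') : F.IsRealizable 2 := by
  obtain ⟨G, _, _, ι, hι, ho, hG, k0, k1, g, hg⟩ := xr a a' ha ha' ne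
  obtain ⟨F', sat, hR, hM⟩ := all_real pg2 ι hι ho
  have d' : D F' a a' := ⟨sat, fun α hα => hG α (((hM _ _).1 (mem_aut0.1 hα)).imp fun g h x => h x trivial),
    hasX hM k0, hasX hM k1, (mem_autGroup_iff le_top).2 ((hM _ _).2 ⟨g, fun x hx => by rw [autFun_apply _ hx, hg]⟩)⟩
  rw [fusionSystem_le_antisymm (E := F) (F := F') (sub rk es g2 xp xf xv ha ha' d d')
    (sub rk es g2 xp xf xv ha ha' d' d)]
  exact hR

/-- the automorphisms that keep the first coordinate -/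
def KA (a : F4) : Subgroup (MulAut (X0 a)) where
  carrier := {α | ∀ v, (α v).1.a = v.1.a}
  one_mem' _ := rfl
  mul_mem' h k v := (h _).trans (k v)
  inv_mem' {α} h v := by rw [← h (α⁻¹ v), MulAut.apply_inv_self]

theorem ess2 (es : ES2) (xf : XF) (xv : XV) (hF : F.IsSaturated 2) (hc : F.core = ⊥)
    (hi : ∀ α ∈ aut0 F, ∃ s, α = MulAut.conj s) : F.IsEssential 2 (Q2 F4) := by
  by_contra n2
  have k : ∀ A, F.IsEssential 2 A → ∃ b, b ≠ 0 ∧ A = X0 b := fun A hA =>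
    ((es F hF A hA).resolve_left fun e => xv F hF hi (e ▸ hA)).resolve_left fun e => n2 (e ▸ hA)
  have hN : F.IsNormal (Q1 F4) := by
    refine isNormal_of_essential (pg2.to_subgroup _) hF le_top (fun A hA => ?_) fun A f hA hf hf' => ?_
    · obtain ⟨b, -, rfl⟩ := k A hA
      exact Q1_le_X0 b
    rcases hA with rfl | hA
    · obtain ⟨α, hα, e⟩ := all_top hf hf'
      obtain ⟨s, rfl⟩ := hi α hα
      exact hf.img_eq_self le_top fun x hx => by rw [← e, mem_Q1, MulAut.conj_apply, conj_a]; exact hx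
    · obtain ⟨b, hb, rfl⟩ := k A hA
      obtain ⟨e, -, ⟨β, -, hβ⟩, k2⟩ := (xf F hF).2.2 b hb hA
      obtain ⟨α, hα, e'⟩ := hf.exists_aut hf'
      have m : α ∈ KA b := k2 (KA b) (fun γ hγ v => by
        obtain ⟨s, rfl⟩ := mem_T.1 hγ
        exact conj_a s v) ⟨β, fun v => (hβ v).1, hβ⟩ hα
      refine hf.img_eq_self (Q1_le_X0 b) fun x hx => ?_
      rw [← e' x (Q1_le_X0 b hx), autFun_apply _ (Q1_le_X0 b hx)]
      exact (m _).trans hx
  have := Subgroup.mem_bot.1 (hc ▸ IsNormal.le_core hN (show xb (1 : F4) ∈ Q1 F4 from rfl))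
  exact one_ne_zero (eq_one_iff.1 this).2.2.1

end XTx

open XTx in
theorem xt (rk : RK.{0}) (es : ES2) (g2 : GEN2 F4) (xp : XP) (xf : XF) (xv : XV) (xh : XH) (xn : XN) (xr : XR) :
    XT := by
  intro F hF hc a ha hE
  have hi := xh F hF a ha hE
  obtain ⟨a', ha', ne, hE'⟩ : ∃ a', a' ≠ 0 ∧ a ≠ a' ∧ F.IsEssential 2 (X0 a') := by
    by_contra! hn
    refine xn F hF a ha hi (fun E h => ?_) hc
    rcases es F hF E h with rfl | rfl | ⟨b, hb, rfl⟩
    · exact (xv F hF hi h).elim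
    · exact .inl rfl
    · exact .inr (congrArg X0 (by_contra fun e => hn b hb (Ne.symm e) h))
  obtain ⟨f1, f2, f3⟩ := xf F hF
  obtain ⟨e, he, k, -⟩ := f3 a ha hE
  obtain ⟨e', he', k', -⟩ := f3 a' ha' hE'
  have ee : e ≠ e' := fun h => ne ((xp _ _ _ _ _ f1 ha ha' he he' (f2 _ _ ha he k) (f2 _ _ ha' he' k')).2 h)
  have r := (gen2 rk g2 hF hi (ess2 es xf xv hF hc hi)).1
  rcases fix01 e he with rfl | rfl <;> rcases fix01 e' he' with rfl | rfl
  · exact (ee rfl).elim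
  · exact real rk es g2 xp xf xv xr ha ha' ne ⟨hF, hi, k, k', r⟩
  · exact real rk es g2 xp xf xv xr ha' ha ne.symm ⟨hF, hi, k', k, r⟩
  · exact (ee rfl).elim

end CL.U4
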