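/-
Project U4: the theorem from the data in the Conway group.
-/
import Cfsg.Agent.U4.Top
import Cfsg.Agent.U5.TV0
import Cfsg.Agent.U5.TV
import Cfsg.Agent.U5.Cri
import Cfsg.Agent.U5.RK
import Cfsg.Agent.U5.Gen1
import Cfsg.Agent.U4.AU
import Cfsg.Agent.U4.ESB
import Cfsg.Agent.U4.ESC
import Cfsg.Agent.U4.ESD
import Cfsg.Agent.U4.ESD3
import Cfsg.Agent.U4.L1AB
import Cfsg.Agent.U4.L1C
import Cfsg.Agent.U4.CNT
import Cfsg.Agent.U4.L1D
import Cfsg.Agent.U4.L1E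
import Cfsg.Agent.U4.L1F
import Cfsg.Agent.U4.L1G
import Cfsg.Agent.U4.L1H
import Cfsg.Agent.U4.GEN1
import Cfsg.Agent.U4.RHO2
import Cfsg.Agent.U4.L2A
import Cfsg.Agent.U4.L2C
import Cfsg.Agent.U4.L2D
import Cfsg.Agent.U4.L2F
import Cfsg.Agent.U4.GEN2
import Cfsg.Agent.U4.MB
import Cfsg.Agent.U4.MC
import Cfsg.Agent.U4.MD
import Cfsg.Agent.U4.CA3
import Cfsg.Agent.U4.C3A
import Cfsg.Agent.U4.C3B
import Cfsg.Agent.U4.TH
import Cfsg.Agent.U4.GEN3
import Cfsg.Agent.U4.CO2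
import Cfsg.Agent.U4.NB3
import Cfsg.Agent.U4.XP
import Cfsg.Agent.U4.XF
import Cfsg.Agent.U4.XH
import Cfsg.Agent.U4.XR
import Cfsg.Agent.U4.XT

set_option autoImplicit false
set_option linter.unusedSectionVars false

namespace CL.U4

open Cfsg CL.Fus CL.U5

universe u

section
variable {K : Type u} [Field K] [StarRing K] [UF K]

theorem fin_es (p : ℕ) [Fact p.Prime] [CharP K p] : Topy.ESS K p :=
  Topy.ess cri (esb (tv tv0)) esc1 (esc2 (tv tv0)) esd1 esd2 esd3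
theorem fin_1c : L1C K := l1c ntz (l1b ntz)
theorem fin_1e : L1E K := l1e ntz (l1a ntz) (l1b ntz) fin_1c (l1d cnt ntz (l1a ntz) (l1b ntz) fin_1c)
theorem fin_ga : GEN1A K := gen1a ntz fin_1e (l1f ntz (l1a ntz) (l1b ntz) fin_1c) (l1g ntz (l1a ntz) fin_1c) alg
  (l1h ntz fin_1c) fin_1c
theorem fin_gb : GEN1B K := gen1b fin_1e (l1h ntz fin_1c)
theorem fin_g2 : GEN2 K := gen2 ker rho2 kq l2a (l2b l2a) (l2c l2a) (l2d l2a) l2e (l2f l2a) lift2
theorem fin_re : REAL K := real mb mc md mn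
end

theorem fin_two (F : FusionSystem (⊤ : Subgroup (U F4))) (hF : F.IsSaturated 2) (hc : F.core = ⊥) : F.IsRealizable 2 :=
  have h := xh au1 au2 xp (xf xe)
  Topy.two rk (fin_es 2) ch au2 ti fin_ga fin_gb fin_g2 fin_re h
    (xt rk (Topy.es2 (fin_es 2)) fin_g2 xp (xf xe) (xv cri) h (xn rk fin_g2) xr) hF hc

theorem fin_three (co : CO1) (F : FusionSystem (⊤ : Subgroup (U F9))) (hF : F.IsSaturated 3) : F.IsRealizable 3 :=
  top_three rk (fin_es 3) ch au2 ti fin_ga fin_gb (gen3 ker rho2 kq l2a (c3a ca3) (c3b l2a)) fin_re (c3c ca3) (c3d ca3) th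
    (rl3 co (nb3 mb mc) ca3) F hF

theorem fin_all (co : CO1) {Ω : Type*} [Group Ω] {S : Subgroup Ω} [Finite S] (p : ℕ) [Fact p.Prime]
    (F : FusionSystem S) (hF : F.IsSaturated p) {K : Type*} [Field K] [Fintype K] [CharP K p] (n : ℕ)
    (hK : Fintype.card K = (p ^ n) ^ 2) (T : Sylow p (Cfsg.PSU 4 K (p ^ n)))
    (e : ↥S ≃* ↥(T : Subgroup (Cfsg.PSU 4 K (p ^ n)))) (hcore : F.core = ⊥) : F.IsRealizable p := by
  have hb := CL.Uni.isBar_bar hK
  letI : StarRing K :=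
    { star := CL.Uni.bar hK
      star_involutive := hb.bar_bar
      star_mul := fun x y => (map_mul _ x y).trans (mul_comm _ _)
      star_add := map_add _ }
  letI : UF K := ⟨p ^ n, hb⟩
  have hp : p.Prime := Fact.out
  exact top p F hF hcore T e (syl mc) keq (fun h => ((Nat.Prime.pow_eq_iff Nat.prime_two).1 h).1)
    (fun h => ((Nat.Prime.pow_eq_iff Nat.prime_three).1 h).1)
    (top_gen rk (fin_es p) ch au2 ti fin_ga fin_gb fin_g2 fin_re) (fin_three co) fin_two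

end CL.U4
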