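/-
Project U4 (helper38): the realisation of the exceptional systems for `q = 3` inside the Conway group.
-/
import Cfsg.Agent.U4.Defs2
import Cfsg.Agent.S1582

set_option autoImplicit false
set_option linter.unusedSectionVars false

namespace CL.U4

open Cfsg CL.Fus CL.U5 CL.Spor.Leech MulAction
open scoped Pointwise

universe u

namespace CO2x

theorem card_U : Nat.card (U F9) = 729 := by
  let f : U F9 ≃ F9 × {x : F9 // star x = x} × F9 × {x : F9 // star x = x} :=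
    ⟨fun g => (g.a, ⟨g.d, g.hd⟩, g.b, ⟨g.c, g.hc⟩), fun p => ⟨p.1, p.2.1.1, p.2.2.1, p.2.2.2.1, p.2.1.2, p.2.2.2.2⟩,
      fun _ => rfl, fun _ => rfl⟩
  rw [Nat.card_congr f, Nat.card_prod, Nat.card_prod, Nat.card_prod, card_fix, card_K, q_F9]; rfl

theorem ip_pos : ∀ w w' : F9, -ip 0 w' ≠ ip 0 w := by decide +kernel
theorem ip_self : ∀ w w' : F9, ip w w' = 32 ↔ w = w' := by decide +kernel
theorem ip_grid : ∀ a b : F9, ip 0 a = ip 0 1 → ip 0 b = ip 0 i9 → ip a b = ip 1 i9 → nm a = 1 ∧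
    ((∀ w w', ip 0 w' = ip 0 w → ip a w' = ip 1 w → ip b w' = ip i9 w → w' = a * w) ∨
      ∀ w w', ip 0 w' = ip 0 w → ip a w' = ip 1 w → ip b w' = ip i9 w → w' = a * star w) := by decide +kernel
theorem ip_mid : ∀ s w : F9, s ≠ 0 → ip 0 (-s) = ip 0 s ∧ -ip w s ≠ ip 0 s ∧ -ip w (-s) ≠ ip 0 s ∧
    (ip w s = ip 0 s → ip w (-s) = ip 0 s → w = 0) := by decide +kernel

theorem cact_h1 (u : F9ˣ) (w : F9) : cact (h1 u) w = w := by
  have k : ∀ u : F9, u ≠ 0 → -(i9 * i9) * (u ^ 2) ^ 2 * nm (u ^ 2) = u * star u ∧ u * star u ≠ 0 := by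
    decide +kernel
  obtain ⟨k1, k2⟩ := k u u.ne_zero
  rw [cact, h1_γ, h1_γ, h1_m, h1_l, mul_right_comm (-(i9 * i9)), mul_right_comm _ _ (nm _), k1,
    mul_inv_cancel₀ k2, one_mul]

theorem cact_neg (h : P4 F9) (w : F9) : cact h (-w) = -cact h w := by rw [cact, cact, map_neg, mul_neg]
theorem cact_zero (h : P4 F9) : cact h 0 = 0 := by rw [cact, map_zero, mul_zero]

/-- a generator of the multiplicative group -/
def u0 : F9ˣ := ⟨1 + i9, i9 - 1, by decide +kernel, by decide +kernel⟩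

theorem u0_inj : ∀ k k' : Fin 4, ((1 + i9) ^ k.val) ^ 2 = ((1 + i9) ^ k'.val) ^ 2 → k = k' := by decide +kernel

variable {ι : U F9 →* Co0} {e : F9 → leechLattice} (D : CoD ι e)
include D

theorem nrm (w : F9) : sqNorm (e w : GolayPt → ℤ) = 32 := by rw [sqNorm_eq_dot, D.ip, ip_self]

theorem e_inj {w w' : F9} (h : e w = e w') : w = w' := by
  rw [← ip_self, ← D.ip, ← h, D.ip, ip_self]

theorem dot_of {n : Co0} {a a' b b' : F9} (h : n • e a = e a') (h' : n • e b = e b') : ip a' b' = ip a b := by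
  rw [← D.ip, ← h, ← h', dot_smul, D.ip]

theorem dot_of' {n : Co0} {a a' b b' : F9} (h : n • e a = e a') (h' : n • e b = -e b') : -ip a' b' = ip a b := by
  rw [← D.ip, ← dot_neg_right, ← h, ← AddSubgroup.coe_neg, ← h', dot_smul, D.ip]

theorem dot_of'' {n : Co0} {a a' b b' : F9} (h : n • e a = -e a') (h' : n • e b = e b') : -ip a' b' = ip a b := by
  rw [← D.ip, ← dot_neg_left, ← h', ← AddSubgroup.coe_neg, ← h, dot_smul, D.ip]

theorem perm {n : Co0} (hn : n ∈ Subgroup.normalizer (ι.range : Set Co0)) (w : F9) :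
    ∃ w', n • e w = e w' ∨ n • e w = -e w' := by
  refine D.all _ ((sqNorm_smul n _).trans (nrm D w)) fun x => ?_
  obtain ⟨y, hy⟩ := (Subgroup.mem_normalizer_iff.1 (inv_mem hn) (ι x)).1 ⟨x, rfl⟩
  rw [← mul_smul, show ι x * n = n * ι y by rw [hy]; group, mul_smul, D.fix]

theorem exists_h (ca : CA3) {n : Co0} (hn : n ∈ Subgroup.normalizer (ι.range : Set Co0)) (h0 : n • e 0 = e 0) :
    ∃ h, ∀ w, n • e w = e (cact h w) := by
  have k : ∀ w, ∃ w', n • e w = e w' := fun w => (perm D hn w).imp fun w' k =>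
    k.resolve_right fun k => ip_pos w w' (dot_of' D h0 k)
  choose σ hσ using k
  obtain ⟨k1, k2⟩ := ip_grid (σ 1) (σ i9) (dot_of D h0 (hσ 1)) (dot_of D h0 (hσ i9)) (dot_of D (hσ 1) (hσ i9))
  obtain ⟨⟨h, e1⟩, h', e2⟩ := ca.2.2.2.1 _ k1
  rcases k2 with k2 | k2
  · exact ⟨h, fun w => by
      rw [hσ, e1, k2 w (σ w) (dot_of D h0 (hσ w)) (dot_of D (hσ 1) (hσ w)) (dot_of D (hσ i9) (hσ w))]⟩
  · exact ⟨h', fun w => by
      rw [hσ, e2, k2 w (σ w) (dot_of D h0 (hσ w)) (dot_of D (hσ 1) (hσ w)) (dot_of D (hσ i9) (hσ w))]⟩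

omit D in
theorem norm_of {g : Co0} {α : U F9 → U F9} (h : ∀ x, ι (α x) = g * ι x * g⁻¹) :
    g ∈ Subgroup.normalizer (ι.range : Set Co0) :=
  Subgroup.mem_normalizer_fintype (by rintro _ ⟨x, rfl⟩; exact ⟨α x, h x⟩)

theorem card_range : Nat.card ι.range = 729 := by
  rw [← card_U, ← Nat.card_congr (MonoidHom.ofInjective D.inj).toEquiv]

/-- the normaliser inside the pointwise stabiliser -/
theorem exists_u (nb : NB3) {n : Co0} (hn : n ∈ Subgroup.normalizer (ι.range : Set Co0)) (h0 : ∀ w, n • e w = e w) :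
    ∃ s u, ∀ x, ι (s * act (h1 u) x * s⁻¹) = n * ι x * n⁻¹ := by
  let K3 : Subgroup Co0 := stabilizer Co0 (e i9 - e 1) ⊓ stabilizer Co0 (-e 1) ⊓ stabilizer Co0 (e (-1))
  have hK : ∀ g : Co0, (∀ w, g • e w = e w) → g ∈ K3 := fun g hg =>
    ⟨⟨show g • (e i9 - e 1) = _ by rw [smul_sub, hg, hg], show g • (-e 1) = _ by rw [smul_neg, hg]⟩, hg _⟩
  have i1 : ip i9 1 = 8 := by decide +kernel
  have i2 : ip i9 (-1) = 8 := by decide +kernel
  have i3 : ip 1 (-1) = -16 := by decide +kernel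
  have n1 : sqNorm ((e i9 - e 1 : leechLattice) : GolayPt → ℤ) = 48 := by
    rw [AddSubgroup.coe_sub, sqNorm_sub, nrm D, nrm D, D.ip, i1]; rfl
  obtain ⟨φ⟩ := Cfsg.Agent.S1582.result (e i9 - e 1) (-e 1) (e (-1)) n1
    ⟨by rw [AddSubgroup.coe_neg, sqNorm_neg, nrm D], by
      rw [AddSubgroup.coe_sub, AddSubgroup.coe_neg, sub_neg_eq_add, sub_add_cancel, nrm D]⟩
    ⟨nrm D _, by rw [sqNorm_sub, n1, nrm D, AddSubgroup.coe_sub, dot_sub_left, D.ip, D.ip, i2, i3]; rfl,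
      by rw [AddSubgroup.coe_neg, dot_neg_left, D.ip, i3]; rfl⟩ F9 card_F9
  have hR : ι.range ≤ K3 := by rintro _ ⟨x, rfl⟩; exact hK _ (D.fix x)
  let N0 : Subgroup K3 := (Subgroup.normalizer (ι.range : Set Co0)).subgroupOf K3
  have hb : Nat.card N0 ≤ 4 * 729 := by
    refine le_trans ?_ (nb ((ι.range.subgroupOf K3).map φ.toMonoidHom) ?_)
    · rw [← Subgroup.card_map_of_injective (f := φ.toMonoidHom) φ.injective]
      exact Subgroup.card_le_of_le ((Subgroup.map_mono (Subgroup.le_normalizer_comap _)).trans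
        (Subgroup.le_normalizer_map _))
    · rw [Subgroup.card_map_of_injective φ.injective, Nat.card_congr (Subgroup.subgroupOfEquivOfLe hR).toEquiv,
        card_range D]
  choose g g1 g2 using fun k : Fin 4 => D.par (h1 (u0 ^ k.val))
  simp only [cact_h1] at g2
  have g3 : ∀ (s : U F9) k x, ι (s * act (h1 (u0 ^ k.val)) x * s⁻¹) = ι s * g k * ι x * (ι s * g k)⁻¹ :=
    fun s k x => by rw [map_mul, map_mul, g1, map_inv]; group
  let f : U F9 × Fin 4 → N0 := fun p => ⟨⟨ι p.1 * g p.2, hK _ fun w => by rw [mul_smul, g2, D.fix]⟩,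
    norm_of (g3 p.1 p.2)⟩
  have hf : Function.Injective f := by
    rintro ⟨s, k⟩ ⟨s', k'⟩ h
    have h1' : ι s * g k = ι s' * g k' := congrArg (fun p : N0 => (p.1 : Co0)) h
    have h2 := congrArg U.a (D.inj ((g3 s k (xa 1)).trans (h1' ▸ (g3 s' k' (xa 1)).symm)))
    rw [conj_a, conj_a, act_a, act_a, h1_l, h1_l, h1_γ, h1_γ, Units.val_pow_eq_pow_val,
      Units.val_pow_eq_pow_val] at h2
    obtain rfl := u0_inj k k' (mul_right_cancel₀ (b := (xa (1 : F9)).a) one_ne_zero h2)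
    rw [D.inj (mul_right_cancel h1')]
  obtain ⟨⟨s, k⟩, h⟩ := (hf.bijective_of_nat_card_le (by
    rw [Nat.card_prod, card_U, Nat.card_fin]; omega)).2 ⟨⟨n, hK n h0⟩, hn⟩
  have h1' : ι s * g k = n := congrArg (fun p : N0 => (p.1 : Co0)) h
  exact ⟨s, _, h1' ▸ g3 s k⟩

theorem rl (nb : NB3) (ca : CA3) (G : Subgroup Co0) (H : P4 F9 → Prop) (C : F9 → Prop)
    (c1 : ∀ g : Co0, (∀ w, g • e w = e w) → g ∈ G) (c2 : ¬ 3 * 729 ∣ Nat.card G)
    (c3 : ∀ n ∈ G, (∃ w', n • e 0 = e w' ∨ n • e 0 = -e w') → n • e 0 = e 0)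
    (c4 : ∀ (g : Co0) h, (∀ w, g • e w = e (cact h w)) → (g ∈ G ↔ H h))
    (c5 : ∀ w, C w → ∀ g : Co0, (∀ w', nm (w' - w) ≠ -1 → g • e w' = e w') → g ∈ G) : RL H C := by
  let ι' : U F9 →* G := ι.codRestrict G fun x => c1 _ (D.fix x)
  have hi : Function.Injective ι' := fun a b h => D.inj (congrArg Subtype.val h)
  refine ⟨G, inferInstance, inferInstance, ι', hi, fun h => c2 ?_, fun α => ⟨fun ⟨n, hn⟩ => ?_, ?_⟩, ?_,
    fun w hw => ?_⟩
  · rw [← ι'.range.index_mul_card, ← Nat.card_congr (MonoidHom.ofInjective hi).toEquiv, card_U]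
    exact Nat.mul_dvd_mul_right h _
  · have hn' : ∀ x, ι (α x) = n.1 * ι x * n.1⁻¹ := fun x => congrArg Subtype.val (hn x)
    have hN := norm_of hn'
    obtain ⟨h, e1⟩ := exists_h D ca hN (c3 _ n.2 (perm D hN 0))
    obtain ⟨g, g1, g2⟩ := D.par h
    obtain ⟨s, u, e2⟩ := exists_u D nb (mul_mem (inv_mem (norm_of g1)) hN) fun w => by
      rw [mul_smul, e1, ← g2, inv_smul_smul]
    refine ⟨act h s, h * h1 u, (c4 n _ fun w => by rw [ca.1, cact_h1, e1]).1 n.2, MulEquiv.ext fun x => D.inj ?_⟩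
    rw [hn', MulAut.mul_apply, MulAut.conj_apply, map_mul act, MulAut.mul_apply, ← map_inv, ← map_mul (act h),
      ← map_mul (act h), g1, e2]
    group
  · rintro ⟨s, h, hh, rfl⟩
    obtain ⟨g, g1, g2⟩ := D.par h
    refine ⟨ι' s * ⟨g, (c4 g h g2).2 hh⟩, fun x => Subtype.ext ?_⟩
    change ι (s * act h x * s⁻¹) = ι s * g * ι x * (ι s * g)⁻¹
    rw [map_mul, map_mul, g1, map_inv]; group
  · obtain ⟨g, g1, g2⟩ := D.r1
    exact ⟨⟨g, c1 g g2⟩, fun x => Subtype.ext (g1 x)⟩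
  · obtain ⟨g, g1, g2⟩ := D.cell w
    exact ⟨⟨g, c5 w hw g g2⟩, fun x hx => (g1 x hx).imp fun _ k => ⟨k.1, Subtype.ext k.2.1, k.2.2⟩⟩

theorem syl {G : Subgroup Co0} (w : F9) (v : leechLattice) (h : ∀ g ∈ G, g • e w = e w ∨ g • e w = v) :
    ¬ 3 * 729 ∣ Nat.card G := by
  intro k
  have h1 := CL.Spor.card_eq_ncard_orbit_mul G (e w)
  have h2 : Nat.card ↥(G ⊓ stabilizer Co0 (e w)) ∣ 42305421312000 :=
    card_stab32 (nrm D w) ▸ Subgroup.card_dvd_of_le inf_le_right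
  have h3 : (orbit G (e w)).ncard ≤ 2 :=
    (Set.ncard_le_ncard (t := {e w, v}) (by rintro _ ⟨g, rfl⟩; exact h g g.2)).trans (Set.ncard_insert_le _ _ |>.trans
      (by rw [Set.ncard_singleton]))
  have h4 := Nat.card_pos (α := G)
  generalize (orbit G (e w)).ncard = m at h1 h3
  rw [h1] at k h4
  interval_cases m
  · simp at h4
  · exact absurd (k.trans (mul_dvd_mul_left 1 h2)) (by norm_num)
  · exact absurd (k.trans (mul_dvd_mul_left 2 h2)) (by norm_num)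

theorem mid {s : F9} (hs : s ≠ 0) {n : Co0}
    (h : n • e s = e s ∧ n • e (-s) = e (-s) ∨ n • e s = e (-s) ∧ n • e (-s) = e s)
    (k : ∃ w', n • e 0 = e w' ∨ n • e 0 = -e w') : n • e 0 = e 0 := by
  obtain ⟨w, k⟩ := k
  obtain ⟨m1, m2, m3, m4⟩ := ip_mid s w hs
  rcases k with k | k <;> rcases h with h | h
  · rw [k, m4 (dot_of D k h.1) ((dot_of D k h.2).trans m1)]
  · rw [k, m4 ((dot_of D k h.2).trans m1) (dot_of D k h.1)]
  · exact absurd (dot_of'' D k h.1) m2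
  · exact absurd (dot_of'' D k h.1) m3

end CO2x

open CO2x in
theorem rl3 (co : CO1) (nb : NB3) (ca : CA3) : RL3 := by
  obtain ⟨ι, e, D⟩ := co
  have ei : ∀ {w w'}, e w = e w' ↔ w = w' := ⟨e_inj D, congrArg e⟩
  refine ⟨fun s hs => ⟨?_, ?_⟩, ?_⟩
  · refine rl D nb ca (stabilizer Co0 (e s) ⊓ stabilizer Co0 (e (-s))) _ _ (fun g hg => ⟨hg _, hg _⟩)
      (syl D s (e s) fun g hg => .inl hg.1) (fun n hn => mid D hs (.inl hn)) (fun g h k => ?_)
      fun w hw g k => ⟨k _ hw.1, k _ hw.2⟩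
    rw [Subgroup.mem_inf, mem_stabilizer_iff, mem_stabilizer_iff, k, k, ei, ei, cact_neg, neg_inj, and_self, Hfix]
  · have hm : ∀ g : Co0, g ∈ stabilizer Co0 ({e s, e (-s)} : Set leechLattice) ↔
        g • e s = e s ∧ g • e (-s) = e (-s) ∨ g • e s = e (-s) ∧ g • e (-s) = e s := fun g => by
      rw [mem_stabilizer_iff, Set.smul_set_insert, Set.smul_set_singleton, Set.pair_eq_pair_iff]
    refine rl D nb ca (stabilizer Co0 ({e s, e (-s)} : Set leechLattice)) _ _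
      (fun g hg => (hm g).2 (.inl ⟨hg _, hg _⟩))
      (syl D s (e (-s)) fun g hg => ((hm g).1 hg).imp And.left And.left) (fun n hn => mid D hs ((hm n).1 hn))
      (fun g h k => ?_) fun w hw g k => (hm g).2 (.inl ⟨k _ hw.1, k _ hw.2⟩)
    rw [hm, k, k, ei, ei, ei, ei, cact_neg, neg_inj, and_self, neg_eq_iff_eq_neg, and_self, Hpm]
  · refine rl D nb ca (stabilizer Co0 (e 0)) _ _ (fun g hg => hg _) (syl D 0 (e 0) fun g hg => .inl hg)
      (fun n hn _ => hn) (fun g h k => iff_of_true ?_ trivial) fun w hw g k => k _ ?_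
    · rw [mem_stabilizer_iff, k, cact_zero]
    · rwa [zero_sub, nm, star_neg, neg_mul_neg]

end CL.U4
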