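/-
Project U4, parts L1E and ALG: the conjugates of the centre meet trivially; the normal form is standard.
-/
import Cfsg.Agent.U4.Defs2
import Cfsg.Agent.Grp.Cores

set_option autoImplicit false
set_option linter.unusedSectionVars false

namespace CL.U4

open Cfsg CL.Fus CL.U5

universe u

variable {K : Type u} [Field K] [StarRing K] [UF K]

namespace L1Ex

theorem card_Zv : Nat.card (Zv K) = UF.q K := by
  rw [← card_fix]
  exact Nat.card_congr ⟨fun v => ⟨v.1.1.c, v.1.1.hc⟩, fun c => ⟨vv 0 0 c.1 (star_zero K) c.2, mem_Zv.2 ⟨rfl, rfl⟩⟩,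
    fun v => Subtype.ext (q1_ext (mem_Zv.1 v.2).1.symm (mem_Zv.1 v.2).2.symm rfl), fun _ => rfl⟩

theorem card_Wv : Nat.card (Wv K) = UF.q K ^ 3 := by
  rw [pow_succ, ← card_K, ← card_fix, ← Nat.card_prod]
  exact Nat.card_congr ⟨fun v => (v.1.1.b, ⟨v.1.1.c, v.1.1.hc⟩), fun c => ⟨vv 0 c.1 c.2.1 (star_zero K) c.2.2, rfl⟩,
    fun v => Subtype.ext (q1_ext (mem_Wv.1 v.2).symm rfl rfl), fun _ => rfl⟩

theorem card_Q1 : Nat.card (Q1 K) = UF.q K ^ 4 := by
  rw [pow_succ, pow_succ, ← card_K, ← card_fix, ← Nat.card_prod, ← Nat.card_prod]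
  exact Nat.card_congr ⟨fun v => ((v.1.b, ⟨v.1.c, v.1.hc⟩), ⟨v.1.d, v.1.hd⟩),
    fun c => vv c.2.1 c.1.1 c.1.2.1 c.2.2 c.1.2.2, fun v => q1_ext rfl rfl rfl, fun _ => rfl⟩

theorem Zv_le : Zv K ≤ Wv K := fun _ h => (mem_Zv.1 h).1

theorem ta_Zv (a : K) {v : Q1 K} (h : v ∈ Zv K) : ta a v = v :=
  q1_ext (ta_d _ _) (by rw [ta_b, (mem_Zv.1 h).1]; simp) (by rw [ta_c, (mem_Zv.1 h).1, (mem_Zv.1 h).2]; simp)

theorem ta_Wv (a : K) (v : Q1 K) : v⁻¹ * ta a v ∈ Wv K := by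
  rw [mem_Wv, q1_mul_d, q1_inv_d, ta_d, neg_add_cancel]

/-- the image of a subgroup -/
def im (g : MulAut (Q1 K)) (H : Subgroup (Q1 K)) : Subgroup (Q1 K) := H.map g.toMonoidHom

theorem mem_im {g : MulAut (Q1 K)} {H : Subgroup (Q1 K)} {v : Q1 K} : v ∈ im g H ↔ g⁻¹ v ∈ H :=
  Subgroup.mem_map_equiv

theorem card_im (g : MulAut (Q1 K)) (H : Subgroup (Q1 K)) : Nat.card (im g H) = Nat.card H :=
  Subgroup.card_map_of_injective g.injective

/-- the automorphisms that fix `U0` pointwise and preserve `X` -/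
def St (U0 X : Subgroup (Q1 K)) : Subgroup (MulAut (Q1 K)) where
  carrier := {g | (∀ v ∈ U0, g v = v) ∧ ∀ v, g v ∈ X ↔ v ∈ X}
  mul_mem' := fun {g h} hg hh => ⟨fun v hv => by rw [MulAut.mul_apply, hh.1 v hv, hg.1 v hv],
    fun v => by rw [MulAut.mul_apply, hg.2, hh.2]⟩
  one_mem' := ⟨fun _ _ => rfl, fun _ => Iff.rfl⟩
  inv_mem' := fun {g} hg => ⟨fun v hv => by
    conv_lhs => rw [← hg.1 v hv, MulAut.inv_apply_self], fun v => by rw [← hg.2, MulAut.apply_inv_self]⟩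

theorem mem_St {U0 X : Subgroup (Q1 K)} {g : MulAut (Q1 K)} (h1 : ∀ v ∈ U0, g v = v) (h2 : ∀ v, v⁻¹ * g v ∈ X) :
    g ∈ St U0 X := ⟨h1, fun v => by
  rw [← mul_mem_cancel_right (y := v) (h2 v), mul_inv_cancel_left]⟩

theorem tr_zero {y : K} (h : ∀ a : K, a * star y + star a * y = 0) : y = 0 := by
  obtain ⟨t, ht⟩ := exists_ne K
  have h1 := h 1
  rw [star_one] at h1
  exact (mul_eq_zero.1 (show (star t - t) * y = 0 by linear_combination h t - t * h1)).resolve_left (sub_ne_zero.2 ht)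

theorem q_zero : (UF.q K : K) = 0 := by
  have := Fintype.ofFinite K
  have h := FiniteField.cast_card_eq_zero K
  rw [← Nat.card_eq_fintype_card, card_K, Nat.cast_pow] at h
  exact pow_eq_zero_iff two_ne_zero |>.1 h

end L1Ex

open L1Ex in
theorem l1e (h0 : NTZ K) (ha : L1A K) (hb : L1B K) (hC : L1C K) (hd : L1D K) : L1E K := by
  intro p _ _ L H
  obtain ⟨c1, c2⟩ := hC p L H
  have : Finite (MulAut (Q1 K)) := Finite.of_injective _ DFunLike.coe_injective
  obtain ⟨g1, hg1, n1⟩ := H.ne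
  obtain ⟨g0, ⟨hg0, n0⟩, mx⟩ := Set.exists_max_image {g | g ∈ L ∧ ¬ PZ g}
    (fun g => Nat.card (Zv K ⊓ im g (Zv K) : Subgroup (Q1 K))) (Set.toFinite _) ⟨g1, hg1, fun k => n1 (c1 _ hg1 k)⟩
  set U0 := Zv K ⊓ im g0 (Zv K) with hU
  set X := Wv K ⊔ im g0 (Wv K) with hX
  have cd : Nat.card U0 * Nat.card X ≤ UF.q K ^ 4 := by
    have e1 : (Wv K ⊓ im g0 (Wv K)) ⊔ Zv K = Wv K := le_antisymm (sup_le inf_le_left Zv_le) fun w hw => by
      obtain ⟨w', hw', z, hz, e⟩ := hb p L H g0 hg0 w hw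
      rw [e] at hw ⊢
      exact Subgroup.mul_mem_sup ⟨(mul_mem_cancel_right (Zv_le hz)).1 hw,
        mem_im.2 (by rwa [MulAut.inv_apply_self])⟩ hz
    have e2 : (Wv K ⊓ im g0 (Wv K)) ⊓ Zv K = U0 := le_antisymm
      (fun v hv => ⟨hv.2, mem_im.2 (ha p L H _ (inv_mem hg0) v hv.2 (mem_im.1 hv.1.2))⟩)
      fun v hv => ⟨⟨Zv_le hv.1, mem_im.2 (Zv_le (mem_im.1 hv.2))⟩, hv.1⟩
    have k1 := CL.Grp.card_sup_mul_card_inf_of_normal (Wv K ⊓ im g0 (Wv K)) (Zv K)
    have k2 := CL.Grp.card_sup_mul_card_inf_of_normal (Wv K) (im g0 (Wv K))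
    rw [e1, e2, card_Wv, card_Zv] at k1
    rw [card_im, card_Wv] at k2
    have q0 : 0 < UF.q K ^ 3 := pow_pos (by have := two_le_q (K := K); omega) 3
    refine (Nat.eq_of_mul_eq_mul_left q0 ?_).le
    rw [← mul_assoc, k1, mul_right_comm, mul_comm _ (Nat.card X), k2]; ring
  have hT : TA K ≤ L ⊓ St U0 X := le_inf H.syl.le fun g hg => by
    obtain ⟨a, rfl⟩ := mem_TA.1 hg
    exact mem_St (fun v hv => ta_Zv a hv.1) fun v => Subgroup.mem_sup_left (ta_Wv a v)
  have ht : g0 * ta 1 * g0⁻¹ ∈ L ⊓ St U0 X :=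
    ⟨L.mul_mem (L.mul_mem hg0 (H.syl.le (mem_TA.2 ⟨1, rfl⟩))) (L.inv_mem hg0), mem_St
      (fun v hv => by rw [MulAut.mul_apply, MulAut.mul_apply, ta_Zv 1 (mem_im.1 hv.2), MulAut.apply_inv_self])
      fun v => Subgroup.mem_sup_right (mem_im.2 (by
        rw [map_mul, map_inv, MulAut.mul_apply, MulAut.mul_apply, MulAut.inv_apply_self]; exact ta_Wv 1 _))⟩
  have nt : ¬ PZ (g0 * ta 1 * g0⁻¹) := fun k => n0 (by
    have := (h0 _ (h0 _ (c1 _ (inv_mem hg0) (c2 _ (inv_mem hg0) 1 one_ne_zero (by rwa [inv_inv])))).1).2.1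
    rwa [inv_inv] at this)
  have bot := (hd p L (L ⊓ St U0 X) U0 X H hT inf_le_left ⟨_, ht, nt⟩ (fun g hg => hg.2.1) inf_le_left
    (fun g hg ng z hz hz' => (Subgroup.eq_of_le_of_card_ge
      (show U0 ≤ Zv K ⊓ im g (Zv K) from fun v hv => ⟨hv.1, mem_im.2 (by rw [(inv_mem hg).2.1 v hv]; exact hv.1)⟩)
      (mx g ⟨hg.1, ng⟩)).ge ⟨hz', mem_im.2 (by rwa [MulAut.inv_apply_self])⟩)
    (fun g hg w hw => (hg.2.2 w).2 (Subgroup.mem_sup_left hw)) cd).1
  have one : ∀ g ∈ L, ¬ PZ g → ∀ z ∈ Zv K, g z ∈ Zv K → g z ∈ (⊥ : Subgroup (Q1 K)) := fun g hg ng z hz hz' => by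
    have := mx g ⟨hg, ng⟩
    rw [bot, Subgroup.card_bot] at this
    exact (Subgroup.eq_bot_of_card_le _ this).le ⟨hz', mem_im.2 (by rwa [MulAut.inv_apply_self])⟩
  exact ⟨fun g hg ng z hz hz' => (map_eq_one_iff g g.injective).1 (one g hg ng z hz hz'),
    (hd p L L ⊥ ⊤ H H.syl.le le_rfl ⟨g0, hg0, n0⟩ (fun g _ v hv => by rw [Subgroup.mem_bot.1 hv, map_one]) bot_le one
      (fun _ _ _ _ => trivial) (by rw [Subgroup.card_bot, Subgroup.card_top, card_Q1, one_mul])).2⟩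

open L1Ex in
theorem alg : ALG K := by
  intro b e b1 ef ⟨nd, π, κ, pa, kf, pk⟩
  have ps : ∀ x y, star x = x → star y = y → π (x - y) = π x - π y := fun x y hx hy => by
    have := pa (x - y) y (by rw [star_sub, hx, hy]) hy
    rw [sub_add_cancel] at this
    rw [this, add_sub_cancel_right]
  obtain ⟨a0, h0⟩ := exists_trace (star_one K)
  have fk : star (κ (a0 + 1) - κ a0 - κ 1) = κ (a0 + 1) - κ a0 - κ 1 := by simp [kf]
  have k1 : ∀ d, star d = d → π ((κ (a0 + 1) - κ a0 - κ 1) * d) = d := fun d hd => by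
    rw [sub_mul, sub_mul, ps _ _ (by simp [kf, hd]) (by simp [kf, hd]), ps _ _ (by simp [kf, hd]) (by simp [kf, hd]),
      ← pk _ _ hd, ← pk _ _ hd, ← pk _ _ hd]
    simp only [PP, add_mul, map_add, star_add, star_one]
    linear_combination d * h0
  generalize κ (a0 + 1) - κ a0 - κ 1 = k at fk k1
  have k0 : k ≠ 0 := fun z => by
    have e0 := k1 0 (star_zero K)
    have e1 := k1 1 (star_one K)
    rw [z, zero_mul] at e0 e1
    exact zero_ne_one (e0.symm.trans e1)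
  have k2 : ∀ x, star x = x → π x = x / k := fun x hx => by
    rw [← k1 (x / k) (by rw [star_div₀, hx, fk]), mul_div_cancel₀ _ k0]
  have st : ∀ a d, star d = d → e (a * d) = d * e a + (a * star (b d) + star a * b d) := fun a d hd => by
    have e1 := pk a d hd
    have e2 := pk a 1 (star_one K)
    rw [k2 _ (by simp [kf, hd])] at e1
    rw [k2 _ (by simp [kf])] at e2
    simp only [PP, b1, mul_one, star_zero, mul_zero, add_zero] at e1 e2
    linear_combination d * e2 - e1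
  have der : ∀ d d', star d = d → star d' = d' → b (d * d') = d' * b d + d * b d' := fun d d' hd hd' =>
    sub_eq_zero.1 (tr_zero fun a => by
      have e1 := st a (d * d') (by simp [hd, hd'])
      rw [← mul_assoc, st _ _ hd', st _ _ hd] at e1
      simp only [star_sub, star_add, star_mul', hd, hd'] at e1 ⊢
      linear_combination -e1)
  have bz : ∀ d, star d = d → b d = 0 := fun d hd => by
    have pw : ∀ n : ℕ, b (d ^ (n + 1)) = (n + 1 : ℕ) * d ^ n * b d := fun n => by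
      induction n with
      | zero => simp
      | succ n ih => rw [pow_succ, der _ _ (by simp [hd]) hd, ih]; push_cast; ring
    obtain ⟨n, hn⟩ : ∃ n, UF.q K = n + 1 := ⟨UF.q K - 1, by have := two_le_q (K := K); omega⟩
    have := pw n
    rwa [← hn, ← star_eq_pow, hd, q_zero, zero_mul, zero_mul] at this
  refine ⟨bz, ?_⟩
  obtain ⟨al, be, h⟩ := flin e (map_add e) fun l x hl => by rw [mul_comm, st _ _ hl, bz _ hl]; simp
  obtain ⟨t, ht⟩ := exists_ne K
  have ab : al = star be := by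
    have e1 := ef 1
    have e2 := ef t
    simp only [h, star_add, star_mul', star_star, star_one] at e1 e2
    exact sub_eq_zero.1 ((mul_eq_zero.1 (show (star t - t) * (al - star be) = 0 by
      linear_combination e2 - star t * e1)).resolve_left (sub_ne_zero.2 ht))
  have b0 : be = 0 := by
    by_contra ne
    have t0 : t ≠ 0 := fun z => ht (by rw [z, star_zero])
    have t1 : star t ≠ 0 := star_ne_zero.2 t0
    refine one_ne_zero (nd (be * (1 - t / star t)) 1 (mul_ne_zero ne (sub_ne_zero.2 fun z => ht ?_)) (star_one K) ?_)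
    · exact ((div_eq_one_iff_eq t1).1 z.symm).symm
    · simp only [PP, b1, h, ab, star_mul', star_sub, star_one, star_div₀, star_star, star_zero]
      field_simp
      ring
  intro x
  rw [h, ab, b0, star_zero, zero_mul, zero_mul, add_zero]

end CL.U4
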